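import Cfsg.Agent.H39.BrauerInduction
import Cfsg.Agent.H39.FullyRamified
import Cfsg.Agent.H39.PiSection
import Cfsg.Agent.H26.CharLinear
import Cfsg.Agent.H43.CharTools

/-!
# Invariant characters over a `p`-power index

An invariant `ϑ` of `N` has, on `E ∩ N` for some `p`-elementary `E` with `EN = G`, an invariant
constituent of multiplicity prime to `p`.
-/

namespace Cfsg.Agent.H39

universe u

open scoped ComplexConjugate

variable {G : Type u} [Group G]

/-- Weighted orbit counting for a `p`-group action. -/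
lemma exists_fixed_not_dvd {p : ℕ} [Fact p.Prime] {A : Type*} [Group A] (hA : IsPGroup p A)
    {α : Type*} [MulAction A α] [Fintype α] (f : α → ℕ) (hf : ∀ (a : A) x, f (a • x) = f x)
    (h : ¬ p ∣ ∑ x, f x) : ∃ x, (∀ a : A, a • x = x) ∧ ¬ p ∣ f x := by
  classical
  by_contra hc
  push Not at hc
  apply h
  haveI : Fintype (MulAction.orbitRel.Quotient A α) := Fintype.ofFinite _
  rw [← Finset.sum_fiberwise Finset.univ (Quotient.mk'' : α → MulAction.orbitRel.Quotient A α)]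
  refine Finset.dvd_sum fun ω _ => ?_
  induction ω using Quotient.inductionOn' with
  | h x =>
    have hset : Finset.univ.filter
        (fun y => (Quotient.mk'' y : MulAction.orbitRel.Quotient A α) = Quotient.mk'' x) =
        (MulAction.orbit A x).toFinset := by
      ext y
      simp only [Finset.mem_filter, Finset.mem_univ, true_and, Set.mem_toFinset]
      exact Quotient.eq''
    rw [hset, Finset.sum_congr rfl (g := fun _ => f x) (fun y hy => by
      obtain ⟨a, rfl⟩ := Set.mem_toFinset.1 hy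
      exact hf a x), Finset.sum_const, smul_eq_mul]
    obtain ⟨i, hi⟩ := hA.card_orbit x
    rw [Set.toFinset_card, ← Nat.card_eq_fintype_card, hi]
    rcases Nat.eq_zero_or_pos i with rfl | hpos
    · refine dvd_mul_of_dvd_right (hc x fun a => ?_) _
      rw [pow_zero] at hi
      haveI := (Nat.card_eq_one_iff_unique.1 hi).1
      exact congrArg Subtype.val (Subsingleton.elim
        (⟨a • x, MulAction.mem_orbit x a⟩ : MulAction.orbit A x)
        ⟨x, MulAction.mem_orbit_self x⟩)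
    · exact dvd_mul_of_dvd_left (dvd_pow_self p hpos.ne') _

variable [Fintype G] (E N : Subgroup G) [hN : N.Normal]

/-- The order of the meet with a normal subgroup. -/
lemma index_sup_mul_card : (E ⊔ N).index * (Nat.card E * Nat.card N) =
    Nat.card G * Nat.card ↥(E ⊓ N) := by
  have h1 := (E ⊔ N).index_mul_card
  have h2 : Nat.card ↥(E ⊔ N) = Nat.card N * N.relIndex E := by
    rw [← Subgroup.relIndex_bot_left, ← Subgroup.relIndex_mul_relIndex ⊥ N (E ⊔ N) bot_le
      le_sup_right, Subgroup.relIndex_sup_right, Subgroup.relIndex_bot_left]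
  have h3 : Nat.card E = Nat.card ↥(E ⊓ N) * N.relIndex E := by
    rw [← Subgroup.inf_relIndex_right, inf_comm N E, ← Subgroup.relIndex_bot_left (E ⊓ N),
      Subgroup.relIndex_mul_relIndex ⊥ _ E bot_le inf_le_left, Subgroup.relIndex_bot_left]
  rw [← h1, h2, h3]
  ring

/-- Restricting an induced function to a normal subgroup, tested against an invariant function. -/
lemma classInner_indFun_restrict [Fintype N] [Fintype ↥(E ⊓ N)] (f : E → ℂ) (h : N → ℂ)
    (hinv : ∀ (g : G) (n : N), h (conjN g n) = h n) :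
    Cfsg.classInner (fun n : N => Cfsg.indFun E f n) h =
      ((E ⊔ N).index : ℂ) *
        Cfsg.classInner (fun d : ↥(E ⊓ N) => f ⟨d, d.2.1⟩) (fun d => h ⟨d, d.2.2⟩) := by
  classical
  have key : ∀ x : G, ∑ n : N, Cfsg.extendByZero E f (x⁻¹ * n * x) * conj (h n) =
      ∑ d : ↥(E ⊓ N), f ⟨d, d.2.1⟩ * conj (h ⟨d, d.2.2⟩) := by
    intro x
    rw [Fintype.sum_equiv
      { toFun := fun n : N => conjN x⁻¹ n
        invFun := fun n => conjN x n
        left_inv := fun n => by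
          show conjN x (conjN x⁻¹ n) = n
          rw [← conjN_mul, mul_inv_cancel, conjN_one]
        right_inv := fun n => by
          show conjN x⁻¹ (conjN x n) = n
          rw [← conjN_mul, inv_mul_cancel, conjN_one] }
      (fun n : N => Cfsg.extendByZero E f (x⁻¹ * n * x) * conj (h n))
      (fun n : N => Cfsg.extendByZero E f n * conj (h n)) (fun n => by
        simp only [Equiv.coe_fn_mk, coe_conjN, inv_inv, hinv])]
    rw [← Finset.sum_subset (s₁ := Finset.univ.filter fun n : N => (n : G) ∈ E)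
      (Finset.subset_univ _) (fun n _ hn => by
        rw [extendByZero_of_not_mem _ (by simpa using hn), zero_mul])]
    refine Finset.sum_bij' (fun n hn => (⟨n, (Finset.mem_filter.1 hn).2, n.2⟩ : ↥(E ⊓ N)))
      (fun d _ => ⟨d, d.2.2⟩) ?_ ?_ ?_ ?_ ?_
    · intros; exact Finset.mem_univ _
    · intro d _; simpa using d.2.1
    · intros; rfl
    · intros; rfl
    · intro n hn
      rw [extendByZero_of_mem _ (Finset.mem_filter.1 hn).2]
  have e : ∀ n : N, Cfsg.indFun E f n * conj (h n) =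
      (Nat.card E : ℂ)⁻¹ * ∑ x : G, Cfsg.extendByZero E f (x⁻¹ * n * x) * conj (h n) := fun n => by
    simp only [Cfsg.indFun]
    rw [mul_assoc, Finset.sum_mul]
  unfold Cfsg.classInner
  rw [Finset.sum_congr rfl fun n _ => e n, ← Finset.mul_sum, Finset.sum_comm,
    Finset.sum_congr rfl fun x _ => key x, Finset.sum_const, Finset.card_univ, nsmul_eq_mul,
    ← Nat.card_eq_fintype_card (α := G)]
  have hc : ((E ⊔ N).index : ℂ) * ((Nat.card E : ℂ) * (Nat.card N : ℂ)) =
      (Nat.card G : ℂ) * Nat.card ↥(E ⊓ N) := by exact_mod_cast index_sup_mul_card E N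
  have hE : (Nat.card E : ℂ) ≠ 0 := Nat.cast_ne_zero.2 Nat.card_pos.ne'
  have hN' : (Nat.card N : ℂ) ≠ 0 := Nat.cast_ne_zero.2 Nat.card_pos.ne'
  have hD : (Nat.card ↥(E ⊓ N) : ℂ) ≠ 0 := Nat.cast_ne_zero.2 Nat.card_pos.ne'
  field_simp
  linear_combination -(∑ d : ↥(E ⊓ N), f ⟨d, d.2.1⟩ * conj (h ⟨d, d.2.2⟩)) * hc

/-- Conjugation of `E ∩ N` by an element of `E`. -/
def conjD : E →* MulAut ↥(E ⊓ N) where
  toFun a :=
    { toFun := fun d => ⟨a * d * (a : G)⁻¹,
        E.mul_mem (E.mul_mem a.2 d.2.1) (E.inv_mem a.2), hN.conj_mem _ d.2.2 a⟩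
      invFun := fun d => ⟨(a : G)⁻¹ * d * a,
        E.mul_mem (E.mul_mem (E.inv_mem a.2) d.2.1) a.2, hN.conj_mem' _ d.2.2 a⟩
      left_inv := fun d => Subtype.ext (by simp [mul_assoc])
      right_inv := fun d => Subtype.ext (by simp [mul_assoc])
      map_mul' := fun c d => Subtype.ext (by simp [mul_assoc]) }
  map_one' := MulEquiv.ext fun d => Subtype.ext (by simp)
  map_mul' a b := MulEquiv.ext fun d => Subtype.ext (by simp [mul_assoc])

omit [Fintype G] in
@[simp] lemma coe_conjD (a : E) (d : ↥(E ⊓ N)) :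
    ((conjD E N a d : ↥(E ⊓ N)) : G) = a * d * (a : G)⁻¹ := rfl

omit [Fintype G] in
/-- The action on characters of `E ∩ N`, as permutations. -/
def permIrrD : E →* Equiv.Perm (Cfsg.IrrCharacter ↥(E ⊓ N)) where
  toFun a :=
    { toFun := fun ψ => H43.irrCongr (conjD E N a⁻¹) ψ
      invFun := fun ψ => H43.irrCongr (conjD E N a) ψ
      left_inv := fun ψ => Subtype.ext (funext fun d => by
        simp only [H43.irrCongr_apply, ← MulAut.mul_apply, ← map_mul, inv_mul_cancel, map_one,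
          MulAut.one_apply])
      right_inv := fun ψ => Subtype.ext (funext fun d => by
        simp only [H43.irrCongr_apply, ← MulAut.mul_apply, ← map_mul, mul_inv_cancel, map_one,
          MulAut.one_apply]) }
  map_one' := Equiv.ext fun ψ => Subtype.ext (funext fun d => by simp [H43.irrCongr_apply])
  map_mul' a b := Equiv.ext fun ψ => Subtype.ext (funext fun d => by
    simp [H43.irrCongr_apply, mul_inv_rev])

omit [Fintype G] in
lemma permIrrD_apply (a : E) (ψ : Cfsg.IrrCharacter ↥(E ⊓ N)) (d : ↥(E ⊓ N)) :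
    (permIrrD E N a ψ).1 d = ψ.1 (conjD E N a⁻¹ d) := rfl

omit [Fintype G] in
/-- The permutation group is a `p`-group. -/
lemma isPGroup_range_permIrrD [Finite G] {p k : ℕ} (hk : N.index = p ^ k) :
    IsPGroup p (permIrrD E N).range := by
  rintro ⟨_, a, rfl⟩
  refine ⟨k, Subtype.ext ?_⟩
  have hmem : (a : G) ^ p ^ k ∈ N := by
    rw [← hk, ← QuotientGroup.eq_one_iff, QuotientGroup.mk_pow, Subgroup.index_eq_card]
    exact pow_card_eq_one'
  show (permIrrD E N a) ^ p ^ k = 1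
  rw [← map_pow]
  set c := a ^ p ^ k with hc
  have hcN : ((c : E) : G) ∈ N := by rw [hc, SubgroupClass.coe_pow]; exact hmem
  refine Equiv.ext fun ψ => Subtype.ext (funext fun d => ?_)
  rw [permIrrD_apply, Equiv.Perm.one_apply]
  let c' : ↥(E ⊓ N) := ⟨c, c.2, hcN⟩
  have : conjD E N c⁻¹ d = c'⁻¹ * d * c' := Subtype.ext (by rw [coe_conjD]; simp [c'])
  rw [this]
  have h := H26.irr_conj ψ d c'⁻¹
  rwa [inv_inv] at h

/-- Existence of an invariant constituent of multiplicity prime to `p` over some elementary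
subgroup supplementing `N`. -/
theorem exists_elementary_constituent {p : ℕ} (hp : p.Prime) (hind : ∃ k, N.index = p ^ k)
    [Fintype N] {ϑ : N → ℂ} (hϑ : Cfsg.IsIrrCharacter N ϑ)
    (hinv : ∀ (g : G) (n : N), ϑ (conjN g n) = ϑ n) :
    ∃ (E : Subgroup G) (ψ : Cfsg.IrrCharacter ↥(E ⊓ N)), Cfsg.IsElementary p E ∧ E ⊔ N = ⊤ ∧
      (∀ (a : E) (d : ↥(E ⊓ N)), ψ.1 (conjD E N a d) = ψ.1 d) ∧
      ∃ c : ℕ, ¬ p ∣ c ∧
        ∀ [Fintype ↥(E ⊓ N)], Cfsg.classInner (fun d : ↥(E ⊓ N) => ϑ ⟨d, d.2.2⟩) ψ.1 = c := by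
  classical
  haveI : Fact p.Prime := ⟨hp⟩
  obtain ⟨k, hk⟩ := hind
  set θ : Cfsg.IrrCharacter N := ⟨ϑ, hϑ⟩ with hθ
  let h : N → ℂ := fun n => ϑ n * conj (ϑ n)
  let L : (G → ℂ) →+ ℂ :=
    AddMonoidHom.mk' (fun F => Cfsg.classInner (fun n : N => F n) h)
      fun a b => H26.classInner_add_left _ _ _
  have hL1 : L 1 = 1 := by
    have h0 := H26.classInner_irr θ θ
    rw [if_pos rfl] at h0
    rw [← h0]
    show Cfsg.classInner _ _ = _
    simp only [Cfsg.classInner, h, hθ, Pi.one_apply, one_mul, map_mul, Complex.conj_conj]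
    congr 1
    exact Finset.sum_congr rfl fun n _ => mul_comm _ _
  obtain ⟨m, hm, hmem⟩ := exists_not_dvd_mem_elemSpan (p := p) G hp
  have hnot : ¬ elemSpan p G ≤
      AddSubgroup.comap L ((AddSubgroup.zmultiples (p : ℤ)).map (Int.castAddHom ℂ)) := by
    intro hle
    obtain ⟨j, hj, hj'⟩ := hle hmem
    have e : (fun _ : G => (m : ℂ)) = m • (1 : G → ℂ) := by funext g; simp
    rw [e, map_zsmul, hL1, zsmul_one] at hj'
    simp only [Int.coe_castAddHom, Int.cast_inj] at hj'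
    exact hm (Int.mem_zmultiples_iff.1 (hj' ▸ hj))
  rw [elemSpan, AddSubgroup.closure_le, Set.not_subset] at hnot
  obtain ⟨F, ⟨E, φ, hE, rfl⟩, hF⟩ := hnot
  have hval : L (Cfsg.indFun E fun e => (φ e : ℂ)) = ((E ⊔ N).index : ℂ) *
      Cfsg.classInner (fun d : ↥(E ⊓ N) => (φ ⟨d, d.2.1⟩ : ℂ) * ϑ ⟨d, d.2.2⟩)
        (fun d : ↥(E ⊓ N) => ϑ ⟨d, d.2.2⟩) := by
    show Cfsg.classInner _ h = _
    rw [classInner_indFun_restrict E N _ h (fun g n => by simp only [h, hinv])]
    congr 1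
    unfold Cfsg.classInner
    congr 1
    refine Finset.sum_congr rfl fun d _ => ?_
    simp only [h, map_mul, Complex.conj_conj]
    ring
  have hD : Cfsg.IsCharacter ↥(E ⊓ N) (fun d => ϑ ⟨d, d.2.2⟩) :=
    H26.isCharacter_comp (H26.isCharacter_of_irr hϑ) (Subgroup.inclusion inf_le_right)
  have hφD : Cfsg.IsCharacter ↥(E ⊓ N) (fun d => (φ ⟨d, d.2.1⟩ : ℂ) * ϑ ⟨d, d.2.2⟩) :=
    H26.isCharacter_mul (H26.isCharacter_comp (H26.isCharacter_of_irr (H26.isIrrCharacter_hom φ))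
      (Subgroup.inclusion inf_le_left)) hD
  obtain ⟨c, hc, -⟩ := H26.exists_nat_coeffs hD
  obtain ⟨c', hc', -⟩ := H26.exists_nat_coeffs hφD
  have hsum : L (Cfsg.indFun E fun e => (φ e : ℂ)) =
      (((E ⊔ N).index * ∑ ψ, c' ψ * c ψ : ℕ) : ℂ) := by
    rw [hval, H26.classInner_eq_sum _ _ (H26.isClassFunction_of_isCharacter hφD)]
    simp only [hc, hc', map_natCast]
    push_cast
    rfl
  have hnd : ¬ p ∣ (E ⊔ N).index * ∑ ψ, c' ψ * c ψ := fun hd => hF <| by
    show L _ ∈ (AddSubgroup.zmultiples (p : ℤ)).map (Int.castAddHom ℂ)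
    rw [hsum]
    exact ⟨_, Int.mem_zmultiples_iff.2 (Int.natCast_dvd_natCast.2 hd), by simp⟩
  have htop : E ⊔ N = ⊤ := by
    rw [← Subgroup.index_eq_one]
    have h1 : (E ⊔ N).index ∣ p ^ k := hk ▸ Subgroup.index_dvd_of_le le_sup_right
    obtain ⟨i, -, hi⟩ := (Nat.dvd_prime_pow hp).1 h1
    rcases Nat.eq_zero_or_pos i with rfl | hpos
    · simpa using hi
    · exact absurd (dvd_mul_of_dvd_left (hi ▸ dvd_pow_self p hpos.ne') _) hnd
  have hnd' : ¬ p ∣ ∑ ψ, c' ψ * c ψ := fun hd => hnd (dvd_mul_of_dvd_right hd _)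
  have hperm : ∀ (f : ↥(E ⊓ N) → ℂ) (a : E), (∀ d, f (conjD E N a d) = f d) →
      ∀ ψ, Cfsg.classInner f (permIrrD E N a ψ).1 = Cfsg.classInner f ψ.1 := by
    intro f a hfa ψ
    unfold Cfsg.classInner
    congr 1
    refine Fintype.sum_equiv (conjD E N a⁻¹).toEquiv _ _ fun d => ?_
    rw [permIrrD_apply]
    have h1 := hfa (conjD E N a⁻¹ d)
    rw [← MulAut.mul_apply, ← map_mul, mul_inv_cancel, map_one, MulAut.one_apply] at h1
    simp only [MulEquiv.toEquiv_eq_coe, EquivLike.coe_coe, h1]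
  have hf1 : ∀ (a : E) (d : ↥(E ⊓ N)),
      ϑ ⟨(conjD E N a d : G), (conjD E N a d).2.2⟩ = ϑ ⟨(d : G), d.2.2⟩ :=
    fun a d => hinv a ⟨d, d.2.2⟩
  have hcinv : ∀ (a : E) ψ, c (permIrrD E N a ψ) = c ψ := fun a ψ => by
    have h1 := hperm (fun d : ↥(E ⊓ N) => ϑ ⟨d, d.2.2⟩) a (hf1 a) ψ
    rw [hc, hc] at h1
    exact_mod_cast h1
  have hc'inv : ∀ (a : E) ψ, c' (permIrrD E N a ψ) = c' ψ := fun a ψ => by
    have h1 := hperm (fun d : ↥(E ⊓ N) => (φ ⟨d, d.2.1⟩ : ℂ) * ϑ ⟨d, d.2.2⟩) a (fun d => by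
      refine congrArg₂ (· * ·) ?_ (hf1 a d)
      have e1 : (⟨(conjD E N a d : G), (conjD E N a d).2.1⟩ : E) = a * ⟨d, d.2.1⟩ * a⁻¹ := rfl
      rw [e1, map_mul, map_mul, map_inv, mul_right_comm, mul_inv_cancel, one_mul]) ψ
    rw [hc', hc'] at h1
    exact_mod_cast h1
  obtain ⟨ψ, hfix, hψ⟩ := exists_fixed_not_dvd (isPGroup_range_permIrrD E N hk)
    (fun ψ => c' ψ * c ψ)
    (fun a ψ => by
      obtain ⟨_, b, rfl⟩ := a
      show c' (permIrrD E N b ψ) * c (permIrrD E N b ψ) = _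
      rw [hcinv, hc'inv]) hnd'
  refine ⟨E, ψ, hE, htop, fun a d => ?_, c ψ, fun hd => hψ (dvd_mul_of_dvd_right hd _), ?_⟩
  · have h1 : permIrrD E N a⁻¹ ψ = ψ := hfix ⟨_, a⁻¹, rfl⟩
    have h2 := congrFun (congrArg Subtype.val h1) d
    rwa [permIrrD_apply, inv_inv] at h2
  · intro inst
    convert hc ψ

/-- An invariant constituent of multiplicity prime to `p` under a `p`-power index is the whole
restriction. -/
lemma restrict_eq_of_not_dvd {p k : ℕ} (hp : p.Prime) (hk : N.index = p ^ k) [Fintype N]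
    {χ : G → ℂ} (hχ : Cfsg.IsIrrCharacter G χ) {ϑ : N → ℂ} (hϑ : Cfsg.IsIrrCharacter N ϑ)
    (hinv : ∀ (g : G) (n : N), ϑ (conjN g n) = ϑ n) {e : ℕ}
    (he : Cfsg.classInner (fun n : N => χ n) ϑ = e) (hpe : ¬ p ∣ e) :
    (fun n : N => χ n) = ϑ := by
  classical
  have he0 : e ≠ 0 := fun h => hpe (h ▸ dvd_zero p)
  obtain ⟨e', -, he', hres⟩ := restrict_eq_smul_of_invariant hχ hϑ hinv
    (by rw [he]; exact Nat.cast_ne_zero.2 he0)
  have hee : e' = e := by rw [he] at he'; exact_mod_cast he'.symm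
  subst hee
  obtain ⟨a, ρ, hρ, rfl⟩ := hχ
  obtain ⟨b, σ, hσ, rfl⟩ := hϑ
  haveI := hρ
  haveI := hσ
  have hfr : Module.finrank ℂ (Representation.IntertwiningMap σ (resRep ρ N)) = e' := by
    have h1 : Cfsg.classInner (fun n : N => ρ.character n) σ.character =
        (Module.finrank ℂ (Representation.IntertwiningMap σ (resRep ρ N)) : ℂ) := by
      rw [← H26.classInner_char_eq_finrank σ (resRep ρ N)]; rfl
    rw [he] at h1
    exact_mod_cast h1.symm
  obtain ⟨-, hdvd⟩ := finrank_eq_and_dvd σ ρ (hfr ▸ Nat.pos_of_ne_zero he0)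
  have h1 : e' ∣ p ^ k := hk ▸ (hfr ▸ (dvd_mul_left _ _).trans hdvd)
  obtain ⟨i, -, hi⟩ := (Nat.dvd_prime_pow hp).1 h1
  rcases Nat.eq_zero_or_pos i with rfl | hpos
  · rw [hres, hi, pow_zero, Nat.cast_one, one_smul]
  · exact absurd (hi ▸ dvd_pow_self p hpos.ne') hpe

end Cfsg.Agent.H39
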