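import Cfsg.Agent.H39.AbelianBound
import Cfsg.Agent.H39.ElemExt
import Mathlib.GroupTheory.Transfer

/-!
# Normal Sylow subgroups of linear groups of small degree

A linear group of degree `n` has a normal Sylow `p`-subgroup when `(n + 1) ^ 2 ≤ p`, or when
`n + 1 < p` and this holds for the subgroups whose order is not divisible by `p ^ 2`.
-/

namespace Cfsg.Agent.H39

universe u

open scoped Pointwise

section Constituents

variable {K : Type u} [Group K] [Fintype K] {n : ℕ}

/-- A faithful representation separates elements through its constituents. -/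
lemma eq_one_of_constituents {ρ : Representation ℂ K (Fin n → ℂ)} (hρ : Function.Injective ρ)
    {m : Cfsg.IrrCharacter K → ℕ}
    (he : ρ.character = ∑ ψ : Cfsg.IrrCharacter K, (m ψ : ℂ) • ψ.1) {t : K}
    (ht : ∀ ψ, m ψ ≠ 0 → ψ.1 t = ψ.1 1) : t = 1 := by
  apply hρ
  rw [map_one, Module.End.one_eq_id, ← H25.char_eq_degree_iff, ← ρ.char_one, he]
  simp only [Finset.sum_apply, Pi.smul_apply, smul_eq_mul]
  refine Finset.sum_congr rfl fun ψ _ => ?_
  by_cases h : m ψ = 0
  · simp [h]
  · rw [ht ψ h]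

/-- The degrees of the constituents add up to the degree. -/
lemma sum_deg_eq {ρ : Representation ℂ K (Fin n → ℂ)} {m : Cfsg.IrrCharacter K → ℕ}
    (he : ρ.character = ∑ ψ : Cfsg.IrrCharacter K, (m ψ : ℂ) • ψ.1) :
    ∑ ψ : Cfsg.IrrCharacter K, m ψ * degOf ψ = n := by
  have h := congrFun he 1
  rw [ρ.char_one, Module.finrank_fin_fun] at h
  simp only [Finset.sum_apply, Pi.smul_apply, smul_eq_mul, degOf_spec] at h
  exact_mod_cast h.symm

/-- Linear constituents only: the group is abelian. -/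
lemma comm_of_linear_constituents {ρ : Representation ℂ K (Fin n → ℂ)} (hρ : Function.Injective ρ)
    {m : Cfsg.IrrCharacter K → ℕ}
    (he : ρ.character = ∑ ψ : Cfsg.IrrCharacter K, (m ψ : ℂ) • ψ.1)
    (hlin : ∀ ψ, m ψ ≠ 0 → degOf ψ = 1) (a b : K) : a * b = b * a := by
  have h : a * b * (b * a)⁻¹ = 1 := eq_one_of_constituents hρ he fun ψ hψ => by
    obtain ⟨f, hf⟩ := H26.exists_hom_of_isCharacter_one (H26.irr_isCharacter ψ)
      (by rw [degOf_spec, hlin ψ hψ, Nat.cast_one])
    rw [← hf, ← hf, map_mul, map_inv, map_mul, map_mul, mul_comm (f b) (f a), mul_inv_cancel,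
      map_one]
  exact mul_inv_eq_one.1 h

/-- A `p`-group with a faithful representation of degree below `p` is abelian. -/
lemma comm_of_pGroup_small {p : ℕ} [hp : Fact p.Prime] (hK : IsPGroup p K)
    {ρ : Representation ℂ K (Fin n → ℂ)} (hρ : Function.Injective ρ) (hn : n < p) (a b : K) :
    a * b = b * a := by
  obtain ⟨m, -, he⟩ := H26.exists_nat_coeffs (χ := ρ.character) ⟨n, ρ, rfl⟩
  refine comm_of_linear_constituents hρ he (fun ψ hψ => ?_) a b
  obtain ⟨i, hi, -⟩ := degOf_sq_dvd_card hK ψ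
  rcases Nat.eq_zero_or_pos i with rfl | hpos
  · simpa using hi
  · exfalso
    have h1 := Finset.single_le_sum (f := fun ψ : Cfsg.IrrCharacter K => m ψ * degOf ψ)
      (fun _ _ => Nat.zero_le _) (Finset.mem_univ ψ)
    rw [sum_deg_eq he] at h1
    have h2 : p ≤ degOf ψ := by rw [hi]; exact Nat.le_self_pow hpos.ne' p
    have h3 : degOf ψ ≤ m ψ * degOf ψ := Nat.le_mul_of_pos_left _ (Nat.pos_of_ne_zero hψ)
    omega

end Constituents

section Action

variable {K : Type u} [Group K] [Fintype K] {A : Type u} [Group A] [Finite A]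
variable {p : ℕ} [hp : Fact p.Prime] {n : ℕ} (φ : A →* MulAut K)

omit [Fintype K] in
/-- A fixed coset representative is fixed. -/
lemma eq_of_fixed_translate [Finite K] (hA : IsPGroup p A) (hK : ¬ p ∣ Nat.card K) {a : A}
    {k c : K} (hk : φ a k = k * c) (hc : φ a c = c) : φ a k = k := by
  have h : ∀ i : ℕ, (φ (a ^ i)) k = k * c ^ i := by
    intro i
    induction i with
    | zero => simp
    | succ i ih =>
      rw [pow_succ', map_mul, MulAut.mul_apply, ih, map_mul, hk, map_pow, hc, pow_succ', mul_assoc]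
  obtain ⟨j, hj⟩ := hA a
  have h1 := h (p ^ j)
  rw [hj, map_one, MulAut.one_apply, left_eq_mul] at h1
  have h2 : c = 1 := orderOf_eq_one_iff.1 (Nat.eq_one_of_dvd_coprimes
    ((hp.out.coprime_iff_not_dvd.2 hK).symm.pow_right j) (orderOf_dvd_natCard c)
    (orderOf_dvd_of_pow_eq_one h1))
  rw [hk, h2, mul_one]

/-- A `p`-group cannot act non-trivially, trivially on all proper invariant subgroups, on a
group of order prime to `p` with proper derived group and an invariant faithful character of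
degree below `p - 1`. -/
theorem action_trivial_of_small (hA : IsPGroup p A) (hK : ¬ p ∣ Nat.card K)
    {ρ : Representation ℂ K (Fin n → ℂ)} (hρ : Function.Injective ρ) (hn : n + 1 < p)
    (hinv : ∀ (a : A) (k : K), ρ.character (φ a k) = ρ.character k)
    (hproper : ∀ L : Subgroup K, L ≠ ⊤ → (∀ a, ∀ l ∈ L, φ a l ∈ L) → ∀ a, ∀ l ∈ L, φ a l = l)
    (hder : commutator K ≠ ⊤) : ∀ a k, φ a k = k := by
  classical
  by_contra hcon
  push Not at hcon
  obtain ⟨a₀, k₀, hne₀⟩ := hcon
  obtain ⟨m, hm, he⟩ := H26.exists_nat_coeffs (χ := ρ.character) ⟨n, ρ, rfl⟩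
  -- constituents are invariant
  let π : A →* Equiv.Perm (Cfsg.IrrCharacter K) :=
    { toFun := fun a =>
        { toFun := fun ψ => H43.irrCongr (φ a⁻¹) ψ
          invFun := fun ψ => H43.irrCongr (φ a) ψ
          left_inv := fun ψ => Subtype.ext (funext fun d => by
            simp only [H43.irrCongr_apply, ← MulAut.mul_apply, ← map_mul, inv_mul_cancel, map_one,
              MulAut.one_apply])
          right_inv := fun ψ => Subtype.ext (funext fun d => by
            simp only [H43.irrCongr_apply, ← MulAut.mul_apply, ← map_mul, mul_inv_cancel, map_one,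
              MulAut.one_apply]) }
      map_one' := Equiv.ext fun ψ => Subtype.ext (funext fun d => by simp [H43.irrCongr_apply])
      map_mul' := fun a b => Equiv.ext fun ψ => Subtype.ext (funext fun d => by
        simp [H43.irrCongr_apply, mul_inv_rev]) }
  have hπ : ∀ a (ψ : Cfsg.IrrCharacter K) k, (π a ψ).1 k = ψ.1 (φ a⁻¹ k) := fun _ _ _ => rfl
  have hminv : ∀ a ψ, m (π a ψ) = m ψ := by
    intro a ψ
    have h1 : Cfsg.classInner ρ.character (π a ψ).1 = Cfsg.classInner ρ.character ψ.1 := by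
      unfold Cfsg.classInner
      congr 1
      refine Fintype.sum_equiv (φ a⁻¹).toEquiv _ _ fun d => ?_
      simp only [MulEquiv.toEquiv_eq_coe, EquivLike.coe_coe, hπ, hinv]
    rw [hm, hm] at h1
    exact_mod_cast h1
  have hfix : ∀ ψ, m ψ ≠ 0 → ∀ a k, ψ.1 (φ a k) = ψ.1 k := by
    intro ψ hψ a k
    have hR : IsPGroup p π.range := by
      rintro ⟨_, b, rfl⟩
      obtain ⟨j, hj⟩ := hA b
      refine ⟨j, Subtype.ext ?_⟩
      show (π b) ^ p ^ j = 1
      rw [← map_pow, hj, map_one]
    obtain ⟨i, hi⟩ := hR.card_orbit ψ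
    have hle : Nat.card (MulAction.orbit π.range ψ) ≤ n := by
      have hsub : (MulAction.orbit π.range ψ).toFinset ⊆
          Finset.univ.filter fun ψ' => m ψ' ≠ 0 := by
        intro ψ' hψ'
        obtain ⟨⟨_, b, rfl⟩, rfl⟩ := Set.mem_toFinset.1 hψ'
        simp only [Finset.mem_filter, Finset.mem_univ, true_and]
        show m (π b ψ) ≠ 0
        rwa [hminv]
      rw [Nat.card_eq_fintype_card, ← Set.toFinset_card]
      refine le_trans (Finset.card_le_card hsub) ?_
      rw [← sum_deg_eq he, Finset.card_eq_sum_ones]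
      refine le_trans (Finset.sum_le_sum fun ψ' hψ' => ?_)
        (Finset.sum_le_sum_of_subset (Finset.subset_univ _))
      exact Nat.mul_pos (Nat.pos_of_ne_zero (Finset.mem_filter.1 hψ').2) (degOf_pos ψ')
    rw [hi] at hle
    have hi0 : i = 0 := by
      by_contra h0
      have := Nat.le_self_pow h0 p
      omega
    rw [hi0, pow_zero] at hi
    haveI := (Nat.card_eq_one_iff_unique.1 hi).1
    have h := congrArg Subtype.val (Subsingleton.elim
      (⟨(⟨_, a⁻¹, rfl⟩ : π.range) • ψ, MulAction.mem_orbit ψ _⟩ : MulAction.orbit π.range ψ)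
      ⟨ψ, MulAction.mem_orbit_self ψ⟩)
    have h' : π a⁻¹ ψ = ψ := h
    have h2 := congrFun (congrArg Subtype.val h') k
    rwa [hπ, inv_inv] at h2
  -- the displacements generate
  set W := Subgroup.closure {d : K | ∃ (a : A) (k : K), k⁻¹ * φ a k = d}
  have hW : W = ⊤ := by
    by_contra hWt
    have hWinv : ∀ a, ∀ l ∈ W, φ a l ∈ W := by
      intro b l hl
      have : W ≤ W.comap (φ b).toMonoidHom := by
        rw [Subgroup.closure_le]
        rintro _ ⟨a, k, rfl⟩
        refine Subgroup.subset_closure ⟨b * a * b⁻¹, φ b k, ?_⟩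
        show _ = φ b (k⁻¹ * φ a k)
        rw [map_mul (φ b), map_inv (φ b), map_mul φ, map_mul φ, MulAut.mul_apply, MulAut.mul_apply,
          map_inv φ, MulAut.inv_apply_self]
      exact this hl
    refine hne₀ (eq_of_fixed_translate φ hA hK (c := k₀⁻¹ * φ a₀ k₀) (by rw [mul_inv_cancel_left])
      (hproper W hWt hWinv a₀ _ (Subgroup.subset_closure ⟨a₀, k₀, rfl⟩)))
  have hnc : ∃ ψ, m ψ ≠ 0 ∧ degOf ψ ≠ 1 := by
    by_contra hall
    push Not at hall
    refine hne₀ ?_
    have h1 : k₀⁻¹ * φ a₀ k₀ = 1 := eq_one_of_constituents hρ he fun ψ hψ => by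
      obtain ⟨f, hf⟩ := H26.exists_hom_of_isCharacter_one (H26.irr_isCharacter ψ)
        (by rw [degOf_spec, hall ψ hψ, Nat.cast_one])
      have h3 : f (φ a₀ k₀) = f k₀ := Units.ext (by rw [hf, hf, hfix ψ hψ])
      rw [← hf, ← hf, map_mul, map_inv, h3, inv_mul_cancel, map_one]
    exact (inv_mul_eq_one.1 h1).symm
  obtain ⟨ψ, hψ, hψ1⟩ := hnc
  -- the fixed points are the centre
  have hderfix : ∀ a, ∀ l ∈ commutator K, φ a l = l := hproper _ hder fun a l hl => by
    have h := (inferInstance : (commutator K).Characteristic).fixed (φ a)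
    rw [← h] at hl
    exact hl
  have hCcent : ∀ c : K, (∀ a, φ a c = c) → c ∈ Subgroup.center K := by
    intro c hc
    rw [Subgroup.mem_center_iff]
    intro g
    have : W ≤ Subgroup.centralizer ({c} : Set K) := by
      rw [Subgroup.closure_le]
      rintro _ ⟨a, k, rfl⟩
      rw [SetLike.mem_coe, Subgroup.mem_centralizer_singleton_iff]
      have h1 : k * c * k⁻¹ * c⁻¹ ∈ commutator K :=
        Subgroup.commutator_mem_commutator (Subgroup.mem_top k) (Subgroup.mem_top c)
      have h2 := hderfix a _ h1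
      rw [map_mul, map_mul, map_mul, map_inv, map_inv, hc a] at h2
      have h3 : φ a k * c * (φ a k)⁻¹ = k * c * k⁻¹ := mul_right_cancel h2
      calc k⁻¹ * φ a k * c = k⁻¹ * (φ a k * c * (φ a k)⁻¹) * φ a k := by group
        _ = c * (k⁻¹ * φ a k) := by rw [h3]; group
    exact Subgroup.mem_centralizer_singleton_iff.1 (this (hW ▸ Subgroup.mem_top g))
  have hKcomm : Subgroup.center K ≠ ⊤ := by
    intro htop
    refine hψ1 ?_
    have := H26.irr_one_eq_one_of_comm
      (fun a b => (Subgroup.mem_center_iff.1 (htop ▸ Subgroup.mem_top b) a)) ψ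
    rw [degOf_spec] at this
    exact_mod_cast this
  have hZfix : ∀ a, ∀ z ∈ Subgroup.center K, φ a z = z := hproper _ hKcomm fun a z hz => by
    have h := (inferInstance : (Subgroup.center K).Characteristic).fixed (φ a)
    rw [← h] at hz
    exact hz
  obtain ⟨d, σ, hσ, hσe⟩ := id ψ.2
  haveI := hσ
  have hd : d = degOf ψ := by
    have h := degOf_spec ψ
    rw [← hσe, Representation.char_one, Module.finrank_fin_fun] at h
    exact_mod_cast h
  have hcross : ∀ g k : K, σ g * σ k = σ k * σ g ↔ ψ.1 (g * k * g⁻¹ * k⁻¹) = ψ.1 1 := by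
    intro g k
    rw [← hσe, Representation.char_one, H25.char_eq_degree_iff, ← map_mul, ← map_mul]
    constructor
    · intro h
      rw [show g * k * g⁻¹ * k⁻¹ = g * k * (k * g)⁻¹ by group, map_mul, h, ← map_mul,
        mul_inv_cancel, map_one, Module.End.one_eq_id]
    · intro h
      conv_lhs => rw [show g * k = g * k * g⁻¹ * k⁻¹ * (k * g) by group]
      rw [map_mul, h, ← Module.End.one_eq_id, one_mul]
  let Z0 : Subgroup K :=
    { carrier := {k | ∀ g, Commute (σ g) (σ k)}
      one_mem' := fun g => by simp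
      mul_mem' := fun {x y} hx hy g => by rw [map_mul]; exact (hx g).mul_right (hy g)
      inv_mem' := fun {x} hx g => by
        have hu : σ x * σ x⁻¹ = 1 := by rw [← map_mul, mul_inv_cancel, map_one]
        have hu' : σ x⁻¹ * σ x = 1 := by rw [← map_mul, inv_mul_cancel, map_one]
        calc σ g * σ x⁻¹ = σ x⁻¹ * σ x * (σ g * σ x⁻¹) := by rw [hu', one_mul]
          _ = σ x⁻¹ * (σ x * σ g) * σ x⁻¹ := by simp only [mul_assoc]
          _ = σ x⁻¹ * (σ g * σ x) * σ x⁻¹ := by rw [(hx g).eq]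
          _ = σ x⁻¹ * σ g := by rw [mul_assoc, mul_assoc, hu, mul_one] }
  have hZ0ne : Z0 ≠ ⊤ := by
    intro htop
    apply hψ1
    have hscal : ∀ g : K, ∃ c : ℂ, σ g = c • (LinearMap.id : Module.End ℂ (Fin d → ℂ)) := fun g =>
      ⟨_, H25.eq_smul_id_of_comm σ (σ g) fun h =>
        (((htop ▸ Subgroup.mem_top g : g ∈ Z0)) h).symm⟩
    have hnt := H25.nontrivial_of_isIrreducible σ
    obtain ⟨v, hv⟩ := exists_ne (0 : Fin d → ℂ)
    have hspan := (((H26.isIrreducible_iff_forall σ).1 hσ).2 (ℂ ∙ v) fun g w hw => by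
      obtain ⟨c, hc⟩ := hscal g
      rw [hc]
      exact Submodule.smul_mem _ _ hw).resolve_left (by simpa using hv)
    have h1 := finrank_span_singleton (K := ℂ) hv
    rw [hspan, finrank_top, Module.finrank_fin_fun] at h1
    omega
  have hZ0fix := hproper Z0 hZ0ne fun a k hk g => by
    have h1 : ψ.1 (φ a⁻¹ g * k * (φ a⁻¹ g)⁻¹ * k⁻¹) = ψ.1 1 := (hcross _ k).1 (hk _)
    have h2 := hfix ψ hψ a (φ a⁻¹ g * k * (φ a⁻¹ g)⁻¹ * k⁻¹)
    rw [map_mul, map_mul, map_mul, map_inv (φ a), map_inv (φ a), ← MulAut.mul_apply, ← map_mul,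
      mul_inv_cancel, map_one, MulAut.one_apply, h1] at h2
    exact (hcross g _).2 h2
  have hvan : ∀ k, k ∉ Subgroup.center K → ψ.1 k = 0 := by
    intro k hk
    obtain ⟨g, hg⟩ : ∃ g, ¬ Commute (σ g) (σ k) := by
      by_contra hall
      push Not at hall
      exact hk (hCcent k fun a => hZ0fix a k hall)
    have ht : g * k * g⁻¹ * k⁻¹ ∈ Subgroup.center K :=
      hCcent _ fun a => hderfix a _
        (Subgroup.commutator_mem_commutator (Subgroup.mem_top g) (Subgroup.mem_top k))
    obtain ⟨w, -, hw⟩ := exists_central_scalar ψ ht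
    have hw1 : w ≠ 1 := fun h => hg ((hcross g k).2 (by
      have := hw 1
      rwa [one_mul, h, one_mul] at this))
    have h1 : ψ.1 k = w * ψ.1 k := by
      rw [← hw, Subgroup.mem_center_iff.1 ht k, inv_mul_cancel_right]
      exact (H26.irr_conj ψ k g).symm
    have h2 : (w - 1) * ψ.1 k = 0 := by linear_combination -h1
    exact (mul_eq_zero.1 h2).resolve_left (sub_ne_zero.2 hw1)
  have hnorm : Nat.card (Subgroup.center K) * degOf ψ ^ 2 = Nat.card K := by
    have h1 := H26.classInner_irr ψ ψ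
    rw [if_pos rfl, Cfsg.classInner,
      inv_mul_eq_iff_eq_mul₀ (Nat.cast_ne_zero.2 Nat.card_pos.ne'),
      mul_one, ← Finset.sum_subset (s₁ := Finset.univ.filter (· ∈ Subgroup.center K))
        (Finset.subset_univ _) (fun g _ hg => by rw [hvan g (by simpa using hg), zero_mul]),
      Finset.sum_congr rfl (g := fun _ => (degOf ψ : ℂ) ^ 2) (fun c hc => by
        rw [Complex.mul_conj', norm_central ψ (Finset.mem_filter.1 hc).2]
        push_cast
        rfl),
      Finset.sum_const, nsmul_eq_mul, ← Fintype.card_subtype, ← Nat.card_eq_fintype_card] at h1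
    exact_mod_cast h1
  letI : MulAction A K := MulAction.compHom K φ
  have hmod := hA.card_modEq_card_fixedPoints K
  have hfp : Nat.card (MulAction.fixedPoints A K) = Nat.card (Subgroup.center K) :=
    Nat.card_congr (Equiv.subtypeEquivRight fun k =>
      ⟨fun h => hCcent k h, fun h a => hZfix a k h⟩)
  rw [hfp, ← hnorm] at hmod
  have hc : Nat.Coprime p (Nat.card (Subgroup.center K)) := hp.out.coprime_iff_not_dvd.2
    fun h => hK (h.trans (Subgroup.card_subgroup_dvd_card _))
  have h2 : degOf ψ ^ 2 ≡ 1 [MOD p] := by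
    have h3 : Nat.card (Subgroup.center K) * degOf ψ ^ 2 ≡ Nat.card (Subgroup.center K) * 1 [MOD p] := by
      rw [mul_one]; exact hmod
    exact Nat.ModEq.cancel_left_of_coprime hc h3
  have hen : degOf ψ ≤ n := by
    have h := Finset.single_le_sum (f := fun ψ : Cfsg.IrrCharacter K => m ψ * degOf ψ)
      (fun _ _ => Nat.zero_le _) (Finset.mem_univ ψ)
    rw [sum_deg_eq he] at h
    exact le_trans (Nat.le_mul_of_pos_left _ (Nat.pos_of_ne_zero hψ)) h
  have he2 : 2 ≤ degOf ψ := by have := degOf_pos ψ; omega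
  obtain ⟨e, hee⟩ : ∃ e, degOf ψ = e + 1 := ⟨degOf ψ - 1, by omega⟩
  have h4 : p ∣ e * (e + 2) := by
    have h5 := (Nat.modEq_iff_dvd' (Nat.one_le_pow _ _ (degOf_pos ψ))).1 h2.symm
    rw [hee] at h5
    rwa [show (e + 1) ^ 2 - 1 = e * (e + 2) by
      rw [Nat.sub_eq_iff_eq_add (Nat.one_le_pow 2 (e + 1) (by omega))]; ring] at h5
  rcases (Nat.Prime.dvd_mul hp.out).1 h4 with h5 | h5 <;>
    · have := Nat.le_of_dvd (by omega) h5
      omega

end Action

section Main

variable {p : ℕ} [hp : Fact p.Prime]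

/-- The numerical hypothesis. -/
def SmallHyp (p n : ℕ) (G : Type u) [Group G] : Prop :=
  (n + 1) ^ 2 ≤ p ∨ (n + 1 < p ∧ ∀ K : Subgroup G, ¬ p ^ 2 ∣ Nat.card K →
    ∀ Q : Sylow p K, (Q : Subgroup K).Normal)

omit hp in
lemma normal_of_mulEquiv {A B : Type u} [Group A] [Group B] (e : A ≃* B) {P : Subgroup A}
    (h : (P.map e.toMonoidHom).Normal) : P.Normal := by
  rw [← Subgroup.comap_map_eq_self_of_injective (f := e.toMonoidHom) e.injective P]
  exact h.comap _

/-- Transport of normality of Sylow subgroups along an isomorphism. -/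
lemma sylow_normal_of_equiv {A B : Type u} [Group A] [Group B] [Finite A] [Finite B] (e : A ≃* B)
    (h : ∀ Q : Sylow p B, (Q : Subgroup B).Normal) (Q : Sylow p A) : (Q : Subgroup A).Normal :=
  normal_of_mulEquiv e (h (Q.mapSurjective (f := e.toMonoidHom) e.surjective))

omit hp in
lemma SmallHyp.subgroup [Fact p.Prime] {n : ℕ} {G : Type u} [Group G] [Finite G]
    (h : SmallHyp p n G) (L : Subgroup G) : SmallHyp p n L := by
  refine h.imp_right fun ⟨h1, h2⟩ => ⟨h1, fun K hK => ?_⟩
  have e := K.equivMapOfInjective L.subtype L.subtype_injective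
  refine sylow_normal_of_equiv e (h2 _ ?_)
  rwa [← Nat.card_congr e.toEquiv]

variable {G : Type u} [Group G]

/-- Conjugation of `P` on a normal subgroup. -/
def actOn (K : Subgroup G) [K.Normal] (P : Subgroup G) : P →* MulAut K :=
  MulAut.conjNormal.comp P.subtype

lemma coe_actOn (K : Subgroup G) [K.Normal] (P : Subgroup G) (a : P) (k : K) :
    ((actOn K P a k : K) : G) = a * k * (a : G)⁻¹ := rfl

/-- A subgroup whose Sylow subgroups are all normal has its `p`-subgroups in a common one. -/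
lemma exists_sylow_two [Finite G] {L : Subgroup G}
    (hL : ∀ Q : Sylow p L, (Q : Subgroup L).Normal) {X Y : Subgroup G} (hX : IsPGroup p X)
    (hY : IsPGroup p Y) (hXL : X ≤ L) (hYL : Y ≤ L) : ∃ S : Sylow p G, X ≤ S ∧ Y ≤ S := by
  obtain ⟨T⟩ : Nonempty (Sylow p L) := inferInstance
  have hsub : ∀ {Z : Subgroup G}, IsPGroup p Z → Z ≤ L → Z.subgroupOf L ≤ T := by
    intro Z hZ hZL
    obtain ⟨T', hT'⟩ := (hZ.comap_subtype (K := L)).exists_le_sylow
    haveI := hL T
    haveI : Subsingleton (Sylow p L) := (Sylow.unique_of_normal T (hL T)).instSubsingleton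
    rwa [Subsingleton.elim T' T] at hT'
  obtain ⟨S, hS⟩ := (T.isPGroup'.map L.subtype).exists_le_sylow
  refine ⟨S, ?_, ?_⟩
  · exact fun x hx => hS ⟨⟨x, hXL hx⟩, hsub hX hXL (Subgroup.mem_subgroupOf.2 hx), rfl⟩
  · exact fun x hx => hS ⟨⟨x, hYL hx⟩, hsub hY hYL (Subgroup.mem_subgroupOf.2 hx), rfl⟩

omit hp in
lemma comm_of_sylow_comm [Finite G] [Fact p.Prime]
    (hab : ∀ S : Sylow p G, ∀ x ∈ (S : Subgroup G), ∀ y ∈ (S : Subgroup G), x * y = y * x)
    (S : Sylow p G) {x : G} (hx : x ∈ (S : Subgroup G)) :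
    (S : Subgroup G) ≤ Subgroup.centralizer ({x} : Set G) := fun y hy =>
  Subgroup.mem_centralizer_singleton_iff.2 (hab S y hy x hx)

lemma conj_mem_smul [Finite G] {P : Sylow p G} (a : G) {x : G} :
    x ∈ ((a • P : Sylow p G) : Subgroup G) ↔ a⁻¹ * x * a ∈ (P : Subgroup G) := by
  constructor
  · rintro ⟨y, hy, rfl⟩
    have e : a⁻¹ * (a * y * a⁻¹) * a = y := by group
    exact e.symm ▸ hy
  · intro h
    exact ⟨a⁻¹ * x * a, h, by simp [mul_assoc]⟩

/-- Abelian Sylow subgroups meet the derived group and the centre trivially. -/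
lemma inf_commutator_center_eq_bot [Finite G] (P : Sylow p G)
    (hab : ∀ x ∈ (P : Subgroup G), ∀ y ∈ (P : Subgroup G), x * y = y * x) :
    ∀ z ∈ (P : Subgroup G), z ∈ commutator G → z ∈ Subgroup.center G → z = 1 := by
  intro z hzP hzG hzZ
  letI : CommGroup (P : Subgroup G) :=
    { (inferInstance : Group (P : Subgroup G)) with
      mul_comm := fun a b => Subtype.ext (hab a a.2 b b.2) }
  let τ : G →* (P : Subgroup G) := MonoidHom.transfer (MonoidHom.id (P : Subgroup G))
  have hker : τ z = 1 := Abelianization.commutator_subset_ker τ hzG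
  have hpow := MonoidHom.transfer_eq_pow (ϕ := MonoidHom.id (P : Subgroup G)) z fun k g₀ _ => by
    rw [mul_assoc, ← Subgroup.mem_center_iff.1 (pow_mem hzZ k) g₀, ← mul_assoc, inv_mul_cancel,
      one_mul]
  rw [show MonoidHom.transfer (MonoidHom.id (P : Subgroup G)) z = τ z from rfl, hker] at hpow
  have h1 : z ^ (P : Subgroup G).index = 1 := (congrArg Subtype.val hpow).symm
  obtain ⟨i, hi⟩ := P.isPGroup'.exists_card_eq
  exact orderOf_eq_one_iff.1 (Nat.eq_one_of_dvd_coprimes
    ((hp.out.coprime_iff_not_dvd.2 P.not_dvd_index).pow_left i)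
    (hi ▸ Subgroup.orderOf_dvd_natCard _ hzP) (orderOf_dvd_of_pow_eq_one h1))

/-- The case with a normal `p`-complement. -/
lemma normal_of_complement [Fintype G] {n : ℕ} {ρ : Representation ℂ G (Fin n → ℂ)}
    (hρ : Function.Injective ρ) (hn : n + 1 < p) (P : Sylow p G)
    (hproper : ∀ L : Subgroup G, L ≠ ⊤ → ∀ Q : Sylow p L, (Q : Subgroup L).Normal)
    (hbot : ∀ x ∈ (P : Subgroup G), x ∈ commutator G → x = 1) : (P : Subgroup G).Normal := by
  classical
  set D := commutator G with hD
  have hDp : ¬ p ∣ Nat.card D := by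
    intro h
    obtain ⟨⟨x, hx⟩, hox⟩ := exists_prime_orderOf_dvd_card' p h
    rw [Subgroup.orderOf_mk] at hox
    have hpx : IsPGroup p (Subgroup.zpowers x) :=
      IsPGroup.of_card (n := 1) (by rw [Nat.card_zpowers, hox, pow_one])
    obtain ⟨S, hS⟩ := hpx.exists_le_sylow
    obtain ⟨g, hg⟩ := MulAction.exists_smul_eq G P S
    have h1 := hS (Subgroup.mem_zpowers x)
    rw [← hg, conj_mem_smul] at h1
    have h2 := hbot _ h1 (Subgroup.Normal.conj_mem' inferInstance x hx g)
    have h3 : x = 1 := by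
      calc x = g * (g⁻¹ * x * g) * g⁻¹ := by group
        _ = 1 := by rw [h2]; group
    rw [h3, orderOf_one] at hox
    exact hp.out.one_lt.ne hox
  set r := (P : Subgroup G).index with hr
  have hrp : ¬ p ∣ r := P.not_dvd_index
  let K : Subgroup G := ((powMonoidHom r : Abelianization G →* Abelianization G).comp
    Abelianization.of).ker
  have hKmem : ∀ g : G, g ∈ K ↔ g ^ r ∈ D := fun g => by
    show Abelianization.of g ^ r = 1 ↔ _
    rw [← map_pow]
    exact QuotientGroup.eq_one_iff _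
  have hDK : D ≤ K := fun x hx => (hKmem x).2 (pow_mem hx r)
  have hKp : ¬ p ∣ Nat.card K := by
    intro h
    obtain ⟨⟨x, hx⟩, hox⟩ := exists_prime_orderOf_dvd_card' p h
    rw [Subgroup.orderOf_mk] at hox
    have h1 := Subgroup.orderOf_dvd_natCard D ((hKmem x).1 hx)
    rw [(hox ▸ hp.out.coprime_iff_not_dvd.2 hrp : Nat.Coprime (orderOf x) r).orderOf_pow, hox] at h1
    exact hDp h1
  have hKP : K ⊔ (P : Subgroup G) = ⊤ := by
    by_contra hne
    obtain ⟨i, hi⟩ := P.isPGroup'.exists_card_eq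
    have hKi : ¬ p ∣ (K ⊔ (P : Subgroup G)).index := fun h =>
      hrp (h.trans (Subgroup.index_dvd_of_le le_sup_right))
    obtain ⟨q, hq, hqi⟩ := Nat.exists_prime_and_dvd
      (fun h => hne (Subgroup.index_eq_one.1 h) : (K ⊔ (P : Subgroup G)).index ≠ 1)
    haveI : (K ⊔ (P : Subgroup G)).Normal := ⟨fun y hy g => by
      have h := mul_mem (Subgroup.mem_sup_left (T := (P : Subgroup G)) (hDK
        (Subgroup.commutator_mem_commutator (Subgroup.mem_top g) (Subgroup.mem_top y)))) hy
      simpa [commutatorElement_def, mul_assoc] using h⟩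
    haveI : Fact q.Prime := ⟨hq⟩
    rw [Subgroup.index_eq_card] at hqi
    obtain ⟨x, hx⟩ := exists_prime_orderOf_dvd_card' q hqi
    obtain ⟨g, rfl⟩ := QuotientGroup.mk_surjective x
    have h1 : ((g : G) : G ⧸ (K ⊔ (P : Subgroup G))) ^ (p ^ i) = 1 := by
      rw [← QuotientGroup.mk_pow, QuotientGroup.eq_one_iff]
      refine Subgroup.mem_sup_left ((hKmem _).2 ?_)
      rw [← pow_mul, ← hi, hr, Subgroup.card_mul_index, pow_card_eq_one']
      exact one_mem D
    have h2 : q = p := (Nat.prime_dvd_prime_iff_eq hq hp.out).1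
      (hq.dvd_of_dvd_pow (hx ▸ orderOf_dvd_of_pow_eq_one h1))
    rw [h2, ← Subgroup.index_eq_card] at hqi
    exact hKi hqi
  have hPK : ∀ x ∈ (P : Subgroup G), x ∈ K → x = 1 := by
    intro x hxP hxK
    obtain ⟨i, hi⟩ := P.isPGroup'.exists_card_eq
    exact orderOf_eq_one_iff.1 (Nat.eq_one_of_dvd_coprimes
      ((hp.out.coprime_iff_not_dvd.2 hKp).pow_left i)
      (hi ▸ Subgroup.orderOf_dvd_natCard _ hxP) (Subgroup.orderOf_dvd_natCard _ hxK))
  have hsub : ∀ K₀ : Subgroup G, K₀ ≤ K → K₀ ≠ K →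
      (∀ a ∈ (P : Subgroup G), ∀ x ∈ K₀, a * x * a⁻¹ ∈ K₀) →
      ∀ a ∈ (P : Subgroup G), ∀ x ∈ K₀, a * x * a⁻¹ = x := by
    intro K₀ hle hne hinv a ha x hx
    have hN : (P : Subgroup G) ≤ Subgroup.normalizer (K₀ : Set G) := fun b hb => by
      rw [Subgroup.mem_normalizer_iff]
      refine fun y => ⟨hinv b hb y, fun hy => ?_⟩
      have := hinv b⁻¹ (inv_mem hb) _ hy
      simpa [mul_assoc] using this
    have hproperL : K₀ ⊔ (P : Subgroup G) ≠ ⊤ := by
      intro htop
      refine hne (le_antisymm hle fun k hk => ?_)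
      obtain ⟨y, hy, b, hb, hyb⟩ : ∃ y ∈ K₀, ∃ b ∈ (P : Subgroup G), y * b = k := by
        have h1 : k ∈ ((P : Subgroup G) ⊔ K₀ : Subgroup G) := by rw [sup_comm, htop]; trivial
        rw [← SetLike.mem_coe, Subgroup.coe_mul_of_left_le_normalizer_right _ _ hN] at h1
        obtain ⟨b, hb, y, hy, rfl⟩ := h1
        exact ⟨b * y * b⁻¹, hinv b hb y hy, b, hb, by group⟩
      have hb1 : b = 1 := hPK b hb ((K.mul_mem_cancel_left (hle hy)).1 (hyb ▸ hk))
      rwa [← hyb, hb1, mul_one]
    have hnormal := hproper _ hproperL (P.subtype le_sup_right)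
    have h1 : (⟨a, le_sup_right (a := K₀) ha⟩ : ↥(K₀ ⊔ (P : Subgroup G))) ∈
        ((P.subtype le_sup_right : Sylow p ↥(K₀ ⊔ (P : Subgroup G))) :
          Subgroup ↥(K₀ ⊔ (P : Subgroup G))) := ha
    have h2 := hnormal.conj_mem _ (inv_mem h1) ⟨x, le_sup_left (b := (P : Subgroup G)) hx⟩
    have h3 : a * (x * a⁻¹ * x⁻¹) ∈ (P : Subgroup G) := mul_mem ha h2
    have h4 : a * (x * a⁻¹ * x⁻¹) ∈ K := by
      rw [← mul_assoc, ← mul_assoc]
      exact hle (mul_mem (hinv a ha x hx) (inv_mem hx))
    have h5 := hPK _ h3 h4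
    rw [← mul_assoc, ← mul_assoc, mul_inv_eq_one] at h5
    exact h5
  suffices hcomm : ∀ k ∈ K, ∀ a ∈ (P : Subgroup G), a * k * a⁻¹ = k by
    refine Subgroup.normalizer_eq_top_iff.1 (top_le_iff.1 (hKP ▸ sup_le ?_ Subgroup.le_normalizer))
    intro k hk
    rw [Subgroup.mem_normalizer_iff]
    intro y
    constructor
    · intro hy
      have h := hcomm k hk y hy
      rw [mul_inv_eq_iff_eq_mul] at h
      rwa [← h, mul_inv_cancel_right]
    · intro hy
      have h := hcomm k hk _ hy
      have hy' : k * y * k⁻¹ = y := by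
        have h' : (k * y * k⁻¹) * k = k * (k * y * k⁻¹) := mul_inv_eq_iff_eq_mul.1 h
        apply mul_left_cancel (a := k)
        rw [← h']
        group
      rwa [hy'] at hy
  -- every invariant Sylow subgroup of `K` is centralised
  suffices hq : ∀ q : ℕ, q.Prime → ∃ Q : Subgroup G, Q ≤ K ∧ IsPGroup q Q ∧
      (∀ a ∈ (P : Subgroup G), ∀ x ∈ Q, a * x * a⁻¹ = x) ∧ ¬ q ∣ Q.relIndex K by
    let C : Subgroup G := K ⊓ Subgroup.centralizer ((P : Subgroup G) : Set G)
    have hC : C.relIndex K = 1 := by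
      by_contra hne
      obtain ⟨q, hq', hqd⟩ := Nat.exists_prime_and_dvd hne
      obtain ⟨Q, hQK, -, hQc, hQd⟩ := hq q hq'
      refine hQd (hqd.trans (Subgroup.relIndex_dvd_of_le_left K (le_inf hQK fun x hx => ?_)))
      refine Subgroup.mem_centralizer_iff.2 fun a ha => ?_
      exact (mul_inv_eq_iff_eq_mul).1 (hQc a ha x hx)
    intro k hk a ha
    have := (Subgroup.relIndex_eq_one.1 hC) hk
    rw [mul_inv_eq_iff_eq_mul]
    exact Subgroup.mem_centralizer_iff.1 this.2 a ha
  intro q hq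
  haveI : Fact q.Prime := ⟨hq⟩
  obtain ⟨Q⟩ : Nonempty (Sylow q K) := inferInstance
  -- Frattini: some conjugate of `Q` is invariant under `P`
  haveI : K.Normal := inferInstance
  have hNK := Sylow.normalizer_sup_eq_top (N := K) Q
  set NQ := Subgroup.normalizer ((((Q : Subgroup K).map K.subtype) : Subgroup G) : Set G) with hNQ
  obtain ⟨R⟩ : Nonempty (Sylow p NQ) := inferInstance
  have hNQi : ¬ p ∣ NQ.index := by
    intro h
    have h1 : NQ.index ∣ Nat.card K := by
      have h2 := index_sup_mul_card NQ K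
      rw [hNK, Subgroup.index_top, one_mul, ← NQ.card_mul_index, mul_assoc] at h2
      exact ⟨_, mul_left_cancel₀ Nat.card_pos.ne' h2⟩
    exact hKp (h.trans h1)
  obtain ⟨S, hS⟩ := (R.isPGroup'.map NQ.subtype).exists_le_sylow
  have hSN : (S : Subgroup G) ≤ NQ := by
    have hR : ¬ p ∣ ((R : Subgroup NQ).map NQ.subtype).index := by
      rw [Subgroup.index_map_subtype]
      exact fun h => ((Nat.Prime.dvd_mul hp.out).1 h).elim R.not_dvd_index hNQi
    have h2 : ((R : Subgroup NQ).map NQ.subtype).relIndex S = 1 := by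
      obtain ⟨i, hi⟩ := S.isPGroup'.exists_card_eq
      have h3 : ((R : Subgroup NQ).map NQ.subtype).relIndex S ∣ p ^ i :=
        hi ▸ Subgroup.relIndex_dvd_card _ _
      have h4 : ((R : Subgroup NQ).map NQ.subtype).relIndex S ∣
          ((R : Subgroup NQ).map NQ.subtype).index :=
        ⟨(S : Subgroup G).index, (Subgroup.relIndex_mul_index hS).symm⟩
      exact Nat.eq_one_of_dvd_coprimes ((hp.out.coprime_iff_not_dvd.2 hR).pow_left i) h3 h4
    exact le_trans (Subgroup.relIndex_eq_one.1 h2) (Subgroup.map_subtype_le _)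
  obtain ⟨g, hg⟩ := MulAction.exists_smul_eq G P S
  let Q' : Subgroup G := ((Q : Subgroup K).map K.subtype).map (MulAut.conj g⁻¹).toMonoidHom
  have hQ'K : Q' ≤ K := by
    rintro _ ⟨x, hx, rfl⟩
    exact Subgroup.Normal.conj_mem inferInstance x (Subgroup.map_subtype_le _ hx) g⁻¹
  have hQ'inv : ∀ a ∈ (P : Subgroup G), ∀ x ∈ Q', a * x * a⁻¹ ∈ Q' := by
    rintro a ha _ ⟨y, hy, rfl⟩
    have h1 : g * a * g⁻¹ ∈ NQ := hSN (hg ▸ (conj_mem_smul g).2 (by simpa [mul_assoc] using ha))
    exact ⟨g * a * g⁻¹ * y * (g * a * g⁻¹)⁻¹, (Subgroup.mem_normalizer_iff.1 h1 y).1 hy,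
      by simp [mul_assoc]⟩
  have hQ'p : IsPGroup q Q' := (Q.isPGroup'.map K.subtype).map _
  have hQ'd : ¬ q ∣ Q'.relIndex K := by
    have h1 : Q'.relIndex K = (Q : Subgroup K).index := by
      have hc : Nat.card Q' = Nat.card Q := by
        rw [← Nat.card_congr (Subgroup.equivMapOfInjective _ _
          (MulAut.conj g⁻¹).injective).toEquiv,
          ← Nat.card_congr (Subgroup.equivMapOfInjective _ _ K.subtype_injective).toEquiv]
      have h2 := Subgroup.relIndex_mul_relIndex ⊥ Q' K bot_le hQ'K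
      rw [Subgroup.relIndex_bot_left, Subgroup.relIndex_bot_left, hc,
        ← (Q : Subgroup K).card_mul_index] at h2
      exact mul_left_cancel₀ Nat.card_pos.ne' h2
    rw [h1]
    exact Q.not_dvd_index
  refine ⟨Q', hQ'K, hQ'p, ?_, hQ'd⟩
  by_cases hQK : Q' = K
  · -- `K` is a `q`-group
    haveI hKn : Group.IsNilpotent K := by
      have : IsPGroup q K := hQK ▸ hQ'p
      exact this.isNilpotent
    haveI := Fintype.ofFinite K
    intro a ha x hx
    rcases subsingleton_or_nontrivial K with hs | hs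
    · have : x = 1 := congrArg Subtype.val (Subsingleton.elim (⟨x, hQ'K hx⟩ : K) 1)
      simp [this]
    have h := action_trivial_of_small (actOn K (P : Subgroup G)) P.isPGroup' hKp
      (ρ := ρ.comp K.subtype) (hρ.comp K.subtype_injective) hn
      (fun b k => by
        show ρ.character ((actOn K (P : Subgroup G) b k : K) : G) = ρ.character (k : G)
        rw [coe_actOn, Representation.char_conj])
      (fun L hL hLinv b l hl => Subtype.ext (by
        rw [coe_actOn]
        refine hsub (L.map K.subtype) (Subgroup.map_subtype_le _) (fun h => hL ?_) ?_ b b.2 l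
          ⟨l, hl, rfl⟩
        · refine eq_top_iff.2 fun k _ => ?_
          obtain ⟨k', hk', e⟩ : (k : G) ∈ L.map K.subtype := h.symm ▸ k.2
          rwa [← Subtype.ext e]
        · rintro c hc _ ⟨y, hy, rfl⟩
          exact ⟨actOn K (P : Subgroup G) ⟨c, hc⟩ y, hLinv _ y hy, rfl⟩))
      (Group.IsSolvable.commutator_lt_top_of_nontrivial K).ne ⟨a, ha⟩ ⟨x, hQ'K hx⟩
    exact congrArg Subtype.val h
  · exact hsub Q' hQ'K hQK hQ'inv

/-- The theorem by induction on the order. -/
theorem normal_sylow_of_small : ∀ (N : ℕ) (G : Type u) [Group G] [Fintype G], Nat.card G = N →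
    ∀ (n : ℕ) (ρ : Representation ℂ G (Fin n → ℂ)), Function.Injective ρ → SmallHyp p n G →
      ∀ P : Sylow p G, (P : Subgroup G).Normal := by
  intro N
  induction N using Nat.strong_induction_on with
  | _ N ih =>
    intro G _ _ hN n ρ hρ hyp
    classical
    rcases Nat.eq_zero_or_pos n with rfl | hn0
    · intro P
      haveI : Subsingleton G := ⟨fun a b => hρ (LinearMap.ext fun v => Subsingleton.elim _ _)⟩
      exact ⟨fun x hx g => by rwa [Subsingleton.elim (g * x * g⁻¹) x]⟩
    have hn : n + 1 < p := by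
      rcases hyp with h | h
      · nlinarith
      · exact h.1
    have hproper : ∀ L : Subgroup G, L ≠ ⊤ → ∀ Q : Sylow p L, (Q : Subgroup L).Normal := by
      intro L hL
      haveI := Fintype.ofFinite L
      have hlt : Nat.card L < N := hN ▸ lt_of_le_of_ne (Subgroup.card_le_card_group L)
        (fun h => hL (Subgroup.eq_top_of_card_eq L h))
      exact ih _ hlt L rfl n (ρ.comp L.subtype) (hρ.comp L.subtype_injective) (hyp.subgroup L)
    by_contra hnot
    push Not at hnot
    obtain ⟨P, hP⟩ := hnot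
    have hab : ∀ S : Sylow p G, ∀ x ∈ (S : Subgroup G), ∀ y ∈ (S : Subgroup G),
        x * y = y * x := by
      intro S x hx y hy
      haveI := Fintype.ofFinite (S : Subgroup G)
      exact congrArg Subtype.val (comm_of_pGroup_small S.isPGroup'
        (ρ := ρ.comp (S : Subgroup G).subtype) (hρ.comp (S : Subgroup G).subtype_injective)
        (by omega) ⟨x, hx⟩ ⟨y, hy⟩)
    have huniq : ∀ {S S' : Sylow p G} {x : G}, x ∈ (S : Subgroup G) → x ∈ (S' : Subgroup G) →
        x ∉ Subgroup.center G → S = S' := by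
      intro S S' x hS hS' hx
      have hne : Subgroup.centralizer ({x} : Set G) ≠ ⊤ := fun h => hx <| by
        rw [Subgroup.mem_center_iff]
        intro g
        exact Subgroup.mem_centralizer_singleton_iff.1 (h ▸ Subgroup.mem_top g)
      obtain ⟨T, h1, h2⟩ := exists_sylow_two (hproper _ hne) S.isPGroup' S'.isPGroup'
        (comm_of_sylow_comm hab S hS) (comm_of_sylow_comm hab S' hS')
      exact Sylow.ext ((S.is_maximal' T.isPGroup' h1).symm.trans (S'.is_maximal' T.isPGroup' h2))
    obtain ⟨b, hb⟩ : ∃ b : G, b • P ≠ P := by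
      by_contra hall
      push Not at hall
      refine hP ⟨fun x hx g => ?_⟩
      have h1 : g * x * g⁻¹ ∈ ((g • P : Sylow p G) : Subgroup G) :=
        (conj_mem_smul g).2 (by simpa [mul_assoc] using hx)
      rwa [hall g] at h1
    have hnormal : ∀ M : Subgroup G, M.Normal → M ≠ ⊤ →
        ∀ x ∈ (P : Subgroup G), x ∈ M → x ∈ Subgroup.center G := by
      intro M hM hMt x hxP hxM
      obtain ⟨T⟩ : Nonempty (Sylow p M) := inferInstance
      haveI := hproper M hMt T
      haveI := hM
      haveI hTc : ((T : Subgroup M)).Characteristic := T.characteristic_of_normal inferInstance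
      set T' := (T : Subgroup M).map M.subtype
      haveI : T'.Normal := ConjAct.normal_of_characteristic_of_normal
      have hxT : x ∈ T' := by
        haveI : Subsingleton (Sylow p M) := (Sylow.unique_of_normal T inferInstance).instSubsingleton
        obtain ⟨T₂, hT₂⟩ := ((P.isPGroup'.comap_subtype (K := M))).exists_le_sylow
        rw [Subsingleton.elim T₂ T] at hT₂
        exact ⟨⟨x, hxM⟩, hT₂ (Subgroup.mem_subgroupOf.2 hxP), rfl⟩
      by_contra hxc
      refine hb (huniq (x := x) ?_ hxP hxc)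
      exact (IsPGroup.le_sylow_of_normal (T.isPGroup'.map M.subtype) (b • P)) hxT
    by_cases hH : ∀ x ∈ (P : Subgroup G), x ∈ commutator G → x = 1
    · exact hP (normal_of_complement hρ hn P hproper hH)
    set H := (P : Subgroup G) ⊓ commutator G with hHdef
    push Not at hH
    obtain ⟨x₀, hx₀P, hx₀G, hx₀1⟩ := hH
    have hHZ : H ⊓ Subgroup.center G = ⊥ := eq_bot_iff.2 fun z hz =>
      Subgroup.mem_bot.2 (inf_commutator_center_eq_bot P (hab P) z hz.1.1 hz.1.2 hz.2)
    have hHmap : ∀ a : G, H.map (MulAut.conj a).toMonoidHom =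
        ((a • P : Sylow p G) : Subgroup G) ⊓ commutator G := by
      intro a
      ext y
      rw [Subgroup.mem_inf, conj_mem_smul]
      constructor
      · rintro ⟨z, hz, rfl⟩
        have e : a⁻¹ * (a * z * a⁻¹) * a = z := by group
        exact ⟨e.symm ▸ hz.1, Subgroup.Normal.conj_mem inferInstance z hz.2 a⟩
      · rintro ⟨h1, h2⟩
        exact ⟨a⁻¹ * y * a, ⟨h1, Subgroup.Normal.conj_mem' inferInstance y h2 a⟩,
          by simp [mul_assoc]⟩
    have hone : OneConj H := by
      intro g hg a c ha hc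
      have hne : Subgroup.centralizer ({g} : Set G) ≠ ⊤ := fun h => hg <| by
        rw [Subgroup.mem_center_iff]
        intro w
        exact Subgroup.mem_centralizer_singleton_iff.1 (h ▸ Subgroup.mem_top w)
      obtain ⟨x, hx, hx1⟩ := (Subgroup.bot_or_exists_ne_one _).resolve_left ha
      obtain ⟨y, hy, hy1⟩ := (Subgroup.bot_or_exists_ne_one _).resolve_left hc
      have hnc : ∀ {d z : G}, z ∈ H.map (MulAut.conj d).toMonoidHom → z ≠ 1 →
          z ∉ Subgroup.center G := by
        intro d z hz hz1 hzc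
        obtain ⟨w, hw, rfl⟩ := hz
        refine hz1 ?_
        have h1 : d * w * d⁻¹ = w := by
          have h2 := Subgroup.Normal.conj_mem (inferInstance : (Subgroup.center G).Normal) _ hzc d⁻¹
          have h3 : w ∈ Subgroup.center G := by simpa [mul_assoc] using h2
          rw [Subgroup.mem_center_iff.1 h3 d, mul_inv_cancel_right]
        have h4 : w = 1 := Subgroup.mem_bot.1 (hHZ ▸ Subgroup.mem_inf.2
          ⟨hw, by rw [← h1]; exact hzc⟩)
        simp [h4]
      have hxP : x ∈ ((a • P : Sylow p G) : Subgroup G) := (hHmap a ▸ hx.2).1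
      have hyP : y ∈ ((c • P : Sylow p G) : Subgroup G) := (hHmap c ▸ hy.2).1
      obtain ⟨S, hS1, hS2⟩ := exists_sylow_two (hproper _ hne)
        ((a • P : Sylow p G).isPGroup'.to_le (Subgroup.zpowers_le.2 hxP))
        ((c • P : Sylow p G).isPGroup'.to_le (Subgroup.zpowers_le.2 hyP))
        (Subgroup.zpowers_le.2 hx.1) (Subgroup.zpowers_le.2 hy.1)
      have e1 := huniq (hS1 (Subgroup.mem_zpowers x)) hxP (hnc hx.2 hx1)
      have e2 := huniq (hS2 (Subgroup.mem_zpowers y)) hyP (hnc hy.2 hy1)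
      rw [hHmap, hHmap, ← e1, ← e2]
    have hgen : ∀ M : Subgroup G, M.Normal → H ≤ M → M = ⊤ := by
      intro M hM hHM
      by_contra hMt
      exact hx₀1 (Subgroup.mem_bot.1 (hHZ ▸ Subgroup.mem_inf.2
        ⟨⟨hx₀P, hx₀G⟩, hnormal M hM hMt x₀ hx₀P (hHM ⟨hx₀P, hx₀G⟩)⟩))
    obtain ⟨m, -, he⟩ := H26.exists_nat_coeffs (χ := ρ.character) ⟨n, ρ, rfl⟩
    obtain ⟨χ, hχ, hχ1⟩ : ∃ χ, m χ ≠ 0 ∧ degOf χ ≠ 1 := by
      by_contra hall
      push Not at hall
      have hc := comm_of_linear_constituents hρ he hall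
      exact hP ⟨fun x hx g => by rwa [hc g x, mul_inv_cancel_right]⟩
    have hle : degOf χ ≤ n := by
      have h := Finset.single_le_sum (f := fun ψ : Cfsg.IrrCharacter G => m ψ * degOf ψ)
        (fun _ _ => Nat.zero_le _) (Finset.mem_univ χ)
      rw [sum_deg_eq he] at h
      exact le_trans (Nat.le_mul_of_pos_left _ (Nat.pos_of_ne_zero hχ)) h
    have hbound := card_lt_succ_degree_sq (H := H)
      (fun a ha c hc => hab P a ha.1 c hc.1) hHZ hone hgen χ hχ1
    have hbound' : Nat.card H < (n + 1) ^ 2 :=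
      lt_of_lt_of_le hbound (Nat.pow_le_pow_left (by omega) 2)
    obtain ⟨i, hi⟩ := (P.isPGroup'.to_le (inf_le_left : H ≤ P)).exists_card_eq
    have hi0 : i ≠ 0 := by
      rintro rfl
      rw [pow_zero] at hi
      exact hx₀1 (Subgroup.mem_bot.1 (Subgroup.eq_bot_of_card_eq H hi ▸
        (⟨hx₀P, hx₀G⟩ : x₀ ∈ H)))
    have hpH : p ≤ Nat.card H := hi ▸ Nat.le_self_pow hi0 p
    rcases hyp with h | ⟨-, h2⟩
    · omega
    · have htop : commutator G = ⊤ := hgen _ inferInstance inf_le_right
      have hHP : H = (P : Subgroup G) := by rw [hHdef, htop, inf_top_eq]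
      have hnd : ¬ p ^ 2 ∣ Nat.card (⊤ : Subgroup G) := by
        intro hd
        rw [Subgroup.card_top] at hd
        have h3 := Nat.le_of_dvd Nat.card_pos (P.pow_dvd_card_of_pow_dvd_card hd)
        rw [← hHP] at h3
        have h4 : (n + 1) ^ 2 ≤ p ^ 2 := Nat.pow_le_pow_left hn.le 2
        omega
      exact hP (sylow_normal_of_equiv Subgroup.topEquiv.symm (h2 ⊤ hnd) P)

end Main

end Cfsg.Agent.H39
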