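import Mathlib

/-!
# Eigen-projectors of an abelian subgroup inside a representation

The subgroup is given by a map `u` from a finite additive group, with a complete family of
characters.
-/

namespace Cfsg.Agent.H39

open Finset Module

variable {G : Type*} [Group G] {M : Type*} [AddCommGroup M] [Module ℂ M]
variable {A : Type*} [AddCommGroup A] [Fintype A] {I : Type*}

/-- The data of an abelian subgroup with a complete set of characters. -/
structure AbelData (G A I : Type*) [Group G] [AddCommGroup A] [Fintype A] [Fintype I] where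
  /-- The embedding. -/
  u : A → G
  u_add : ∀ a b, u (a + b) = u a * u b
  u_zero : u 0 = 1
  /-- The characters. -/
  χ : I → AddChar A ℂ
  inj : Function.Injective χ
  complete : ∀ a, a ≠ 0 → ∑ i, χ i a = 0
  card_eq : Fintype.card I = Fintype.card A

variable [Fintype I] (D : AbelData G A I) (ρ : Representation ℂ G M)

/-- The projector on the eigenspace of the `i`th character. -/
noncomputable def AbelData.proj (i : I) : Module.End ℂ M :=
  (Fintype.card A : ℂ)⁻¹ • ∑ a, D.χ i (-a) • ρ (D.u a)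

lemma AbelData.apply_mul_proj (i : I) (a : A) :
    ρ (D.u a) * D.proj ρ i = D.χ i a • D.proj ρ i := by
  simp only [AbelData.proj, mul_smul_comm, smul_comm (D.χ i a), Finset.mul_sum, Finset.smul_sum]
  refine Fintype.sum_equiv (Equiv.addLeft a) _ _ fun b => ?_
  rw [← map_mul, ← D.u_add, Equiv.coe_addLeft, smul_smul (D.χ i (-(a + b))),
    ← AddChar.map_add_eq_mul]
  congr 3
  simp [neg_add_rev]

lemma AbelData.proj_mul_proj [DecidableEq I] (i j : I) :
    D.proj ρ i * D.proj ρ j = if i = j then D.proj ρ j else 0 := by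
  conv_lhs => arg 1; rw [AbelData.proj]
  simp only [smul_mul_assoc, Finset.sum_mul, D.apply_mul_proj ρ, smul_smul, ← Finset.sum_smul]
  have : ∑ a, D.χ i (-a) * D.χ j a = if i = j then (Fintype.card A : ℂ) else 0 := by
    split_ifs with h
    · subst h
      simp [← AddChar.map_add_eq_mul]
    · have hne : (D.χ i)⁻¹ * D.χ j ≠ 1 := fun h1 => h (D.inj (inv_mul_eq_one.1 h1))
      simpa [AddChar.mul_apply, AddChar.inv_apply] using AddChar.sum_eq_zero_of_ne_one hne
  rw [this]
  split_ifs
  · rw [inv_mul_cancel₀ (Nat.cast_ne_zero.2 Fintype.card_ne_zero), one_smul]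
  · simp

lemma AbelData.sum_proj : ∑ i, D.proj ρ i = 1 := by
  classical
  simp only [AbelData.proj, ← Finset.smul_sum]
  rw [Finset.sum_comm]
  simp only [← Finset.sum_smul]
  rw [Finset.sum_eq_single 0]
  · simp [D.u_zero, D.card_eq, smul_smul, Fintype.card_ne_zero]
  · intro a _ ha
    rw [D.complete (-a) (neg_ne_zero.2 ha), zero_smul]
  · simp

lemma AbelData.apply_eq_sum (a : A) :
    ρ (D.u a) = ∑ i, D.χ i a • D.proj ρ i := by
  conv_lhs => rw [← mul_one (ρ (D.u a)), ← D.sum_proj ρ, Finset.mul_sum]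
  exact Finset.sum_congr rfl fun i _ => D.apply_mul_proj ρ i a

/-- Conjugation moves projectors as it moves characters. -/
lemma AbelData.comm_proj (g : G) (τ : A ≃ A) (hg : ∀ a, D.u (τ a) * g = g * D.u a)
    {i j : I} (hij : ∀ a, D.χ j (τ a) = D.χ i a) :
    ρ g * D.proj ρ i = D.proj ρ j * ρ g := by
  simp only [AbelData.proj, mul_smul_comm, smul_mul_assoc, Finset.mul_sum, Finset.sum_mul]
  congr 1
  refine Fintype.sum_equiv τ _ _ fun a => ?_
  rw [← map_mul, ← map_mul, hg]
  congr 1
  rw [AddChar.map_neg_eq_inv, AddChar.map_neg_eq_inv, hij]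

/-- The dimension of an eigenspace. -/
noncomputable def AbelData.dim (i : I) : ℕ := finrank ℂ (LinearMap.range (D.proj ρ i))

variable [FiniteDimensional ℂ M]

lemma AbelData.trace_proj (i : I) : LinearMap.trace ℂ M (D.proj ρ i) = D.dim ρ i := by
  classical
  refine LinearMap.IsProj.trace ⟨fun x => LinearMap.mem_range_self _ x, ?_⟩
  rintro _ ⟨y, rfl⟩
  have := LinearMap.congr_fun (D.proj_mul_proj ρ i i) y
  simpa using this

lemma AbelData.trace_apply (a : A) :
    LinearMap.trace ℂ M (ρ (D.u a)) = ∑ i, D.χ i a * D.dim ρ i := by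
  rw [D.apply_eq_sum, map_sum]
  simp [D.trace_proj]

lemma AbelData.sum_dim : ∑ i, D.dim ρ i = finrank ℂ M := by
  apply Nat.cast_injective (R := ℂ)
  rw [Nat.cast_sum, ← LinearMap.trace_one, ← D.sum_proj ρ, map_sum]
  simp [D.trace_proj]

lemma AbelData.trace_mul_proj_eq_zero {g : G} {i j : I}
    (h : ρ g * D.proj ρ i = D.proj ρ j * ρ g) (hne : i ≠ j) :
    LinearMap.trace ℂ M (ρ g * D.proj ρ i) = 0 := by
  classical
  have hp : D.proj ρ i * D.proj ρ i = D.proj ρ i := by simp [D.proj_mul_proj]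
  rw [← hp, ← mul_assoc, LinearMap.trace_mul_comm, h, ← mul_assoc, D.proj_mul_proj, if_neg hne]
  simp

/-- On a one-dimensional eigenspace an element preserving it acts by a scalar. -/
lemma AbelData.exists_scalar {g : G} {i : I} (h : ρ g * D.proj ρ i = D.proj ρ i * ρ g)
    (h1 : D.dim ρ i = 1) : ∃ c : ℂ, ρ g * D.proj ρ i = c • D.proj ρ i := by
  classical
  obtain ⟨⟨v, y, hy⟩, hv0, hspan⟩ := finrank_eq_one_iff'.1 h1
  subst hy
  obtain ⟨c, hc⟩ := hspan ⟨ρ g (D.proj ρ i y), ρ g y, by
    rw [← Module.End.mul_apply, ← h, Module.End.mul_apply]⟩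
  have hc' : ρ g (D.proj ρ i y) = c • D.proj ρ i y := (congrArg Subtype.val hc).symm
  refine ⟨c, LinearMap.ext fun x => ?_⟩
  obtain ⟨b, hb⟩ := hspan ⟨D.proj ρ i x, x, rfl⟩
  have hb' : D.proj ρ i x = b • D.proj ρ i y := (congrArg Subtype.val hb).symm
  rw [Module.End.mul_apply, LinearMap.smul_apply, hb', map_smul, hc', smul_comm]

end Cfsg.Agent.H39
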