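import Cfsg.Agent.H39.PiSection
import Cfsg.Agent.H40.PPart

/-!
# A Hall subgroup controlling fusion of elementary subgroups has a normal complement

Every irreducible character of `H` extends to `G` through the `π`-part; the extension is
irreducible, so the `π'`-elements form a subgroup.
-/

namespace Cfsg.Agent.H39

universe u

open ComplexConjugate

variable {G : Type u} [Group G] [Fintype G]

/-- Fibres of the orbit map of conjugation restricted to a subgroup. -/
lemma card_conj_mem_eq [DecidableEq G] (K : Subgroup G) [DecidablePred (· ∈ K)] (y : G)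
    (T : Finset G) (hT : ∀ z ∈ T, ∃ g ∈ K, g * y * g⁻¹ = z) :
    (Finset.univ.filter fun g : G => g ∈ K ∧ g * y * g⁻¹ ∈ T).card =
      T.card * Nat.card ↥(K ⊓ Subgroup.centralizer ({y} : Set G)) := by
  classical
  rw [Finset.card_eq_sum_card_fiberwise (f := fun g : G => g * y * g⁻¹) (t := T)
    (fun g hg => (Finset.mem_filter.1 hg).2.2), ← smul_eq_mul, ← Finset.sum_const]
  refine Finset.sum_congr rfl fun z hz => ?_
  obtain ⟨g₀, hg₀, rfl⟩ := hT z hz
  rw [Nat.card_eq_fintype_card, ← Finset.card_univ]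
  refine Finset.card_bij'
    (fun g hg => (⟨g₀⁻¹ * g, ?_⟩ : ↥(K ⊓ Subgroup.centralizer ({y} : Set G))))
    (fun c _ => g₀ * c.1) ?_ ?_ ?_ ?_
  · simp only [Finset.mem_filter, Finset.mem_univ, true_and] at hg
    refine Subgroup.mem_inf.2 ⟨mul_mem (inv_mem hg₀) hg.1.1, Subgroup.mem_centralizer_singleton_iff.2 ?_⟩
    calc g₀⁻¹ * g * y = g₀⁻¹ * (g * y * g⁻¹) * g := by group
      _ = y * (g₀⁻¹ * g) := by rw [hg.2]; group
  · intros; exact Finset.mem_univ _
  · intro c _
    have h := Subgroup.mem_centralizer_singleton_iff.1 c.2.2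
    have e : g₀ * c.1 * y * (g₀ * c.1)⁻¹ = g₀ * y * g₀⁻¹ := by
      calc g₀ * c.1 * y * (g₀ * c.1)⁻¹ = g₀ * (c.1 * y) * c.1⁻¹ * g₀⁻¹ := by group
        _ = g₀ * y * g₀⁻¹ := by rw [h]; group
    simp only [Finset.mem_filter, Finset.mem_univ, true_and, e]
    exact ⟨⟨mul_mem hg₀ c.2.1, hz⟩, trivial⟩
  · intros; simp
  · intros; simp

variable {H : Subgroup G} {k : ℕ}

omit [Fintype G] in
/-- A cyclic subgroup is commutative. -/
lemma zpowers_comm {v : G} (a b : Subgroup.zpowers v) : a * b = b * a := by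
  obtain ⟨i, hi⟩ := Subgroup.mem_zpowers_iff.1 a.2
  obtain ⟨j, hj⟩ := Subgroup.mem_zpowers_iff.1 b.2
  apply Subtype.ext
  rw [Subgroup.coe_mul, Subgroup.coe_mul, ← hi, ← hj, ← zpow_add, ← zpow_add, add_comm]

/-- The standing hypotheses. -/
structure BSSetup (H : Subgroup G) (k : ℕ) : Prop where
  hall : Nat.Coprime (Nat.card H) H.index
  fus : ∀ x ∈ H, ∀ y ∈ H, IsConj x y → ∃ h ∈ H, h * x * h⁻¹ = y
  elem : ∀ (E : Subgroup G) (p : ℕ), p.Prime → Cfsg.IsElementary p E →
    Nat.card E ∣ Nat.card H → ∃ g : G, E.map (MulAut.conj g).toMonoidHom ≤ H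
  k0 : H.index ∣ k
  k1 : k ≡ 1 [MOD Nat.card H]

namespace BSSetup

variable (S : BSSetup H k)

lemma card_eq (_S : BSSetup H k) : Nat.card G = H.index * Nat.card H := H.index_mul_card.symm

include S in
lemma pow_eq_self {y : G} (hy : y ∈ H) : y ^ k = y :=
  pow_partExp_of_dvd S.k1 (H.orderOf_dvd_natCard hy)

include S in
/-- A `π`-part has a conjugate in `H`. -/
lemma exists_conj_mem (x : G) : ∃ g : G, g * x ^ k * g⁻¹ ∈ H := by
  obtain ⟨p, hpge, hp⟩ := Nat.exists_infinite_primes (orderOf (x ^ k) + 1)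
  set v := x ^ k
  have hE : Cfsg.IsElementary p ↥(Subgroup.zpowers v) := by
    refine ⟨⟨v, Subgroup.mem_zpowers v⟩, Subgroup.mem_center_iff.2 fun w => zpowers_comm _ _, ?_, 0, ?_⟩
    · rw [Subgroup.orderOf_mk, Nat.coprime_comm, hp.coprime_iff_not_dvd]
      intro h
      have := Nat.le_of_dvd (orderOf_pos _) h
      omega
    · rw [pow_zero, Subgroup.index_eq_one, eq_top_iff]
      rintro ⟨w, hw⟩ _
      obtain ⟨i, rfl⟩ := Subgroup.mem_zpowers_iff.1 hw
      exact Subgroup.mem_zpowers_iff.2 ⟨i, Subtype.ext (by simp)⟩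
  obtain ⟨g, hg⟩ := S.elem _ p hp hE
    (Nat.card_zpowers v ▸ orderOf_pow_partExp_dvd S.card_eq S.k0 x)
  exact ⟨g, hg ⟨v, Subgroup.mem_zpowers v, rfl⟩⟩

/-- The number of elements with a given `π`-part. -/
noncomputable def fibre (_S : BSSetup H k) (y : G) : ℕ := Nat.card {x : G // x ^ k = y}

include S in
/-- The `π`-elements of `H` in `C(y)` form a Hall subgroup of `C(y)`. -/
lemma coprime_centralizer_index {y : G} (hy : y ∈ H) :
    Nat.Coprime ((H.subgroupOf (Subgroup.centralizer ({y} : Set G))).index) (Nat.card H) := by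
  classical
  set C := Subgroup.centralizer ({y} : Set G) with hC
  refine Nat.coprime_of_dvd fun q hq hqi hqH => ?_
  haveI : Fact q.Prime := ⟨hq⟩
  obtain ⟨P⟩ : Nonempty (Sylow q C) := inferInstance
  suffices hdvd : Nat.card P ∣ Nat.card (H.subgroupOf C) by
    obtain ⟨d, hd⟩ := hdvd
    apply P.not_dvd_index
    have h1 := (P : Subgroup C).card_mul_index
    have h2 := (H.subgroupOf C).card_mul_index
    rw [hd, mul_assoc, ← h1] at h2
    rw [← mul_left_cancel₀ Nat.card_pos.ne' h2]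
    exact hqi.trans (dvd_mul_left _ _)
  obtain ⟨a, ha⟩ := H40.exists_isPPart q y
  obtain ⟨j, hj⟩ := H40.exists_pow_eq_of_isPPart ha
  obtain ⟨s, has, hc, ⟨i, hai⟩, hs⟩ := ha
  have hcomm : ∀ c ∈ C, Commute c y := fun c hc => Subgroup.mem_centralizer_singleton_iff.1 hc
  have hca : ∀ c ∈ C, Commute c a := fun c hc => hj ▸ (hcomm c hc).pow_right j
  have hcs : ∀ c ∈ C, Commute c s := fun c hc => by
    rw [show s = a⁻¹ * y by rw [← has, inv_mul_cancel_left]]
    exact (hca c hc).inv_right.mul_right (hcomm c hc)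
  have haC : a ∈ C := Subgroup.mem_centralizer_singleton_iff.2
    (hj ▸ (Commute.refl y).pow_left j)
  have haP : (⟨a, haC⟩ : C) ∈ (P : Subgroup C) := by
    haveI : (Subgroup.zpowers (⟨a, haC⟩ : C)).Normal := ⟨fun w hw c => by
      obtain ⟨t, rfl⟩ := Subgroup.mem_zpowers_iff.1 hw
      have : Commute c (⟨a, haC⟩ : C) := Subtype.ext (hca c c.2)
      rwa [(this.zpow_right t).eq, mul_inv_cancel_right]⟩
    have hz : IsPGroup q (Subgroup.zpowers (⟨a, haC⟩ : C)) := IsPGroup.of_card (n := i)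
      (by rw [Nat.card_zpowers, ← Subgroup.orderOf_coe]; exact hai)
    have h1 := P.is_maximal' (IsPGroup.to_sup_of_normal_right P.isPGroup' hz)
      le_sup_left
    exact h1 ▸ Subgroup.mem_sup_right (Subgroup.mem_zpowers _)
  set P' : Subgroup G := (P : Subgroup C).map C.subtype with hP'
  have hP'C : P' ≤ C := Subgroup.map_subtype_le _
  have hcardP : Nat.card P' = Nat.card P :=
    Nat.card_congr ((P : Subgroup C).equivMapOfInjective _ C.subtype_injective).toEquiv.symm
  set f : Subgroup.zpowers s × P' →* G :=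
    (Subgroup.zpowers s).subtype.noncommCoprod P'.subtype fun z w => by
      obtain ⟨t, ht⟩ := Subgroup.mem_zpowers_iff.1 z.2
      simp only [Subgroup.coe_subtype, ← ht]
      exact ((hcs w.1 (hP'C w.2)).zpow_right t).symm with hf
  obtain ⟨r, hr⟩ := P.isPGroup'.exists_card_eq
  have hq' : ¬ q ∣ H.index := fun h =>
    hq.one_lt.ne' (Nat.eq_one_of_dvd_coprimes S.hall hqH h)
  have hPH : Nat.card P' ∣ Nat.card H := by
    rw [hcardP, hr]
    refine ((hq.coprime_iff_not_dvd.2 hq').pow_left r).dvd_of_dvd_mul_left ?_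
    rw [← S.card_eq, ← hr, ← hcardP]
    exact P'.card_subgroup_dvd_card
  have hsH : orderOf s ∣ Nat.card H := by
    refine dvd_trans ?_ (H.orderOf_dvd_natCard hy)
    have h1 : orderOf (a * s) = orderOf a * orderOf s :=
      hc.orderOf_mul_eq_mul_orderOf_of_coprime
        (hai ▸ (hq.coprime_iff_not_dvd.2 hs).pow_left i)
    rw [← has, h1]
    exact dvd_mul_left _ _
  have hcop : Nat.Coprime (orderOf s) q := (hq.coprime_iff_not_dvd.2 hs).symm
  have hX : Cfsg.IsElementary q (Subgroup.zpowers s × P') := by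
    refine ⟨(⟨s, Subgroup.mem_zpowers s⟩, 1), ?_, ?_, r, ?_⟩
    · exact Subgroup.mem_center_iff.2 fun w => Prod.ext (zpowers_comm _ _) (by simp)
    · simpa [Prod.orderOf, ← Subgroup.orderOf_coe] using hcop
    · have h1 := (Subgroup.zpowers
        ((⟨s, Subgroup.mem_zpowers s⟩, 1) : Subgroup.zpowers s × P')).card_mul_index
      rw [Nat.card_zpowers, Nat.card_prod, Nat.card_zpowers, hcardP, hr, Prod.orderOf,
        orderOf_one, Nat.lcm_one_right, ← Subgroup.orderOf_coe] at h1
      exact mul_left_cancel₀ (orderOf_pos s).ne' h1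
  have hdvd : Nat.card f.range ∣ Nat.card H := by
    refine (Subgroup.card_range_dvd f).trans ?_
    rw [Nat.card_prod, Nat.card_zpowers]
    exact (hcardP ▸ hr ▸ hcop.pow_right r).mul_dvd_of_dvd_of_dvd hsH hPH
  obtain ⟨g, hg⟩ := S.elem _ q hq (isElementary_range hq f hX) hdvd
  have hmem : ∀ w ∈ f.range, g * w * g⁻¹ ∈ H := fun w hw => hg ⟨w, hw, rfl⟩
  have hyR : y ∈ f.range := ⟨(⟨s, Subgroup.mem_zpowers s⟩, ⟨a, ⟨⟨a, haC⟩, haP, rfl⟩⟩), by
    rw [hf, MonoidHom.noncommCoprod_apply]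
    exact hc.eq.symm.trans has⟩
  obtain ⟨h, hh, he⟩ := S.fus y hy _ (hmem y hyR) (isConj_iff.2 ⟨g, rfl⟩)
  have hcC : h⁻¹ * g ∈ C := by
    refine Subgroup.mem_centralizer_singleton_iff.2 ?_
    calc h⁻¹ * g * y = h⁻¹ * (g * y * g⁻¹) * g := by group
      _ = y * (h⁻¹ * g) := by rw [← he]; group
  have hsub : (P : Subgroup C).map (MulAut.conj (⟨h⁻¹ * g, hcC⟩ : C)).toMonoidHom ≤
      H.subgroupOf C := by
    rintro _ ⟨w, hw, rfl⟩
    rw [Subgroup.mem_subgroupOf]
    have h1 : (w : G) ∈ f.range := ⟨(1, ⟨w.1, ⟨w, hw, rfl⟩⟩), by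
      simp [hf]⟩
    have h2 := mul_mem (mul_mem (inv_mem hh) (hmem _ h1)) hh
    simpa [mul_assoc] using h2
  rw [← Nat.card_congr ((P : Subgroup C).equivMapOfInjective
    (MulAut.conj (⟨h⁻¹ * g, hcC⟩ : C)).toMonoidHom
    (MulAut.conj (⟨h⁻¹ * g, hcC⟩ : C)).injective).toEquiv.symm]
  exact Subgroup.card_dvd_of_le hsub

include S in
/-- The weights are integers. -/
lemma exists_weight {y : G} (hy : y ∈ H) :
    ∃ w : ℕ, 0 < w ∧ S.fibre y * Nat.card ↥(H ⊓ Subgroup.centralizer ({y} : Set G)) =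
      w * Nat.card (Subgroup.centralizer ({y} : Set G)) := by
  classical
  set C := Subgroup.centralizer ({y} : Set G) with hC
  have hcard : Nat.card ↥(H ⊓ C) = Nat.card (H.subgroupOf C) := by
    rw [← Subgroup.inf_subgroupOf_right]
    exact (Nat.card_congr (Subgroup.subgroupOfEquivOfLe inf_le_right).toEquiv).symm
  have hcop := S.coprime_centralizer_index hy
  have hmn : Nat.card C = (H.subgroupOf C).index * Nat.card (H.subgroupOf C) :=
    (H.subgroupOf C).index_mul_card.symm
  have hdH : Nat.card (H.subgroupOf C) ∣ Nat.card H :=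
    hcard ▸ Subgroup.card_dvd_of_le inf_le_left
  have hk0 : (H.subgroupOf C).index ∣ k := by
    refine dvd_trans ?_ S.k0
    refine hcop.dvd_of_dvd_mul_right ?_
    rw [← S.card_eq]
    exact ((H.subgroupOf C).index_dvd_card).trans C.card_subgroup_dvd_card
  have h1 := (section_mem_coeffSpan hmn (hcop.coprime_dvd_right hdH) hk0
    (S.k1.of_dvd hdH) 1).2 (H26.oneIrr C)
  have hfib : S.fibre y = (Finset.univ.filter fun u : C => IsConj (u ^ k) 1).card := by
    rw [fibre, ← Fintype.card_subtype, Nat.card_eq_fintype_card]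
    have hyk := S.pow_eq_self hy
    refine Fintype.card_congr
      { toFun := fun x => ⟨⟨x.1 * y⁻¹, ?_⟩, ?_⟩
        invFun := fun u => ⟨u.1.1 * y, ?_⟩
        left_inv := fun x => by simp
        right_inv := fun u => by simp }
    · have hcx : Commute x.1 y := by
        have := (Commute.refl x.1).pow_right k
        rwa [x.2] at this
      exact Subgroup.mem_centralizer_singleton_iff.2
        ((hcx.mul_left (Commute.refl y).inv_left).eq)
    · have hcx : Commute x.1 y := by
        have := (Commute.refl x.1).pow_right k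
        rwa [x.2] at this
      rw [isConj_one_left]
      apply Subtype.ext
      simp [hcx.inv_right.mul_pow, x.2, hyk]
    · have hu : u.1.1 ^ k = 1 := by
        have := u.2
        rw [isConj_one_left] at this
        simpa using congrArg Subtype.val this
      have hcu : Commute u.1.1 y := Subgroup.mem_centralizer_singleton_iff.1 u.1.2
      rw [hcu.mul_pow, hu, one_mul, hyk]
  have h2 : Nat.card C ∣ Nat.card (H.subgroupOf C) * S.fibre y := by
    refine H25.dvd_of_isIntegral_div Nat.card_pos.ne' ?_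
    have h3 := mem_intRing.1 h1
    unfold Cfsg.classInner at h3
    simp only [H26.oneIrr_val, map_one, mul_one] at h3
    rw [Nat.cast_mul, div_eq_inv_mul]
    convert h3 using 2
    rw [hfib, Finset.card_filter, Nat.cast_sum, Finset.mul_sum]
    refine Finset.sum_congr rfl fun u _ => ?_
    by_cases hu : IsConj (u ^ k) 1 <;> simp [hu]
  obtain ⟨w, hw⟩ := h2
  refine ⟨w, ?_, by rw [hcard, mul_comm, hw, mul_comm]⟩
  have : 0 < S.fibre y :=
    Nat.card_pos_iff.2 ⟨⟨⟨y, S.pow_eq_self hy⟩⟩, inferInstance⟩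
  rcases Nat.eq_zero_or_pos w with rfl | h
  · have h4 := Nat.mul_pos (Nat.card_pos (α := H.subgroupOf C)) this
    rw [hw] at h4
    omega
  · exact h

/-- The weight of an element of `H`. -/
noncomputable def weight (y : H) : ℕ := (S.exists_weight y.2).choose

lemma weight_pos (y : H) : 0 < S.weight y := (S.exists_weight y.2).choose_spec.1

lemma weight_spec (y : H) :
    S.fibre y * Nat.card ↥(H ⊓ Subgroup.centralizer ({(y : G)} : Set G)) =
      S.weight y * Nat.card (Subgroup.centralizer ({(y : G)} : Set G)) :=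
  (S.exists_weight y.2).choose_spec.2

/-- Number of conjugators into `H`. -/
noncomputable def intoH (_S : BSSetup H k) (v : G) : ℕ := Nat.card {g : G // g * v * g⁻¹ ∈ H}

include S in
lemma intoH_mul {y : G} (hy : y ∈ H) :
    S.intoH y * Nat.card ↥(H ⊓ Subgroup.centralizer ({y} : Set G)) =
      Nat.card H * Nat.card (Subgroup.centralizer ({y} : Set G)) := by
  classical
  set T : Finset G := Finset.univ.image fun h : H => (h : G) * y * (h : G)⁻¹
  have hT : ∀ z ∈ T, ∃ g ∈ H, g * y * g⁻¹ = z := by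
    intro z hz
    obtain ⟨h, _, rfl⟩ := Finset.mem_image.1 hz
    exact ⟨h, h.2, rfl⟩
  have e1 := card_conj_mem_eq (⊤ : Subgroup G) y T
    (fun z hz => by obtain ⟨g, _, e⟩ := hT z hz; exact ⟨g, Subgroup.mem_top g, e⟩)
  have e2 := card_conj_mem_eq H y T hT
  have h1 : (Finset.univ.filter fun g : G => g ∈ (⊤ : Subgroup G) ∧ g * y * g⁻¹ ∈ T).card =
      S.intoH y := by
    rw [intoH, Nat.card_eq_fintype_card, Fintype.card_subtype]
    congr 1
    ext g
    simp only [Finset.mem_filter, Finset.mem_univ, true_and, Subgroup.mem_top]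
    constructor
    · intro hg
      obtain ⟨h, hh, e⟩ := hT _ hg
      exact e ▸ mul_mem (mul_mem hh hy) (inv_mem hh)
    · intro hg
      obtain ⟨h, hh, e⟩ := S.fus y hy _ hg (isConj_iff.2 ⟨g, rfl⟩)
      exact Finset.mem_image.2 ⟨⟨h, hh⟩, Finset.mem_univ _, e⟩
  have h2 : (Finset.univ.filter fun g : G => g ∈ H ∧ g * y * g⁻¹ ∈ T).card = Nat.card H := by
    rw [Nat.card_eq_fintype_card, Fintype.card_subtype]
    congr 1
    ext g
    simp only [Finset.mem_filter, Finset.mem_univ, true_and]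
    exact ⟨fun h => h.1, fun h => ⟨h, Finset.mem_image.2 ⟨⟨g, h⟩, Finset.mem_univ _, rfl⟩⟩⟩
  rw [h1, top_inf_eq] at e1
  rw [h2] at e2
  rw [e1, e2]
  ring

include S in
/-- Averaging a class function over `π`-parts. -/
lemma sum_pow [Fintype H] (F : G → ℂ) (hF : Cfsg.IsClassFunction G F) :
    (Nat.card H : ℂ) * ∑ x : G, F (x ^ k) =
      (Nat.card G : ℂ) * ∑ y : H, (S.weight y : ℂ) * F y := by
  classical
  have hinv : ∀ g v : G, S.intoH (g * v * g⁻¹) = S.intoH v := fun g v =>
    Nat.card_congr (Equiv.subtypeEquiv (Equiv.mulRight g) fun w => by simp [mul_assoc])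
  set Φ : G → ℂ := fun v => F v / (S.intoH v : ℂ)
  have hΦ : ∀ g v : G, Φ (g * v * g⁻¹) = Φ v := fun g v => by simp only [Φ, hF v g, hinv g v]
  have step1 : ∑ x : G, F (x ^ k) =
      ∑ x : G, ∑ g : G, if g * x ^ k * g⁻¹ ∈ H then Φ (g * x ^ k * g⁻¹) else 0 := by
    refine Finset.sum_congr rfl fun x _ => ?_
    have hne : (S.intoH (x ^ k) : ℂ) ≠ 0 := by
      obtain ⟨g, hg⟩ := S.exists_conj_mem x
      exact Nat.cast_ne_zero.2 (Nat.card_pos_iff.2 ⟨⟨⟨g, hg⟩⟩, inferInstance⟩).ne'
    simp only [hΦ, ← Finset.sum_filter, Finset.sum_const, nsmul_eq_mul]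
    rw [← Fintype.card_subtype, ← Nat.card_eq_fintype_card]
    exact (mul_div_cancel₀ _ hne).symm
  have step2 : ∀ g : G, (∑ x : G, if g * x ^ k * g⁻¹ ∈ H then Φ (g * x ^ k * g⁻¹) else 0) =
      ∑ x : G, if x ^ k ∈ H then Φ (x ^ k) else 0 := fun g =>
    Fintype.sum_equiv (MulAut.conj g).toEquiv _ _ fun x => by simp [conj_pow]
  rw [step1, Finset.sum_comm, Finset.sum_congr rfl fun g _ => step2 g, Finset.sum_const,
    Finset.card_univ, nsmul_eq_mul, ← Nat.card_eq_fintype_card]
  have step3 : (∑ x : G, if x ^ k ∈ H then Φ (x ^ k) else 0) =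
      ∑ y : H, (S.fibre y : ℂ) * Φ y := by
    rw [← Finset.sum_filter, ← Finset.sum_fiberwise_of_maps_to (g := fun x : G => x ^ k)
      (t := Finset.univ.filter (· ∈ H)) (fun x hx => by simpa using hx),
      Finset.sum_subtype (p := (· ∈ H)) _ (by simp)]
    refine Finset.sum_congr rfl fun y _ => ?_
    rw [Finset.sum_congr rfl fun x hx => by rw [(Finset.mem_filter.1 hx).2], Finset.sum_const,
      nsmul_eq_mul, fibre, Nat.card_eq_fintype_card, Fintype.card_subtype]
    congr 3
    ext x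
    simp only [Finset.mem_filter, Finset.mem_univ, true_and]
    exact ⟨fun h => h.2, fun h => ⟨h ▸ y.2, h⟩⟩
  rw [step3, ← mul_assoc, mul_comm (Nat.card H : ℂ), mul_assoc, Finset.mul_sum]
  congr 1
  refine Finset.sum_congr rfl fun y _ => ?_
  have h1 : (S.intoH y : ℂ) * Nat.card ↥(H ⊓ Subgroup.centralizer ({(y : G)} : Set G)) =
      (Nat.card H : ℂ) * Nat.card (Subgroup.centralizer ({(y : G)} : Set G)) := by
    exact_mod_cast S.intoH_mul y.2
  have h2 : (S.fibre y : ℂ) * Nat.card ↥(H ⊓ Subgroup.centralizer ({(y : G)} : Set G)) =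
      (S.weight y : ℂ) * Nat.card (Subgroup.centralizer ({(y : G)} : Set G)) := by
    exact_mod_cast S.weight_spec y
  have hC : (Nat.card ↥(H ⊓ Subgroup.centralizer ({(y : G)} : Set G)) : ℂ) ≠ 0 :=
    Nat.cast_ne_zero.2 Nat.card_pos.ne'
  have hA : (S.intoH y : ℂ) ≠ 0 :=
    Nat.cast_ne_zero.2 (Nat.card_pos_iff.2 ⟨⟨⟨1, by simp⟩⟩, inferInstance⟩).ne'
  simp only [Φ]
  field_simp
  apply mul_left_cancel₀ hC
  linear_combination ((Nat.card H : ℂ) * F y) * h2 - ((S.weight y : ℂ) * F y) * h1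

include S in
lemma weight_eq_one [Fintype H] (y : H) : S.weight y = 1 := by
  classical
  have h := S.sum_pow (fun _ => 1) (fun _ _ => rfl)
  simp only [mul_one, Finset.sum_const, Finset.card_univ, nsmul_eq_mul] at h
  rw [← Nat.card_eq_fintype_card, mul_comm] at h
  have h' : ∑ y : H, S.weight y = ∑ _y : H, 1 := by
    have h1 : ((∑ y : H, S.weight y : ℕ) : ℂ) = (Nat.card H : ℂ) := by
      push_cast
      exact (mul_left_cancel₀ (Nat.cast_ne_zero.2 Nat.card_pos.ne') h).symm
    rw [Nat.cast_inj.1 h1]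
    simp
  exact ((Finset.sum_eq_sum_iff_of_le fun y _ => S.weight_pos y).1 h'.symm y
    (Finset.mem_univ y)).symm

open Classical in
/-- The transported function: at `v` the value at a conjugate of `v` in `H`. -/
noncomputable def transport (_S : BSSetup H k) (θ : H → ℂ) (v : G) : ℂ :=
  if h : ∃ g : G, g * v * g⁻¹ ∈ H then θ ⟨_, h.choose_spec⟩ else 0

include S in
lemma transport_eq {θ : H → ℂ} (hθ : Cfsg.IsClassFunction H θ) {v : G} (w : H)
    (hw : IsConj v w) : S.transport θ v = θ w := by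
  obtain ⟨g, hg⟩ := isConj_iff.1 hw
  have hex : ∃ g : G, g * v * g⁻¹ ∈ H := ⟨g, hg ▸ w.2⟩
  rw [transport, dif_pos hex]
  obtain ⟨h, hh, he⟩ := S.fus w.1 w.2 _ hex.choose_spec
    ((hw.symm.trans (isConj_iff.2 ⟨hex.choose, rfl⟩)))
  have := hθ w ⟨h, hh⟩
  rw [← this]
  exact congrArg θ (Subtype.ext he.symm)

include S in
lemma isClassFunction_transport {θ : H → ℂ} (hθ : Cfsg.IsClassFunction H θ) :
    Cfsg.IsClassFunction G (S.transport θ) := by
  intro v g
  have hc : IsConj v (g * v * g⁻¹) := isConj_iff.2 ⟨g, rfl⟩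
  by_cases h : ∃ c : G, c * v * c⁻¹ ∈ H
  · obtain ⟨c, hcm⟩ := h
    rw [S.transport_eq hθ ⟨_, hcm⟩ (isConj_iff.2 ⟨c, rfl⟩),
      S.transport_eq hθ ⟨_, hcm⟩ (hc.symm.trans (isConj_iff.2 ⟨c, rfl⟩))]
  · have h' : ¬ ∃ c : G, c * (g * v * g⁻¹) * c⁻¹ ∈ H := fun ⟨c, hcm⟩ =>
      h ⟨c * g, by simpa [mul_assoc] using hcm⟩
    rw [transport, transport, dif_neg h, dif_neg h']

/-- The extension of a class function of `H` to `G`. -/
noncomputable def ext' (θ : H → ℂ) (x : G) : ℂ := S.transport θ (x ^ k)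

include S in
lemma classInner_ext {θ : H → ℂ} (hθ : Cfsg.IsClassFunction H θ) [Fintype H] :
    Cfsg.classInner (S.ext' θ) (S.ext' θ) = Cfsg.classInner θ θ := by
  have h := S.sum_pow (fun v => S.transport θ v * conj (S.transport θ v))
    (fun v g => by simp only [S.isClassFunction_transport hθ v g])
  have e : ∀ y : H, S.transport θ y = θ y := fun y => S.transport_eq hθ y (IsConj.refl _)
  simp only [S.weight_eq_one, e, Nat.cast_one, one_mul] at h
  unfold Cfsg.classInner ext'
  have hH : (Nat.card H : ℂ) ≠ 0 := Nat.cast_ne_zero.2 Nat.card_pos.ne'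
  have hG : (Nat.card G : ℂ) ≠ 0 := Nat.cast_ne_zero.2 Nat.card_pos.ne'
  field_simp
  linear_combination h

include S in
lemma ext_mem_coeffSpan [Fintype H] {θ : H → ℂ} (hθ : Cfsg.IsCharacter H θ) :
    S.ext' θ ∈ coeffSpan (⊥ : Subring ℂ) G := by
  have hcl := H26.isClassFunction_of_isCharacter hθ
  refine classFun_induction_elementary G _ _ (fun x g => ?_) fun E p φ hp hE => ?_
  · simp only [ext', conj_pow]
    exact S.isClassFunction_transport hcl _ _
  have hcard : Nat.card E ∣ H.index * Nat.card H := S.card_eq ▸ E.card_subgroup_dvd_card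
  obtain ⟨π, hπ⟩ := exists_powHom hp hE hcard S.hall.symm S.k0 S.k1
  have hdvd : Nat.card (E.subtype.comp π).range ∣ Nat.card H := by
    rw [MonoidHom.range_comp]
    exact (Subgroup.card_map_dvd _ _).trans (card_range_powHom_dvd hcard S.hall.symm S.k0 π hπ)
  obtain ⟨g, hg⟩ := S.elem _ p hp (isElementary_range hp _ hE) hdvd
  let ι : E →* H := ((MulAut.conj g).toMonoidHom.comp (E.subtype.comp π)).codRestrict H
    fun e => hg ⟨_, ⟨e, rfl⟩, rfl⟩
  have h1 := indFun_pullback_mem E φ ι (char_mem_coeffSpan (S := (⊥ : Subring ℂ)) hθ)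
  refine Eq.mp ?_ h1
  congr 2
  funext e
  congr 1
  refine (S.transport_eq hcl (ι e) (isConj_iff.2 ⟨g, ?_⟩)).symm
  show _ = g * ((π e : E) : G) * g⁻¹
  rw [hπ]
  simp

include S in
/-- The extension of an irreducible character is a character. -/
lemma isCharacter_ext [Fintype H] (θ : Cfsg.IrrCharacter H) :
    Cfsg.IsCharacter G (S.ext' θ.1) := by
  classical
  obtain ⟨hcl, hc⟩ := S.ext_mem_coeffSpan (H26.irr_isCharacter θ)
  choose z hz using fun χ => Subring.mem_bot.1 (hc χ)
  have hnorm : ∑ χ : Cfsg.IrrCharacter G, z χ * z χ = 1 := by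
    have h1 := H26.classInner_eq_sum (S.ext' θ.1) (S.ext' θ.1) hcl
    rw [S.classInner_ext (H26.irr_isClassFunction θ), H26.classInner_irr, if_pos rfl] at h1
    simp only [← hz, map_intCast] at h1
    exact_mod_cast h1.symm
  obtain ⟨χ₀, hχ₀⟩ : ∃ χ, z χ ≠ 0 := by
    by_contra h
    push Not at h
    simp [h] at hnorm
  have hother : ∀ χ, χ ≠ χ₀ → z χ = 0 := by
    intro χ hne
    by_contra h
    have h1 : z χ₀ * z χ₀ + z χ * z χ ≤ 1 := by
      rw [← hnorm, ← Finset.sum_pair (f := fun t => z t * z t) hne.symm]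
      exact Finset.sum_le_sum_of_subset_of_nonneg (Finset.subset_univ _)
        fun t _ _ => mul_self_nonneg _
    nlinarith [mul_self_pos.2 h, mul_self_pos.2 hχ₀]
  have he : S.ext' θ.1 = (z χ₀ : ℂ) • χ₀.1 := by
    conv_lhs => rw [H26.class_function_expansion _ hcl]
    rw [Finset.sum_eq_single χ₀ (fun χ _ hne => by simp [← hz, hother χ hne]) (by simp), ← hz]
  have h1 := congrFun he 1
  obtain ⟨a, ha⟩ := H26.exists_nat_char_one (H26.irr_isCharacter θ)
  obtain ⟨b, hb⟩ := H26.exists_nat_char_one (H26.irr_isCharacter χ₀)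
  simp only [ext', one_pow, Pi.smul_apply, smul_eq_mul] at h1
  rw [S.transport_eq (H26.irr_isClassFunction θ) (1 : H) (by simp), ha, hb] at h1
  have h2 : (a : ℤ) = z χ₀ * b := by exact_mod_cast h1
  have hz1 : z χ₀ = 1 := by
    have h3 : z χ₀ * z χ₀ = 1 := by
      rw [← hnorm, Finset.sum_eq_single χ₀ (fun χ _ hne => by simp [hother χ hne]) (by simp)]
    have ha0 : a ≠ 0 := by
      rintro rfl
      exact H26.irr_one_ne_zero θ (by simpa using ha)
    rcases mul_self_eq_one_iff.1 h3 with h | h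
    · exact h
    · rw [h] at h2; omega
  rw [he, hz1, Int.cast_one, one_smul]
  exact H26.irr_isCharacter χ₀

include S in
/-- The `π'`-elements are closed under multiplication. -/
lemma pow_mul_eq_one [Fintype H] {x y : G} (hx : x ^ k = 1) (hy : y ^ k = 1) :
    (x * y) ^ k = 1 := by
  classical
  obtain ⟨g, hg⟩ := S.exists_conj_mem (x * y)
  have key : IsConj (⟨_, hg⟩ : H) 1 := by
    rw [H26.isConj_iff_forall_irr]
    intro θ
    obtain ⟨d, ρ, hρ⟩ := S.isCharacter_ext θ
    have hval : ∀ w : G, w ^ k = 1 → ρ w = LinearMap.id := by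
      intro w hw
      rw [← H25.char_eq_degree_iff, ← ρ.char_one, hρ]
      simp only [ext', hw, one_pow]
    have hxy : ρ.character (x * y) = ρ.character 1 := by
      have e : ρ (x * y) = ρ 1 := by
        rw [map_mul, hval x hx, hval y hy, hval 1 (one_pow k)]
        rfl
      simp only [Representation.character, e]
    rw [hρ] at hxy
    have hcl := H26.irr_isClassFunction θ
    calc θ.1 ⟨_, hg⟩ = S.transport θ.1 ((x * y) ^ k) :=
          (S.transport_eq hcl ⟨_, hg⟩ (isConj_iff.2 ⟨g, rfl⟩)).symm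
      _ = S.transport θ.1 ((1 : G) ^ k) := hxy
      _ = θ.1 1 := S.transport_eq hcl 1 (by simp)
  have h1 := congrArg Subtype.val (isConj_one_left.1 key)
  simpa [conj_eq_one_iff] using h1

include S in
/-- The normal complement. -/
theorem exists_normal_complement : ∃ K : Subgroup G, K.Normal ∧ K ⊔ H = ⊤ ∧ K ⊓ H = ⊥ := by
  classical
  let K : Subgroup G :=
    { carrier := {x | x ^ k = 1}
      mul_mem' := fun hx hy => S.pow_mul_eq_one hx hy
      one_mem' := one_pow k
      inv_mem' := fun {x} hx => by simpa using hx }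
  have hK : ∀ x, x ∈ K ↔ x ^ k = 1 := fun x => Iff.rfl
  have hdis : K ⊓ H = ⊥ := by
    rw [eq_bot_iff]
    rintro x ⟨hxK, hxH⟩
    exact Subgroup.mem_bot.2 ((S.pow_eq_self hxH).symm.trans ((hK x).1 hxK))
  refine ⟨K, ⟨fun x hx g => ?_⟩, ?_, hdis⟩
  · rw [hK] at hx ⊢
    rw [conj_pow, hx, mul_one, mul_inv_cancel]
  · have hcard : Nat.card K * Nat.card H = Nat.card G := by
      have h := S.weight_spec 1
      have htop : Subgroup.centralizer ({((1 : H) : G)} : Set G) = ⊤ := by
        rw [eq_top_iff]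
        intro g _
        exact Subgroup.mem_centralizer_singleton_iff.2 (by simp)
      rw [htop, inf_top_eq, S.weight_eq_one, one_mul, Subgroup.card_top] at h
      rw [← h]
      congr 1
    exact (Subgroup.isComplement'_of_card_mul_and_disjoint hcard
      (disjoint_iff.2 hdis)).sup_eq_top

end BSSetup

end Cfsg.Agent.H39
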