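import Mathlib
import Cfsg.Agent.H3.Field
import Cfsg.Agent.H39.SiegelOrbit

/-!
# Congruence orbits of Hermitian matrices over a field with `q ^ 2` elements

A non-zero Hermitian matrix has at least `(q^(2m) - 1) / (q + 1)` congruent ones, already under
matrices of determinant one when `m ≥ 2`.
-/

namespace Cfsg.Agent.H39

open Matrix Finset

variable {F : Type*} [Field F] {m : ℕ} {σ : F →+* F}

/-- Conjugate transpose with respect to `σ`. -/
def cT (σ : F →+* F) {α β : Type*} (M : Matrix α β F) : Matrix β α F := (M.map σ)ᵀ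

lemma cT_apply {α β : Type*} (M : Matrix α β F) (i : α) (j : β) : cT σ M j i = σ (M i j) := rfl

lemma cT_mul {α β γ : Type*} [Fintype β] (M : Matrix α β F) (N : Matrix β γ F) :
    cT σ (M * N) = cT σ N * cT σ M := by simp [cT, Matrix.map_mul, transpose_mul]

lemma cT_add {α β : Type*} (M N : Matrix α β F) : cT σ (M + N) = cT σ M + cT σ N := by
  ext i j; simp [cT]

lemma cT_sub {α β : Type*} (M N : Matrix α β F) : cT σ (M - N) = cT σ M - cT σ N := by
  ext i j; simp [cT]

lemma cT_one {α : Type*} [DecidableEq α] : cT σ (1 : Matrix α α F) = 1 := by simp [cT]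

lemma cT_smul {α β : Type*} (c : F) (M : Matrix α β F) : cT σ (c • M) = σ c • cT σ M := by
  ext i j; simp [cT]

lemma cT_cT (hσ : ∀ x, σ (σ x) = x) {α β : Type*} (M : Matrix α β F) : cT σ (cT σ M) = M := by
  ext i j; simp [cT, hσ]

lemma det_cT {α : Type*} [Fintype α] [DecidableEq α] (M : Matrix α α F) :
    (cT σ M).det = σ M.det := by
  rw [cT, det_transpose, RingHom.map_det]
  rfl

lemma cT_mulVec_dot {α β : Type*} [Fintype α] [Fintype β] (M : Matrix α β F) (x : β → F)
    (y : α → F) : (σ ∘ x) ⬝ᵥ (cT σ M *ᵥ y) = (σ ∘ (M *ᵥ x)) ⬝ᵥ y := by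
  rw [cT, dotProduct_mulVec, vecMul_transpose]
  congr 1
  funext i
  simp [mulVec, dotProduct]

lemma conj_dot (hσ : ∀ x, σ (σ x) = x) {α : Type*} [Fintype α] (x y : α → F) :
    σ ((σ ∘ x) ⬝ᵥ y) = (σ ∘ y) ⬝ᵥ x := by
  simp [dotProduct, map_sum, hσ, mul_comm]

/-- Being Hermitian. -/
def IsHermM (σ : F →+* F) {α : Type*} (T : Matrix α α F) : Prop := cT σ T = T

/-- The value of the sesquilinear form of `T` on a vector. -/
def hermVal (σ : F →+* F) (T : Matrix (Fin m) (Fin m) F) (x : Fin m → F) : F :=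
  (σ ∘ x) ⬝ᵥ (T *ᵥ x)

lemma hermVal_congr (T A : Matrix (Fin m) (Fin m) F) (x : Fin m → F) :
    hermVal σ (cT σ A * T * A) x = hermVal σ T (A *ᵥ x) := by
  rw [hermVal, hermVal, ← mulVec_mulVec, ← mulVec_mulVec, cT_mulVec_dot]

lemma IsHermM.dot_swap (hσ : ∀ x, σ (σ x) = x) {T : Matrix (Fin m) (Fin m) F}
    (hT : IsHermM σ T) (x y : Fin m → F) :
    σ ((σ ∘ x) ⬝ᵥ (T *ᵥ y)) = (σ ∘ y) ⬝ᵥ (T *ᵥ x) := by
  rw [conj_dot hσ, ← cT_mulVec_dot, hT]

/-- A Hermitian matrix which is not zero has an anisotropic vector. -/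
lemma exists_hermVal_ne_zero (hσ : ∀ x, σ (σ x) = x) {t : F} (ht : t + σ t ≠ 0)
    {T : Matrix (Fin m) (Fin m) F} (hT : IsHermM σ T) (h0 : T ≠ 0) :
    ∃ v, hermVal σ T v ≠ 0 := by
  by_contra h
  push Not at h
  apply h0
  have hb : ∀ x y, (σ ∘ x) ⬝ᵥ (T *ᵥ y) + (σ ∘ y) ⬝ᵥ (T *ᵥ x) = 0 := by
    intro x y
    have hxy := h (x + y)
    have hx := h x
    have hy := h y
    simp only [hermVal] at hxy hx hy
    rw [show σ ∘ (x + y) = σ ∘ x + σ ∘ y from funext fun i => map_add σ _ _, mulVec_add] at hxy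
    simp only [add_dotProduct, dotProduct_add, hx, hy] at hxy
    linear_combination hxy
  ext i j
  by_contra hij
  simp only [Matrix.zero_apply] at hij
  have hji : T j i = σ (T i j) := by
    have := congrFun (congrFun hT j) i
    rw [cT_apply] at this
    exact this.symm
  have := hb (Pi.single i 1) ((t / T i j) • Pi.single j 1)
  rw [show σ ∘ ((t / T i j) • Pi.single j (1 : F)) = σ (t / T i j) • Pi.single j 1 from
      funext fun k => by by_cases hk : k = j <;> simp [hk],
    show σ ∘ (Pi.single i (1 : F)) = Pi.single i 1 from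
      funext fun k => by by_cases hk : k = i <;> simp [hk]] at this
  simp only [mulVec_smul, dotProduct_smul, smul_dotProduct, mulVec_single_one, single_one_dotProduct,
    col_apply, smul_eq_mul, hji, ← map_mul, div_mul_cancel₀ t hij] at this
  exact ht this

/-- A matrix with prescribed image of one vector, of determinant one if `m ≥ 2`. -/
lemma exists_unit_mulVec {e v : Fin m → F} (he : e ≠ 0) (hv : v ≠ 0) :
    ∃ A : Matrix (Fin m) (Fin m) F, IsUnit A ∧ A *ᵥ e = v ∧ (2 ≤ m → A.det = 1) := by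
  obtain ⟨φ, hφe, hφv⟩ := exists_dot_ne_zero_pair he hv
  set A₀ := rankOneAdd ((φ ⬝ᵥ e)⁻¹ • φ) (v - e) with hA₀
  have h1 : ((φ ⬝ᵥ e)⁻¹ • φ) ⬝ᵥ e = 1 := by simp [smul_dotProduct, hφe]
  have hA₀u : IsUnit A₀ := isUnit_rankOneAdd _ _ (by
    rw [dotProduct_sub, h1, smul_dotProduct, smul_eq_mul, add_sub_cancel]
    exact mul_ne_zero (inv_ne_zero hφe) hφv)
  have hA₀e : A₀ *ᵥ e = v := by rw [hA₀, rankOneAdd_mulVec, h1, one_smul, add_sub_cancel]
  by_cases hm : 2 ≤ m
  swap
  · exact ⟨A₀, hA₀u, hA₀e, fun h => absurd h hm⟩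
  obtain ⟨χ, hχ0, hχv⟩ : ∃ χ : Fin m → F, χ ≠ 0 ∧ χ ⬝ᵥ v = 0 := by
    obtain ⟨i, hi⟩ := Function.ne_iff.1 hv
    simp only [Pi.zero_apply] at hi
    haveI : Nontrivial (Fin m) := Fin.nontrivial_iff_two_le.2 hm
    obtain ⟨j, hj⟩ := exists_ne i
    refine ⟨Pi.single j (v i) - Pi.single i (v j), fun h => hi ?_, ?_⟩
    · simpa [hj, hj.symm] using congrFun h j
    · simp [sub_dotProduct, mul_comm]
  obtain ⟨i, hi⟩ := Function.ne_iff.1 hχ0
  simp only [Pi.zero_apply] at hi
  have hd0 : A₀.det ≠ 0 := ((Matrix.isUnit_iff_isUnit_det A₀).1 hA₀u).ne_zero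
  set C := rankOneAdd χ (Pi.single i ((A₀.det⁻¹ - 1) / χ i)) with hC
  have hCdet : C.det = A₀.det⁻¹ := by
    rw [hC, rankOneAdd, vecMulVec_eq Unit, det_one_add_replicateCol_mul_replicateRow,
      dotProduct_single, mul_div_cancel₀ _ hi, add_sub_cancel]
  have hdet : (C * A₀).det = 1 := by rw [det_mul, hCdet, inv_mul_cancel₀ hd0]
  refine ⟨C * A₀, (Matrix.isUnit_iff_isUnit_det _).2 (by rw [hdet]; exact isUnit_one), ?_,
    fun _ => hdet⟩
  rw [← mulVec_mulVec, hA₀e, hC, rankOneAdd_mulVec, hχv, zero_smul, add_zero]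

variable [Fintype F] [DecidableEq F] {q : ℕ}

/-- The congruence class, using matrices of determinant one unless `any` holds. -/
noncomputable def hermOrbit (σ : F →+* F) (free : Prop) (T : Matrix (Fin m) (Fin m) F) :
    Finset (Matrix (Fin m) (Fin m) F) := by
  classical
  exact (univ.filter fun A : Matrix (Fin m) (Fin m) F => IsUnit A ∧ (free ∨ A.det = 1)).image
    fun A => cT σ A * T * A

lemma mem_hermOrbit {free : Prop} {T T' : Matrix (Fin m) (Fin m) F} :
    T' ∈ hermOrbit σ free T ↔ ∃ A : Matrix (Fin m) (Fin m) F,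
      IsUnit A ∧ (free ∨ A.det = 1) ∧ cT σ A * T * A = T' := by
  simp [hermOrbit, and_assoc]

open H3 in
/-- A non-zero Hermitian matrix has many congruent ones. -/
theorem card_hermOrbit_ge (hF : Fintype.card F = q ^ 2) {free : Prop} (hfree : free ∨ 2 ≤ m)
    {T : Matrix (Fin m) (Fin m) F} (hT : IsHermM (conjQ hF) T) (h0 : T ≠ 0) :
    (Fintype.card F ^ m - 1) ≤ (q + 1) * (hermOrbit (conjQ hF) free T).card := by
  classical
  set σ := conjQ hF with hσdef
  have hσ : ∀ x, σ (σ x) = x := conjQ_conjQ hF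
  obtain ⟨t, ht⟩ := exists_trace_eq hF (a := (1 : F)) (one_pow q)
  have ht' : t + σ t ≠ 0 := by
    rw [show σ t = t ^ q from rfl, ht]; exact one_ne_zero
  obtain ⟨v₀, hv₀⟩ := exists_hermVal_ne_zero hσ ht' hT h0
  set a := hermVal σ T v₀ with ha
  have hv₀0 : v₀ ≠ 0 := by
    rintro rfl
    simp [ha, hermVal] at hv₀
  have hσa : σ a = a := hT.dot_swap hσ v₀ v₀
  set O := hermOrbit σ free T with hO
  set Q := Fintype.card F with hQ
  let r : Matrix (Fin m) (Fin m) F → (Fin m → F) → Prop := fun T' e => hermVal σ T' e = a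
  have hsum := Finset.sum_card_bipartiteAbove_eq_sum_card_bipartiteBelow r (s := O)
    (t := (univ : Finset (Fin m → F)))
  have hlevel : (univ.filter fun e : Fin m → F => hermVal σ T e = a).card * Q ≤
      (q + 1) * Q ^ m := by
    set Z := univ.filter fun e : Fin m → F => hermVal σ T e = a with hZ
    have key := Finset.card_le_mul_card_image (f := fun p : (Fin m → F) × F => p.1 + p.2 • v₀)
      (Z ×ˢ (univ : Finset F)) (q + 1) (fun w _ => by
        set γ := (σ ∘ v₀) ⬝ᵥ (T *ᵥ w) / a with hγ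
        set K := 1 - hermVal σ T w / a + γ * σ γ with hK
        refine le_trans (Finset.card_le_card_of_injOn
          (t := (Polynomial.nthRoots (q + 1) K).toFinset) (fun p => p.2 - γ) (fun p hp => ?_) ?_)
          ((Multiset.toFinset_card_le _).trans (Polynomial.card_nthRoots _ _))
        · simp only [mem_coe, mem_filter, mem_product, mem_univ, and_true, hZ, true_and] at hp
          obtain ⟨hp, hw⟩ := hp
          rw [mem_coe, Multiset.mem_toFinset, Polynomial.mem_nthRoots (Nat.succ_pos q)]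
          rw [eq_sub_of_add_eq hw] at hp
          have hsw : (σ ∘ w) ⬝ᵥ (T *ᵥ v₀) = σ γ * a := by
            rw [hγ, map_div₀, hT.dot_swap hσ, hσa, div_mul_cancel₀ _ hv₀]
          have hvw : (σ ∘ v₀) ⬝ᵥ (T *ᵥ w) = γ * a := by rw [hγ, div_mul_cancel₀ _ hv₀]
          have hvv : (σ ∘ v₀) ⬝ᵥ (T *ᵥ v₀) = a := rfl
          simp only [hermVal] at hp
          rw [show σ ∘ (w - p.2 • v₀) = σ ∘ w - σ p.2 • (σ ∘ v₀) from
              funext fun i => by simp, mulVec_sub, mulVec_smul] at hp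
          simp only [sub_dotProduct, dotProduct_sub, smul_dotProduct, dotProduct_smul, smul_eq_mul,
            hsw, hvw, hvv] at hp
          rw [pow_succ', ← conjQ_apply hF, ← hσdef, map_sub, hK]
          have hc := div_mul_cancel₀ (hermVal σ T w) hv₀
          apply mul_right_cancel₀ hv₀
          simp only [hermVal] at hc ⊢
          linear_combination hp + hc
        · intro p hp p' hp' he
          simp only [mem_coe, mem_filter] at hp hp'
          have h2 : p.2 = p'.2 := sub_left_inj.1 he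
          refine Prod.ext ?_ h2
          have := hp.2.trans hp'.2.symm
          rw [h2] at this
          exact add_right_cancel this)
    rw [Finset.card_product, Finset.card_univ] at key
    refine key.trans (Nat.mul_le_mul_left _ ((Finset.card_le_univ _).trans_eq ?_))
    simp [hQ]
  have hup : ∀ T' ∈ O, (univ.bipartiteAbove r T').card * Q ≤ (q + 1) * Q ^ m := by
    intro T' hT'
    obtain ⟨A, hA, -, rfl⟩ := mem_hermOrbit.1 hT'
    refine le_trans (Nat.mul_le_mul_right Q ?_) hlevel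
    refine Finset.card_le_card_of_injOn (fun e => A *ᵥ e) (fun e he => ?_)
      (Matrix.mulVec_injective_iff_isUnit.2 hA).injOn
    simpa [Finset.bipartiteAbove, r, hermVal_congr] using he
  have hlow : ∀ e ∈ (univ : Finset (Fin m → F)).erase 0,
      Q ^ m ≤ (O.bipartiteBelow r e).card * Q := by
    intro e he
    have he0 : e ≠ 0 := (Finset.mem_erase.1 he).1
    obtain ⟨i, hi⟩ := Function.ne_iff.1 he0
    simp only [Pi.zero_apply] at hi
    let y₁ : Fin m → F := Pi.single i (σ (e i))⁻¹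
    have hy₁ : (σ ∘ e) ⬝ᵥ y₁ = 1 := by simp [y₁, hi]
    have h1 : Q ^ m ≤ (univ.filter fun y : Fin m → F => (σ ∘ e) ⬝ᵥ y = a).card * Q := by
      have := Finset.card_le_card_of_injOn
        (fun y : Fin m → F => (y - ((σ ∘ e) ⬝ᵥ y - a) • y₁, (σ ∘ e) ⬝ᵥ y))
        (s := (univ : Finset (Fin m → F)))
        (t := (univ.filter fun y : Fin m → F => (σ ∘ e) ⬝ᵥ y = a) ×ˢ (univ : Finset F))
        (fun y _ => by simp [dotProduct_sub, dotProduct_smul, hy₁])
        (fun y _ y' _ h => by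
          simp only [Prod.mk.injEq] at h
          obtain ⟨h, h'⟩ := h
          rw [h'] at h
          exact sub_left_inj.1 h)
      simpa [hQ, Finset.card_product] using this
    refine h1.trans (Nat.mul_le_mul_right Q ?_)
    refine Finset.card_le_card_of_surjOn (fun T' => T' *ᵥ e) fun y hy => ?_
    simp only [mem_coe, mem_filter, mem_univ, true_and] at hy
    obtain ⟨A₀, hA₀, hA₀e, hA₀d⟩ := exists_unit_mulVec he0 hv₀0
    set y₀ := cT σ A₀ *ᵥ (T *ᵥ v₀) with hy₀
    have hey₀ : (σ ∘ e) ⬝ᵥ y₀ = a := by rw [hy₀, cT_mulVec_dot, hA₀e]; rfl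
    set w := a⁻¹ • (y - y₀) with hw
    have hwe : (σ ∘ w) ⬝ᵥ e = 0 := by
      rw [← conj_dot hσ e w, hw, dotProduct_smul, dotProduct_sub, hy, hey₀, sub_self, smul_zero,
        map_zero]
    set B := rankOneAdd (σ ∘ w) e with hB
    have hBdet : B.det = 1 := by
      rw [hB, rankOneAdd, vecMulVec_eq Unit, det_one_add_replicateCol_mul_replicateRow, hwe,
        add_zero]
    have hBu : IsUnit B := isUnit_rankOneAdd _ _ (by rw [hwe, add_zero]; exact one_ne_zero)
    have hBe : B *ᵥ e = e := by rw [hB, rankOneAdd_mulVec, hwe, zero_smul, add_zero]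
    have hBy : cT σ B *ᵥ y₀ = y := by
      have : cT σ B = 1 + vecMulVec w (σ ∘ e) := by
        ext i j
        by_cases hij : j = i
        · subst hij
          simp [hB, cT, rankOneAdd, vecMulVec_apply, hσ, mul_comm]
        · simp [hB, cT, rankOneAdd, vecMulVec_apply, hσ, mul_comm, hij, Ne.symm hij]
      rw [this, add_mulVec, one_mulVec, vecMulVec_mulVec, op_smul_eq_smul, hey₀, hw, smul_smul,
        mul_inv_cancel₀ hv₀, one_smul, add_sub_cancel]
    have hAe : (A₀ * B) *ᵥ e = v₀ := by rw [← mulVec_mulVec, hBe, hA₀e]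
    have hAy : (cT σ (A₀ * B) * T * (A₀ * B)) *ᵥ e = y := by
      rw [← mulVec_mulVec, hAe, cT_mul, ← mulVec_mulVec, ← mulVec_mulVec, ← hy₀, hBy]
    refine ⟨_, ?_, hAy⟩
    simp only [Finset.bipartiteBelow, mem_coe, mem_filter]
    refine ⟨mem_hermOrbit.2 ⟨A₀ * B, hA₀.mul hBu, ?_, rfl⟩, ?_⟩
    · rcases hfree with h | h
      · exact Or.inl h
      · exact Or.inr (by rw [det_mul, hA₀d h, hBdet, mul_one])
    · show (σ ∘ e) ⬝ᵥ _ = a
      rw [hAy, hy]
  have hA : (∑ T' ∈ O, (univ.bipartiteAbove r T').card) * Q ≤ O.card * ((q + 1) * Q ^ m) := by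
    rw [Finset.sum_mul]
    exact (Finset.sum_le_sum hup).trans_eq (by rw [Finset.sum_const, smul_eq_mul])
  have hB : (Q ^ m - 1) * Q ^ m ≤
      (∑ e ∈ (univ : Finset (Fin m → F)), (O.bipartiteBelow r e).card) * Q := by
    rw [Finset.sum_mul]
    refine le_trans ?_ (Finset.sum_le_sum_of_subset (Finset.erase_subset 0 _))
    refine le_trans (le_of_eq ?_) (Finset.sum_le_sum hlow)
    rw [Finset.sum_const, smul_eq_mul, Finset.card_erase_of_mem (mem_univ _), Finset.card_univ,
      Fintype.card_pi_const]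
  have hpos : 0 < Q ^ m := Nat.pow_pos Fintype.card_pos
  refine Nat.le_of_mul_le_mul_right ?_ hpos
  calc (Q ^ m - 1) * Q ^ m ≤ _ := hB
    _ = (∑ T' ∈ O, (univ.bipartiteAbove r T').card) * Q := by rw [hsum]
    _ ≤ O.card * ((q + 1) * Q ^ m) := hA
    _ = (q + 1) * O.card * Q ^ m := by ring

end Cfsg.Agent.H39
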