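import Cfsg.Agent.H39.OmegaExt
import Cfsg.Agent.H4.Count
import Mathlib.NumberTheory.LegendreSymbol.AddCharacter
import Mathlib.Analysis.Complex.Basic

/-!
# Counting singular vectors against a linear form

The number of singular vectors of a space with a hyperbolic pair in terms of the complement, and
the sums of an additive character over singular vectors.
-/

namespace Cfsg.Agent.H39

open QuadraticMap hiding sq
open Cfsg.Agent.H5
open Finset

variable {F V : Type*} [Field F] [AddCommGroup V] [Module F V] {Q : QuadraticForm F V}

/-- The number of singular vectors, zero included. -/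
noncomputable def isoN (Q : QuadraticForm F V) : ℕ := Nat.card {x : V // Q x = 0}

lemma one_le_isoN [Finite V] (Q : QuadraticForm F V) : 1 ≤ isoN Q := by
  haveI : Nonempty {x : V // Q x = 0} := ⟨⟨0, QuadraticMap.map_zero _⟩⟩
  exact Nat.card_pos

variable [Fintype F] [Fintype V]

open scoped Classical in
lemma isoN_eq_card (Q : QuadraticForm F V) : isoN Q = (univ.filter fun x : V => Q x = 0).card := by
  rw [isoN, Nat.card_eq_fintype_card, Fintype.card_subtype]

open scoped Classical in
/-- Summing a function of the pairing with `e` over singular vectors. -/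
lemma sum_iso_pair {e f : V} (h : HypPair Q e f) (φ : F → ℂ) :
    ∑ x ∈ univ.filter (fun x : V => Q x = 0), φ (polar Q e x) =
      (Fintype.card F : ℂ) * φ 0 * isoN (Q.restrict (pperp Q e f)) +
        Nat.card (pperp Q e f) * (∑ β, φ β - φ 0) := by
  rw [Finset.sum_filter, ← (pairSplit h).symm.sum_comp, Fintype.sum_prod_type, Finset.sum_comm,
    Fintype.sum_prod_type]
  rw [Finset.sum_comm]
  have key : ∀ (β : F) (w : pperp Q e f),
      (∑ α : F, if Q ((pairSplit h).symm (α, β, w)) = 0 then
        φ (polar Q e ((pairSplit h).symm (α, β, w))) else 0) =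
      if β = 0 then (if Q (w : V) = 0 then (Fintype.card F : ℂ) * φ 0 else 0) else φ β := by
    intro β w
    have hv : ∀ α, Q ((pairSplit h).symm (α, β, w)) = α * β + Q (w : V) := fun α =>
      map_pair_add h α β w
    have hp : ∀ α, polar Q e ((pairSplit h).symm (α, β, w)) = β := fun α =>
      (polar_pair_add h α β w).1
    simp only [hv, hp]
    split_ifs with hb hw
    · simp [hb, hw]
    · simp [hb, hw]
    · rw [Finset.sum_eq_single (-Q (w : V) / β)]
      · rw [if_pos (by rw [div_mul_cancel₀ _ hb]; ring)]
      · intro α _ hα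
        rw [if_neg]
        intro h0
        apply hα
        field_simp
        linear_combination h0
      · simp
  simp only [key]
  have hsplit : ∀ w : pperp Q e f,
      (∑ β : F, if β = 0 then (if Q (w : V) = 0 then (Fintype.card F : ℂ) * φ 0 else 0) else φ β) =
        (if Q (w : V) = 0 then (Fintype.card F : ℂ) * φ 0 else 0) + (∑ β, φ β - φ 0) := by
    intro w
    rw [← Finset.add_sum_erase _ _ (mem_univ (0 : F)), if_pos rfl,
      Finset.sum_erase_eq_sub (mem_univ (0 : F)) |>.symm]
    congr 1
    exact Finset.sum_congr rfl fun β hβ => if_neg (Finset.mem_erase.1 hβ).1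
  simp only [hsplit, Finset.sum_add_distrib, ← Finset.sum_filter, Finset.sum_const, Finset.card_univ,
    nsmul_eq_mul, Nat.card_eq_fintype_card, isoN_eq_card, QuadraticMap.restrict_apply]
  ring

lemma isoN_pair {e f : V} (h : HypPair Q e f) :
    isoN Q + Nat.card (pperp Q e f) =
      Fintype.card F * isoN (Q.restrict (pperp Q e f)) +
        Fintype.card F * Nat.card (pperp Q e f) := by
  classical
  have hs := sum_iso_pair h (fun _ => 1)
  simp only [Finset.sum_const, Finset.card_univ, nsmul_eq_mul, mul_one, ← isoN_eq_card] at hs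
  apply Nat.cast_injective (R := ℂ)
  push_cast
  linear_combination hs

open scoped Classical in
lemma card_iso_perp {e f : V} (h : HypPair Q e f) :
    (univ.filter fun x : V => Q x = 0 ∧ polar Q e x = 0).card =
      Fintype.card F * isoN (Q.restrict (pperp Q e f)) := by
  have hs := sum_iso_pair h (fun β => if β = 0 then 1 else 0)
  rw [Finset.sum_boole, Finset.filter_filter] at hs
  simp only [Finset.sum_ite_eq', mem_univ, if_true, mul_one, sub_self, mul_zero, add_zero] at hs
  exact_mod_cast hs

open scoped Classical in
lemma sum_iso_char {e f : V} (h : HypPair Q e f) {ψ : AddChar F ℂ} (hψ : ψ ≠ 1) :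
    ∑ x ∈ univ.filter (fun x : V => Q x = 0), ψ (polar Q e x) =
      (Fintype.card F : ℂ) * isoN (Q.restrict (pperp Q e f)) - Nat.card (pperp Q e f) := by
  rw [sum_iso_pair h (fun β => ψ β), AddChar.sum_eq_zero_of_ne_one hψ, AddChar.map_zero_eq_one]
  ring

open scoped Classical in
/-- Averaging over scalars: the character sum in terms of the singular vectors orthogonal to `b`. -/
lemma sum_iso_char_scale (b : V) {ψ : AddChar F ℂ} (hψ : ψ ≠ 1) :
    ((Fintype.card F : ℂ) - 1) * ∑ x ∈ univ.filter (fun x : V => Q x = 0), ψ (polar Q b x) +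
        isoN Q =
      (Fintype.card F : ℂ) * (univ.filter fun x : V => Q x = 0 ∧ polar Q b x = 0).card := by
  set s := univ.filter (fun x : V => Q x = 0) with hs
  have hsc : ∀ c : F, c ≠ 0 →
      ∑ x ∈ s, ψ (c * polar Q b x) = ∑ x ∈ s, ψ (polar Q b x) := by
    intro c hc
    refine Finset.sum_equiv (LinearEquiv.smulOfNeZero F V c hc).toEquiv (fun x => ?_) (fun x _ => ?_)
    · simp [hs, QuadraticMap.map_smul, hc]
    · simp [polar_smul_right]
  have htot : ∑ c : F, ∑ x ∈ s, ψ (c * polar Q b x) =
      (Fintype.card F : ℂ) * (s.filter fun x => polar Q b x = 0).card := by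
    rw [Finset.sum_comm]
    have : ∀ x : V, ∑ c : F, ψ (c * polar Q b x) =
        if polar Q b x = 0 then (Fintype.card F : ℂ) else 0 := fun x =>
      AddChar.sum_mulShift _ (AddChar.IsPrimitive.of_ne_one hψ) |>.trans (by simp)
    simp only [this, ← Finset.sum_filter, Finset.sum_const, nsmul_eq_mul]
    ring
  rw [← Finset.add_sum_erase _ _ (mem_univ (0 : F)),
    Finset.sum_congr rfl (fun c hc => hsc c (Finset.mem_erase.1 hc).1)] at htot
  simp only [zero_mul, AddChar.map_zero_eq_one, Finset.sum_const, nsmul_eq_mul, mul_one,
    Finset.card_erase_of_mem, mem_univ, Finset.card_univ, Nat.cast_sub Fintype.card_pos,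
    Nat.cast_one, hs, Finset.filter_filter, ← isoN_eq_card] at htot
  linear_combination htot

open scoped Classical in
/-- Every level set has at least `(q - 1) |W|` points. -/
lemma card_level_ge {e f : V} (h : HypPair Q e f) (c : F) :
    (Fintype.card F - 1) * Nat.card (pperp Q e f) ≤ (univ.filter fun x : V => Q x = c).card := by
  have := Finset.card_le_card_of_injOn
    (fun p : F × pperp Q e f => (pairSplit h).symm ((c - Q (p.2 : V)) / p.1, p.1, p.2))
    (s := ((univ : Finset F).erase 0) ×ˢ (univ : Finset (pperp Q e f)))
    (t := univ.filter fun x : V => Q x = c) (fun p hp => ?_) (fun p hp p' hp' he => ?_)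
  · simpa [Nat.card_eq_fintype_card] using this
  · simp only [mem_coe, mem_product, mem_erase, mem_univ, and_true] at hp
    simp only [mem_coe, mem_filter, mem_univ, true_and]
    show Q ((_ : F) • e + p.1 • f + (p.2 : V)) = c
    rw [map_pair_add h, div_mul_cancel₀ _ hp]
    ring
  · have := (pairSplit h).symm.injective he
    simp only [Prod.mk.injEq] at this
    exact Prod.ext this.2.1 this.2.2

lemma card_pperp_eq [FiniteDimensional F V] (hQ : (polarBilin Q).Nondegenerate) {e f : V}
    (h : HypPair Q e f) :
    Nat.card (pperp Q e f) = Fintype.card F ^ (Module.finrank F V - 2) := by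
  classical
  rw [Nat.card_eq_fintype_card, Module.card_eq_pow_finrank (K := F),
    show Module.finrank F (pperp Q e f) = Module.finrank F V - 2 from
      Nat.eq_sub_of_add_eq (h.finrank_pperp hQ)]

/-- A singular vector exists once there are at least two singular vectors. -/
lemma exists_singular_of_isoN (h : 2 ≤ isoN Q) : ∃ x : V, x ≠ 0 ∧ Q x = 0 := by
  by_contra hc
  push Not at hc
  haveI : Subsingleton {x : V // Q x = 0} := ⟨fun a b => Subtype.ext (by
    rw [Classical.byContradiction fun ha : ¬ (a : V) = 0 => hc a ha a.2,
      Classical.byContradiction fun hb : ¬ (b : V) = 0 => hc b hb b.2])⟩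
  have := Finite.card_le_one_iff_subsingleton.2 this
  rw [isoN] at h
  omega

end Cfsg.Agent.H39
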