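import Cfsg.Agent.H39.AbelProj

/-!
# Determinants and traces of elements of finite order
-/

namespace Cfsg.Agent.H39

open Finset Module

/-- Transport of eigen-projector data along a homomorphism. -/
def AbelData.map {G G' A I : Type*} [Group G] [Group G'] [AddCommGroup A] [Fintype A] [Fintype I]
    (D : AbelData G A I) (φ : G →* G') : AbelData G' A I where
  u a := φ (D.u a)
  u_add a b := by rw [D.u_add, map_mul]
  u_zero := by rw [D.u_zero, map_one]
  χ := D.χ
  inj := D.inj
  complete := D.complete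
  card_eq := D.card_eq

lemma AbelData.map_proj {G G' A I : Type*} [Group G] [Group G'] [AddCommGroup A] [Fintype A]
    [Fintype I] (D : AbelData G A I) (φ : G →* G') {M : Type*} [AddCommGroup M] [Module ℂ M]
    (ρ : Representation ℂ G' M) (i : I) : (D.map φ).proj ρ i = D.proj (ρ.comp φ) i := rfl

lemma pow_zmod_val_add {G : Type*} [Monoid G] {g : G} {m : ℕ} [NeZero m] (hg : g ^ m = 1)
    (a b : ZMod m) : g ^ (a + b).val = g ^ a.val * g ^ b.val := by
  rw [← pow_add, ZMod.val_add, ← pow_eq_pow_mod _ hg]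

/-- The cyclic subgroup generated by an element, with all its characters. -/
noncomputable def cyclicData {G : Type*} [Group G] {g : G} {m : ℕ} [NeZero m] (hg : g ^ m = 1) :
    AbelData G (ZMod m) (AddChar (ZMod m) ℂ) where
  u a := g ^ a.val
  u_add := pow_zmod_val_add hg
  u_zero := by rw [ZMod.val_zero, pow_zero]
  χ := id
  inj := Function.injective_id
  complete a ha := by
    classical
    simp only [id]
    rw [AddChar.sum_apply_eq_ite, if_neg ha]
  card_eq := AddChar.card_eq

/-- The determinant of `1 + a E` for an idempotent `E`. -/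
lemma det_one_add_smul_proj {M : Type*} [AddCommGroup M] [Module ℂ M] [FiniteDimensional ℂ M]
    {E : Module.End ℂ M} (hE : E * E = E) (a : ℂ) :
    LinearMap.det (1 + a • E) = (1 + a) ^ finrank ℂ (LinearMap.range E) := by
  have hp : LinearMap.IsProj (LinearMap.range E) E := ⟨fun x => LinearMap.mem_range_self _ x, by
    rintro _ ⟨y, rfl⟩
    exact LinearMap.congr_fun hE y⟩
  have hc := hp.eq_conj_prodMap
  set e := Submodule.prodEquivOfIsCompl (LinearMap.range E) (LinearMap.ker E) hp.isCompl with he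
  have key : (1 + a • E : Module.End ℂ M) =
      e.conj (LinearMap.prodMap ((1 + a) • LinearMap.id) LinearMap.id) := by
    have h1 : LinearMap.prodMap ((1 + a) • (LinearMap.id : _ →ₗ[ℂ] LinearMap.range E))
        (LinearMap.id : _ →ₗ[ℂ] LinearMap.ker E) =
        LinearMap.id + a • LinearMap.prodMap LinearMap.id 0 := by
      refine LinearMap.ext fun x => Prod.ext ?_ ?_ <;> simp [add_smul]
    rw [h1, map_add, map_smul, ← hc, LinearEquiv.conj_id]
    rfl
  rw [key, LinearEquiv.conj_apply, LinearMap.comp_assoc, LinearMap.det_conj, LinearMap.det_prodMap,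
    LinearMap.det_smul, LinearMap.det_id, LinearMap.det_id, mul_one, mul_one]

/-- The product of all characters of a cyclic group of even order at a generator. -/
lemma prod_addChar_one {m : ℕ} [NeZero m] (hm : Even m) :
    ∏ χ : AddChar (ZMod m) ℂ, χ 1 = -1 := by
  obtain ⟨k, hk⟩ := hm
  have hm0 : m ≠ 0 := NeZero.ne m
  obtain ⟨ω, hω⟩ : ∃ ω : ℂ, IsPrimitiveRoot ω m := ⟨_, Complex.isPrimitiveRoot_exp m hm0⟩
  haveI : Fact (1 < m) := ⟨by omega⟩
  let F : Fin m → AddChar (ZMod m) ℂ := fun i =>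
    AddChar.zmodChar m (ζ := ω ^ (i : ℕ)) (by rw [← pow_mul, mul_comm, pow_mul, hω.pow_eq_one, one_pow])
  have h1 : ∀ i, F i 1 = ω ^ (i : ℕ) := fun i => by
    simp [F, AddChar.zmodChar_apply, ZMod.val_one]
  have hF : Function.Bijective F := by
    refine (Fintype.bijective_iff_injective_and_card F).2 ⟨fun i j hij => ?_, ?_⟩
    · exact Fin.ext (hω.pow_inj i.2 j.2 (by rw [← h1, ← h1, hij]))
    · rw [Fintype.card_fin, AddChar.card_eq, ZMod.card]
  rw [← hF.prod_comp, Finset.prod_congr rfl (fun i _ => h1 i),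
    Fin.prod_univ_eq_prod_range (fun i => ω ^ i), Finset.prod_pow_eq_pow_sum]
  have hsum := Finset.sum_range_id_mul_two m
  have hk1 : ω ^ k = -1 := by
    have hsq : ω ^ k * ω ^ k = 1 := by rw [← pow_add, ← hk, hω.pow_eq_one]
    rcases mul_self_eq_one_iff.1 hsq with h | h
    · exact absurd h (hω.pow_ne_one_of_pos_of_lt (by omega) (by omega))
    · exact h
  have : ∑ i ∈ range m, i = k * (m - 1) := by
    rw [hk] at hsum ⊢
    nlinarith
  rw [this, pow_mul, hk1, Odd.neg_one_pow]
  exact ⟨k - 1, by omega⟩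

variable {G : Type*} [Group G] {M : Type*} [AddCommGroup M] [Module ℂ M] [FiniteDimensional ℂ M]

lemma trace_rho_one (ρ : Representation ℂ G M) :
    LinearMap.trace ℂ M (ρ 1) = finrank ℂ M := by rw [map_one, LinearMap.trace_one]

/-- The determinant of an element of even order with one fixed point among free orbits. -/
theorem det_cyclic (ρ : Representation ℂ G M) {g : G} {m : ℕ} [NeZero m] (hm : Even m)
    (hg : g ^ m = 1) {c : ℂ} (hc : c ^ m = 1) {r : ℕ} (hd : finrank ℂ M = 1 + m * r)
    (htr : ∀ j, 0 < j → j < m → LinearMap.trace ℂ M (ρ (g ^ j)) = c ^ j) :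
    LinearMap.det (ρ g) = (-1) ^ r * c := by
  classical
  set D := cyclicData (G := G) hg with hD
  set χ0 := AddChar.zmodChar m hc with hχ0
  have hmC : (m : ℂ) ≠ 0 := Nat.cast_ne_zero.2 (NeZero.ne m)
  have htra : ∀ a : ZMod m, LinearMap.trace ℂ M (ρ (D.u a)) =
      χ0 a + if a = 0 then ((m * r : ℕ) : ℂ) else 0 := by
    intro a
    show LinearMap.trace ℂ M (ρ (g ^ a.val)) = _
    split_ifs with ha
    · subst ha
      rw [ZMod.val_zero, pow_zero, trace_rho_one, hd, AddChar.map_zero_eq_one]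
      push_cast
      ring
    · rw [htr _ (Nat.pos_of_ne_zero fun h => ha ((ZMod.val_eq_zero a).1 h)) (ZMod.val_lt a),
        hχ0, AddChar.zmodChar_apply, add_zero]
  have hdim : ∀ χ : AddChar (ZMod m) ℂ,
      D.dim ρ χ = r + if χ = χ0 then 1 else 0 := by
    intro χ
    apply Nat.cast_injective (R := ℂ)
    rw [← D.trace_proj ρ χ, AbelData.proj, map_smul, map_sum]
    simp only [map_smul, htra, smul_eq_mul, mul_add, mul_ite, mul_zero, Finset.sum_add_distrib,
      Finset.sum_ite_eq', mem_univ, if_true, neg_zero]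
    rw [show (∑ a, D.χ χ (-a) * χ0 a) = if χ = χ0 then (m : ℂ) else 0 by
      show (∑ a, χ (-a) * χ0 a) = _
      have e : ∀ a, χ (-a) * χ0 a = (χ⁻¹ * χ0) a := fun a => by
        rw [AddChar.mul_apply, AddChar.inv_apply]
      simp only [e]
      rw [AddChar.sum_eq_ite]
      by_cases hχ : χ = χ0
      · rw [hχ, if_pos rfl, if_pos (by rw [← AddChar.one_eq_zero]; exact inv_mul_cancel χ0), ZMod.card]
      · rw [if_neg hχ, if_neg fun h => hχ (inv_mul_eq_one.1 (by rwa [← AddChar.one_eq_zero] at h))]]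
    simp only [ZMod.card, hD, cyclicData, id, AddChar.map_zero_eq_one]
    split_ifs <;> push_cast <;> field_simp <;> ring
  have key : ∀ s : Finset (AddChar (ZMod m) ℂ),
      LinearMap.det (1 + ∑ χ ∈ s, (χ 1 - 1) • D.proj ρ χ) = ∏ χ ∈ s, (χ 1) ^ D.dim ρ χ := by
    intro s
    induction s using Finset.induction with
    | empty => simp
    | insert χ s hχ ih =>
      rw [Finset.prod_insert hχ, ← ih, mul_comm]
      have hmul : (1 + ∑ η ∈ s, (η 1 - 1) • D.proj ρ η) * (1 + (χ 1 - 1) • D.proj ρ χ) =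
          1 + ∑ η ∈ insert χ s, (η 1 - 1) • D.proj ρ η := by
        rw [add_mul, one_mul, mul_add, mul_one, Finset.sum_mul, Finset.sum_eq_zero
          (s := s) (f := fun η => (η 1 - 1) • D.proj ρ η * ((χ 1 - 1) • D.proj ρ χ)) (fun η hη => by
            rw [smul_mul_smul_comm, D.proj_mul_proj, if_neg (fun h => hχ (by rwa [← h])), smul_zero]),
          add_zero, Finset.sum_insert hχ]
        abel
      rw [← hmul, map_mul, det_one_add_smul_proj (by rw [D.proj_mul_proj, if_pos rfl])]
      congr 2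
      ring
  have hg1 : ρ g = ρ (D.u 1) := by
    show ρ g = ρ (g ^ (1 : ZMod m).val)
    haveI : Fact (1 < m) := ⟨by obtain ⟨k, hk⟩ := hm; have := NeZero.ne m; omega⟩
    rw [ZMod.val_one, pow_one]
  rw [show ρ g = 1 + ∑ χ, (χ 1 - 1) • D.proj ρ χ by
    simp only [sub_smul, one_smul, Finset.sum_sub_distrib, D.sum_proj]
    rw [hg1, D.apply_eq_sum]
    show _ = 1 + ((∑ χ, D.χ χ 1 • D.proj ρ χ) - 1)
    abel, key]
  simp only [hdim, pow_add, Finset.prod_mul_distrib, Finset.prod_pow, prod_addChar_one hm]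
  rw [Finset.prod_eq_single χ0 (fun χ _ h => by rw [if_neg h, pow_zero]) (by simp)]
  haveI : Fact (1 < m) := ⟨by obtain ⟨k, hk⟩ := hm; have := NeZero.ne m; omega⟩
  simp [hχ0, AddChar.zmodChar_apply, ZMod.val_one]

omit [FiniteDimensional ℂ M] in
/-- Outside an eigenvalue, or a scalar: an element of finite order has an eigenvector for
another root of unity unless it acts by the given one. -/
theorem exists_eigen_ne (ρ : Representation ℂ G M) {g : G} {m : ℕ} [NeZero m] (hg : g ^ m = 1)
    (U : Submodule ℂ M) (hU : ∀ x ∈ U, ρ g x ∈ U) {μ : ℂ} {x : M} (hx : x ∈ U)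
    (hgx : ρ g x ≠ μ • x) : ∃ lam : ℂ, lam ≠ μ ∧ ∃ y ∈ U, y ≠ 0 ∧ ρ g y = lam • y := by
  classical
  set D := cyclicData (G := G) hg with hD
  have hpow : ∀ (j : ℕ) (y : M), y ∈ U → ρ (g ^ j) y ∈ U := by
    intro j
    induction j with
    | zero => intro y hy; simpa using hy
    | succ j ih => intro y hy; rw [pow_succ, map_mul, Module.End.mul_apply]; exact ih _ (hU y hy)
  have hg1 : ρ (D.u 1) = ρ g := by
    show ρ (g ^ (1 : ZMod m).val) = ρ g
    rw [ZMod.val_one_eq_one_mod, ← pow_eq_pow_mod _ hg, pow_one]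
  by_contra hc
  push Not at hc
  refine hgx ?_
  have h0 : ∀ χ : AddChar (ZMod m) ℂ, ρ g (D.proj ρ χ x) = μ • D.proj ρ χ x := by
    intro χ
    have hmem : D.proj ρ χ x ∈ U := by
      simp only [AbelData.proj, LinearMap.smul_apply, LinearMap.sum_apply]
      exact U.smul_mem _ (U.sum_mem fun a _ => U.smul_mem _ (hpow _ _ hx))
    have hE : ρ g (D.proj ρ χ x) = D.χ χ 1 • D.proj ρ χ x := by
      rw [← hg1, ← Module.End.mul_apply, D.apply_mul_proj]
      rfl
    by_cases hμ : D.χ χ 1 = μ
    · rw [hE, hμ]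
    · by_cases hz : D.proj ρ χ x = 0
      · rw [hz, map_zero, smul_zero]
      · exact absurd hE (hc _ hμ _ hmem hz)
  have hsum := LinearMap.congr_fun (D.sum_proj ρ) x
  rw [LinearMap.sum_apply, Module.End.one_apply] at hsum
  rw [← hsum, map_sum, Finset.smul_sum]
  exact Finset.sum_congr rfl fun χ _ => h0 χ

end Cfsg.Agent.H39
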