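import Cfsg.Agent.H5.EichlerGroup
import Cfsg.Agent.H5.OmegaSimple

/-!
# The Levi part of the stabiliser of a singular point

Orthogonal maps of the complement of a hyperbolic pair extend to the whole space; products of two
opposite scalings on orthogonal pairs are products of Eichler transformations.
-/

namespace Cfsg.Agent.H39

open QuadraticMap hiding sq
open Cfsg.Agent.H5

variable {F V : Type*} [Field F] [AddCommGroup V] [Module F V] {Q : QuadraticForm F V}

/-- The projection to the complement of a hyperbolic pair. -/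
def perpProj {e f : V} (h : HypPair Q e f) : V →ₗ[F] pperp Q e f :=
  LinearMap.codRestrict (pperp Q e f)
    (LinearMap.id - (polarBilin Q f).smulRight e - (polarBilin Q e).smulRight f)
    (fun x => by simpa using h.decomp x)

lemma coe_perpProj {e f : V} (h : HypPair Q e f) (x : V) :
    (perpProj h x : V) = x - polar Q f x • e - polar Q e x • f := by
  simp [perpProj]

lemma perpProj_coe {e f : V} (h : HypPair Q e f) (w : pperp Q e f) : perpProj h (w : V) = w := by
  obtain ⟨h1, h2⟩ := mem_pperp.1 w.2
  exact Subtype.ext (by rw [coe_perpProj, h1, h2]; simp)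

lemma pair_decomp {e f : V} (h : HypPair Q e f) (x : V) :
    x = polar Q f x • e + polar Q e x • f + (perpProj h x : V) := by
  rw [coe_perpProj]; abel

lemma map_pair_add {e f : V} (h : HypPair Q e f) (a b : F) (w : pperp Q e f) :
    Q (a • e + b • f + (w : V)) = a * b + Q (w : V) := by
  obtain ⟨h1, h2⟩ := mem_pperp.1 w.2
  rw [QuadraticMap.map_add (⇑Q), map_smul_add_smul, h.left, h.right, h.pair, polar_add_left,
    polar_smul_left, polar_smul_left, h1, h2]
  simp

lemma polar_pair_add {e f : V} (h : HypPair Q e f) (a b : F) (w : pperp Q e f) :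
    polar Q e (a • e + b • f + (w : V)) = b ∧ polar Q f (a • e + b • f + (w : V)) = a := by
  obtain ⟨h1, h2⟩ := mem_pperp.1 w.2
  constructor <;>
    simp [polar_add_right, polar_smul_right, polar_self', h.left, h.right, h.pair,
      polar_comm (⇑Q) f e, h1, h2]

/-- Coordinates along a hyperbolic pair. -/
def pairSplit {e f : V} (h : HypPair Q e f) : V ≃ F × F × pperp Q e f where
  toFun x := (polar Q f x, polar Q e x, perpProj h x)
  invFun p := p.1 • e + p.2.1 • f + (p.2.2 : V)
  left_inv x := (pair_decomp h x).symm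
  right_inv p := by
    obtain ⟨h1, h2⟩ := polar_pair_add h p.1 p.2.1 p.2.2
    refine Prod.ext h2 (Prod.ext h1 (Subtype.ext ?_))
    rw [coe_perpProj, h1, h2]
    simp only
    module

/-- The extension of an isometry of the complement, as a linear map. -/
def extFun {e f : V} (h : HypPair Q e f)
    (g : pperp Q e f →ₗ[F] pperp Q e f) : V →ₗ[F] V :=
  (polarBilin Q f).smulRight e + (polarBilin Q e).smulRight f +
    (pperp Q e f).subtype.comp (g.comp (perpProj h))

lemma extFun_apply {e f : V} (h : HypPair Q e f) (g : pperp Q e f →ₗ[F] pperp Q e f) (x : V) :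
    extFun h g x = polar Q f x • e + polar Q e x • f + (g (perpProj h x) : V) := by
  simp [extFun]

lemma extFun_comp {e f : V} (h : HypPair Q e f) (g k : pperp Q e f →ₗ[F] pperp Q e f) (x : V) :
    extFun h g (extFun h k x) = extFun h (g.comp k) x := by
  have hs := (pairSplit h).right_inv (polar Q f x, polar Q e x, k (perpProj h x))
  simp only [pairSplit, Prod.mk.injEq] at hs
  rw [extFun_apply, extFun_apply, extFun_apply, hs.1, hs.2.1, hs.2.2]
  rfl

/-- Isometries of the complement extend. -/
noncomputable def orthExt {e f : V} (h : HypPair Q e f) :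
    orth (Q.restrict (pperp Q e f)) →* orth Q where
  toFun g :=
    ⟨LinearEquiv.ofLinearMap (extFun h g.1.toLinearMap)
        (extFun h (g⁻¹).1.toLinearMap)
        (LinearMap.ext fun x => by
          rw [LinearMap.comp_apply, extFun_comp, extFun_apply, LinearMap.comp_apply,
            LinearEquiv.coe_coe, LinearEquiv.coe_coe, orth_apply_inv_apply, ← pair_decomp]
          rfl)
        (LinearMap.ext fun x => by
          rw [LinearMap.comp_apply, extFun_comp, extFun_apply, LinearMap.comp_apply,
            LinearEquiv.coe_coe, LinearEquiv.coe_coe, orth_inv_apply_apply, ← pair_decomp]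
          rfl),
      fun x => by
        show Q (extFun h _ x) = Q x
        rw [extFun_apply, map_pair_add h]
        conv_rhs => rw [pair_decomp h x, map_pair_add h]
        have := orth_map g (perpProj h x)
        simpa using this⟩
  map_one' := orth_ext fun x => by
    show extFun h _ x = x
    rw [extFun_apply]
    exact (pair_decomp h x).symm
  map_mul' g k := orth_ext fun x => by
    show extFun h _ x = extFun h _ (extFun h _ x)
    rw [extFun_comp]
    rfl

lemma orthExt_apply {e f : V} (h : HypPair Q e f) (g : orth (Q.restrict (pperp Q e f))) (x : V) :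
    (orthExt h g : V ≃ₗ[F] V) x =
      polar Q f x • e + polar Q e x • f + ((g : pperp Q e f ≃ₗ[F] pperp Q e f) (perpProj h x) : V) :=
  extFun_apply h _ x

lemma orthExt_coe {e f : V} (h : HypPair Q e f) (g : orth (Q.restrict (pperp Q e f)))
    (w : pperp Q e f) :
    (orthExt h g : V ≃ₗ[F] V) (w : V) = ((g : pperp Q e f ≃ₗ[F] pperp Q e f) w : V) := by
  obtain ⟨h1, h2⟩ := mem_pperp.1 w.2
  rw [orthExt_apply, perpProj_coe, h1, h2]
  simp

lemma orthExt_left {e f : V} (h : HypPair Q e f) (g : orth (Q.restrict (pperp Q e f))) :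
    (orthExt h g : V ≃ₗ[F] V) e = e := by
  have he : perpProj h e = 0 := Subtype.ext (by
    rw [coe_perpProj]; simp [polar_self', h.left, h.pair, polar_comm (⇑Q) f e])
  rw [orthExt_apply, he]
  simp [polar_self', h.left, polar_comm (⇑Q) f e, h.pair]

lemma polar_restrict {W : Submodule F V} (x y : W) :
    polar (Q.restrict W) x y = polar Q (x : V) (y : V) := by
  simp [polar]

lemma orthExt_eich {e f : V} (h : HypPair Q e f) {u a : pperp Q e f} (hu : Q (u : V) = 0)
    (ha : polar Q (u : V) (a : V) = 0) :
    orthExt h (eich (Q.restrict (pperp Q e f)) u a) = eich Q (u : V) (a : V) := by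
  refine orth_ext fun x => ?_
  have hu' : (Q.restrict (pperp Q e f)) u = 0 := by simpa using hu
  have ha' : polar (Q.restrict (pperp Q e f)) u a = 0 := by rwa [polar_restrict]
  rw [orthExt_apply, eich_apply hu' ha', eich_apply hu ha]
  obtain ⟨u1, u2⟩ := mem_pperp.1 u.2
  obtain ⟨a1, a2⟩ := mem_pperp.1 a.2
  have hpu : polar Q (u : V) (perpProj h x : V) = polar Q (u : V) x := by
    conv_rhs => rw [pair_decomp h x]
    simp [polar_add_right, polar_smul_right, polar_comm (⇑Q) (u : V) e,
      polar_comm (⇑Q) (u : V) f, u1, u2]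
  have hpa : polar Q (a : V) (perpProj h x : V) = polar Q (a : V) x := by
    conv_rhs => rw [pair_decomp h x]
    simp [polar_add_right, polar_smul_right, polar_comm (⇑Q) (a : V) e,
      polar_comm (⇑Q) (a : V) f, a1, a2]
  have hp := pair_decomp h x
  simp only [Submodule.coe_sub, Submodule.coe_add, Submodule.coe_smul, polar_restrict, hpu, hpa,
    QuadraticMap.restrict_apply]
  linear_combination (norm := module) -hp

lemma orthExt_mem {e f : V} (h : HypPair Q e f) {g : orth (Q.restrict (pperp Q e f))}
    (hg : g ∈ eichGroup (Q.restrict (pperp Q e f))) : orthExt h g ∈ eichGroup Q := by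
  induction hg using Subgroup.closure_induction with
  | mem x hx =>
    obtain ⟨u, a, hu, ha, rfl⟩ := hx
    rw [orthExt_eich h (by simpa using hu) (by rwa [← polar_restrict])]
    exact eich_mem_eichGroup _ _
  | one => rw [map_one]; exact one_mem _
  | mul a b _ _ ha hb => rw [map_mul]; exact mul_mem ha hb
  | inv a _ ha => rw [map_inv]; exact inv_mem ha

/-- Two orthogonal hyperbolic pairs. -/
structure TwoPairs (Q : QuadraticForm F V) (u f u' f' : V) : Prop where
  fst : HypPair Q u f
  snd : HypPair Q u' f'
  memu : u' ∈ pperp Q u f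
  memf : f' ∈ pperp Q u f

lemma TwoPairs.flip {u f u' f' : V} (h : TwoPairs Q u f u' f') : TwoPairs Q u f f' u' :=
  ⟨h.fst, h.snd.symm, h.memf, h.memu⟩

/-- Scaling two orthogonal pairs by opposite factors is a product of Eichler transformations. -/
lemma exists_pairScale {u f u' f' : V} (h : TwoPairs Q u f u' f') {μ : F} (hμ : μ ≠ 0) :
    ∃ g ∈ eichGroup Q, (g : V ≃ₗ[F] V) u = μ • u ∧ (g : V ≃ₗ[F] V) f = μ⁻¹ • f ∧
      (g : V ≃ₗ[F] V) u' = μ⁻¹ • u' ∧ (g : V ≃ₗ[F] V) f' = μ • f' ∧
      ∀ x, polar Q u x = 0 → polar Q f x = 0 → polar Q u' x = 0 → polar Q f' x = 0 →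
        (g : V ≃ₗ[F] V) x = x := by
  obtain ⟨hu'1, hu'2⟩ := mem_pperp.1 h.memu
  obtain ⟨hf'1, hf'2⟩ := mem_pperp.1 h.memf
  have huf := h.fst.pair
  have hu'f' := h.snd.pair
  have A : ∀ t x, (eich Q u (t • f') : V ≃ₗ[F] V) x =
      x + polar Q u x • t • f' - (t * polar Q f' x) • u := fun t x => by
    rw [eich_apply h.fst.left (by simp [polar_smul_right, hf'1])]
    simp [polar_smul_left, QuadraticMap.map_smul, h.snd.right]
  have B : ∀ t x, (eich Q u' (t • f) : V ≃ₗ[F] V) x =
      x + polar Q u' x • t • f - (t * polar Q f x) • u' := fun t x => by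
    rw [eich_apply h.snd.left (by simp [polar_smul_right, polar_comm (⇑Q) u' f, hu'2])]
    simp [polar_smul_left, QuadraticMap.map_smul, h.fst.right]
  refine ⟨eich Q u (μ • f') * eich Q u' ((-μ⁻¹) • f) * eich Q u (μ • f') *
    (eich Q u ((-1 : F) • f') * eich Q u' ((1 : F) • f) * eich Q u ((-1 : F) • f')),
    mul_mem (mul_mem (mul_mem (eich_mem_eichGroup _ _) (eich_mem_eichGroup _ _))
      (eich_mem_eichGroup _ _)) (mul_mem (mul_mem (eich_mem_eichGroup _ _) (eich_mem_eichGroup _ _))
      (eich_mem_eichGroup _ _)), ?_, ?_, ?_, ?_, fun x h1 h2 h3 h4 => ?_⟩ <;>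
    simp only [orth_mul_apply, A, B, map_add, map_sub, map_smul, polar_add_right, polar_sub_right,
      polar_smul_right, smul_eq_mul, polar_self', h.fst.left, h.fst.right, h.snd.left,
      h.snd.right, huf, hu'f', hu'1, hu'2, hf'1, hf'2, polar_comm (⇑Q) f u, polar_comm (⇑Q) f' u',
      polar_comm (⇑Q) u' u, polar_comm (⇑Q) u' f, polar_comm (⇑Q) f' u, polar_comm (⇑Q) f' f,
      *] <;>
    simp [hμ] <;> match_scalars <;> field_simp <;> ring

end Cfsg.Agent.H39
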