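import Cfsg.Agent.H39.OmegaStep

/-!
# Representations whose radical characters have one norm

If the nontrivial characters occurring on the radical are exactly those of one norm, once each,
then the fixed space of the radical is a nontrivial module for the Levi group. The phases vanish
because the long root element is a commutator inside the stabiliser of each character.
-/

namespace Cfsg.Agent.H39

open QuadraticMap hiding sq
open Cfsg.Agent.H5
open Finset Module
open scoped Classical commutatorElement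

variable {F V : Type*} [Field F] [AddCommGroup V] [Module F V] {Q : QuadraticForm F V}

/-- A long root element as a commutator. -/
lemma kE_eq_comm {u c x y : V} (hu : Q u = 0) (hc : Q c = 0) (huc : polar Q u c = 0)
    (hux : polar Q u x = 0) (huy : polar Q u y = 0) (hcx : polar Q c x = 0)
    (hcy : polar Q c y = 0) (hxy : polar Q x y = -1) :
    kE Q u c = ⁅kE Q c x, kE Q u y⁆ := by
  refine Subtype.ext ?_
  show eich Q u c = ⁅eich Q c x, eich Q u y⁆
  have h1 : (eich Q c x : V ≃ₗ[F] V) u = u :=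
    eich_apply_of_ortho hc hcx (by rw [polar_comm]; exact huc) (by rw [polar_comm]; exact hux)
  have h2 : (eich Q c x : V ≃ₗ[F] V) y = y + c := by
    rw [eich_apply hc hcx, hcy, hxy]; simp
  rw [commutatorElement_def, eich_conj, h1, h2, eich_inv hu huy,
    eich_mul hu (by simp [polar_add_right, huy, huc]) (by simp [polar_neg_right, huy])]
  congr 1
  abel

variable [FiniteDimensional F V]

/-- Two non-orthogonal vectors orthogonal to a given one. -/
lemma exists_pair_perp [Finite F] (hQ : (polarBilin Q).Nondegenerate) (w : V)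
    (h1 : 1 ≤ finrank F V) (hiso : w ≠ 0 → Q w = 0 → 3 ≤ finrank F V)
    (han : Q w ≠ 0 → 4 ≤ finrank F V) :
    ∃ a b : V, polar Q a w = 0 ∧ polar Q b w = 0 ∧ polar Q a b = -1 := by
  have key : ∀ e f : V, HypPair Q e f → 3 ≤ finrank F V → ∃ a b : V,
      a ∈ H5.pperp Q e f ∧ b ∈ H5.pperp Q e f ∧ polar Q a b = -1 := by
    intro e f h hn
    have hd := h.finrank_pperp hQ
    obtain ⟨x, hx, hx0⟩ := Submodule.exists_mem_ne_zero_of_ne_bot (p := H5.pperp Q e f)
      (fun hb => by rw [hb, finrank_bot] at hd; omega)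
    obtain ⟨y, hy⟩ := exists_polar_eq_one (restrict_nondegenerate (h.inf_perp hQ))
      (x := (⟨x, hx⟩ : H5.pperp Q e f)) (fun h0 => hx0 (congrArg Subtype.val h0))
    refine ⟨x, -(y : V), hx, neg_mem y.2, ?_⟩
    rw [polar_restrict] at hy
    first
      | rw [polar_neg_right, hy]
      | rw [polar_neg_right, polar_comm, hy]
  by_cases hw : w = 0
  · haveI := Module.nontrivial_of_finrank_pos (R := F) (M := V) h1
    obtain ⟨x, hx⟩ := exists_ne (0 : V)
    obtain ⟨y, hy⟩ := exists_polar_eq_one hQ hx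
    refine ⟨x, -y, by simp [hw], by simp [hw], ?_⟩
    first
      | rw [polar_neg_right, hy]
      | rw [polar_neg_right, polar_comm, hy]
  by_cases hQw : Q w = 0
  · obtain ⟨f, hf⟩ := exists_hypPair hQ hw hQw
    obtain ⟨a, b, ha, hb, hab⟩ := key w f hf (hiso hw hQw)
    exact ⟨a, b, by rw [polar_comm]; exact (mem_pperp.1 ha).1,
      by rw [polar_comm]; exact (mem_pperp.1 hb).1, hab⟩
  · have hn := han hQw
    obtain ⟨e, he0, he⟩ := exists_singular hQ (by omega)
    obtain ⟨f, hf⟩ := exists_hypPair hQ he0 he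
    obtain ⟨g, -, hg⟩ := exists_eichGroup_map_norm hQ hn hf hQw
    obtain ⟨a, b, ha, hb, hab⟩ := key e f hf (by omega)
    refine ⟨(g : V ≃ₗ[F] V).symm a, (g : V ≃ₗ[F] V).symm b, ?_, ?_, ?_⟩ <;>
      rw [← orth_polar g, LinearEquiv.apply_symm_apply]
    · rw [hg, polar_comm, polar_add_left, polar_smul_left, (mem_pperp.1 ha).1, (mem_pperp.1 ha).2]
      simp
    · rw [hg, polar_comm, polar_add_left, polar_smul_left, (mem_pperp.1 hb).1, (mem_pperp.1 hb).2]
      simp
    · rw [LinearEquiv.apply_symm_apply, hab]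

variable [Fintype F] [Fintype V]

omit [FiniteDimensional F V] in
/-- Summing over the vectors of a given norm a function of the pairing with `e`. -/
lemma sum_level_pair {e f : V} (h : HypPair Q e f) (φ : F → ℂ) (c : F) :
    ∑ x ∈ univ.filter (fun x : V => Q x = c), φ (polar Q e x) =
      (Fintype.card F : ℂ) * φ 0 * (univ.filter fun w : H5.pperp Q e f => Q (w : V) = c).card +
        Nat.card (H5.pperp Q e f) * (∑ β, φ β - φ 0) := by
  rw [Finset.sum_filter, ← (pairSplit h).symm.sum_comp, Fintype.sum_prod_type, Finset.sum_comm,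
    Fintype.sum_prod_type]
  rw [Finset.sum_comm]
  have key : ∀ (β : F) (w : H5.pperp Q e f),
      (∑ α : F, if Q ((pairSplit h).symm (α, β, w)) = c then
        φ (polar Q e ((pairSplit h).symm (α, β, w))) else 0) =
      if β = 0 then (if Q (w : V) = c then (Fintype.card F : ℂ) * φ 0 else 0) else φ β := by
    intro β w
    have hv : ∀ α, Q ((pairSplit h).symm (α, β, w)) = α * β + Q (w : V) := fun α =>
      map_pair_add h α β w
    have hp : ∀ α, polar Q e ((pairSplit h).symm (α, β, w)) = β := fun α =>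
      (polar_pair_add h α β w).1
    simp only [hv, hp]
    split_ifs with hb hw
    · simp [hb, hw]
    · simp [hb, hw]
    · rw [Finset.sum_eq_single ((c - Q (w : V)) / β)]
      · rw [if_pos (by rw [div_mul_cancel₀ _ hb]; ring)]
      · intro α _ hα
        rw [if_neg]
        intro h0
        apply hα
        field_simp
        linear_combination h0
      · simp
  simp only [key]
  have hsplit : ∀ w : H5.pperp Q e f,
      (∑ β : F, if β = 0 then (if Q (w : V) = c then (Fintype.card F : ℂ) * φ 0 else 0) else φ β) =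
        (if Q (w : V) = c then (Fintype.card F : ℂ) * φ 0 else 0) + (∑ β, φ β - φ 0) := by
    intro w
    rw [← Finset.add_sum_erase _ _ (mem_univ (0 : F)), if_pos rfl,
      Finset.sum_erase_eq_sub (mem_univ (0 : F)) |>.symm]
    congr 1
    exact Finset.sum_congr rfl fun β hβ => if_neg (Finset.mem_erase.1 hβ).1
  simp only [hsplit, Finset.sum_add_distrib, ← Finset.sum_filter, Finset.sum_const, Finset.card_univ,
    nsmul_eq_mul, Nat.card_eq_fintype_card]
  ring

omit [FiniteDimensional F V] in
lemma card_level_pair {e f : V} (h : HypPair Q e f) (c : F) :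
    (univ.filter fun x : V => Q x = c).card + Nat.card (H5.pperp Q e f) =
      Fintype.card F * (univ.filter fun w : H5.pperp Q e f => Q (w : V) = c).card +
        Fintype.card F * Nat.card (H5.pperp Q e f) := by
  have hs := sum_level_pair h (fun _ => 1) c
  simp only [Finset.sum_const, Finset.card_univ, nsmul_eq_mul, mul_one] at hs
  apply Nat.cast_injective (R := ℂ)
  push_cast
  linear_combination hs

omit [FiniteDimensional F V] in
lemma sum_level_char {e f : V} (h : HypPair Q e f) {ψ : AddChar F ℂ} (hψ : ψ ≠ 1) (c : F) :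
    ∑ x ∈ univ.filter (fun x : V => Q x = c), ψ (polar Q e x) =
      (univ.filter fun x : V => Q x = c).card -
        (Fintype.card F : ℂ) * Nat.card (H5.pperp Q e f) := by
  have h1 := congrArg (Nat.cast : ℕ → ℂ) (card_level_pair h c)
  push_cast at h1
  rw [sum_level_pair h (fun β => ψ β) c, AddChar.sum_eq_zero_of_ne_one hψ, AddChar.map_zero_eq_one]
  linear_combination -h1

omit [FiniteDimensional F V] in
lemma card_level_perp_two {e f : V} (h : HypPair Q e f) {u g : H5.pperp Q e f}
    (hu : HypPair (Q.restrict (H5.pperp Q e f)) u g) (c : F) :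
    (univ.filter fun x : V => Q x = c ∧ polar Q e x = 0 ∧ polar Q (u : V) x = 0).card =
      Fintype.card F * (Fintype.card F *
        (univ.filter fun w : H5.pperp (Q.restrict (H5.pperp Q e f)) u g =>
          Q ((w : H5.pperp Q e f) : V) = c).card) := by
  simp only [← Finset.card_univ (α := F)]
  rw [← Finset.card_product, ← Finset.card_product]
  symm
  refine Finset.card_bij
    (fun p _ => (pairSplit h).symm (p.1, 0, (pairSplit hu).symm (p.2.1, 0, p.2.2)))
    (fun p hp => ?_) (fun p _ p' _ he => ?_) (fun x hx => ?_)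
  · simp only [mem_product, mem_univ, true_and, mem_filter] at hp
    simp only [mem_filter, mem_univ, true_and]
    set y : H5.pperp Q e f := (pairSplit hu).symm (p.2.1, 0, p.2.2) with hy
    refine ⟨?_, (polar_pair_add h _ _ _).1, ?_⟩
    · show Q (p.1 • e + (0 : F) • f + (y : V)) = c
      rw [map_pair_add h, mul_zero, zero_add]
      show (Q.restrict (H5.pperp Q e f)) (p.2.1 • u + (0 : F) • g + (p.2.2 : H5.pperp Q e f)) = c
      rw [map_pair_add hu, mul_zero, zero_add]
      exact hp
    · show polar Q (u : V) (p.1 • e + (0 : F) • f + (y : V)) = 0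
      rw [polar_add_right, polar_add_right, polar_smul_right, polar_smul_right, ← polar_restrict,
        show polar (Q.restrict (H5.pperp Q e f)) u y = 0 from (polar_pair_add hu _ _ _).1,
        polar_comm (⇑Q) (u : V) e, (mem_pperp.1 u.2).1]
      simp
  · have h1 := (pairSplit h).symm.injective he
    simp only [Prod.mk.injEq, true_and] at h1
    have h2 := (pairSplit hu).symm.injective h1.2
    simp only [Prod.mk.injEq, true_and] at h2
    exact Prod.ext h1.1 (Prod.ext h2.1 h2.2)
  · simp only [mem_filter, mem_univ, true_and] at hx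
    set y := perpProj h x with hy
    have hpy : polar (Q.restrict (H5.pperp Q e f)) u y = 0 := by
      rw [polar_restrict, hy, coe_perpProj]
      simp [polar_sub_right, polar_smul_right, polar_comm (⇑Q) (u : V) e,
        polar_comm (⇑Q) (u : V) f, (mem_pperp.1 u.2).1, (mem_pperp.1 u.2).2, hx.2.2]
    refine ⟨(polar Q f x, polar (Q.restrict (H5.pperp Q e f)) g y, perpProj hu y), ?_, ?_⟩
    · simp only [mem_product, mem_univ, true_and, mem_filter]
      have h1 := hx.1
      rw [pair_decomp h x, map_pair_add h, hx.2.1, mul_zero, zero_add, ← hy] at h1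
      change (Q.restrict (H5.pperp Q e f)) y = c at h1
      rw [pair_decomp hu y, map_pair_add hu, hpy, mul_zero, zero_add] at h1
      exact h1
    · show polar Q f x • e + (0 : F) • f + (((polar (Q.restrict (H5.pperp Q e f)) g y • u +
        (0 : F) • g + (perpProj hu y : H5.pperp Q e f)) : H5.pperp Q e f) : V) = x
      conv_rhs => rw [pair_decomp h x, hx.2.1, ← hy, pair_decomp hu y, hpy]

variable (hQ : (polarBilin Q).Nondegenerate) {e f : V} (h : HypPair Q e f)
  {ψ : AddChar F ℂ} (hψ : ψ ≠ 1) {M : Type} [AddCommGroup M] [Module ℂ M]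
  [FiniteDimensional ℂ M] (ρ : Representation ℂ (eichGroup Q) M)

/-- The non-zero vectors of norm `c` of the complement. -/
noncomputable def levelSet (Q : QuadraticForm F V) (e f : V) (c : F) :
    Finset (H5.pperp Q e f) :=
  (univ.filter fun v : H5.pperp Q e f => (Q.restrict (H5.pperp Q e f)) v = c).erase 0

omit [FiniteDimensional F V] [Fintype F] in
lemma mem_levelSet {e f : V} {c : F} {v : H5.pperp Q e f} :
    v ∈ levelSet Q e f c ↔ v ≠ 0 ∧ Q (v : V) = c := by
  simp [levelSet]

omit [FiniteDimensional F V] [Fintype F] in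
lemma levelSet_add (c : F) :
    (levelSet Q e f c).card + (if c = 0 then 1 else 0) =
      (univ.filter fun v : H5.pperp Q e f => (Q.restrict (H5.pperp Q e f)) v = c).card := by
  unfold levelSet
  split_ifs with hc
  · rw [Finset.card_erase_add_one (by simp [hc])]
  · rw [Finset.erase_eq_of_notMem (by simp [Ne.symm hc]), add_zero]

variable {c : F} (hone : ∀ v ∈ levelSet Q e f c, (radData hQ h ψ hψ).dim ρ v = 1)
  (hzero : ∀ v : H5.pperp Q e f, v ≠ 0 → v ∉ levelSet Q e f c →
    (radData hQ h ψ hψ).dim ρ v = 0)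

include hone hzero in
lemma level_finrank :
    finrank ℂ M = (radData hQ h ψ hψ).dim ρ 0 + (levelSet Q e f c).card := by
  rw [← (radData hQ h ψ hψ).sum_dim ρ, ← Finset.sum_subset
      (Finset.subset_univ (insert 0 (levelSet Q e f c)))
      (fun v _ hv => hzero v (fun h0 => hv (by simp [h0])) (fun h1 => hv (by simp [h1]))),
    Finset.sum_insert (by simp [mem_levelSet]), Finset.sum_congr rfl hone, Finset.sum_const,
    smul_eq_mul, mul_one]

include hone hzero in
/-- The character on the long root elements. -/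
lemma level_long_char (hn : 6 ≤ finrank F V) {g : eichGroup Q} (hg : g ∈ longSet Q) :
    ρ.character g = (finrank ℂ M : ℂ) - (Fintype.card F ^ (finrank F V - 3) : ℕ) := by
  obtain ⟨⟨u, a⟩, ⟨hu0, hu, ha, hua, hsp⟩, rfl⟩ := mem_longSet.1 hg
  obtain ⟨k, w, t, -, hQw, hw0, hk⟩ := exists_conj_into_radical hQ (by omega) h hu0 hu hua
  rw [ha, mul_zero] at hQw
  have hw0' := hw0 hsp
  set D := radData hQ h ψ hψ with hD
  rw [← ρ.char_conj (kE Q u a) k, hk]
  have htr : ρ.character (kE Q e (w : V)) = ∑ v, D.χ v w * D.dim ρ v := D.trace_apply ρ w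
  rw [htr, ← Finset.sum_subset (Finset.subset_univ (insert 0 (levelSet Q e f c))) (fun v _ hv => by
      rw [hzero v (fun h0 => hv (by simp [h0])) (fun h1 => hv (by simp [h1])), Nat.cast_zero,
        mul_zero]), Finset.sum_insert (by simp [mem_levelSet]),
    Finset.sum_congr rfl (g := fun v => ψ (polar (Q.restrict (H5.pperp Q e f)) w v)) (fun v hv => by
      rw [hone v hv]
      simp [D, radData, polar_restrict, polar_comm (⇑Q) (v : V)])]
  have hWn := restrict_nondegenerate (h.inf_perp hQ)
  obtain ⟨x, hx⟩ := exists_hypPair hWn hw0' hQw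
  have hfin := level_finrank hQ h hψ ρ hone hzero
  have hsum := sum_level_char hx hψ c
  have hc := card_pperp_eq hWn hx
  have hd : finrank F (H5.pperp Q e f) + 2 = finrank F V := h.finrank_pperp hQ
  rw [show finrank F (H5.pperp Q e f) - 2 = finrank F V - 4 by omega] at hc
  rw [hc, ← levelSet_add c] at hsum
  have herase : ∑ v ∈ levelSet Q e f c, ψ (polar (Q.restrict (H5.pperp Q e f)) w v) +
      (if c = 0 then 1 else 0) =
      ∑ v ∈ univ.filter (fun v : H5.pperp Q e f => (Q.restrict (H5.pperp Q e f)) v = c),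
        ψ (polar (Q.restrict (H5.pperp Q e f)) w v) := by
    unfold levelSet
    split_ifs with hc0
    · rw [eq_comm, ← Finset.sum_erase_add _ _ (a := 0) (by simp [hc0])]
      simp
    · rw [Finset.erase_eq_of_notMem (by simp [Ne.symm hc0]), add_zero]
  rw [show finrank F V - 3 = finrank F V - 4 + 1 by omega, hfin]
  simp only [D, radData, radChar_apply, Submodule.coe_zero, polar_zero_left,
    AddChar.map_zero_eq_one, one_mul]
  split_ifs at hsum herase with hc0 <;>
  · push_cast at hsum ⊢
    linear_combination hsum + herase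

variable {a₁ b₁ : H5.pperp Q e f} (h₁ : HypPair (Q.restrict (H5.pperp Q e f)) a₁ b₁)
  {a₂ b₂ : H5.pperp (Q.restrict (H5.pperp Q e f)) a₁ b₁}
  (h₂ : HypPair ((Q.restrict (H5.pperp Q e f)).restrict
    (H5.pperp (Q.restrict (H5.pperp Q e f)) a₁ b₁)) a₂ b₂)

include hone hzero h₁ h₂ in
/-- Some element of the Levi group moves the fixed space of the radical. -/
theorem level_exists_trace_ne (hn : 8 ≤ finrank F V)
    (hab : ∀ w : H5.pperp ((Q.restrict (H5.pperp Q e f)).restrict
        (H5.pperp (Q.restrict (H5.pperp Q e f)) a₁ b₁)) a₂ b₂,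
      Q (((w : H5.pperp (Q.restrict (H5.pperp Q e f)) a₁ b₁) : H5.pperp Q e f) : V) = c →
        ∃ a b, polar ((((Q.restrict (H5.pperp Q e f)).restrict
            (H5.pperp (Q.restrict (H5.pperp Q e f)) a₁ b₁)).restrict
              (H5.pperp ((Q.restrict (H5.pperp Q e f)).restrict
                (H5.pperp (Q.restrict (H5.pperp Q e f)) a₁ b₁)) a₂ b₂))) a w = 0 ∧
          polar ((((Q.restrict (H5.pperp Q e f)).restrict
            (H5.pperp (Q.restrict (H5.pperp Q e f)) a₁ b₁)).restrict
              (H5.pperp ((Q.restrict (H5.pperp Q e f)).restrict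
                (H5.pperp (Q.restrict (H5.pperp Q e f)) a₁ b₁)) a₂ b₂))) b w = 0 ∧
          polar ((((Q.restrict (H5.pperp Q e f)).restrict
            (H5.pperp (Q.restrict (H5.pperp Q e f)) a₁ b₁)).restrict
              (H5.pperp ((Q.restrict (H5.pperp Q e f)).restrict
                (H5.pperp (Q.restrict (H5.pperp Q e f)) a₁ b₁)) a₂ b₂))) a b = -1)
    :
    ∃ x, LinearMap.trace ℂ M (ρ (leviK h x) * (radData hQ h ψ hψ).proj ρ 0) ≠
      ((radData hQ h ψ hψ).dim ρ 0 : ℂ) := by
  set D := radData hQ h ψ hψ with hD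
  have t12 : TwoPairs (Q.restrict (H5.pperp Q e f)) a₁ b₁ a₂ b₂ := twoPairs_of_perp h₁ h₂
  set u₁ : V := (a₁ : V) with hu1
  set u₂ : V := ((a₂ : H5.pperp Q e f) : V) with hu2
  have hu12 : polar Q u₁ u₂ = 0 := (mem_pperp.1 t12.coe.memu).1
  have hg1 : Q u₁ = 0 := h₁.left
  have hg2 : Q u₂ = 0 := h₂.left
  set xW : eichGroup (Q.restrict (H5.pperp Q e f)) :=
    kE (Q.restrict (H5.pperp Q e f)) a₁ a₂ with hxW
  have hx : leviK h xW = kE Q u₁ u₂ := leviK_kE h hg1 hu12
  have hlong : LongPair Q (u₁, u₂) := by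
    refine ⟨t12.coe.fst.ne_zero, hg1, hg2, hu12, fun hsp => ?_⟩
    obtain ⟨t, ht⟩ := Submodule.mem_span_singleton.1 hsp
    have := t12.coe.snd.pair
    change polar Q u₂ _ = 1 at this
    rw [show u₂ = t • u₁ from ht.symm, polar_smul_left, (mem_pperp.1 t12.coe.memf).1,
      smul_zero] at this
    exact zero_ne_one this
  set fx := univ.filter (fun v : H5.pperp Q e f => (Q.restrict (H5.pperp Q e f)) v = c ∧
    polar (Q.restrict (H5.pperp Q e f)) a₁ v = 0 ∧
    polar (Q.restrict (H5.pperp Q e f)) (a₂ : H5.pperp Q e f) v = 0) with hfx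
  have hfix : ∀ v ∈ levelSet Q e f c,
      (v ∈ fx ↔ (((leviK h xW).1 : orth Q) : V ≃ₗ[F] V) (v : V) = (v : V)) := by
    intro v hv
    obtain ⟨-, hQv⟩ := mem_levelSet.1 hv
    simp only [hfx, Finset.mem_filter, mem_univ, true_and, hx]
    show _ ↔ (eich Q u₁ u₂ : V ≃ₗ[F] V) (v : V) = (v : V)
    rw [hlong.eich_apply, QuadraticMap.restrict_apply, polar_restrict, polar_restrict]
    refine ⟨fun ⟨_, h1, h2⟩ => ?_, fun hh => ⟨hQv, ?_⟩⟩
    · rw [show polar Q u₁ (v : V) = 0 from h1, show polar Q u₂ (v : V) = 0 from h2]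
      simp
    · have h' : polar Q u₁ (v : V) • u₂ - polar Q u₂ (v : V) • u₁ = 0 := by
        linear_combination (norm := module) hh
      have hind : ∀ {r t : F}, r • u₂ - t • u₁ = 0 → r = 0 := by
        intro r t hrt
        by_contra hr
        refine hlong.2.2.2.2 (Submodule.mem_span_singleton.2 ⟨r⁻¹ * t, ?_⟩)
        rw [sub_eq_zero] at hrt
        show (r⁻¹ * t) • u₁ = u₂
        rw [mul_smul, ← hrt, smul_smul, inv_mul_cancel₀ hr, one_smul]
      refine ⟨hind h', ?_⟩
      rw [hind h', zero_smul, zero_sub, neg_eq_zero, smul_eq_zero] at h'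
      exact h'.resolve_right hlong.1
  -- phases
  have hph : ∀ v ∈ levelSet Q e f c, v ∈ fx → ρ (leviK h xW) * D.proj ρ v = D.proj ρ v := by
    intro v hv hvf
    simp only [hfx, Finset.mem_filter, mem_univ, true_and] at hvf
    obtain ⟨hQv, hv1, hv2⟩ := hvf
    set y := perpProj h₁ v with hy
    set w := perpProj h₂ y with hw
    have hy2 : polar ((Q.restrict (H5.pperp Q e f)).restrict (H5.pperp (Q.restrict (H5.pperp Q e f)) a₁ b₁)) a₂ y = 0 := by
      rw [polar_restrict, hy, coe_perpProj]
      simp [polar_sub_right, polar_smul_right, polar_comm (⇑(Q.restrict (H5.pperp Q e f))) (a₂ : H5.pperp Q e f) a₁,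
        polar_comm (⇑(Q.restrict (H5.pperp Q e f))) (a₂ : H5.pperp Q e f) b₁, (mem_pperp.1 a₂.2).1, (mem_pperp.1 a₂.2).2, hv2]
    have hQw : Q (((w : H5.pperp (Q.restrict (H5.pperp Q e f)) a₁ b₁) : H5.pperp Q e f) : V) = c := by
      rw [pair_decomp h₁ v, map_pair_add h₁, hv1, mul_zero, zero_add, ← hy] at hQv
      change ((Q.restrict (H5.pperp Q e f)).restrict (H5.pperp (Q.restrict (H5.pperp Q e f)) a₁ b₁)) y = c at hQv
      rw [pair_decomp h₂ y, map_pair_add h₂, hy2, mul_zero, zero_add] at hQv
      exact hQv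
    obtain ⟨a, b, haw, hbw, hab'⟩ := hab w hQw
    have hdec : ∀ z : H5.pperp ((Q.restrict (H5.pperp Q e f)).restrict (H5.pperp (Q.restrict (H5.pperp Q e f)) a₁ b₁)) a₂ b₂,
        polar Q ((((z : H5.pperp (Q.restrict (H5.pperp Q e f)) a₁ b₁) : H5.pperp Q e f)) : V) (v : V) =
          polar (((Q.restrict (H5.pperp Q e f)).restrict (H5.pperp (Q.restrict (H5.pperp Q e f)) a₁ b₁)).restrict
            (H5.pperp ((Q.restrict (H5.pperp Q e f)).restrict (H5.pperp (Q.restrict (H5.pperp Q e f)) a₁ b₁)) a₂ b₂)) z w := by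
      intro z
      obtain ⟨z1, z2⟩ := mem_pperp.1 (z : H5.pperp (Q.restrict (H5.pperp Q e f)) a₁ b₁).2
      obtain ⟨z3, z4⟩ := mem_pperp.1 z.2
      rw [← polar_restrict (Q := Q)]
      conv_lhs => rw [pair_decomp h₁ v, hv1, ← hy]
      rw [polar_add_right, polar_add_right, polar_smul_right, polar_smul_right,
        polar_comm (⇑(Q.restrict (H5.pperp Q e f))) _ a₁, z1,
        polar_comm (⇑(Q.restrict (H5.pperp Q e f))) _ b₁, z2,
        ← polar_restrict (Q := Q.restrict (H5.pperp Q e f))]
      simp only [smul_zero, zero_smul, zero_add, smul_eq_mul, mul_zero, zero_mul]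
      conv_lhs => rw [pair_decomp h₂ y, hy2, ← hw]
      rw [polar_add_right, polar_add_right, polar_smul_right, polar_smul_right,
        polar_comm (⇑((Q.restrict (H5.pperp Q e f)).restrict (H5.pperp (Q.restrict (H5.pperp Q e f)) a₁ b₁))) _ a₂, z3,
        polar_comm (⇑((Q.restrict (H5.pperp Q e f)).restrict (H5.pperp (Q.restrict (H5.pperp Q e f)) a₁ b₁))) _ b₂, z4, polar_restrict]
      simp [polar_restrict]
    set A : V := (((a : H5.pperp (Q.restrict (H5.pperp Q e f)) a₁ b₁) : H5.pperp Q e f) : V) with hA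
    set B : V := (((b : H5.pperp (Q.restrict (H5.pperp Q e f)) a₁ b₁) : H5.pperp Q e f) : V) with hB
    have hperp : ∀ z : H5.pperp ((Q.restrict (H5.pperp Q e f)).restrict (H5.pperp (Q.restrict (H5.pperp Q e f)) a₁ b₁)) a₂ b₂,
        polar Q u₁ ((((z : H5.pperp (Q.restrict (H5.pperp Q e f)) a₁ b₁) : H5.pperp Q e f)) : V) = 0 ∧
          polar Q u₂ ((((z : H5.pperp (Q.restrict (H5.pperp Q e f)) a₁ b₁) : H5.pperp Q e f)) : V) = 0 := fun z => by
      obtain ⟨z1, -⟩ := mem_pperp.1 (z : H5.pperp (Q.restrict (H5.pperp Q e f)) a₁ b₁).2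
      obtain ⟨z3, -⟩ := mem_pperp.1 z.2
      exact ⟨(polar_restrict _ _).symm.trans z1,
        (polar_restrict _ _).symm.trans ((polar_restrict (Q := Q.restrict (H5.pperp Q e f)) _ _).symm.trans z3)⟩
    obtain ⟨ua, ca⟩ := hperp a
    obtain ⟨ub, cb⟩ := hperp b
    have hAB : polar Q A B = -1 := by
      rw [← hab', polar_restrict, polar_restrict, polar_restrict]
    have hav : polar Q A (v : V) = 0 := by rw [hA, hdec, haw]
    have hbv : polar Q B (v : V) = 0 := by rw [hB, hdec, hbw]
    have hv1' : polar Q u₁ (v : V) = 0 := (polar_restrict _ _).symm.trans hv1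
    have hv2' : polar Q u₂ (v : V) = 0 := (polar_restrict _ _).symm.trans hv2
    have hfe : ∀ z : H5.pperp Q e f, polar Q (z : V) e = 0 ∧ polar Q (z : V) f = 0 := fun z =>
      ⟨by rw [polar_comm]; exact (mem_pperp.1 z.2).1, by rw [polar_comm]; exact (mem_pperp.1 z.2).2⟩
    rw [hx, kE_eq_comm hg1 hg2 hu12 ua ub ca cb hAB]
    refine proj_phase ρ _ (hone v hv) (rad_comm_fix hQ h hψ ρ ?_ ?_ ?_)
      (rad_comm_fix hQ h hψ ρ ?_ ?_ ?_)
    · exact kE_fix hg2 ca (hfe _).1 (hfe _).1
    · exact kE_fix hg2 ca (hfe _).2 (hfe _).2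
    · exact (kE_fix hg2 ca hv2' hav).symm
    · exact kE_fix hg1 ub (hfe _).1 (hfe _).1
    · exact kE_fix hg1 ub (hfe _).2 (hfe _).2
    · exact (kE_fix hg1 ub hv1' hbv).symm
  -- the trace on the fixed space
  refine ⟨xW, fun htr => ?_⟩
  set s := (levelSet Q e f c).filter (fun v => v ∈ fx) with hs
  have hchar : ρ.character (leviK h xW) =
      LinearMap.trace ℂ M (ρ (leviK h xW) * D.proj ρ 0) + s.card := by
    have h0s : (0 : H5.pperp Q e f) ∉ s := fun h0 => by simp [hs, mem_levelSet] at h0
    show LinearMap.trace ℂ M (ρ (leviK h xW)) = _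
    conv_lhs => rw [← mul_one (ρ (leviK h xW)), ← D.sum_proj ρ, Finset.mul_sum, map_sum]
    rw [← Finset.sum_subset (Finset.subset_univ (insert 0 s)), Finset.sum_insert h0s,
      Finset.sum_congr rfl (g := fun _ => (1 : ℂ)) (fun v hv => by
        rw [hph v (Finset.mem_filter.1 hv).1 (Finset.mem_filter.1 hv).2, D.trace_proj,
          hone v (Finset.mem_filter.1 hv).1, Nat.cast_one])]
    · simp
    intro v _ hv
    simp only [hs, Finset.mem_insert, Finset.mem_filter, not_or, not_and] at hv
    by_cases hvc : v ∈ levelSet Q e f c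
    · have hgv : (((leviK h xW).1 : orth Q) : V ≃ₗ[F] V) (v : V) ≠ (v : V) := fun hgv =>
        hv.2 hvc ((hfix v hvc).2 hgv)
      refine D.trace_mul_proj_eq_zero ρ (rad_comm_fix hQ h hψ ρ (g := leviK h xW)
        (orthExt_left h _) (orthExt_right h _)
        (v' := ⟨_, scale_mem_pperp one_ne_zero (by simp [leviK, orthExt_left])
          (by simp [leviK, orthExt_right]) v.2⟩) rfl) fun he => hgv (congrArg Subtype.val he).symm
    · rw [AbelData.proj_eq_zero_of_dim ρ D (hzero v hv.1 hvc), mul_zero, map_zero]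
  have hmem : leviK h xW ∈ longSet Q := mem_longSet.2 ⟨(u₁, u₂), hlong, hx.symm⟩
  rw [htr, level_long_char hQ h hψ ρ hone hzero (by omega) hmem,
    level_finrank hQ h hψ ρ hone hzero] at hchar
  have hscard : s.card + (if c = 0 then 1 else 0) = fx.card := by
    have hsfx : s = fx.erase 0 := by
      ext v
      simp only [hs, hfx, Finset.mem_filter, mem_levelSet, Finset.mem_erase, mem_univ, true_and,
        QuadraticMap.restrict_apply]
      tauto
    rw [hsfx]
    split_ifs with hc
    · rw [Finset.card_erase_add_one (by simp [hfx, hc])]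
    · rw [Finset.erase_eq_of_notMem (by simp [hfx, Ne.symm hc]), add_zero]
  have hL := levelSet_add (Q := Q) (e := e) (f := f) c
  have p0 := card_level_perp_two h₁ h₂ c
  rw [← hfx] at p0
  have p1 := card_level_pair h₁ c
  have p2 := card_level_pair h₂ c
  have hd0 : finrank F (H5.pperp Q e f) + 2 = finrank F V := h.finrank_pperp hQ
  have hWn := restrict_nondegenerate (h.inf_perp hQ)
  have hd1 := h₁.finrank_pperp hWn
  have hW2n := restrict_nondegenerate (h₁.inf_perp hWn)
  obtain ⟨r, hr⟩ : ∃ r, finrank F V = r + 6 := ⟨finrank F V - 6, by omega⟩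
  rw [card_pperp_eq hWn h₁, show finrank F (H5.pperp Q e f) - 2 = r + 2 by omega] at p1
  rw [card_pperp_eq hW2n h₂,
    show finrank F (H5.pperp (Q.restrict (H5.pperp Q e f)) a₁ b₁) - 2 = r by omega] at p2
  rw [show finrank F V - 3 = r + 3 by omega] at hchar
  simp only [QuadraticMap.restrict_apply] at hL p1 p2 p0
  have hzero' : ((Fintype.card F ^ (r + 1) : ℕ) : ℂ) = 0 := by
    apply_fun (Nat.cast : ℕ → ℂ) at hL p0 p1 p2 hscard
    push_cast at hL p0 p1 p2 hchar hscard ⊢
    linear_combination -hchar + hL - hscard - p0 + p1 + (Fintype.card F : ℂ) * p2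
  exact absurd (Nat.cast_eq_zero.1 hzero') (pow_ne_zero _ Fintype.card_ne_zero)

include hone hzero h₁ h₂ in
/-- The fixed space of the radical is large. -/
theorem level_dim_zero_ge (hn : 8 ≤ finrank F V)
    (hab : ∀ w : H5.pperp ((Q.restrict (H5.pperp Q e f)).restrict
        (H5.pperp (Q.restrict (H5.pperp Q e f)) a₁ b₁)) a₂ b₂,
      Q (((w : H5.pperp (Q.restrict (H5.pperp Q e f)) a₁ b₁) : H5.pperp Q e f) : V) = c →
        ∃ a b, polar ((((Q.restrict (H5.pperp Q e f)).restrict
            (H5.pperp (Q.restrict (H5.pperp Q e f)) a₁ b₁)).restrict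
              (H5.pperp ((Q.restrict (H5.pperp Q e f)).restrict
                (H5.pperp (Q.restrict (H5.pperp Q e f)) a₁ b₁)) a₂ b₂))) a w = 0 ∧
          polar ((((Q.restrict (H5.pperp Q e f)).restrict
            (H5.pperp (Q.restrict (H5.pperp Q e f)) a₁ b₁)).restrict
              (H5.pperp ((Q.restrict (H5.pperp Q e f)).restrict
                (H5.pperp (Q.restrict (H5.pperp Q e f)) a₁ b₁)) a₂ b₂))) b w = 0 ∧
          polar ((((Q.restrict (H5.pperp Q e f)).restrict
            (H5.pperp (Q.restrict (H5.pperp Q e f)) a₁ b₁)).restrict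
              (H5.pperp ((Q.restrict (H5.pperp Q e f)).restrict
                (H5.pperp (Q.restrict (H5.pperp Q e f)) a₁ b₁)) a₂ b₂))) a b = -1)
    {b : ℕ} (IH : LowDeg (Q.restrict (H5.pperp Q e f)) b) :
    b ≤ (radData hQ h ψ hψ).dim ρ 0 := by
  obtain ⟨x, hx⟩ := level_exists_trace_ne hQ h hψ ρ hone hzero h₁ h₂ hn hab
  exact dim_zero_ge hQ h hψ ρ IH x hx

end Cfsg.Agent.H39
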