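import Cfsg.Agent.H39.OmegaOddForm
import Cfsg.Agent.H39.OmegaDet

/-!
# The sign on a line fixed by a double scaling

With each singular character occurring once, the element scaling `e` and `u` by a generator of the
multiplicative group acts by `-1` on the line of a multiple of `u`. Hence a vector fixed by the
radical and by the Levi group is negated by it.
-/

namespace Cfsg.Agent.H39

open QuadraticMap hiding sq
open Cfsg.Agent.H5
open Finset Module
open scoped Classical commutatorElement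

section Gen

variable {F : Type*} [Field F] [Fintype F]

/-- A generator of the multiplicative group. -/
structure FieldGen (μ : F) : Prop where
  ne_zero : μ ≠ 0
  pow_ne : ∀ j, 0 < j → j < Fintype.card F - 1 → μ ^ j ≠ 1

lemma exists_fieldGen : ∃ μ : F, FieldGen μ := by
  obtain ⟨g, hg⟩ := IsCyclic.exists_generator (α := Fˣ)
  refine ⟨g, g.ne_zero, fun j h0 hj h1 => ?_⟩
  have ho : orderOf g = Fintype.card F - 1 := by
    rw [orderOf_eq_card_of_forall_mem_zpowers hg, Nat.card_eq_fintype_card, Fintype.card_units]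
  exact pow_ne_one_of_lt_orderOf h0.ne' (by rwa [ho]) (Units.ext (by simpa using h1))

lemma FieldGen.sq_ne {μ : F} (hμ : FieldGen μ) (hq : 4 ≤ Fintype.card F) : μ * μ ≠ 1 := by
  rw [← sq]; exact hμ.pow_ne 2 (by norm_num) (by omega)

lemma FieldGen.inv_sq_ne {μ : F} (hμ : FieldGen μ) (hq : 4 ≤ Fintype.card F) :
    μ⁻¹ * μ⁻¹ ≠ 1 := by
  rw [← mul_inv, inv_ne_one]; exact hμ.sq_ne hq

lemma odd_card_of_two_ne (h2 : (2 : F) ≠ 0) : Odd (Fintype.card F) := by
  refine Nat.odd_iff.2 (FiniteField.odd_card_of_char_ne_two fun h => h2 ?_)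
  have := ringChar.Nat.cast_ringChar (R := F)
  rw [h] at this
  exact_mod_cast this

end Gen

variable {F V : Type*} [Field F] [Fintype F] [AddCommGroup V] [Module F V] [FiniteDimensional F V]
  [Fintype V] {Q : QuadraticForm F V}

/-- Elements commuting with an operator. -/
def commSub {M : Type} [AddCommGroup M] [Module ℂ M] (ρ : Representation ℂ (eichGroup Q) M)
    (E : Module.End ℂ M) : Subgroup (eichGroup Q) where
  carrier := {X | ρ X * E = E * ρ X}
  one_mem' := by simp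
  mul_mem' {a b} ha hb := by
    show ρ (a * b) * E = E * ρ (a * b)
    rw [map_mul, mul_assoc, hb, ← mul_assoc, ha, mul_assoc]
  inv_mem' {a} ha := by
    show ρ a⁻¹ * E = E * ρ a⁻¹
    calc ρ a⁻¹ * E = ρ a⁻¹ * (E * ρ a) * ρ a⁻¹ := by
          rw [mul_assoc, mul_assoc, ← map_mul, mul_inv_cancel, map_one, mul_one]
      _ = E * ρ a⁻¹ := by
          rw [← ha, ← mul_assoc, ← map_mul, inv_mul_cancel, map_one, one_mul]

omit [Fintype F] [FiniteDimensional F V] [Fintype V] in
/-- A scaling preserving both complements permutes the Levi group. -/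
lemma levi_conj_mem {e f : V} (h : HypPair Q e f) (X : eichGroup Q)
    (hX : ∀ a ∈ H5.pperp Q e f, (X.1 : V ≃ₗ[F] V) a ∈ H5.pperp Q e f)
    (k : eichGroup (Q.restrict (H5.pperp Q e f))) : X * leviK h k * X⁻¹ ∈ (leviK h).range := by
  let S : Subgroup (eichGroup (Q.restrict (H5.pperp Q e f))) :=
    Subgroup.comap ((MulAut.conj X).toMonoidHom.comp (leviK h)) (leviK h).range
  suffices hle : eichGroup (Q.restrict (H5.pperp Q e f)) ≤
      S.map (eichGroup (Q.restrict (H5.pperp Q e f))).subtype by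
    obtain ⟨k', hk', he⟩ := hle k.2
    rw [← Subtype.ext he]
    exact hk'
  refine (Subgroup.closure_le _).2 ?_
  rintro _ ⟨u, a, hu, ha, rfl⟩
  refine ⟨kE (Q.restrict (H5.pperp Q e f)) u a, ?_, rfl⟩
  have hu' : Q (u : V) = 0 := hu
  have ha' : polar Q (u : V) (a : V) = 0 := by rwa [← polar_restrict]
  show X * leviK h (kE (Q.restrict (H5.pperp Q e f)) u a) * X⁻¹ ∈ (leviK h).range
  rw [leviK_kE h hu' ha', kE_conj]
  exact ⟨kE (Q.restrict (H5.pperp Q e f))
      (⟨(X.1 : V ≃ₗ[F] V) (u : V), hX _ u.2⟩ : H5.pperp Q e f)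
      (⟨(X.1 : V ≃ₗ[F] V) (a : V), hX _ a.2⟩ : H5.pperp Q e f), leviK_kE h
    (show Q ((X.1 : V ≃ₗ[F] V) (u : V)) = 0 by rw [orth_map, hu'])
    (show polar Q ((X.1 : V ≃ₗ[F] V) (u : V)) ((X.1 : V ≃ₗ[F] V) (a : V)) = 0 by
      rw [orth_polar, ha'])⟩

omit [Fintype F] [FiniteDimensional F V] [Fintype V] in
/-- The vectors fixed by the Levi group are permuted by scalings of the pair. -/
lemma levi_fix_apply {e f : V} (h : HypPair Q e f) {M : Type} [AddCommGroup M] [Module ℂ M]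
    (ρ : Representation ℂ (eichGroup Q) M) (X : eichGroup Q)
    (hX : ∀ a ∈ H5.pperp Q e f, ((X⁻¹).1 : V ≃ₗ[F] V) a ∈ H5.pperp Q e f) {x : M}
    (hx : ∀ k, ρ (leviK h k) x = x) (k : eichGroup (Q.restrict (H5.pperp Q e f))) :
    ρ (leviK h k) (ρ X x) = ρ X x := by
  obtain ⟨k', hk'⟩ := levi_conj_mem h X⁻¹ hX k
  rw [← Module.End.mul_apply, ← map_mul,
    show leviK h k * X = X * leviK h k' by rw [hk']; group, map_mul, Module.End.mul_apply, hx]

variable {k : ℕ} (hV : OddForm Q (k + 2)) {e f : V} (h : HypPair Q e f) {ψ : AddChar F ℂ}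
  (hψ : ψ ≠ 1) {M : Type} [AddCommGroup M] [Module ℂ M] [FiniteDimensional ℂ M]
  (ρ : Representation ℂ (eichGroup Q) M)
  (hiso : ∀ v : H5.pperp Q e f, Q (v : V) ≠ 0 → (radData hV.nondeg h ψ hψ).dim ρ v = 0)
  (hone : ∀ v : H5.pperp Q e f, v ≠ 0 → Q (v : V) = 0 → (radData hV.nondeg h ψ hψ).dim ρ v = 1)

section Sign

variable {u g : H5.pperp Q e f} (hu : HypPair (Q.restrict (H5.pperp Q e f)) u g) {μ : F}
  (hμ : FieldGen μ)

include hV h hψ hiso hone hu hμ in
/-- The sign. -/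
theorem line_sign {γ : F} (hγ : γ ≠ 0) :
    ρ (bothEl Q e f (u : V) g μ) * (radData hV.nondeg h ψ hψ).proj ρ (γ • u) =
      -(radData hV.nondeg h ψ hψ).proj ρ (γ • u) := by
  set D := radData hV.nondeg h ψ hψ with hD
  set q := Fintype.card F with hqd
  have hq := hV.four_le
  have hμ0 := hμ.ne_zero
  have T : TwoPairs Q e f (u : V) g := twoPairs_of_perp h hu
  obtain ⟨G, hG⟩ : ∃ G, G = bothEl Q e f (u : V) g μ := ⟨_, rfl⟩
  rw [← hG]
  obtain ⟨Ge, Gf, Gu, Gg, Gx⟩ := bothEl_apply T hμ0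
  rw [← hG] at Ge Gf Gu Gg
  have hjpow := bothEl_pow T hμ0
  rw [← hG] at hjpow
  obtain ⟨⟨eu, ue, fu, uf⟩, ⟨eg, ge, fg, gf⟩, ⟨ef, fe, ug, gu⟩⟩ := T.polars
  -- the characters with `B(g, v) = γ`
  let φ : H5.pperp (Q.restrict (H5.pperp Q e f)) u g → H5.pperp Q e f := fun w =>
    γ • u + (-(Q ((w : H5.pperp Q e f) : V)) / γ) • g + (w : H5.pperp Q e f)
  have hφQ : ∀ w, Q (φ w : V) = 0 := by
    intro w
    have h1 := map_pair_add hu γ (-(Q ((w : H5.pperp Q e f) : V)) / γ) w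
    rw [QuadraticMap.restrict_apply, QuadraticMap.restrict_apply] at h1
    show Q ((γ • u + (-(Q ((w : H5.pperp Q e f) : V)) / γ) • g + (w : H5.pperp Q e f) :
      H5.pperp Q e f) : V) = 0
    rw [h1]
    field_simp
    ring
  have hφg : ∀ w, polar Q (g : V) (φ w : V) = γ := fun w => by
    rw [← polar_restrict]
    exact (polar_pair_add hu _ _ w).2
  have hφinj : Function.Injective φ := fun w w' hw => by
    have := (pairSplit hu).symm.injective (a₁ := (γ, -(Q ((w : H5.pperp Q e f) : V)) / γ, w))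
      (a₂ := (γ, -(Q ((w' : H5.pperp Q e f) : V)) / γ, w')) hw
    exact (Prod.ext_iff.1 (Prod.ext_iff.1 this).2).2
  have hφ0 : φ 0 = γ • u := by simp [φ]
  set S := (univ : Finset (H5.pperp (Q.restrict (H5.pperp Q e f)) u g)).image φ with hS
  set E := ∑ v ∈ S, D.proj ρ v with hE
  have hEt : E = (q : ℂ)⁻¹ • ∑ t : F, ψ (-(γ * t)) • ρ (kE Q e (t • (g : V))) := by
    have h1 : ∀ t : F, ρ (kE Q e (t • (g : V))) =
        ∑ v : H5.pperp Q e f, ψ (t * polar Q (g : V) (v : V)) • D.proj ρ v := fun t => by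
      rw [show kE Q e (t • (g : V)) = D.u (t • g) from rfl, D.apply_eq_sum]
      refine Finset.sum_congr rfl fun v _ => ?_
      simp [D, radData, polar_smul_right, polar_comm (⇑Q) (v : V)]
    simp only [h1, Finset.smul_sum, smul_smul]
    rw [Finset.sum_comm]
    simp only [← Finset.sum_smul]
    rw [← Finset.sum_subset (Finset.subset_univ S) (fun v _ hv => ?_)]
    · refine Finset.sum_congr rfl fun v hv => ?_
      obtain ⟨w, -, rfl⟩ := Finset.mem_image.1 hv
      rw [hφg]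
      simp only [mul_comm γ, ← AddChar.map_add_eq_mul, neg_add_cancel, AddChar.map_zero_eq_one,
        mul_one, Finset.sum_const, Finset.card_univ, nsmul_eq_mul]
      rw [mul_inv_cancel₀ (Nat.cast_ne_zero.2 Fintype.card_ne_zero), one_smul]
    · by_cases hQv : Q (v : V) = 0
      · have hne : polar Q (g : V) (v : V) - γ ≠ 0 := by
          intro h0
          refine hv (Finset.mem_image.2 ⟨perpProj hu v, mem_univ _, ?_⟩)
          rw [sub_eq_zero, ← polar_restrict] at h0
          have hd := pair_decomp hu v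
          have hQ' := map_pair_add hu (polar (Q.restrict (H5.pperp Q e f)) g v)
            (polar (Q.restrict (H5.pperp Q e f)) u v) (perpProj hu v)
          rw [← hd, QuadraticMap.restrict_apply, QuadraticMap.restrict_apply, hQv, h0] at hQ'
          show γ • u + (_ / γ) • g + _ = v
          conv_rhs => rw [hd, h0]
          congr 3
          rw [div_eq_iff hγ]
          linear_combination hQ'
        have hsum : ∑ t : F, ψ (t * (polar Q (g : V) (v : V) - γ)) = 0 :=
          (AddChar.sum_mulShift _ (AddChar.IsPrimitive.of_ne_one hψ)).trans (by simp [hne])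
        have : ∀ t : F, ψ (-(γ * t)) * ψ (t * polar Q (g : V) (v : V)) =
            ψ (t * (polar Q (g : V) (v : V) - γ)) := fun t => by
          rw [← AddChar.map_add_eq_mul]; congr 1; ring
        simp only [mul_assoc, this, ← Finset.mul_sum, hsum, mul_zero, zero_smul]
      · rw [AbelData.proj_eq_zero_of_dim ρ D (hiso v hQv), smul_zero]
  set C := commSub ρ E with hC
  have hcA : ∀ s : F, kE Q e (s • (u : V)) ∈ C := fun s => by
    show ρ _ * E = E * ρ _
    rw [hE, Finset.mul_sum, Finset.sum_mul]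
    exact Finset.sum_congr rfl fun v _ => (D.map (MonoidHom.id _)).comm_proj ρ
      (D.u (s • u)) (Equiv.refl _) (fun a => by
        show D.u a * D.u (s • u) = D.u (s • u) * D.u a
        rw [← D.u_add, ← D.u_add, add_comm]) (fun a => rfl)
  have hcB : ∀ r : F, kE Q (g : V) (r • f) ∈ C := fun r => by
    show ρ _ * E = E * ρ _
    rw [hEt, mul_smul_comm, smul_mul_assoc, Finset.mul_sum, Finset.sum_mul]
    congr 1
    refine Finset.sum_congr rfl fun t _ => ?_
    rw [mul_smul_comm, smul_mul_assoc, ← map_mul, ← map_mul]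
    congr 2
    rw [← mul_inv_eq_iff_eq_mul, kE_conj]
    have hgf : polar Q (g : V) (r • f) = 0 := by rw [polar_smul_right, gf, smul_zero]
    have h1 : ((kE Q (g : V) (r • f)).1 : V ≃ₗ[F] V) e = e + (-r) • (g : V) := by
      rw [kE_apply T.snd.right hgf, polar_smul_left, fe, ge]
      simp [sub_eq_add_neg]
    have h2 : ((kE Q (g : V) (r • f)).1 : V ≃ₗ[F] V) (t • (g : V)) = t • (g : V) :=
      kE_fix T.snd.right hgf (by rw [polar_smul_right, polar_self', T.snd.right]; simp)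
        (by rw [polar_smul_left, polar_smul_right, fg]; simp)
    rw [h1, h2, kE_shift h.left T.snd.right eg]
  have hcG : G ∈ C := by
    simp only [hG, bothEl, scaleEl, swapEl]
    exact mul_mem (mul_mem (mul_mem (hcA _) (hcB _)) (hcA _))
      (mul_mem (mul_mem (hcA _) (hcB _)) (hcA _))
  -- the representation on the sum of these lines
  have hEE : E * E = E := by
    rw [hE, Finset.sum_mul]
    refine Finset.sum_congr rfl fun v hv => ?_
    rw [Finset.mul_sum]
    simp only [D.proj_mul_proj]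
    rw [Finset.sum_ite_eq, if_pos hv]
  set U := LinearMap.range E with hU
  have hinv : ∀ X : C, ∀ x ∈ U, (ρ.comp C.subtype) X x ∈ U := by
    rintro X _ ⟨y, rfl⟩
    exact ⟨ρ X.1 y, (LinearMap.congr_fun X.2 y).symm⟩
  set σ := subRep (ρ.comp C.subtype) U hinv with hσ
  set m := q - 1 with hm
  haveI : NeZero m := ⟨by omega⟩
  have hGm : G ^ m = 1 := by
    rw [hG]
    exact bothEl_pow_eq_one T hμ0 (FiniteField.pow_card_sub_one_eq_one μ hμ0)
  set v₀ := γ • u with hv₀
  have hv0 : v₀ ≠ 0 := smul_ne_zero hγ hu.ne_zero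
  have hQv0 : Q (v₀ : V) = 0 := by rw [← hφ0]; exact hφQ 0
  have hcomm0 : ρ G * D.proj ρ v₀ = D.proj ρ v₀ * ρ G := by
    refine rad_comm hV.nondeg h hψ ρ hμ0 Ge Gf ?_
    rw [hv₀, Submodule.coe_smul, map_smul, Gu, smul_smul, smul_smul]
    congr 1
    field_simp
  obtain ⟨c, hc⟩ := D.exists_scalar ρ hcomm0 (hone _ hv0 hQv0)
  have hcpow : ∀ j, ρ (G ^ j) * D.proj ρ v₀ = c ^ j • D.proj ρ v₀ := by
    intro j
    induction j with
    | zero => simp
    | succ j ih =>
      rw [pow_succ, map_mul, mul_assoc, hc, mul_smul_comm, ih, smul_smul, pow_succ, mul_comm c]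
  have hP0 : D.proj ρ v₀ ≠ 0 := fun h0 => by
    have := hone _ hv0 hQv0
    rw [AbelData.dim, h0, LinearMap.range_zero, finrank_bot] at this
    exact zero_ne_one this
  have hcm : c ^ m = 1 := by
    have := hcpow m
    rw [hGm, map_one, one_mul] at this
    exact (smul_left_injective ℂ hP0 (this.symm.trans (one_smul ℂ _).symm))
  have hScard : S.card = q ^ (2 * k + 1) := by
    rw [hS, Finset.card_image_of_injective _ hφinj, Finset.card_univ, ← Nat.card_eq_fintype_card,
      card_pperp_eq (hV.pperp h).nondeg hu, (hV.pperp h).dim]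
    congr 1
  have hSdim : ∀ v ∈ S, D.dim ρ v = 1 := by
    intro v hv
    obtain ⟨w, -, rfl⟩ := Finset.mem_image.1 hv
    refine hone _ (fun h0 => hγ ?_) (hφQ w)
    rw [← hφg w, h0]
    simp
  set r := ∑ i ∈ range (2 * k + 1), q ^ i with hr
  have hrq : q ^ (2 * k + 1) = 1 + m * r := by
    have h1 : 1 ≤ q := by omega
    apply Nat.cast_injective (R := ℤ)
    rw [hm, hr]
    push_cast [Nat.cast_sub h1]
    rw [mul_geom_sum]
    ring
  have hd : finrank ℂ U = 1 + m * r := by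
    have h1 : LinearMap.trace ℂ M E = finrank ℂ U :=
      LinearMap.IsProj.trace ⟨fun x => LinearMap.mem_range_self _ x, by
        rintro _ ⟨y, rfl⟩
        exact LinearMap.congr_fun hEE y⟩
    rw [← hrq, ← hScard]
    apply Nat.cast_injective (R := ℂ)
    rw [← h1, hE, map_sum, Finset.sum_congr rfl (g := fun _ => (1 : ℂ))
      (fun v hv => by rw [D.trace_proj, hSdim v hv, Nat.cast_one])]
    simp
  have htr : ∀ j, 0 < j → j < m →
      LinearMap.trace ℂ U (σ (⟨G, hcG⟩ ^ j)) = c ^ j := by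
    intro j hj0 hjm
    have hμj : μ ^ j ≠ 1 := hμ.pow_ne j hj0 hjm
    have hcj : G ^ j ∈ C := pow_mem hcG j
    have hmaps : ∀ x : M, (ρ (G ^ j) * E) x ∈ U := fun x =>
      hinv ⟨G ^ j, hcj⟩ _ (LinearMap.mem_range_self E x)
    rw [show (⟨G, hcG⟩ : C) ^ j = ⟨G ^ j, hcj⟩ from Subtype.ext (SubmonoidClass.coe_pow _ _)]
    have hres : σ ⟨G ^ j, hcj⟩ = (ρ (G ^ j) * E).restrict (fun x (_ : x ∈ U) => hmaps x) := by
      refine LinearMap.ext fun x => Subtype.ext ?_
      obtain ⟨y, hy⟩ := x.2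
      show ρ (G ^ j) (x : M) = ρ (G ^ j) (E x)
      rw [← hy, ← Module.End.mul_apply E E, hEE]
    rw [hres, LinearMap.trace_restrict_eq_of_forall_mem _ _ hmaps, hE, Finset.mul_sum, map_sum,
      Finset.sum_eq_single v₀]
    · rw [hcpow, map_smul, D.trace_proj, hone _ hv0 hQv0]
      simp
    · intro v hv hne
      obtain ⟨w, -, rfl⟩ := Finset.mem_image.1 hv
      obtain ⟨je, jf, ju, jg, jx⟩ := hjpow j
      rw [inv_pow] at jf jg
      refine D.trace_mul_proj_eq_zero ρ (rad_comm hV.nondeg h hψ ρ (pow_ne_zero j hμ0) je jf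
        (v' := ⟨(μ ^ j)⁻¹ • ((G ^ j).1 : V ≃ₗ[F] V) (φ w : V),
          Submodule.smul_mem _ _ (scale_mem_pperp (pow_ne_zero j hμ0) je jf (φ w).2)⟩) rfl) ?_
      intro heq
      apply hne
      obtain ⟨w1, w2⟩ := mem_pperp.1 w.2
      rw [polar_restrict] at w1 w2
      obtain ⟨w3, w4⟩ := mem_pperp.1 (w : H5.pperp Q e f).2
      have hjw := jx ((w : H5.pperp Q e f) : V) w3 w4 w1 w2
      have h1 := congrArg Subtype.val heq
      simp only [φ, Submodule.coe_add, Submodule.coe_smul, map_add, map_smul, ju, jg, hjw] at h1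
      set c' := -(Q ((w : H5.pperp Q e f) : V)) / γ
      have h2 : (μ ^ j)⁻¹ • ((w : H5.pperp Q e f) : V) - ((w : H5.pperp Q e f) : V) =
          (c' - (μ ^ j)⁻¹ * (c' * (μ ^ j)⁻¹)) • (g : V) +
            (γ - (μ ^ j)⁻¹ * (γ * μ ^ j)) • (u : V) := by
        linear_combination (norm := module) -h1
      rw [show γ - (μ ^ j)⁻¹ * (γ * μ ^ j) = 0 by field_simp; ring, zero_smul, add_zero] at h2
      have h3 := congrArg (polar Q (u : V)) h2
      simp [polar_sub_right, polar_smul_right, w1, ug] at h3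
      rw [← h3, zero_smul, sub_eq_zero] at h2
      by_cases hw : w = 0
      · rw [hw, hφ0, hv₀]
      · exfalso
        have h4 : ((μ ^ j)⁻¹ - 1) • ((w : H5.pperp Q e f) : V) = 0 := by
          rw [sub_smul, one_smul, h2, sub_self]
        rcases smul_eq_zero.1 h4 with h5 | h5
        · exact hμj (inv_eq_one.1 (sub_eq_zero.1 h5))
        · exact hw (Subtype.ext (Subtype.ext h5))
    · intro hn
      exact absurd (Finset.mem_image.2 ⟨0, mem_univ _, hφ0⟩) hn
  -- the determinant is one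
  have hone' : ∀ a b : C, LinearMap.det (σ ⁅a, b⁆) = 1 := by
    intro a b
    have hinv' : ∀ x : C, LinearMap.det (σ x) * LinearMap.det (σ x⁻¹) = 1 := fun x => by
      rw [← map_mul, ← map_mul, mul_inv_cancel, map_one, map_one]
    rw [commutatorElement_def]
    simp only [map_mul]
    linear_combination (LinearMap.det (σ b) * LinearMap.det (σ b⁻¹)) * hinv' a + hinv' b
  have hA1 : ∀ s : F, LinearMap.det (σ ⟨_, hcA s⟩) = 1 := by
    intro s
    rw [show (⟨_, hcA s⟩ : C) = ⁅(⟨G, hcG⟩ : C), ⟨_, hcA ((μ * μ - 1)⁻¹ * s)⟩⁆ from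
      Subtype.ext (by
        show _ = ⁅G, kE Q e (((μ * μ - 1)⁻¹ * s) • (u : V))⁆
        rw [mul_smul, kE_eq_commutator_scale h.left (by rw [polar_smul_right, eu, smul_zero]) Ge
          (by rw [map_smul, Gu, smul_comm]) (hμ.sq_ne hq)])]
    exact hone' _ _
  have hB1 : ∀ r : F, LinearMap.det (σ ⟨_, hcB r⟩) = 1 := by
    intro r
    rw [show (⟨_, hcB r⟩ : C) = ⁅(⟨G, hcG⟩ : C), ⟨_, hcB ((μ⁻¹ * μ⁻¹ - 1)⁻¹ * r)⟩⁆ from
      Subtype.ext (by
        show _ = ⁅G, kE Q (g : V) (((μ⁻¹ * μ⁻¹ - 1)⁻¹ * r) • f)⁆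
        rw [mul_smul, kE_eq_commutator_scale T.snd.right (by rw [polar_smul_right, gf, smul_zero]) Gg
          (by rw [map_smul, Gf, smul_comm]) (hμ.inv_sq_ne hq)])]
    exact hone' _ _
  have hdet : LinearMap.det (σ ⟨G, hcG⟩) = 1 := by
    rw [show (⟨G, hcG⟩ : C) =
      ⟨_, hcA μ⟩ * ⟨_, hcB (-μ⁻¹)⟩ * ⟨_, hcA μ⟩ *
        (⟨_, hcA (-1)⟩ * ⟨_, hcB (-(-1)⁻¹)⟩ * ⟨_, hcA (-1)⟩) from Subtype.ext hG]
    simp only [map_mul, hA1, hB1, mul_one]
  have hmeven : Even m := by
    obtain ⟨j, hj⟩ := odd_card_of_two_ne hV.two_ne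
    exact ⟨j, by omega⟩
  have hkey := det_cyclic σ hmeven (g := (⟨G, hcG⟩ : C)) (Subtype.ext hGm) hcm hd htr
  rw [hdet] at hkey
  have hrodd : Odd r := by
    rw [hr, Finset.odd_sum_iff_odd_card_odd,
      Finset.filter_true_of_mem (fun i _ => (odd_card_of_two_ne hV.two_ne).pow), Finset.card_range]
    exact ⟨k, rfl⟩
  rw [hrodd.neg_one_pow, neg_one_mul] at hkey
  rw [hc, show c = -1 by linear_combination hkey, neg_one_smul]

end Sign

omit [Fintype V] [FiniteDimensional F V] [Fintype F] in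
lemma flipEl_mem_pperp {e f : V} {u g : H5.pperp Q e f} (T : TwoPairs Q e f (u : V) g) {a : V}
    (ha : a ∈ H5.pperp Q e f) :
    (((flipEl Q e f (u : V) g)⁻¹).1 : V ≃ₗ[F] V) a ∈ H5.pperp Q e f := by
  obtain ⟨a1, a2⟩ := mem_pperp.1 ha
  obtain ⟨Je, Jf, -, -, -⟩ := flipEl_apply T
  have hJ := orth_apply_inv_apply (flipEl Q e f (u : V) g).1 a
  refine mem_pperp.2 ⟨?_, ?_⟩ <;> rw [← orth_polar (flipEl Q e f (u : V) g).1] <;>
    rw [show ((((flipEl Q e f (u : V) g).1 : orth Q) : V ≃ₗ[F] V)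
      ((((flipEl Q e f (u : V) g)⁻¹).1 : V ≃ₗ[F] V) a)) = a from hJ]
  · rw [Je, polar_neg_left, a2, neg_zero]
  · rw [Jf, polar_neg_left, a1, neg_zero]

include h hψ in
/-- The radical fixes the range of its zero projector. -/
lemma radical_fix {x : M} (hx : (radData hV.nondeg h ψ hψ).proj ρ 0 x = x) {a : V}
    (ha : a ∈ H5.pperp Q e f) : ρ (kE Q e a) x = x := by
  have h1 := LinearMap.congr_fun
    ((radData hV.nondeg h ψ hψ).apply_mul_proj ρ 0 (⟨a, ha⟩ : H5.pperp Q e f)) x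
  rw [Module.End.mul_apply, LinearMap.smul_apply, hx] at h1
  rw [show kE Q e a = (radData hV.nondeg h ψ hψ).u (⟨a, ha⟩ : H5.pperp Q e f) from rfl, h1]
  simp [radData]

include h in
omit [FiniteDimensional ℂ M] in
/-- Vectors fixed by both root groups of the pair are fixed by everything. -/
lemma fixed_of_root_groups {x : M} (he : ∀ a ∈ H5.pperp Q e f, ρ (kE Q e a) x = x)
    (hf : ∀ a ∈ H5.pperp Q e f, ρ (kE Q f a) x = x) (hn : 3 ≤ finrank F V)
    (hQ : (polarBilin Q).Nondegenerate) (g : eichGroup Q) : ρ g x = x := by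
  let S : Subgroup (eichGroup Q) :=
    { carrier := {g | ρ g x = x}
      one_mem' := by simp
      mul_mem' := fun {a b} ha hb => by
        show ρ (a * b) x = x
        rw [map_mul, Module.End.mul_apply, hb, ha]
      inv_mem' := fun {a} ha => by
        show ρ a⁻¹ x = x
        nth_rewrite 1 [← ha]
        rw [← Module.End.mul_apply, ← map_mul, inv_mul_cancel, map_one]
        rfl }
  have hle : eichGroup Q ≤ S.map (eichGroup Q).subtype :=
    eichGroup_le_of_root_groups hQ hn h (fun a ha => ⟨kE Q e a, he a ha, rfl⟩)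
      (fun a ha => ⟨kE Q f a, hf a ha, rfl⟩)
  obtain ⟨g', hg', hgg⟩ := hle g.2
  rw [← Subtype.ext hgg]
  exact hg'

include hV h hψ hiso hone in
/-- Without fixed vectors, a vector fixed by the radical and the Levi group is negated by the
double scaling. -/
theorem levi_fixed_neg (hfix : ∀ x : M, (∀ g, ρ g x = x) → x = 0)
    {u g : H5.pperp Q e f} (hu : HypPair (Q.restrict (H5.pperp Q e f)) u g) {μ : F}
    (hμ : FieldGen μ) {x : M} (hx : (radData hV.nondeg h ψ hψ).proj ρ 0 x = x)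
    (hxK : ∀ k, ρ (leviK h k) x = x) : ρ (bothEl Q e f (u : V) g μ) x = -x := by
  set D := radData hV.nondeg h ψ hψ with hD
  have hμ0 := hμ.ne_zero
  have T : TwoPairs Q e f (u : V) g := twoPairs_of_perp h hu
  obtain ⟨G, hG⟩ : ∃ G, G = bothEl Q e f (u : V) g μ := ⟨_, rfl⟩
  obtain ⟨J, hJ⟩ : ∃ J, J = flipEl Q e f (u : V) g := ⟨_, rfl⟩
  rw [← hG]
  obtain ⟨Ge, Gf, Gu, -, -⟩ := bothEl_apply T hμ0
  obtain ⟨Je, Jf, -, -, -⟩ := flipEl_apply T
  have hGJ := flipEl_conj_bothEl T hμ0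
  rw [← hG] at Ge Gf Gu
  rw [← hG, ← hJ] at hGJ
  rw [← hJ] at Je Jf
  have hGie : ((G⁻¹).1 : V ≃ₗ[F] V) e = μ⁻¹ • e :=
    eichGroup_inv_apply_of_eq (by rw [map_smul, Ge, smul_smul, inv_mul_cancel₀ hμ0, one_smul])
  have hGif : ((G⁻¹).1 : V ≃ₗ[F] V) f = μ⁻¹⁻¹ • f :=
    eichGroup_inv_apply_of_eq (by
      rw [map_smul, Gf, smul_smul, inv_inv, mul_inv_cancel₀ hμ0, one_smul])
  set y := x + ρ G⁻¹ x with hy
  have hy0 : D.proj ρ 0 y = y := by
    have hc := rad_comm hV.nondeg h hψ ρ (inv_ne_zero hμ0) hGie hGif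
      (v := (0 : H5.pperp Q e f)) (v' := 0) (by simp)
    rw [hy, map_add, hx, ← Module.End.mul_apply, ← hc, Module.End.mul_apply, hx]
  have hyK : ∀ k, ρ (leviK h k) y = y := fun k => by
    rw [hy, map_add, hxK, levi_fix_apply h ρ G⁻¹ (fun a ha => by
      rw [inv_inv]; exact scale_mem_pperp hμ0 Ge Gf ha) hxK]
  set z := ρ J y with hz
  have hzK : ∀ k, ρ (leviK h k) z = z :=
    levi_fix_apply h ρ J (fun a ha => by rw [hJ]; exact flipEl_mem_pperp T ha) hyK
  have hzf : ∀ a ∈ H5.pperp Q e f, ρ (kE Q f a) z = z := by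
    intro a ha
    have hb : ((J⁻¹).1 : V ≃ₗ[F] V) a ∈ H5.pperp Q e f := by
      rw [hJ]; exact flipEl_mem_pperp T ha
    have hJf : ((J⁻¹).1 : V ≃ₗ[F] V) f = -e :=
      eichGroup_inv_apply_of_eq (by rw [map_neg, Je, neg_neg])
    rw [hz, ← Module.End.mul_apply, ← map_mul,
      show kE Q f a * J = J * (J⁻¹ * kE Q f a * (J⁻¹)⁻¹) by group, kE_conj, hJf,
      show -e = (-1 : F) • e by simp, kE_smul_smul h.left (mem_pperp.1 hb).1, map_mul,
      Module.End.mul_apply, radical_fix hV h hψ ρ hy0 (Submodule.smul_mem _ _ hb)]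
  -- the components on singular characters vanish
  have hcomp : ∀ t : F, t ≠ 0 → D.proj ρ (t • u) z = 0 := by
    intro t ht
    have hs := line_sign hV h hψ ρ hiso hone hu hμ ht
    rw [← hG] at hs
    have hc : ρ G * D.proj ρ (t • u) = D.proj ρ (t • u) * ρ G := by
      refine rad_comm hV.nondeg h hψ ρ hμ0 Ge Gf ?_
      rw [Submodule.coe_smul, map_smul, Gu, smul_smul, smul_smul]
      congr 1
      field_simp
    rw [hz, hy, map_add, map_add, ← Module.End.mul_apply (ρ J) (ρ G⁻¹), ← map_mul,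
      show J * G⁻¹ = G * J by rw [mul_inv_eq_iff_eq_mul, hGJ], map_mul, Module.End.mul_apply,
      ← Module.End.mul_apply (D.proj ρ (t • u)) (ρ G), ← hc, hs, LinearMap.neg_apply]
    exact add_neg_cancel _
  have hW := hV.pperp h
  have hz0 : D.proj ρ 0 z = z := by
    conv_rhs => rw [show z = (1 : Module.End ℂ M) z from rfl, ← D.sum_proj ρ, LinearMap.sum_apply]
    rw [Finset.sum_eq_single 0 (fun v _ hv => ?_) (by simp)]
    by_cases hQv : Q (v : V) = 0
    · obtain ⟨b, hb, t, ht, hbv⟩ := exists_pairGroup_map hW.nondeg (by rw [hW.dim]; omega) hu hv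
        (by rwa [QuadraticMap.restrict_apply])
      rw [pairGroup_eq_eichGroup hW.nondeg (by rw [hW.dim]; omega) hu] at hb
      have hc := rad_comm_fix hV.nondeg h hψ ρ (g := leviK h ⟨b, hb⟩) (orthExt_left h _)
        (orthExt_right h _) (v := v) (v' := t • u) (by
          rw [leviK_coe]
          exact congrArg Subtype.val hbv.symm)
      have h2 := LinearMap.congr_fun hc z
      rw [Module.End.mul_apply, Module.End.mul_apply, hzK, hcomp t ht] at h2
      rw [← Module.End.one_apply (R := ℂ) (D.proj ρ v z), ← map_one ρ,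
        ← inv_mul_cancel (leviK h ⟨b, hb⟩), map_mul, Module.End.mul_apply, h2, map_zero]
    · rw [AbelData.proj_eq_zero_of_dim ρ D (hiso v hQv)]
      rfl
  have hzero : z = 0 := hfix z (fixed_of_root_groups h ρ
    (fun a ha => radical_fix hV h hψ ρ hz0 ha) hzf (by rw [hV.dim]; omega) hV.nondeg)
  have hy' : y = 0 := by
    rw [← Module.End.one_apply (R := ℂ) y, ← map_one ρ, ← inv_mul_cancel J, map_mul,
      Module.End.mul_apply, ← hz, hzero, map_zero]
  have h3 := congrArg (ρ G) hy'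
  rw [hy, map_add, ← Module.End.mul_apply, ← map_mul, mul_inv_cancel, map_one, map_zero,
    Module.End.one_apply] at h3
  exact eq_neg_of_add_eq_zero_left h3

section Phase

variable {v : H5.pperp Q e f} (hv1 : (radData hV.nondeg h ψ hψ).dim ρ v = 1)
include hv1

/-- A root element scaled by an element fixing the pair and the character has no phase. -/
lemma phase_scaled {X : eichGroup Q} (hXe : (X.1 : V ≃ₗ[F] V) e = e)
    (hXf : (X.1 : V ≃ₗ[F] V) f = f) (hXv : (X.1 : V ≃ₗ[F] V) (v : V) = v) {x a : V}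
    (hx : Q x = 0) (hxa : polar Q x a = 0) {l m : F} (hXx : (X.1 : V ≃ₗ[F] V) x = l • x)
    (hXa : (X.1 : V ≃ₗ[F] V) a = m • a) (hlm : l * m ≠ 1)
    (hp : ∀ y ∈ [e, f, (v : V)], polar Q x y = 0 ∧ polar Q a y = 0) :
    ρ (kE Q x a) * (radData hV.nondeg h ψ hψ).proj ρ v = (radData hV.nondeg h ψ hψ).proj ρ v := by
  have hfix : ∀ y ∈ [e, f, (v : V)],
      ((kE Q x ((l * m - 1)⁻¹ • a)).1 : V ≃ₗ[F] V) y = y := fun y hy =>
    kE_fix hx (by rw [polar_smul_right, hxa, smul_zero]) (hp y hy).1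
      (by rw [polar_smul_left, (hp y hy).2, smul_zero])
  rw [← kE_eq_commutator_scale hx hxa hXx hXa hlm]
  exact proj_phase ρ _ hv1 (rad_comm_fix hV.nondeg h hψ ρ hXe hXf hXv.symm)
    (rad_comm_fix hV.nondeg h hψ ρ (hfix e (by simp)) (hfix f (by simp)) (hfix _ (by simp)).symm)

/-- A double scaling away from the character has no phase. -/
lemma phase_bothEl {a b c d : V} (T : TwoPairs Q a b c d) {μ : F} (hμ : FieldGen μ)
    (hp : ∀ y ∈ [e, f, (v : V)],
      polar Q a y = 0 ∧ polar Q b y = 0 ∧ polar Q c y = 0 ∧ polar Q d y = 0) :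
    ρ (bothEl Q a b c d μ) * (radData hV.nondeg h ψ hψ).proj ρ v =
      (radData hV.nondeg h ψ hψ).proj ρ v := by
  obtain ⟨X, hX⟩ : ∃ X, X = bothEl Q a b c d μ := ⟨_, rfl⟩
  obtain ⟨a1, a2, a3, a4, a5⟩ := bothEl_apply T hμ.ne_zero
  rw [← hX] at a1 a2 a3 a4
  have hXy : ∀ y ∈ [e, f, (v : V)], (X.1 : V ≃ₗ[F] V) y = y := fun y hy => by
    obtain ⟨p1, p2, p3, p4⟩ := hp y hy
    rw [hX]; exact a5 y p1 p2 p3 p4
  obtain ⟨⟨ac, -, -, -⟩, ⟨-, -, -, db⟩, -⟩ := T.polars
  have h1 : ∀ s : F, ρ (kE Q a (s • c)) * (radData hV.nondeg h ψ hψ).proj ρ v =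
      (radData hV.nondeg h ψ hψ).proj ρ v := fun s =>
    phase_scaled hV h hψ ρ hv1 (hXy e (by simp)) (hXy f (by simp)) (hXy _ (by simp)) T.fst.left
      (by rw [polar_smul_right, ac, smul_zero]) a1 (by rw [map_smul, a3, smul_comm])
      (hμ.sq_ne hV.four_le) fun y hy => ⟨(hp y hy).1, by rw [polar_smul_left, (hp y hy).2.2.1,
        smul_zero]⟩
  have h2 : ∀ r : F, ρ (kE Q d (r • b)) * (radData hV.nondeg h ψ hψ).proj ρ v =
      (radData hV.nondeg h ψ hψ).proj ρ v := fun r =>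
    phase_scaled hV h hψ ρ hv1 (hXy e (by simp)) (hXy f (by simp)) (hXy _ (by simp)) T.snd.right
      (by rw [polar_smul_right, db, smul_zero]) a4 (by rw [map_smul, a2, smul_comm])
      (hμ.inv_sq_ne hV.four_le) fun y hy => ⟨(hp y hy).2.2.2, by rw [polar_smul_left, (hp y hy).2.1,
        smul_zero]⟩
  simp only [bothEl, scaleEl, swapEl, map_mul, mul_assoc, h1, h2]

/-- A single scaling away from the character has no phase. -/
lemma phase_oneEl {w x a : V} (hw : HypPair Q w x) (ha : Q a ≠ 0) (hwa : polar Q w a = 0)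
    (hxa : polar Q x a = 0) {μ : F} (hμ : FieldGen μ)
    (hp : ∀ y ∈ [e, f, (v : V)], polar Q w y = 0 ∧ polar Q x y = 0 ∧ polar Q a y = 0) :
    ρ (oneEl Q w x a μ) * (radData hV.nondeg h ψ hψ).proj ρ v =
      (radData hV.nondeg h ψ hψ).proj ρ v := by
  obtain ⟨X, hX⟩ : ∃ X, X = oneEl Q w x a μ := ⟨_, rfl⟩
  obtain ⟨a1, a2, a3⟩ := oneEl_apply hw ha hwa hxa hV.two_ne hμ.ne_zero
  rw [← hX] at a1 a2
  have hXy : ∀ y ∈ [e, f, (v : V)], (X.1 : V ≃ₗ[F] V) y = y := fun y hy => by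
    obtain ⟨p1, p2, -⟩ := hp y hy
    rw [hX]; exact a3 y p1 p2
  have hXa : ∀ s : F, (X.1 : V ≃ₗ[F] V) (s • a) = (1 : F) • (s • a) := fun s => by
    rw [map_smul, hX, a3 a hwa hxa, one_smul]
  have h1 : ∀ s : F, ρ (kE Q w (s • a)) * (radData hV.nondeg h ψ hψ).proj ρ v =
      (radData hV.nondeg h ψ hψ).proj ρ v := fun s =>
    phase_scaled hV h hψ ρ hv1 (hXy e (by simp)) (hXy f (by simp)) (hXy _ (by simp)) hw.left
      (by rw [polar_smul_right, hwa, smul_zero]) a1 (hXa s)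
      (by rw [mul_one]; exact hμ.sq_ne hV.four_le) fun y hy => ⟨(hp y hy).1,
        by rw [polar_smul_left, (hp y hy).2.2, smul_zero]⟩
  have h2 : ∀ s : F, ρ (kE Q x (s • a)) * (radData hV.nondeg h ψ hψ).proj ρ v =
      (radData hV.nondeg h ψ hψ).proj ρ v := fun s =>
    phase_scaled hV h hψ ρ hv1 (hXy e (by simp)) (hXy f (by simp)) (hXy _ (by simp)) hw.right
      (by rw [polar_smul_right, hxa, smul_zero]) a2 (hXa s)
      (by rw [mul_one, mul_inv]; exact hμ.inv_sq_ne hV.four_le) fun y hy => ⟨(hp y hy).2.1,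
        by rw [polar_smul_left, (hp y hy).2.2, smul_zero]⟩
  simp only [oneEl, weylEl, map_mul, mul_assoc, h1, h2]

end Phase

end Cfsg.Agent.H39
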