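import Cfsg.Agent.H39.OmegaCount
import Cfsg.Agent.H25.CharIntegral

/-!
# Long root elements: their number and an integrality condition on degrees
-/

namespace Cfsg.Agent.H39

open QuadraticMap hiding sq
open Cfsg.Agent.H5
open Finset Module

variable {F V : Type*} [Field F] [AddCommGroup V] [Module F V] {Q : QuadraticForm F V}

/-- An Eichler transformation inside the group they generate. -/
noncomputable def kE (Q : QuadraticForm F V) (u a : V) : eichGroup Q :=
  ⟨eich Q u a, eich_mem_eichGroup u a⟩

lemma kE_conj (g : eichGroup Q) (u a : V) :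
    g * kE Q u a * g⁻¹ = kE Q ((g.1 : V ≃ₗ[F] V) u) ((g.1 : V ≃ₗ[F] V) a) :=
  Subtype.ext (eich_conj g.1 u a)

/-- An independent pair of orthogonal singular vectors. -/
def LongPair (Q : QuadraticForm F V) (p : V × V) : Prop :=
  p.1 ≠ 0 ∧ Q p.1 = 0 ∧ Q p.2 = 0 ∧ polar Q p.1 p.2 = 0 ∧ p.2 ∉ Submodule.span F {p.1}

lemma LongPair.map {p : V × V} (h : LongPair Q p) (g : orth Q) :
    LongPair Q ((g : V ≃ₗ[F] V) p.1, (g : V ≃ₗ[F] V) p.2) := by
  obtain ⟨h0, h1, h2, h3, h4⟩ := h
  refine ⟨fun h => h0 (by simpa using h), by rw [orth_map, h1], by rw [orth_map, h2],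
    by rw [orth_polar, h3], fun h => h4 ?_⟩
  obtain ⟨t, ht⟩ := Submodule.mem_span_singleton.1 h
  exact Submodule.mem_span_singleton.2 ⟨t, (g : V ≃ₗ[F] V).injective (by rw [map_smul]; exact ht)⟩

lemma LongPair.eich_apply {p : V × V} (h : LongPair Q p) (x : V) :
    (eich Q p.1 p.2 : V ≃ₗ[F] V) x = x + polar Q p.1 x • p.2 - polar Q p.2 x • p.1 := by
  rw [H5.eich_apply h.2.1 h.2.2.2.1, h.2.2.1]
  simp

variable [FiniteDimensional F V]

/-- Every Eichler transformation is conjugate into the root group of `e`. -/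
lemma exists_conj_into_radical (hQ : (polarBilin Q).Nondegenerate) (hn : 3 ≤ finrank F V)
    {e f : V} (h : HypPair Q e f) {u a : V} (hu0 : u ≠ 0) (hu : Q u = 0) (ha : polar Q u a = 0) :
    ∃ (g : eichGroup Q) (w : pperp Q e f) (t : F), t ≠ 0 ∧ Q (w : V) = t * t * Q a ∧
      (a ∉ Submodule.span F {u} → w ≠ 0) ∧ g * kE Q u a * g⁻¹ = kE Q e (w : V) := by
  obtain ⟨g, hg, t, ht, hgu⟩ := exists_pairGroup_map hQ hn h hu0 hu
  rw [pairGroup_eq_eichGroup hQ hn h] at hg
  set b := t • (g : V ≃ₗ[F] V) a with hb
  have heb : polar Q e ((g : V ≃ₗ[F] V) a) = 0 := by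
    have h1 : polar Q (t • e) ((g : V ≃ₗ[F] V) a) = 0 := by rw [← hgu, orth_polar, ha]
    rwa [polar_smul_left, smul_eq_zero, or_iff_right ht] at h1
  have heb' : polar Q e b = 0 := by simp [hb, polar_smul_right, heb]
  have hpd := pair_decomp h b
  rw [heb', zero_smul, add_zero] at hpd
  refine ⟨⟨g, hg⟩, perpProj h b, t, ht, ?_, fun hsp hw => hsp ?_, ?_⟩
  · have h1 : Q b = t * t * Q a := by rw [hb, QuadraticMap.map_smul, orth_map, smul_eq_mul]
    rw [← h1]
    conv_rhs => rw [hpd]
    have := map_pair_add h (polar Q f b) 0 (perpProj h b)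
    rw [zero_smul, add_zero, mul_zero, zero_add] at this
    exact this.symm
  · rw [hw, Submodule.coe_zero, add_zero, hb] at hpd
    rw [Submodule.mem_span_singleton]
    refine ⟨t⁻¹ * t⁻¹ * polar Q f b, (g : V ≃ₗ[F] V).injective ?_⟩
    rw [map_smul, hgu, smul_smul, ← hb] at *
    rw [show (g : V ≃ₗ[F] V) a = t⁻¹ • b by rw [hb, smul_smul, inv_mul_cancel₀ ht, one_smul], hpd]
    rw [smul_smul]
    congr 1
    field_simp
    congr 1
    rw [← hpd]
  · rw [kE_conj]
    refine Subtype.ext ?_
    show eich Q ((g : V ≃ₗ[F] V) u) ((g : V ≃ₗ[F] V) a) = eich Q e (perpProj h b : V)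
    rw [hgu, eich_smul_smul h.left heb, ← hb]
    conv_lhs => rw [hpd, add_comm]
    exact eich_add_smul h.left (mem_pperp.1 (perpProj h b).2).1 _

variable [Fintype F] [Fintype V]

open scoped Classical in
/-- The long root elements. -/
noncomputable def longSet (Q : QuadraticForm F V) : Finset (eichGroup Q) :=
  (univ.filter fun p : V × V => LongPair Q p).image fun p => kE Q p.1 p.2

omit [FiniteDimensional F V] [Fintype F] in
lemma mem_longSet {k : eichGroup Q} :
    k ∈ longSet Q ↔ ∃ p, LongPair Q p ∧ kE Q p.1 p.2 = k := by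
  classical
  simp [longSet]

omit [FiniteDimensional F V] [Fintype F] in
lemma longSet_conj (g h : eichGroup Q) : h * g * h⁻¹ ∈ longSet Q ↔ g ∈ longSet Q := by
  have key : ∀ g h : eichGroup Q, g ∈ longSet Q → h * g * h⁻¹ ∈ longSet Q := by
    intro g h hg
    obtain ⟨p, hp, rfl⟩ := mem_longSet.1 hg
    rw [kE_conj]
    exact mem_longSet.2 ⟨_, hp.map h.1, rfl⟩
  refine ⟨fun hh => ?_, key g h⟩
  have := key _ h⁻¹ hh
  simpa [mul_assoc] using this

open scoped Classical in
lemma card_det_one :
    (univ.filter fun s : (F × F) × (F × F) => s.1.1 * s.2.2 - s.1.2 * s.2.1 = 1).card =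
      Fintype.card F * (Fintype.card F ^ 2 - 1) := by
  set D := univ.filter fun s : (F × F) × (F × F) => s.1.1 * s.2.2 - s.1.2 * s.2.1 = 1
  have hfib : ∀ v : F × F, v ≠ 0 → (D.filter fun s => s.1 = v).card = Fintype.card F := by
    rintro ⟨a, b⟩ hv
    rw [← Finset.card_univ]
    symm
    by_cases ha : a = 0
    · subst ha
      have hb : b ≠ 0 := fun hb => hv (by simp [hb])
      refine Finset.card_bij (fun d _ => ((0, b), (-b⁻¹, d))) (fun d _ => ?_) (fun d _ d' _ h => ?_)
        (fun s hs => ?_)
      · simp [D, hb]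
      · simpa using h
      · simp only [D, mem_filter, mem_univ, true_and] at hs
        obtain ⟨h1, h2⟩ := hs
        obtain ⟨⟨a', b'⟩, ⟨c, d⟩⟩ := s
        simp only [Prod.mk.injEq] at h2
        obtain ⟨rfl, rfl⟩ := h2
        refine ⟨d, mem_univ _, ?_⟩
        simp only [Prod.mk.injEq, true_and, and_true]
        field_simp
        linear_combination h1
    · refine Finset.card_bij (fun c _ => ((a, b), (c, (1 + b * c) / a))) (fun c _ => ?_)
        (fun d _ d' _ h => ?_) (fun s hs => ?_)
      · simp [D]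
        field_simp
        ring
      · exact congrArg (fun s : (F × F) × (F × F) => s.2.1) h
      · simp only [D, mem_filter, mem_univ, true_and] at hs
        obtain ⟨h1, h2⟩ := hs
        obtain ⟨⟨a', b'⟩, ⟨c, d⟩⟩ := s
        simp only [Prod.mk.injEq] at h2
        obtain ⟨rfl, rfl⟩ := h2
        refine ⟨c, mem_univ _, ?_⟩
        simp only [Prod.mk.injEq, true_and]
        rw [div_eq_iff ha]
        linear_combination -h1
  rw [Finset.card_eq_sum_card_image Prod.fst D]
  have himg : D.image Prod.fst = (univ : Finset (F × F)).erase 0 := by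
    ext v
    simp only [mem_image, mem_erase, mem_univ, and_true]
    constructor
    · rintro ⟨s, hs, rfl⟩ h0
      simp [D, h0] at hs
    · intro hv
      obtain ⟨s, hs⟩ := Finset.card_pos.1 ((hfib v hv).symm ▸ Fintype.card_pos (α := F))
      exact ⟨s, (mem_filter.1 hs).1, (mem_filter.1 hs).2⟩
  rw [himg, Finset.sum_congr rfl fun v hv => hfib v (mem_erase.1 hv).1, Finset.sum_const,
    Finset.card_erase_of_mem (mem_univ _), Finset.card_univ, Fintype.card_prod, smul_eq_mul, sq,
    mul_comm]

open scoped Classical in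
/-- The number of long root elements, from a common count `N` for all complements. -/
lemma card_longSet (hQ : (polarBilin Q).Nondegenerate) (N : ℕ)
    (hN : ∀ e f, HypPair Q e f → isoN (Q.restrict (pperp Q e f)) = N) :
    (longSet Q).card * (Fintype.card F ^ 2 - 1) = (isoN Q - 1) * (N - 1) := by
  set q := Fintype.card F
  set P := univ.filter fun p : V × V => LongPair Q p with hP
  have hcount : P.card = (isoN Q - 1) * (q * (N - 1)) := by
    rw [Finset.card_eq_sum_card_fiberwise (f := Prod.fst)
      (t := (univ.filter fun a : V => Q a = 0).erase 0) (fun p hp => by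
        simp only [hP, mem_coe, mem_filter, mem_univ, true_and] at hp
        simp [hp.1, hp.2.1])]
    rw [Finset.sum_congr rfl (g := fun _ => q * (N - 1)), Finset.sum_const, smul_eq_mul,
      Finset.card_erase_of_mem (by simp), isoN_eq_card]
    intro a ha
    simp only [mem_erase, mem_filter, mem_univ, true_and] at ha
    obtain ⟨f, hf⟩ := exists_hypPair hQ ha.1 ha.2
    have h1 : (univ.filter fun x : V => Q x = 0 ∧ polar Q a x = 0).card = q * N := by
      rw [card_iso_perp hf, hN a f hf]
    have h2 : ((univ : Finset F).image fun t => t • a).card = q := by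
      rw [Finset.card_image_of_injective _ (smul_left_injective F ha.1), Finset.card_univ]
    have heq : ((P.filter fun p => p.1 = a).image Prod.snd) =
        (univ.filter fun x : V => Q x = 0 ∧ polar Q a x = 0) \
          ((univ : Finset F).image fun t => t • a) := by
      ext x
      simp only [hP, mem_image, mem_filter, mem_univ, true_and, mem_sdiff, LongPair,
        Submodule.mem_span_singleton]
      constructor
      · rintro ⟨⟨a', x'⟩, ⟨⟨-, -, h3, h4, h5⟩, rfl⟩, rfl⟩
        exact ⟨⟨h3, h4⟩, h5⟩
      · rintro ⟨⟨h3, h4⟩, h5⟩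
        exact ⟨(a, x), ⟨⟨ha.1, ha.2, h3, h4, h5⟩, rfl⟩, rfl⟩
    have hinj : Set.InjOn (Prod.snd : V × V → V) ↑(P.filter fun p => p.1 = a) :=
      fun p hp p' hp' h => Prod.ext ((mem_filter.1 hp).2.trans (mem_filter.1 hp').2.symm) h
    rw [← Finset.card_image_of_injOn hinj, heq, Finset.card_sdiff_of_subset, h1, h2,
      Nat.mul_sub, mul_one]
    intro x hx
    obtain ⟨t, -, rfl⟩ := Finset.mem_image.1 hx
    simp [QuadraticMap.map_smul, polar_smul_right, polar_self', ha.2]
  have hfib : ∀ k ∈ longSet Q,
      (P.filter fun p => kE Q p.1 p.2 = k).card = q * (q ^ 2 - 1) := by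
    intro k hk
    obtain ⟨⟨a, b⟩, hab, rfl⟩ := mem_longSet.1 hk
    obtain ⟨ha0, ha, hb, hpab, hsp⟩ := hab
    have hind : ∀ {r s : F}, r • a + s • b = 0 → r = 0 ∧ s = 0 := by
      intro r s hrs
      have hs : s = 0 := by
        by_contra hs
        refine hsp (Submodule.mem_span_singleton.2 ⟨-(s⁻¹ * r), ?_⟩)
        have : b = s⁻¹ • (s • b) := by rw [smul_smul, inv_mul_cancel₀ hs, one_smul]
        rw [this, eq_neg_of_add_eq_zero_right hrs, smul_neg, smul_smul, neg_smul]
      subst hs
      rw [zero_smul, add_zero, smul_eq_zero] at hrs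
      exact ⟨hrs.resolve_right ha0, rfl⟩
    rw [← card_det_one]
    symm
    refine Finset.card_bij
      (fun s _ => (s.1.1 • a + s.1.2 • b, s.2.1 • a + s.2.2 • b)) (fun s hs => ?_)
      (fun s _ s' _ h => ?_) (fun p hp => ?_)
    · simp only [mem_filter, mem_univ, true_and] at hs
      have hQ0 : ∀ r r' : F, Q (r • a + r' • b) = 0 := fun r r' => by
        rw [map_smul_add_smul, ha, hb, hpab]; ring
      have hp0 : polar Q (s.1.1 • a + s.1.2 • b) (s.2.1 • a + s.2.2 • b) = 0 := by
        simp [polar_add_left, polar_add_right, polar_smul_left, polar_smul_right, polar_self', ha,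
          hb, hpab, polar_comm (⇑Q) b a]
      have hne : s.1.1 • a + s.1.2 • b ≠ 0 := fun h0 => by
        obtain ⟨e1, e2⟩ := hind h0
        simp [e1, e2] at hs
      have hL : LongPair Q (s.1.1 • a + s.1.2 • b, s.2.1 • a + s.2.2 • b) := by
        refine ⟨hne, hQ0 _ _, hQ0 _ _, hp0, fun h0 => ?_⟩
        obtain ⟨t, ht⟩ := Submodule.mem_span_singleton.1 h0
        obtain ⟨e1, e2⟩ := hind (r := t * s.1.1 - s.2.1) (s := t * s.1.2 - s.2.2) (by
          linear_combination (norm := module) ht)
        rw [sub_eq_zero] at e1 e2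
        rw [← e1, ← e2] at hs
        exact one_ne_zero (hs.symm.trans (by ring))
      simp only [hP, mem_filter, mem_univ, true_and]
      refine ⟨hL, Subtype.ext (orth_ext fun x => ?_)⟩
      show (eich Q _ _ : V ≃ₗ[F] V) x = (eich Q a b : V ≃ₗ[F] V) x
      rw [hL.eich_apply x, LongPair.eich_apply (p := (a, b)) ⟨ha0, ha, hb, hpab, hsp⟩ x]
      simp only [polar_add_left, polar_smul_left, smul_eq_mul]
      match_scalars
      all_goals first
        | ring1
        | linear_combination (polar Q a x) * hs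
        | linear_combination -(polar Q a x) * hs
        | linear_combination (polar Q b x) * hs
        | linear_combination -(polar Q b x) * hs
    · simp only [Prod.mk.injEq] at h
      obtain ⟨e1, e2⟩ := hind (r := s.1.1 - s'.1.1) (s := s.1.2 - s'.1.2) (by
        linear_combination (norm := module) h.1)
      obtain ⟨e3, e4⟩ := hind (r := s.2.1 - s'.2.1) (s := s.2.2 - s'.2.2) (by
        linear_combination (norm := module) h.2)
      exact Prod.ext (Prod.ext (sub_eq_zero.1 e1) (sub_eq_zero.1 e2))
        (Prod.ext (sub_eq_zero.1 e3) (sub_eq_zero.1 e4))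
    · simp only [hP, mem_filter, mem_univ, true_and] at hp
      obtain ⟨⟨c, d⟩, hL, hE⟩ : ∃ p', LongPair Q p' ∧ kE Q p'.1 p'.2 = kE Q a b ∧ p' = p :=
        ⟨p, hp.1, hp.2, rfl⟩
      obtain ⟨hEq, rfl⟩ := hE
      have hx : ∀ x, polar Q c x • d - polar Q d x • c = polar Q a x • b - polar Q b x • a := by
        intro x
        have h1 : (eich Q c d : V ≃ₗ[F] V) x = (eich Q a b : V ≃ₗ[F] V) x :=
          LinearEquiv.congr_fun (congrArg Subtype.val (congrArg Subtype.val hEq)) x
        rw [hL.eich_apply x, LongPair.eich_apply (p := (a, b)) ⟨ha0, ha, hb, hpab, hsp⟩ x] at h1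
        linear_combination (norm := module) h1
      obtain ⟨y₁, hy₁⟩ := exists_polar_pair hQ (u := c) hL.1 hL.2.2.2.2 1 0
      obtain ⟨y₂, hy₂⟩ := exists_polar_pair hQ (u := c) hL.1 hL.2.2.2.2 0 1
      have hd := hx y₁
      rw [hy₁.1, hy₁.2, one_smul, zero_smul, sub_zero] at hd
      have hc := hx y₂
      rw [hy₂.1, hy₂.2, one_smul, zero_smul, zero_sub] at hc
      refine ⟨((polar Q b y₂, -polar Q a y₂), (-polar Q b y₁, polar Q a y₁)), ?_, ?_⟩
      · simp only [mem_filter, mem_univ, true_and]
        set α := polar Q b y₂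
        set β := polar Q a y₂
        set γ := polar Q b y₁
        set δ := polar Q a y₁
        have hd' : d = -γ • a + δ • b := by rw [hd]; module
        have hc' : c = α • a + -β • b := by linear_combination (norm := module) -hc
        obtain ⟨y, hy⟩ := exists_polar_pair hQ (u := a) ha0 hsp 1 0
        have h3 := hx y
        rw [hy.1, hy.2, hd', hc'] at h3
        simp only [polar_add_left, polar_smul_left, hy.1, hy.2, smul_eq_mul, mul_one, mul_zero,
          add_zero, one_smul, zero_smul, sub_zero] at h3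
        obtain ⟨-, e2⟩ := hind (r := 0) (s := α * δ - β * γ - 1) (by
          linear_combination (norm := module) h3)
        linear_combination e2
      · refine Prod.ext ?_ ?_
        · show _ = c
          linear_combination (norm := module) hc
        · show _ = d
          rw [hd]
          module
  have htot : P.card = (longSet Q).card * (q * (q ^ 2 - 1)) := by
    rw [Finset.card_eq_sum_card_image (fun p : V × V => kE Q p.1 p.2) P,
      show P.image (fun p : V × V => kE Q p.1 p.2) = longSet Q from rfl,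
      Finset.sum_congr rfl hfib, Finset.sum_const, smul_eq_mul]
  rw [hcount] at htot
  apply Nat.eq_of_mul_eq_mul_left (Fintype.card_pos (α := F))
  rw [show q * ((longSet Q).card * (q ^ 2 - 1)) = (longSet Q).card * (q * (q ^ 2 - 1)) by ring,
    ← htot]
  ring

/-- Integrality: a degree divides the number of long root elements times the drop of the
character on them. -/
lemma dvd_card_longSet_mul {M : Type*} [AddCommGroup M] [Module ℂ M] [FiniteDimensional ℂ M]
    (ρ : Representation ℂ (eichGroup Q) M) [ρ.IsIrreducible] (k : ℕ)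
    (hk : ∀ g ∈ longSet Q, ρ.character g = (finrank ℂ M : ℂ) - k) :
    finrank ℂ M ∣ (longSet Q).card * k := by
  classical
  haveI : Finite (eichGroup Q) :=
    Finite.of_injective (fun g : eichGroup Q => ((g.1.1 : V ≃ₗ[F] V) : V → V))
      fun g h e => Subtype.ext (Subtype.ext (DFunLike.coe_injective e))
  haveI : Fintype (eichGroup Q) := Fintype.ofFinite _
  have hint := H25.isIntegral_central_scalar ρ
    (fun g => if g ∈ longSet Q then (1 : ℂ) else 0)
    (fun g h => by simp only [longSet_conj])
    (fun g => by split_ifs <;> [exact isIntegral_one; exact isIntegral_zero])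
  simp only [ite_mul, one_mul, zero_mul, Finset.sum_ite_mem, Finset.univ_inter] at hint
  rw [Finset.sum_congr rfl hk, Finset.sum_const, nsmul_eq_mul] at hint
  have hd : finrank ℂ M ≠ 0 := (H25.finrank_pos_of_isIrreducible ρ).ne'
  refine H25.dvd_of_isIntegral_div hd ?_
  have hc : IsIntegral ℤ ((longSet Q).card : ℂ) := isIntegral_natCast _
  have : (finrank ℂ M : ℂ) ≠ 0 := Nat.cast_ne_zero.2 hd
  rw [show (((longSet Q).card * k : ℕ) : ℂ) / (finrank ℂ M : ℂ) = ((longSet Q).card : ℂ) -
      ((longSet Q).card : ℂ) * ((finrank ℂ M : ℂ) - k) / (finrank ℂ M : ℂ) by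
    push_cast; field_simp; ring]
  exact hc.sub hint

end Cfsg.Agent.H39
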