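import Mathlib

/-!
# Arithmetic of the bound for minus type orthogonal groups
-/

namespace Cfsg.Agent.H39

/-- The bound, indexed by the dimension halved, less one. -/
def minusB (q : ℕ) : ℕ → ℕ
  | 0 => 0
  | 1 => 0
  | m + 2 => q ^ (2 * m + 3) + q ^ (m + 1) - q ^ (m + 2) + minusB q (m + 1)

private lemma minus_pow_le (q m : ℕ) (hq : 1 ≤ q) :
    q ^ (m + 2) ≤ q ^ (2 * m + 3) + q ^ (m + 1) :=
  le_add_right (Nat.pow_le_pow_right hq (by omega))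

lemma minusB_spec (q : ℕ) (hq : 1 ≤ q) : ∀ m, (minusB q (m + 1) : ℤ) * ((q : ℤ) ^ 2 - 1) =
    (q : ℤ) ^ (2 * m + 3) - (q : ℤ) ^ (m + 3) + (q : ℤ) ^ (m + 1) - q := by
  intro m
  induction m with
  | zero => simp [minusB]
  | succ m ih =>
    rw [minusB, Nat.cast_add, Nat.cast_sub (minus_pow_le q m hq)]
    push_cast
    linear_combination ih

lemma dvd_minusB (q : ℕ) : ∀ m, q ∣ minusB q (m + 1) := by
  intro m
  induction m with
  | zero => simp [minusB]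
  | succ m ih =>
    rw [minusB]
    exact dvd_add (Nat.dvd_sub (dvd_add (dvd_pow_self _ (by omega)) (dvd_pow_self _ (by omega)))
      (dvd_pow_self _ (by omega))) ih

lemma minusB_succ_eq (q : ℕ) (hq : 1 ≤ q) {m N : ℕ}
    (hN : (q : ℤ) * N = (q : ℤ) ^ (2 * m + 4) - (q : ℤ) ^ (m + 3) + (q : ℤ) ^ (m + 2)) :
    minusB q (m + 2) = N + minusB q (m + 1) := by
  rw [minusB]
  congr 1
  apply Nat.cast_injective (R := ℤ)
  rw [Nat.cast_sub (minus_pow_le q m hq)]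
  apply mul_left_cancel₀ (show (q : ℤ) ≠ 0 by exact_mod_cast (show q ≠ 0 by omega))
  rw [hN]
  push_cast
  ring

/-- The statement's closed form. -/
lemma minusB_closed (q n : ℕ) (hq : 2 ≤ q) :
    (q ^ (n + 2) + 1) * (q ^ (n + 1) - q) / (q ^ 2 - 1) = minusB q (n + 1) := by
  have h1 : 1 ≤ q ^ 2 := Nat.one_le_pow _ _ (by omega)
  have h2 : q ≤ q ^ (n + 1) := Nat.le_self_pow (by omega) _
  refine Nat.div_eq_of_eq_mul_left (by nlinarith [Nat.sub_add_cancel h1]) ?_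
  apply Nat.cast_injective (R := ℤ)
  push_cast [Nat.cast_sub h1, Nat.cast_sub h2]
  linear_combination -(minusB_spec q (by omega) n)

/-- The bound is small against the number of singular vectors one dimension down. -/
lemma minusB_add_two_le (q m : ℕ) (hq : 2 ≤ q) {N : ℕ}
    (hN : (q : ℤ) * N = (q : ℤ) ^ (2 * m + 6) - (q : ℤ) ^ (m + 4) + (q : ℤ) ^ (m + 3)) :
    minusB q (m + 2) + 2 ≤ N := by
  have hq' : (2 : ℤ) ≤ q := by exact_mod_cast hq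
  have hspec := minusB_spec q (by omega) (m + 1)
  have hN' : (N : ℤ) = (q : ℤ) ^ (2 * m + 5) - (q : ℤ) ^ (m + 3) + (q : ℤ) ^ (m + 2) := by
    apply mul_left_cancel₀ (show (q : ℤ) ≠ 0 by linarith)
    linear_combination hN
  have h5 : (32 : ℤ) ≤ (q : ℤ) ^ (2 * m + 5) :=
    le_trans (by norm_num) ((pow_le_pow_left₀ (by norm_num) hq' 5).trans
      (pow_le_pow_right₀ (by linarith) (by omega)))
  have h4 : 4 * (q : ℤ) ^ (m + 3) ≤ (q : ℤ) ^ (2 * m + 5) := by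
    have e : (q : ℤ) ^ (2 * m + 5) = (q : ℤ) ^ (m + 2) * (q : ℤ) ^ (m + 3) := by
      rw [← pow_add]; ring_nf
    have : (4 : ℤ) ≤ (q : ℤ) ^ (m + 2) :=
      le_trans (by norm_num) ((pow_le_pow_left₀ (by norm_num) hq' 2).trans
        (pow_le_pow_right₀ (by linarith) (by omega)))
    rw [e]
    exact mul_le_mul_of_nonneg_right this (by positivity)
  have h3 : (minusB q (m + 2) : ℤ) * 3 ≤ (q : ℤ) ^ (2 * m + 5) := by
    have hw : (3 : ℤ) ≤ (q : ℤ) ^ 2 - 1 := by nlinarith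
    have hB : (0 : ℤ) ≤ minusB q (m + 2) := Nat.cast_nonneg _
    have : (minusB q (m + 2) : ℤ) * 3 ≤ (minusB q (m + 2) : ℤ) * ((q : ℤ) ^ 2 - 1) :=
      mul_le_mul_of_nonneg_left hw hB
    refine this.trans ?_
    rw [hspec, show 2 * (m + 1) + 3 = 2 * m + 5 by ring]
    have : (q : ℤ) ^ (m + 1 + 1) ≤ (q : ℤ) ^ (m + 1 + 3) :=
      pow_le_pow_right₀ (by linarith) (by omega)
    linarith
  have h2 : (0 : ℤ) ≤ (q : ℤ) ^ (m + 2) := by positivity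
  have : (minusB q (m + 2) : ℤ) + 2 ≤ N := by rw [hN']; linarith
  exact_mod_cast this

/-- No degree one below the bound divides the class function. -/
lemma minus_exclude (q m d S e : ℕ) (hq : 2 ≤ q) (hm : 3 ≤ m) (hd : d + 1 = minusB q m)
    (hS : (q : ℤ) ^ 2 * ((S : ℤ) * ((q : ℤ) ^ 2 - 1)) =
      ((q : ℤ) ^ (2 * m + 2) - (q : ℤ) ^ (m + 2) + (q : ℤ) ^ (m + 1) - q) *
        ((q : ℤ) ^ (2 * m) - (q : ℤ) ^ (m + 1) + (q : ℤ) ^ m - q))
    (hdvd : d ∣ S * q ^ e) : False := by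
  have hq' : (2 : ℤ) ≤ q := by exact_mod_cast hq
  obtain ⟨k, rfl⟩ : ∃ k, m = k + 1 := ⟨m - 1, by omega⟩
  have hspec := minusB_spec q (by omega) k
  have hle : 1 ≤ q ^ (2 * (k + 1)) := Nat.one_le_pow _ _ (by omega)
  have hkey : q * S = minusB q (k + 1) * (q ^ (2 * (k + 1)) - 1) := by
    apply Nat.cast_injective (R := ℤ)
    push_cast [Nat.cast_sub hle]
    have hne : (q : ℤ) * ((q : ℤ) ^ 2 - 1) ≠ 0 := mul_ne_zero (by linarith) (by nlinarith)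
    apply mul_left_cancel₀ hne
    linear_combination hS - (q : ℤ) * ((q : ℤ) ^ (2 * (k + 1)) - 1) * hspec
  have hcop : Nat.Coprime d (minusB q (k + 1)) := by
    rw [← hd]; exact Nat.coprime_self_add_right.2 (Nat.coprime_one_right d)
  have hcq : Nat.Coprime d (q ^ e) :=
    (Nat.Coprime.coprime_dvd_right (dvd_minusB q k) hcop).pow_right e
  have hd1 : d ∣ S := hcq.dvd_of_dvd_mul_right hdvd
  have hd2 : d ∣ q ^ (2 * (k + 1)) - 1 :=
    hcop.dvd_of_dvd_mul_left (hkey ▸ dvd_mul_of_dvd_right hd1 q)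
  obtain ⟨t, ht⟩ := hd2
  have hT : (q : ℤ) ^ (2 * (k + 1)) - 1 = (d : ℤ) * t := by
    have := congrArg (Nat.cast : ℕ → ℤ) ht
    rw [Nat.cast_sub hle] at this
    push_cast at this
    exact this
  have hdz : (d : ℤ) = minusB q (k + 1) - 1 := by rw [← hd]; push_cast; ring
  rw [show 2 * k + 3 = 2 * (k + 1) + 1 by ring, show k + 3 = k + 1 + 2 by ring] at hspec
  set m := k + 1
  have hq1 : (1 : ℤ) ≤ q := by linarith
  have p1 : (q : ℤ) ^ (m + 3) ≤ (q : ℤ) ^ (2 * m) := pow_le_pow_right₀ hq1 (by omega)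
  have p2 : (q : ℤ) ^ 3 ≤ (q : ℤ) ^ (m + 1) := pow_le_pow_right₀ hq1 (by omega)
  have p3 : 2 * (q : ℤ) ^ (2 * m) ≤ (q : ℤ) ^ (2 * m + 1) := by
    rw [pow_succ]; nlinarith [pow_pos (show (0 : ℤ) < q by linarith) (2 * m)]
  have p4 : (q : ℤ) ^ (m + 2) + (q : ℤ) ^ (m + 1) ≤ (q : ℤ) ^ (m + 3) := by
    have : (q : ℤ) + 1 ≤ q ^ 2 := by nlinarith
    have := mul_le_mul_of_nonneg_left this (show (0 : ℤ) ≤ (q : ℤ) ^ (m + 1) by positivity)
    linear_combination this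
  have p5 : (q : ℤ) ^ 3 ≤ (q : ℤ) ^ (2 * m) := pow_le_pow_right₀ hq1 (by omega)
  have p6 : 2 * (q : ℤ) + (q : ℤ) ^ 2 ≤ 2 * q ^ 3 := by nlinarith
  have p7 : (1 : ℤ) < q := by linarith
  have hw : (0 : ℤ) < (q : ℤ) ^ 2 - 1 := by nlinarith
  have hup : (q : ℤ) ^ (2 * m) - 1 < (q : ℤ) * d := by
    refine lt_of_mul_lt_mul_right ?_ hw.le
    have : (q : ℤ) * d * ((q : ℤ) ^ 2 - 1) =
        (q : ℤ) ^ (2 * m + 2) - (q : ℤ) ^ (m + 3) + (q : ℤ) ^ (m + 1) - q ^ 2 - q ^ 3 + q := by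
      rw [hdz]; linear_combination (q : ℤ) * hspec
    rw [this]
    linear_combination p1 + p2 + p7
  have hlo : ((q : ℤ) - 1) * d < (q : ℤ) ^ (2 * m) - 1 := by
    refine lt_of_mul_lt_mul_right ?_ hw.le
    have : ((q : ℤ) - 1) * d * ((q : ℤ) ^ 2 - 1) =
        (q : ℤ) ^ (2 * m + 2) - (q : ℤ) ^ (m + 3) + (q : ℤ) ^ (m + 1) - q ^ 2 - q ^ 3 + q -
          ((q : ℤ) ^ (2 * m + 1) - (q : ℤ) ^ (m + 2) + (q : ℤ) ^ m - q - q ^ 2 + 1) := by
      rw [hdz]; linear_combination ((q : ℤ) - 1) * hspec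
    rw [this]
    have p8 : (0 : ℤ) < (q : ℤ) ^ m + 2 := by positivity
    have p9 : (q : ℤ) ^ (2 * m) ≥ 0 := by positivity
    linear_combination p3 + p4 + p8 + p6 + p5
  have hd0 : (0 : ℤ) ≤ d := Nat.cast_nonneg d
  rcases Nat.lt_or_ge t q with htq | htq
  · have h' : (t : ℤ) ≤ (q : ℤ) - 1 := by omega
    have := mul_le_mul_of_nonneg_left h' hd0
    linarith [mul_comm ((q : ℤ) - 1) (d : ℤ)]
  · have h' : (q : ℤ) ≤ t := by omega
    have := mul_le_mul_of_nonneg_left h' hd0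
    linarith [mul_comm (q : ℤ) (d : ℤ)]

/-- In dimension eight, no degree two below the bound, except over two elements. -/
lemma minus_exclude_two (q d S : ℕ) (hq : 3 ≤ q) (hd : d + 2 = minusB q 3)
    (hS : (q : ℤ) ^ 2 * ((S : ℤ) * ((q : ℤ) ^ 2 - 1)) =
      ((q : ℤ) ^ 8 - (q : ℤ) ^ 5 + (q : ℤ) ^ 4 - q) * ((q : ℤ) ^ 6 - (q : ℤ) ^ 4 + (q : ℤ) ^ 3 - q))
    (hdvd : d ∣ S * q ^ 5) : False := by
  have hq' : (3 : ℤ) ≤ q := by exact_mod_cast hq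
  have hB : (minusB q 3 : ℤ) = (q : ℤ) ^ 5 + q := by
    apply mul_right_cancel₀ (show (q : ℤ) ^ 2 - 1 ≠ 0 by nlinarith)
    linear_combination minusB_spec q (by omega) 2
  have hdz : (d : ℤ) = (q : ℤ) ^ 5 + q - 2 := by
    rw [← hB, ← hd]; push_cast; ring
  have hS' : (q : ℤ) * S = ((q : ℤ) ^ 5 + q) * ((q : ℤ) ^ 6 - 1) := by
    apply mul_left_cancel₀ (show (q : ℤ) * ((q : ℤ) ^ 2 - 1) ≠ 0 from
      mul_ne_zero (by linarith) (by nlinarith))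
    linear_combination hS
  have h1 : (d : ℤ) ∣ (S : ℤ) * (q : ℤ) ^ 5 := by exact_mod_cast hdvd
  have hr : 2 * q ^ 2 + 8 ≤ 2 * q ^ 4 + 8 * q := by nlinarith [Nat.mul_le_mul hq hq]
  have h2 : (d : ℤ) ∣ ((2 * q ^ 4 + 8 * q - (2 * q ^ 2 + 8) : ℕ) : ℤ) := by
    push_cast [Nat.cast_sub hr]
    have e : 2 * (q : ℤ) ^ 4 + 8 * q - (2 * (q : ℤ) ^ 2 + 8) =
        (d : ℤ) * (((q : ℤ) ^ 6 - 1) * (q : ℤ) ^ 4 + 2 * (q : ℤ) ^ 5 - 2 * ((q : ℤ) - 2)) -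
          (q : ℤ) * S * (q : ℤ) ^ 4 := by
      rw [hS', hdz]; ring
    rw [e, show (q : ℤ) * S * (q : ℤ) ^ 4 = (S : ℤ) * (q : ℤ) ^ 5 by ring]
    exact (Dvd.intro _ rfl).sub h1
  have h3 := Int.natCast_dvd_natCast.1 h2
  have hpos : 0 < 2 * q ^ 4 + 8 * q - (2 * q ^ 2 + 8) := by
    have : 2 * q ^ 2 + 8 < 2 * q ^ 4 + 8 * q := by nlinarith [Nat.mul_le_mul hq hq]
    omega
  have hle := Nat.le_of_dvd hpos h3
  have hb : 3 * q ^ 4 ≤ q ^ 5 := by rw [pow_succ q 4, mul_comm 3]; exact Nat.mul_le_mul_left _ hq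
  have hdq : d + 2 = q ^ 5 + q := by rw [hd]; exact_mod_cast hB
  have h7 : 7 * q ≤ q ^ 4 := by
    have : 27 ≤ q ^ 3 := le_trans (by norm_num) (Nat.pow_le_pow_left hq 3)
    rw [pow_succ q 3]; nlinarith
  omega

end Cfsg.Agent.H39
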