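import Cfsg.Agent.H39.OmegaMinusForm
import Cfsg.Agent.H39.OmegaMinusArith

/-!
# Degrees of representations of minus type orthogonal groups
-/

namespace Cfsg.Agent.H39

open QuadraticMap hiding sq
open Cfsg.Agent.H5
open Finset Module
open scoped Classical commutatorElement

universe u v

variable {F V : Type*} [Field F] [Fintype F] [AddCommGroup V] [Module F V] [FiniteDimensional F V]
  [Fintype V] {Q : QuadraticForm F V}

/-- Each level set is at least as large as the set of non-zero singular vectors. -/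
lemma levelSet_card_ge {e f : V} {m : ℕ} (hW : MinusForm (Q.restrict (H5.pperp Q e f)) m) (c : F) :
    isoN (Q.restrict (H5.pperp Q e f)) ≤ (levelSet Q e f c).card + 1 ∧
      (c ≠ 0 → isoN (Q.restrict (H5.pperp Q e f)) + 1 ≤ (levelSet Q e f c).card) := by
  set q := Fintype.card F with hq
  set N := isoN (Q.restrict (H5.pperp Q e f)) with hN
  have hq2 : 2 ≤ q := Fintype.one_lt_card
  have hbig : c ≠ 0 → N + 1 ≤ (levelSet Q e f c).card := by
    intro hc
    have h1 := minus_level_ge m hW c hc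
    have h2 := levelSet_add (Q := Q) (e := e) (f := f) c
    rw [if_neg hc, add_zero] at h2
    rw [h2]
    rw [← hq] at h1
    have h3 : N + 1 ≤ q ^ (2 * m + 1) + q ^ m := by
      have hN' : (N : ℤ) = (q : ℤ) ^ (2 * m + 1) - (q : ℤ) ^ (m + 1) + (q : ℤ) ^ m := by
        apply mul_left_cancel₀ (show (q : ℤ) ≠ 0 by exact_mod_cast (show q ≠ 0 by omega))
        linear_combination hW.count
      have h4 : (1 : ℤ) ≤ (q : ℤ) ^ (m + 1) := one_le_pow₀ (by exact_mod_cast (show 1 ≤ q by omega))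
      have : (N : ℤ) + 1 ≤ (q : ℤ) ^ (2 * m + 1) + (q : ℤ) ^ m := by rw [hN']; linarith
      exact_mod_cast this
    omega
  refine ⟨?_, hbig⟩
  by_cases hc : c = 0
  · subst hc
    have h2 := levelSet_add (Q := Q) (e := e) (f := f) (0 : F)
    rw [if_pos rfl, ← isoN_eq_card] at h2
    omega
  · have := hbig hc
    omega

/-- The last line of the argument: what remains to be excluded. -/
lemma minus_top {k : ℕ} (hV : MinusForm Q (k + 3)) {b' : ℕ}
    (hb' : minusB (Fintype.card F) (k + 2) ≤ b' + 1)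
    (hb'' : 1 ≤ k → minusB (Fintype.card F) (k + 2) ≤ b') {M : Type} [AddCommGroup M] [Module ℂ M]
    [FiniteDimensional ℂ M] (ρ : Representation ℂ (eichGroup Q) M) (hne : ∃ g, ρ g ≠ 1)
    {e f : V} (h : HypPair Q e f) {ψ : AddChar F ℂ} (hψ : ψ ≠ 1)
    (IH : LowDeg (Q.restrict (H5.pperp Q e f)) b') :
    minusB (Fintype.card F) (k + 3) ≤ finrank ℂ M ∨
      ((∀ g ∈ longSet Q, ρ.character g =
          (finrank ℂ M : ℂ) - (Fintype.card F ^ (finrank F V - 3) : ℕ)) ∧
        (∀ v ∈ levelSet Q e f 0, (radData hV.nondeg h ψ hψ).dim ρ v = 1) ∧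
        (∀ v : H5.pperp Q e f, v ≠ 0 → v ∉ levelSet Q e f 0 →
          (radData hV.nondeg h ψ hψ).dim ρ v = 0) ∧
        finrank ℂ M + 1 = (radData hV.nondeg h ψ hψ).dim ρ 0 +
          isoN (Q.restrict (H5.pperp Q e f)) ∧
        b' ≤ (radData hV.nondeg h ψ hψ).dim ρ 0) := by
  set q := Fintype.card F with hqd
  have hq2 : 2 ≤ q := Fintype.one_lt_card
  have hW := hV.pperp h
  obtain ⟨a₁, b₁, h₁⟩ := hW.exists_pair
  have hW2 := hW.pperp h₁
  obtain ⟨a₂, b₂, h₂⟩ := hW2.exists_pair
  have hW3 := hW2.pperp h₂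
  set D := radData hV.nondeg h ψ hψ with hD
  set N := isoN (Q.restrict (H5.pperp Q e f)) with hN
  have hB : minusB q (k + 3) = N + minusB q (k + 2) := minusB_succ_eq q (by omega) hW.count
  have hsmall : minusB q (k + 2) + 2 ≤ N := minusB_add_two_le q k hq2 hW.count
  have hn : 6 ≤ finrank F V := by rw [hV.dim]; omega
  obtain ⟨v₀, hv₀, hd₀⟩ : ∃ v : H5.pperp Q e f, v ≠ 0 ∧ D.dim ρ v ≠ 0 := by
    by_contra hc
    push Not at hc
    obtain ⟨g, hg⟩ := hne
    exact hg (rad_trivial hV.nondeg h hψ ρ (by omega) hc g)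
  set c := Q (v₀ : V) with hc0
  have hmem₀ : v₀ ∈ levelSet Q e f c := mem_levelSet.2 ⟨hv₀, rfl⟩
  have hconst : ∀ v ∈ levelSet Q e f c, D.dim ρ v = D.dim ρ v₀ := fun v hv =>
    level_dim_const hV.nondeg hn h hψ h₁ ρ hv hmem₀
  have hL := (levelSet_card_ge hW c).1
  have hsub : ∀ s : Finset (H5.pperp Q e f), ∑ v ∈ s, D.dim ρ v ≤ finrank ℂ M := fun s => by
    rw [← D.sum_dim ρ]
    exact Finset.sum_le_sum_of_subset (Finset.subset_univ s)
  by_cases hm : 2 ≤ D.dim ρ v₀
  · left
    have h1 : (levelSet Q e f c).card * 2 ≤ finrank ℂ M := by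
      refine le_trans ?_ (hsub (levelSet Q e f c))
      rw [Finset.sum_congr rfl hconst, Finset.sum_const, smul_eq_mul]
      exact Nat.mul_le_mul_left _ hm
    omega
  have hm1 : D.dim ρ v₀ = 1 := by omega
  have hone : ∀ v ∈ levelSet Q e f c, D.dim ρ v = 1 := fun v hv => (hconst v hv).trans hm1
  by_cases hother : ∃ v : H5.pperp Q e f, v ≠ 0 ∧ v ∉ levelSet Q e f c ∧ D.dim ρ v ≠ 0
  · left
    obtain ⟨v, hv0, hvc, hdv⟩ := hother
    set c' := Q (v : V) with hc'
    have hne' : c' ≠ c := fun he => hvc (mem_levelSet.2 ⟨hv0, he⟩)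
    have hmem : v ∈ levelSet Q e f c' := mem_levelSet.2 ⟨hv0, rfl⟩
    have hdisj : Disjoint (levelSet Q e f c) (levelSet Q e f c') :=
      Finset.disjoint_left.2 fun w hw hw' =>
        hne' ((mem_levelSet.1 hw').2.symm.trans (mem_levelSet.1 hw).2)
    have h1 : (levelSet Q e f c).card + (levelSet Q e f c').card ≤ finrank ℂ M := by
      refine le_trans ?_ (hsub (levelSet Q e f c ∪ levelSet Q e f c'))
      rw [Finset.sum_union hdisj, Finset.sum_congr rfl hone, Finset.sum_const, smul_eq_mul, mul_one]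
      refine Nat.add_le_add_left ?_ _
      rw [Finset.card_eq_sum_ones]
      refine Finset.sum_le_sum fun w hw => ?_
      rw [level_dim_const hV.nondeg hn h hψ h₁ ρ hw hmem]
      exact Nat.one_le_iff_ne_zero.2 hdv
    have := (levelSet_card_ge hW c').1
    omega
  push Not at hother
  have hzero : ∀ v : H5.pperp Q e f, v ≠ 0 → v ∉ levelSet Q e f c → D.dim ρ v = 0 := hother
  have hfin := level_finrank hV.nondeg h hψ ρ hone hzero
  rw [← hD] at hfin
  by_cases hk0 : c ≠ 0 ∧ k = 0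
  · left
    obtain ⟨hc, rfl⟩ := hk0
    have hb : minusB q 3 = q ^ 5 + q := by
      apply Nat.cast_injective (R := ℤ)
      apply mul_right_cancel₀ (show (q : ℤ) ^ 2 - 1 ≠ 0 by
        have : (2 : ℤ) ≤ q := by exact_mod_cast hq2
        nlinarith)
      push_cast
      linear_combination minusB_spec q (by omega) 2
    have h1 := minus_level_ge 2 hW c hc
    have h2 := levelSet_add (Q := Q) (e := e) (f := f) c
    rw [if_neg hc, add_zero] at h2
    have h3 : q ≤ q ^ 2 := Nat.le_self_pow (by omega) q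
    simp only [Nat.reduceMul, Nat.reduceAdd, ← hqd] at h1
    show minusB q 3 ≤ finrank ℂ M
    omega
  have hz : b' ≤ D.dim ρ 0 := by
    refine level_dim_zero_ge hV.nondeg h hψ ρ hone hzero h₁ h₂ (by rw [hV.dim]; omega)
      (fun w hQw => exists_pair_perp hW3.nondeg w (by rw [hW3.dim]; omega) (fun hw hQ0 => ?_)
        (fun hQ0 => ?_)) IH
    · rcases Nat.eq_zero_or_pos k with rfl | hk
      · exact absurd (hW3.eq_zero_of_iso hQ0) hw
      · rw [hW3.dim]; omega
    · rcases Nat.eq_zero_or_pos k with rfl | hk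
      · refine absurd ⟨fun hc => hQ0 ?_, rfl⟩ hk0
        rw [← hc, ← hQw]
        rfl
      · rw [hW3.dim]; omega
  by_cases hc : c = 0
  · right
    rw [hc] at hone hzero hfin
    refine ⟨fun g hg => level_long_char hV.nondeg h hψ ρ hone hzero (by omega) hg, hone, hzero,
      ?_, hz⟩
    have h2 := levelSet_add (Q := Q) (e := e) (f := f) (0 : F)
    rw [if_pos rfl, ← isoN_eq_card] at h2
    omega
  · left
    have := (levelSet_card_ge hW c).2 hc
    omega

/-- Dimension six. -/
theorem minus_base (hV : MinusForm Q 2) : LowDeg Q (minusB (Fintype.card F) 2 - 1) := by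
  intro M _ _ _ ρ hne
  set q := Fintype.card F with hqd
  have hq2 : 2 ≤ q := Fintype.one_lt_card
  obtain ⟨e, f, h⟩ := hV.exists_pair
  obtain ⟨ψ, hψ1⟩ := (AddChar.exists_apply_ne_zero (a := (1 : F))).2 one_ne_zero
  have hψ : ψ ≠ 1 := fun hh => hψ1 (by rw [hh, AddChar.one_apply])
  have hW := hV.pperp h
  obtain ⟨a₁, b₁, h₁⟩ := hW.exists_pair
  set D := radData hV.nondeg h ψ hψ with hD
  obtain ⟨v₀, hv₀, hd₀⟩ : ∃ v : H5.pperp Q e f, v ≠ 0 ∧ D.dim ρ v ≠ 0 := by
    by_contra hc
    push Not at hc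
    obtain ⟨g, hg⟩ := hne
    exact hg (rad_trivial hV.nondeg h hψ ρ (by rw [hV.dim]; omega) hc g)
  set c := Q (v₀ : V)
  have hmem₀ : v₀ ∈ levelSet Q e f c := mem_levelSet.2 ⟨hv₀, rfl⟩
  have h1 : (levelSet Q e f c).card ≤ finrank ℂ M := by
    rw [← D.sum_dim ρ, Finset.card_eq_sum_ones]
    refine le_trans (Finset.sum_le_sum fun v hv => ?_)
      (Finset.sum_le_sum_of_subset (Finset.subset_univ _))
    rw [level_dim_const hV.nondeg (by rw [hV.dim]) h hψ h₁ ρ hv hmem₀]
    exact Nat.one_le_iff_ne_zero.2 hd₀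
  have h2 := (levelSet_card_ge hW c).1
  have hB : minusB q 2 = isoN (Q.restrict (H5.pperp Q e f)) + minusB q 1 :=
    minusB_succ_eq q (by omega) hW.count
  have h0 : minusB q 1 = 0 := rfl
  omega

/-- The induction step, with the one sporadic degree left as a hypothesis. -/
theorem minus_step {k : ℕ} (hV : MinusForm Q (k + 3)) {b' : ℕ}
    (hb' : minusB (Fintype.card F) (k + 2) ≤ b' + 1)
    (hb'' : 1 ≤ k → minusB (Fintype.card F) (k + 2) ≤ b')
    (IH : ∀ e f, HypPair Q e f → LowDeg (Q.restrict (H5.pperp Q e f)) b')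
    (hex : k = 0 → Fintype.card F = 2 →
      ∀ (M : Type) [AddCommGroup M] [Module ℂ M] [FiniteDimensional ℂ M]
        (ρ : Representation ℂ (eichGroup Q) M), (∃ g, ρ g ≠ 1) → finrank ℂ M ≠ 32) :
    LowDeg Q (minusB (Fintype.card F) (k + 3)) := by
  refine lowDeg_of_irreducible fun M _ _ _ ρ hirr hne => ?_
  set q := Fintype.card F with hqd
  have hq2 : 2 ≤ q := Fintype.one_lt_card
  obtain ⟨e, f, h⟩ := hV.exists_pair
  obtain ⟨ψ, hψ1⟩ := (AddChar.exists_apply_ne_zero (a := (1 : F))).2 one_ne_zero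
  have hψ : ψ ≠ 1 := fun hh => hψ1 (by rw [hh, AddChar.one_apply])
  rcases minus_top hV hb' hb'' ρ hne h hψ (IH e f h) with hb | ⟨hlong, -, -, hfin, hz⟩
  · exact hb
  have hW := hV.pperp h
  set N := isoN (Q.restrict (H5.pperp Q e f)) with hN
  have hB : minusB q (k + 3) = N + minusB q (k + 2) := minusB_succ_eq q (by omega) hW.count
  by_contra hlt
  push Not at hlt
  have hNall : ∀ x y, HypPair Q x y → isoN (Q.restrict (H5.pperp Q x y)) = N := by
    intro x y hxy
    have h1 := (hV.pperp hxy).count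
    rw [← hW.count] at h1
    exact_mod_cast mul_left_cancel₀ (by exact_mod_cast (show q ≠ 0 by omega)) h1
  have hS : (longSet Q).card * (q ^ 2 - 1) = (isoN Q - 1) * (N - 1) :=
    card_longSet hV.nondeg N hNall
  haveI := hirr
  have hdvd := dvd_card_longSet_mul ρ _ hlong
  have h1 := congrArg (Nat.cast : ℕ → ℤ) hS
  have i1 : 1 ≤ isoN Q := one_le_isoN Q
  have i2 : 1 ≤ N := one_le_isoN _
  have i3 : 1 ≤ q ^ 2 := Nat.one_le_pow _ _ (by omega)
  push_cast [Nat.cast_sub i1, Nat.cast_sub i2, Nat.cast_sub i3] at h1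
  rcases Nat.lt_or_ge (finrank ℂ M + 1) (minusB q (k + 3)) with hlt2 | hge2
  · -- two below the bound
    obtain rfl : k = 0 := by
      by_contra hk
      have := hb'' (by omega)
      omega
    have hd2 : finrank ℂ M + 2 = minusB q 3 := by
      simp only [Nat.zero_add] at hlt2 hB hb' ⊢
      omega
    rcases hq2.eq_or_lt with h2 | h3
    · have h34 : minusB q 3 = 34 := by rw [← h2]; rfl
      exact hex rfl h2.symm M ρ hne (by omega)
    refine minus_exclude_two q (finrank ℂ M) (longSet Q).card h3 hd2 ?_ ?_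
    · rw [h1]
      linear_combination ((q : ℤ) * N - q) * hV.count +
        ((q : ℤ) ^ 8 - (q : ℤ) ^ 5 + (q : ℤ) ^ 4 - q) * hW.count
    · rw [hV.dim] at hdvd
      exact hdvd
  · refine minus_exclude q (k + 3) (finrank ℂ M) (longSet Q).card (finrank F V - 3) hq2 (by omega)
      (by omega) ?_ hdvd
    rw [h1]
    linear_combination ((q : ℤ) * N - q) * hV.count +
      ((q : ℤ) ^ (2 * (k + 3) + 2) - (q : ℤ) ^ (k + 3 + 2) + (q : ℤ) ^ (k + 3 + 1) - q) * hW.count

/-- All dimensions from eight on, given the sporadic case. -/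
theorem minus_lowDeg {F : Type u} [Field F] [Fintype F]
    (hex : ∀ {V : Type v} [AddCommGroup V] [Module F V] [FiniteDimensional F V] [Fintype V]
      {Q : QuadraticForm F V}, MinusForm Q 3 → Fintype.card F = 2 →
      ∀ (M : Type) [AddCommGroup M] [Module ℂ M] [FiniteDimensional ℂ M]
        (ρ : Representation ℂ (eichGroup Q) M), (∃ g, ρ g ≠ 1) → finrank ℂ M ≠ 32) :
    ∀ (k : ℕ) {V : Type v} [AddCommGroup V] [Module F V] [FiniteDimensional F V] [Fintype V]
      {Q : QuadraticForm F V}, MinusForm Q (k + 3) →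
        LowDeg Q (minusB (Fintype.card F) (k + 3)) := by
  intro k
  induction k with
  | zero =>
    intro V _ _ _ _ Q hV
    refine minus_step hV (b' := minusB (Fintype.card F) 2 - 1) (by simp only [Nat.zero_add]; omega) (fun h => by omega)
      (fun e f h => minus_base (hV.pperp h)) fun _ hq => hex hV hq
  | succ k ih =>
    intro V _ _ _ _ Q hV
    exact minus_step hV (b' := minusB (Fintype.card F) (k + 3)) (Nat.le_succ _) (fun _ => le_rfl)
      (fun e f h => ih (hV.pperp h)) (fun hk => absurd hk (by omega))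

lemma minusForm_qMinus {F : Type*} [Field F] [Fintype F] (m : ℕ) {a b : F}
    (hab : ∀ z₁ z₂ : F, z₁ ^ 2 + a * z₁ * z₂ + b * z₂ ^ 2 = 0 → z₁ = 0 ∧ z₂ = 0) :
    MinusForm (H5.qMinus m F a b) m := by
  refine ⟨qMinus_nondegenerate _ hab, by
    rw [Module.finrank_fintype_fun_eq_card, Fintype.card_sum, Fintype.card_sum, Fintype.card_fin,
      Fintype.card_fin]; omega, ?_⟩
  have h := H4.card_qMinus_zeros (F := F) m a b hab
  rw [isoN, coe_qMinus, h]
  ring

end Cfsg.Agent.H39
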