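import Cfsg.Agent.H39.OmegaLevel
import Cfsg.Agent.H4.Count
import Cfsg.Agent.H5.OmegaForms

/-!
# Minus type spaces: pairs, level sets, constancy of multiplicities
-/

namespace Cfsg.Agent.H39

open QuadraticMap hiding sq
open Cfsg.Agent.H5
open Finset Module
open scoped Classical commutatorElement

/-- The invariants of a minus type space of dimension `2 (m + 1)`. -/
structure MinusForm {F V : Type*} [Field F] [Fintype F] [AddCommGroup V] [Module F V]
    (Q : QuadraticForm F V) (m : ℕ) : Prop where
  nondeg : (polarBilin Q).Nondegenerate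
  dim : finrank F V = 2 * (m + 1)
  count : (Fintype.card F : ℤ) * isoN Q = (Fintype.card F : ℤ) ^ (2 * m + 2) -
    (Fintype.card F : ℤ) ^ (m + 2) + (Fintype.card F : ℤ) ^ (m + 1)

variable {F V : Type*} [Field F] [Fintype F] [AddCommGroup V] [Module F V] [FiniteDimensional F V]
  [Fintype V] {Q : QuadraticForm F V}

omit [FiniteDimensional F V] in
lemma MinusForm.iso_plane (h : MinusForm Q 0) : isoN Q = 1 := by
  apply Nat.cast_injective (R := ℤ)
  apply mul_left_cancel₀ (show (Fintype.card F : ℤ) ≠ 0 by exact_mod_cast Fintype.card_ne_zero)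
  push_cast
  linear_combination h.count

omit [FiniteDimensional F V] in
lemma MinusForm.eq_zero_of_iso (h : MinusForm Q 0) {x : V} (hx : Q x = 0) : x = 0 := by
  have h1 := h.iso_plane
  rw [isoN] at h1
  haveI := (Finite.card_le_one_iff_subsingleton (α := {x : V // Q x = 0})).1 h1.le
  exact congrArg Subtype.val (Subsingleton.elim (⟨x, hx⟩ : {x : V // Q x = 0})
    ⟨0, QuadraticMap.map_zero Q⟩)

omit [Fintype V] in
lemma MinusForm.exists_pair [Finite V] {m : ℕ} (h : MinusForm Q (m + 1)) :
    ∃ e f, HypPair Q e f := by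
  obtain ⟨x, hx0, hx⟩ := exists_singular h.nondeg (by rw [h.dim]; omega)
  obtain ⟨y, hy⟩ := exists_hypPair h.nondeg hx0 hx
  exact ⟨x, y, hy⟩

lemma MinusForm.pperp {m : ℕ} (h : MinusForm Q (m + 1)) {e f : V} (hp : HypPair Q e f) :
    MinusForm (Q.restrict (H5.pperp Q e f)) m := by
  refine ⟨restrict_nondegenerate (hp.inf_perp h.nondeg), ?_, ?_⟩
  · have := hp.finrank_pperp h.nondeg
    have := h.dim
    omega
  · have h1 := isoN_pair hp
    rw [card_pperp_eq h.nondeg hp, h.dim, show 2 * (m + 1 + 1) - 2 = 2 * m + 2 by omega] at h1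
    have h2 := congrArg (Nat.cast : ℕ → ℤ) h1
    have hq : (Fintype.card F : ℤ) ≠ 0 := by exact_mod_cast Fintype.card_ne_zero
    push_cast at h2
    apply mul_left_cancel₀ hq
    linear_combination h.count - (Fintype.card F : ℤ) * h2

/-- An anisotropic plane has at least `q + 1` vectors of each non-zero norm. -/
lemma MinusForm.level_plane (h : MinusForm Q 0) {c : F} (hc : c ≠ 0) :
    Fintype.card F + 1 ≤ (univ.filter fun x : V => Q x = c).card := by
  have hrank : finrank F V = 2 := by rw [h.dim]
  haveI : Nontrivial V := Module.nontrivial_of_finrank_pos (R := F) (by omega)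
  obtain ⟨x₀, hx₀⟩ : ∃ x₀ : V, Q x₀ = c := by
    obtain ⟨x, -, hx⟩ := exists_mem_norm_eq (Q := Q) (W := (⊤ : Submodule F V))
      (by
        rw [top_inf_eq, Submodule.eq_bot_iff]
        intro x hx
        exact h.nondeg.1 x fun y => by
          rw [polarBilin_apply_apply, polar_comm]; exact hx y Submodule.mem_top)
      (by rw [finrank_top, hrank]) c
    exact ⟨x, hx⟩
  have hx00 : x₀ ≠ 0 := fun h0 => hc (by rw [← hx₀, h0, QuadraticMap.map_zero])
  obtain ⟨y₀, hy₀⟩ : ∃ y, y ∉ Submodule.span F {x₀} := by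
    by_contra hy
    push Not at hy
    have : (⊤ : Submodule F V) ≤ Submodule.span F {x₀} := fun y _ => hy y
    have := Submodule.finrank_mono this
    rw [finrank_top, finrank_span_singleton hx00, hrank] at this
    omega
  have hind : ∀ {r s : F}, r • x₀ + s • y₀ = 0 → r = 0 ∧ s = 0 := by
    intro r s hrs
    have hs : s = 0 := by
      by_contra hs
      refine hy₀ (Submodule.mem_span_singleton.2 ⟨-(s⁻¹ * r), ?_⟩)
      have : y₀ = s⁻¹ • (s • y₀) := by rw [smul_smul, inv_mul_cancel₀ hs, one_smul]
      rw [this, eq_neg_of_add_eq_zero_right hrs, smul_neg, smul_smul, neg_smul]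
    subst hs
    rw [zero_smul, add_zero, smul_eq_zero] at hrs
    exact ⟨hrs.resolve_right hx00, rfl⟩
  let d : Option F → V := fun o => o.elim x₀ fun s => s • x₀ + y₀
  have hd0 : ∀ o, d o ≠ 0 := by
    rintro (_ | s) h0
    · exact hx00 h0
    · exact one_ne_zero (hind (r := s) (s := 1) (by rw [one_smul]; exact h0)).2
  have hpar : ∀ o o' (k k' : F), k • d o = k' • d o' → (k = 0 ∧ k' = 0) ∨ o = o' := by
    rintro (_ | s) (_ | s') k k' hk
    · exact Or.inr rfl
    · obtain ⟨e1, e2⟩ := hind (r := k - k' * s') (s := -k') (by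
        linear_combination (norm := (simp [d]; module)) hk)
      rw [neg_eq_zero] at e2
      exact Or.inl ⟨by simpa [e2] using e1, e2⟩
    · obtain ⟨e1, e2⟩ := hind (r := k * s - k') (s := k) (by
        linear_combination (norm := (simp [d]; module)) hk)
      exact Or.inl ⟨e2, by simpa [e2] using e1⟩
    · obtain ⟨e1, e2⟩ := hind (r := k * s - k' * s') (s := k - k') (by
        linear_combination (norm := (simp [d]; module)) hk)
      rw [sub_eq_zero] at e1 e2
      by_cases hk0 : k' = 0
      · exact Or.inl ⟨by rw [e2, hk0], hk0⟩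
      · subst e2
        exact Or.inr (congrArg some (mul_left_cancel₀ hk0 e1))
  have hQd : ∀ o, Q (d o) ≠ 0 := fun o h0 => hd0 o (h.eq_zero_of_iso h0)
  let k : Option F → F := fun o => polar Q x₀ (d o) / Q (d o)
  have hmap : ∀ o, Q (x₀ - k o • d o) = c := by
    intro o
    rw [map_sub_smul, hx₀]
    simp only [k]
    field_simp [hQd o]
    ring
  have hinj : Function.Injective fun o => x₀ - k o • d o := by
    intro o o' hoo
    rcases hpar o o' (k o) (k o') (sub_right_injective hoo) with ⟨e1, e2⟩ | he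
    · simp only [k, div_eq_zero_iff, hQd, or_false] at e1 e2
      -- both directions are orthogonal to `x₀`
      by_contra hne
      obtain ⟨y, hy⟩ := exists_polar_eq_one h.nondeg hx00
      have hspan : ∃ r s : F, y = r • d o + s • d o' := by
        have hli : LinearIndependent F ![d o, d o'] := by
          rw [LinearIndependent.pair_iff]
          intro r s hrs
          rcases hpar o o' r (-s) (by rw [neg_smul]; exact eq_neg_of_add_eq_zero_left hrs) with
            ⟨a1, a2⟩ | a
          · exact ⟨a1, neg_eq_zero.1 a2⟩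
          · exact absurd a hne
        have := hli.span_eq_top_of_card_eq_finrank (by rw [hrank, Fintype.card_fin])
        have hy' : y ∈ Submodule.span F (Set.range ![d o, d o']) := by rw [this]; trivial
        rw [Matrix.range_cons, Matrix.range_cons, Matrix.range_empty, Set.union_empty,
          Set.union_singleton, Submodule.mem_span_pair] at hy'
        obtain ⟨r, s, hrs⟩ := hy'
        first
          | exact ⟨r, s, hrs.symm⟩
          | exact ⟨s, r, by rw [← hrs, add_comm]⟩
      obtain ⟨r, s, rfl⟩ := hspan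
      apply one_ne_zero (α := F)
      rw [← hy]
      first
        | simp [polar_add_right, polar_smul_right, e1, e2]
        | simp [polar_add_left, polar_smul_left, polar_comm (⇑Q) (d o) x₀,
            polar_comm (⇑Q) (d o') x₀, e1, e2]
    · exact he
  have := Finset.card_le_card_of_injOn (fun o => x₀ - k o • d o)
    (s := (univ : Finset (Option F))) (t := univ.filter fun x : V => Q x = c)
    (fun o _ => by simp [hmap]) hinj.injOn
  simpa using this

/-- Every non-zero norm is taken at least `q ^ (2 m + 1) + q ^ m` times. -/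
lemma minus_level_ge {F : Type*} [Field F] [Fintype F] :
    ∀ (m : ℕ) {V : Type*} [AddCommGroup V] [Module F V] [FiniteDimensional F V] [Fintype V]
      {Q : QuadraticForm F V}, MinusForm Q m → ∀ c : F, c ≠ 0 →
        Fintype.card F ^ (2 * m + 1) + Fintype.card F ^ m ≤
          (univ.filter fun x : V => Q x = c).card := by
  intro m
  induction m with
  | zero =>
    intro V _ _ _ _ Q h c hc
    simpa using h.level_plane hc
  | succ m ih =>
    intro V _ _ _ _ Q h c hc
    obtain ⟨e, f, hp⟩ := h.exists_pair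
    have h1 := card_level_pair hp c
    rw [card_pperp_eq h.nondeg hp, h.dim, show 2 * (m + 1 + 1) - 2 = 2 * m + 2 by omega] at h1
    have h2 : Fintype.card F ^ (2 * m + 1) + Fintype.card F ^ m ≤
        (univ.filter fun w : H5.pperp Q e f => Q (w : V) = c).card := by
      simpa using ih (h.pperp hp) c hc
    set q := Fintype.card F
    have h3 := Nat.mul_le_mul_left q h2
    have e1 : q * (q ^ (2 * m + 1) + q ^ m) = q ^ (2 * m + 2) + q ^ (m + 1) := by ring
    have e2 : q * q ^ (2 * m + 2) = q ^ (2 * (m + 1) + 1) := by ring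
    omega

/-- The eigenspaces are equally large on each level set. -/
lemma level_dim_const (hQ : (polarBilin Q).Nondegenerate) (hn : 6 ≤ finrank F V) {e f : V}
    (h : HypPair Q e f) {ψ : AddChar F ℂ} (hψ : ψ ≠ 1) {e₁ f₁ : H5.pperp Q e f}
    (h₁ : HypPair (Q.restrict (H5.pperp Q e f)) e₁ f₁) {M : Type} [AddCommGroup M] [Module ℂ M]
    [FiniteDimensional ℂ M] (ρ : Representation ℂ (eichGroup Q) M) {c : F}
    {v v' : H5.pperp Q e f} (hv : v ∈ levelSet Q e f c) (hv' : v' ∈ levelSet Q e f c) :
    (radData hQ h ψ hψ).dim ρ v = (radData hQ h ψ hψ).dim ρ v' := by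
  obtain ⟨hv0, hQv⟩ := mem_levelSet.1 hv
  obtain ⟨hv0', hQv'⟩ := mem_levelSet.1 hv'
  have hWn := restrict_nondegenerate (h.inf_perp hQ)
  have hd : finrank F (H5.pperp Q e f) + 2 = finrank F V := h.finrank_pperp hQ
  have hlevi : ∀ (g : eichGroup (Q.restrict (H5.pperp Q e f))) (w : H5.pperp Q e f),
      (radData hQ h ψ hψ).dim ρ w = (radData hQ h ψ hψ).dim ρ
        ((g.1 : H5.pperp Q e f ≃ₗ[F] H5.pperp Q e f) w) := fun g w =>
    dim_eq_of_comm ρ _ (rad_comm_fix hQ h hψ ρ (g := leviK h g) (orthExt_left h _)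
      (orthExt_right h _) (leviK_coe h g w).symm)
  by_cases hc : c = 0
  · subst hc
    have key : ∀ w : H5.pperp Q e f, w ≠ 0 → Q (w : V) = 0 →
        (radData hQ h ψ hψ).dim ρ w = (radData hQ h ψ hψ).dim ρ e₁ := by
      intro w hw hQw
      obtain ⟨g, hg, t, ht, hgw⟩ := exists_pairGroup_map hWn (by omega) h₁ hw hQw
      rw [pairGroup_eq_eichGroup hWn (by omega) h₁] at hg
      obtain ⟨k, hk, hke⟩ := exists_eich_scale hWn (by omega) h₁ (inv_ne_zero ht)
      rw [hlevi ⟨k * g, mul_mem hk hg⟩ w]
      show (radData hQ h ψ hψ).dim ρ (((k * g : orth _) : _ ≃ₗ[F] _) w) = _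
      rw [orth_mul_apply, hgw, map_smul, hke, smul_smul, mul_inv_cancel₀ ht, one_smul]
    rw [key v hv0 hQv, key v' hv0' hQv']
  · obtain ⟨g, hg, hga⟩ := exists_eichGroup_map_norm hWn (by omega) h₁ (v := v)
      (by rw [QuadraticMap.restrict_apply, hQv]; exact hc)
    obtain ⟨k, hk, hkb⟩ := exists_eichGroup_map_norm hWn (by omega) h₁ (v := v')
      (by rw [QuadraticMap.restrict_apply, hQv']; exact hc)
    rw [hlevi ⟨g, hg⟩ v, hlevi ⟨k, hk⟩ v']
    show (radData hQ h ψ hψ).dim ρ ((g : _ ≃ₗ[F] _) v) =
      (radData hQ h ψ hψ).dim ρ ((k : _ ≃ₗ[F] _) v')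
    rw [hga, hkb, QuadraticMap.restrict_apply, QuadraticMap.restrict_apply, hQv, hQv']

end Cfsg.Agent.H39
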