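import Cfsg.Agent.H39.OmegaOddSub

/-!
# Averaging over the Levi group, and the case of dimension five

In dimension five the Levi group is trivial on the fixed space of the radical.
-/

namespace Cfsg.Agent.H39

open QuadraticMap hiding sq
open Cfsg.Agent.H5
open Finset Module
open scoped Classical commutatorElement

section Abel

variable {G : Type*} [Group G] {M : Type*} [AddCommGroup M] [Module ℂ M]
  {A I : Type*} [AddCommGroup A] [Fintype A] [Fintype I] (D : AbelData G A I)
  (ρ : Representation ℂ G M)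

lemma AbelData.proj_comm (i : I) (a : A) : ρ (D.u a) * D.proj ρ i = D.proj ρ i * ρ (D.u a) :=
  D.comm_proj ρ (D.u a) (Equiv.refl A) (fun b => by
    show D.u b * D.u a = D.u a * D.u b
    rw [← D.u_add, ← D.u_add, add_comm]) fun _ => rfl

lemma AbelData.proj_apply_zero {y : M} {c : ℂ} {i : I} {a : A} (hy : ρ (D.u a) y = c • y)
    (hne : D.χ i a ≠ c) : D.proj ρ i y = 0 := by
  have h1 := LinearMap.congr_fun (D.apply_mul_proj ρ i a) y
  rw [D.proj_comm, Module.End.mul_apply, LinearMap.smul_apply, hy, map_smul] at h1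
  by_contra h0
  exact hne (smul_left_injective ℂ h0 h1).symm

lemma AbelData.proj_apply_fixed {y : M} {i : I} (hy : ∀ a, ρ (D.u a) y = y)
    (hi : ∀ a, D.χ i a = 1) : D.proj ρ i y = y := by
  simp only [AbelData.proj, LinearMap.smul_apply, LinearMap.sum_apply, hi, one_smul, hy,
    Finset.sum_const, Finset.card_univ]
  rw [← Nat.cast_smul_eq_nsmul ℂ, smul_smul,
    inv_mul_cancel₀ (Nat.cast_ne_zero.2 Fintype.card_ne_zero), one_smul]

lemma AbelData.sum_proj_apply (y : M) : ∑ i, D.proj ρ i y = y := by
  conv_rhs => rw [← Module.End.one_apply (R := ℂ) y, ← D.sum_proj ρ, LinearMap.sum_apply]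

end Abel

variable {F V : Type*} [Field F] [Fintype F] [AddCommGroup V] [Module F V] [FiniteDimensional F V]
  [Fintype V] {Q : QuadraticForm F V}

/-- The isometry groups here are finite. -/
noncomputable local instance eichGroupFintype : Fintype (eichGroup Q) :=
  @Fintype.ofFinite _ (finite_eichGroup (Q := Q))

omit [Fintype F] [FiniteDimensional F V] [Fintype V] in
lemma leviK_injective {e f : V} (h : HypPair Q e f) : Function.Injective (leviK h) := by
  intro a b hab
  refine Subtype.ext (orth_ext fun w => Subtype.ext ?_)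
  rw [← leviK_coe h a w, ← leviK_coe h b w, hab]

/-- The average over the Levi group. -/
noncomputable def leviAvg {e f : V} (h : HypPair Q e f) {M : Type} [AddCommGroup M] [Module ℂ M]
    (ρ : Representation ℂ (eichGroup Q) M) : Module.End ℂ M :=
  (Fintype.card (eichGroup (Q.restrict (H5.pperp Q e f))) : ℂ)⁻¹ • ∑ k, ρ (leviK h k)

section Avg

variable {e f : V} (h : HypPair Q e f) {M : Type} [AddCommGroup M] [Module ℂ M]
  (ρ : Representation ℂ (eichGroup Q) M)

omit [FiniteDimensional F V] [Fintype F] in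
lemma leviAvg_fixed (k : eichGroup (Q.restrict (H5.pperp Q e f))) (x : M) :
    ρ (leviK h k) (leviAvg h ρ x) = leviAvg h ρ x := by
  simp only [leviAvg, LinearMap.smul_apply, LinearMap.sum_apply, map_smul, map_sum]
  congr 1
  exact Fintype.sum_equiv (Equiv.mulLeft k) _ _ fun l => by
    simp [map_mul, Module.End.mul_apply]

omit [FiniteDimensional F V] [Fintype F] in
lemma leviAvg_apply_fixed {x : M} (hx : ∀ k, ρ (leviK h k) x = x) : leviAvg h ρ x = x := by
  simp only [leviAvg, LinearMap.smul_apply, LinearMap.sum_apply, hx, Finset.sum_const,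
    Finset.card_univ]
  rw [← Nat.cast_smul_eq_nsmul ℂ, smul_smul,
    inv_mul_cancel₀ (Nat.cast_ne_zero.2 Fintype.card_ne_zero), one_smul]

omit [FiniteDimensional F V] [Fintype F] in
lemma leviAvg_idem : leviAvg h ρ * leviAvg h ρ = leviAvg h ρ :=
  LinearMap.ext fun x => leviAvg_apply_fixed h ρ fun k => leviAvg_fixed h ρ k x

omit [FiniteDimensional F V] [Fintype F] in
lemma levi_mul_avg (k : eichGroup (Q.restrict (H5.pperp Q e f))) :
    ρ (leviK h k) * leviAvg h ρ = leviAvg h ρ :=
  LinearMap.ext fun x => leviAvg_fixed h ρ k x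

omit [FiniteDimensional F V] [Fintype F] in
lemma leviAvg_comm (X : eichGroup Q)
    (hX : ∀ a ∈ H5.pperp Q e f, (X.1 : V ≃ₗ[F] V) a ∈ H5.pperp Q e f) :
    ρ X * leviAvg h ρ = leviAvg h ρ * ρ X := by
  choose τ hτ using fun k => MonoidHom.mem_range.1 (levi_conj_mem h X hX k)
  have hinj : Function.Injective τ := fun a b hab => by
    have h1 : X * leviK h a * X⁻¹ = X * leviK h b * X⁻¹ := by rw [← hτ, ← hτ, hab]
    exact leviK_injective h (mul_left_cancel (mul_right_cancel h1))
  have hbij := Finite.injective_iff_bijective.1 hinj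
  simp only [leviAvg, mul_smul_comm, smul_mul_assoc, Finset.mul_sum, Finset.sum_mul]
  congr 1
  refine Fintype.sum_equiv (Equiv.ofBijective τ hbij) _ _
    fun k => ?_
  rw [Equiv.ofBijective_apply, ← map_mul, ← map_mul, hτ]
  congr 1
  group

end Avg

section Zero

variable (hQ : (polarBilin Q).Nondegenerate) {e f : V} (h : HypPair Q e f) {ψ : AddChar F ℂ}
  (hψ : ψ ≠ 1) {M : Type} [AddCommGroup M] [Module ℂ M] [FiniteDimensional ℂ M]
  (ρ : Representation ℂ (eichGroup Q) M)

include hQ h hψ in
omit [FiniteDimensional ℂ M] in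
lemma rad_zero_comm (X : eichGroup Q) (ν : F) (hν : ν ≠ 0)
    (Xe : (X.1 : V ≃ₗ[F] V) e = ν • e) (Xf : (X.1 : V ≃ₗ[F] V) f = ν⁻¹ • f) :
    ρ X * (radData hQ h ψ hψ).proj ρ 0 = (radData hQ h ψ hψ).proj ρ 0 * ρ X :=
  rad_comm hQ h hψ ρ hν Xe Xf (by simp)

include hQ h hψ in
omit [FiniteDimensional ℂ M] in
/-- The whole fixed space of the radical. -/
lemma leviProj_zero : LeviProj hQ h hψ ρ ((radData hQ h ψ hψ).proj ρ 0) where
  idem := by rw [AbelData.proj_mul_proj, if_pos rfl]
  le := by rw [AbelData.proj_mul_proj, if_pos rfl]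
  comm := rad_zero_comm hQ h hψ ρ
  triv k := by simp

include hQ h hψ in
omit [FiniteDimensional ℂ M] in
/-- The part of the fixed space without Levi-fixed vectors. -/
lemma leviProj_compl :
    LeviProj hQ h hψ ρ ((radData hQ h ψ hψ).proj ρ 0 * (1 - leviAvg h ρ)) := by
  set P0 := (radData hQ h ψ hψ).proj ρ 0 with hP0
  have hPP : P0 * P0 = P0 := by rw [hP0, AbelData.proj_mul_proj, if_pos rfl]
  have hPE : P0 * leviAvg h ρ = leviAvg h ρ * P0 := by
    simp only [leviAvg, mul_smul_comm, smul_mul_assoc, Finset.mul_sum, Finset.sum_mul]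
    congr 1
    refine Finset.sum_congr rfl fun k _ => ?_
    exact (rad_zero_comm hQ h hψ ρ _ 1 one_ne_zero (by rw [one_smul]; exact orthExt_left h _)
      (by rw [inv_one, one_smul]; exact orthExt_right h _)).symm
  refine ⟨?_, ?_, fun X ν hν Xe Xf => ?_, fun k => ?_⟩
  · have h1 : (1 - leviAvg h ρ) * P0 = P0 * (1 - leviAvg h ρ) := by
      rw [sub_mul, mul_sub, one_mul, mul_one, hPE]
    have h2 : (1 - leviAvg h ρ) * (1 - leviAvg h ρ) = 1 - leviAvg h ρ := by
      rw [sub_mul, mul_sub, mul_sub, leviAvg_idem, one_mul, one_mul, mul_one]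
      abel
    calc P0 * (1 - leviAvg h ρ) * (P0 * (1 - leviAvg h ρ))
        = P0 * ((1 - leviAvg h ρ) * P0) * (1 - leviAvg h ρ) := by simp only [mul_assoc]
      _ = P0 * (1 - leviAvg h ρ) := by rw [h1, ← mul_assoc, hPP, mul_assoc, h2]
  · rw [← mul_assoc, hPP]
  · have hE := leviAvg_comm h ρ X fun a ha => scale_mem_pperp hν Xe Xf ha
    rw [← mul_assoc, rad_zero_comm hQ h hψ ρ X ν hν Xe Xf, mul_assoc, mul_sub, mul_one, hE,
      mul_assoc, sub_mul, one_mul]
  · show ρ (leviK h k) * (P0 - P0 * (1 - leviAvg h ρ)) = P0 - P0 * (1 - leviAvg h ρ)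
    rw [mul_sub P0, mul_one, sub_sub_cancel, hPE, ← mul_assoc, levi_mul_avg]

end Zero

/-- In dimension five the Levi group fixes the fixed space of the radical. -/
theorem base_two {e f : V} (hV : OddForm Q 2) (h : HypPair Q e f) {ψ : AddChar F ℂ} (hψ : ψ ≠ 1)
    {M : Type} [AddCommGroup M] [Module ℂ M] [FiniteDimensional ℂ M]
    (ρ : Representation ℂ (eichGroup Q) M)
    (hiso : ∀ v : H5.pperp Q e f, Q (v : V) ≠ 0 → (radData hV.nondeg h ψ hψ).dim ρ v = 0)
    (hone : ∀ v : H5.pperp Q e f, v ≠ 0 → Q (v : V) = 0 → (radData hV.nondeg h ψ hψ).dim ρ v = 1)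
    (k : eichGroup (Q.restrict (H5.pperp Q e f))) :
    ρ (leviK h k) * (radData hV.nondeg h ψ hψ).proj ρ 0 = (radData hV.nondeg h ψ hψ).proj ρ 0 := by
  set D := radData hV.nondeg h ψ hψ with hD
  set q := Fintype.card F with hqd
  have hW := hV.pperp h
  obtain ⟨u, g, hu⟩ := hW.exists_pair
  have hW2 := hW.pperp hu
  have hd2 : finrank F (H5.pperp (Q.restrict (H5.pperp Q e f)) u g) = 1 := by rw [hW2.dim]
  have hP := leviProj_zero hV.nondeg h hψ ρ
  have hq := hV.four_le
  have T : TwoPairs Q e f (u : V) g := twoPairs_of_perp h hu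
  obtain ⟨⟨eu, ue, fu, uf⟩, ⟨eg, ge, fg, gf⟩, ⟨ef, fe, ug, gu⟩⟩ := T.polars
  have huQ : Q (u : V) = 0 := hu.left
  have hgQ : Q (g : V) = 0 := hu.right
  have key : ∀ a : H5.pperp (Q.restrict (H5.pperp Q e f)) u g,
      LinearMap.trace ℂ _ (hP.rep (kE (Q.restrict (H5.pperp Q e f)) u (a : H5.pperp Q e f))) =
        (D.dim ρ 0 : ℂ) := by
    intro a
    by_cases ha : a = 0
    · subst ha
      rw [Submodule.coe_zero, kE_zero, map_one, LinearMap.trace_one]
      rfl
    obtain ⟨A, hAd⟩ : ∃ A : H5.pperp Q e f, A = (a : H5.pperp Q e f) := ⟨_, rfl⟩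
    rw [← hAd]
    obtain ⟨ua, ga⟩ := mem_pperp.1 a.2
    rw [← hAd, polar_restrict] at ua ga
    obtain ⟨ae, af⟩ := mem_pperp.1 A.2
    have hQa : Q (A : V) ≠ 0 := fun h0 => ha (hW2.eq_zero_of_iso (by
      rw [QuadraticMap.restrict_apply, QuadraticMap.restrict_apply, ← hAd]; exact h0))
    have hae : polar Q (A : V) e = 0 := by rw [polar_comm]; exact ae
    have haf : polar Q (A : V) f = 0 := by rw [polar_comm]; exact af
    have hau : polar Q (A : V) (u : V) = 0 := by rw [polar_comm]; exact ua
    have hag : polar Q (A : V) (g : V) = 0 := by rw [polar_comm]; exact ga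
    have hline : ∀ v : H5.pperp Q e f, polar Q (A : V) (v : V) = 0 →
        v = polar Q (g : V) (v : V) • u + polar Q (u : V) (v : V) • g := by
      intro v hv
      obtain ⟨t, ht⟩ : ∃ t : F, t • a = perpProj hu v :=
        exists_smul_eq_of_finrank_eq_one hd2 ha _
      have hd := pair_decomp hu v
      rw [← ht, Submodule.coe_smul, ← hAd, polar_restrict, polar_restrict] at hd
      have h1 : polar Q (A : V) (v : V) = t * (2 * Q (A : V)) := by
        conv_lhs => rw [hd]
        simp [polar_add_right, polar_smul_right, hau, hag, polar_self']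
      rw [hv, eq_comm, mul_eq_zero] at h1
      rw [h1.resolve_right (mul_ne_zero hV.two_ne hQa), zero_smul, add_zero] at hd
      exact hd
    set R := univ.filter fun v : H5.pperp Q e f =>
      (Q.restrict (H5.pperp Q e f)) v = 0 ∧ polar (Q.restrict (H5.pperp Q e f)) A v = 0 with hR
    set s := ((univ : Finset F).erase 0).image fun c => c • u with hs
    have hscard : s.card + 1 = q := by
      rw [hs, Finset.card_image_of_injective _ (smul_left_injective F hu.ne_zero),
        Finset.card_erase_add_one (mem_univ _), Finset.card_univ]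
    have hRcard : R.card + 1 = 2 * q := by
      have hg0 : g ≠ 0 := hu.symm.ne_zero
      have hdis : Disjoint ((univ : Finset F).image fun c => c • g) s := by
        rw [Finset.disjoint_left]
        rintro v hv hv'
        obtain ⟨c, -, rfl⟩ := Finset.mem_image.1 hv
        obtain ⟨d, hd, hdc⟩ := Finset.mem_image.1 hv'
        have h1 := congrArg (fun z : H5.pperp Q e f => polar Q (g : V) (z : V)) hdc
        simp [polar_smul_right, gu, polar_self', hgQ] at h1
        exact (Finset.mem_erase.1 hd).1 h1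
      have hunion : R = ((univ : Finset F).image fun c => c • g) ∪ s := by
        ext v
        simp only [hR, Finset.mem_filter, mem_univ, true_and, QuadraticMap.restrict_apply,
          polar_restrict, Finset.mem_union]
        constructor
        · rintro ⟨h1, h2⟩
          have hd := hline v h2
          rw [hd, Submodule.coe_add, Submodule.coe_smul, Submodule.coe_smul, map_smul_add_smul,
            huQ, hgQ, ug] at h1
          simp only [mul_zero, mul_one, zero_add] at h1
          rcases mul_eq_zero.1 h1 with h3 | h3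
          · refine Or.inl (Finset.mem_image.2 ⟨polar Q (u : V) (v : V), mem_univ _, ?_⟩)
            conv_rhs => rw [hd, h3, zero_smul, zero_add]
          · rw [h3, zero_smul, add_zero] at hd
            by_cases h4 : polar Q (g : V) (v : V) = 0
            · refine Or.inl (Finset.mem_image.2 ⟨0, mem_univ _, ?_⟩)
              rw [hd, h4, zero_smul, zero_smul]
            · exact Or.inr (Finset.mem_image.2 ⟨_, Finset.mem_erase.2 ⟨h4, mem_univ _⟩, hd.symm⟩)
        · rintro (hv | hv) <;> obtain ⟨c, -, rfl⟩ := Finset.mem_image.1 hv <;>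
            simp [QuadraticMap.map_smul, huQ, hgQ, polar_smul_right, hau, hag]
      rw [hunion, Finset.card_union_of_disjoint hdis,
        Finset.card_image_of_injective _ (smul_left_injective F hg0), Finset.card_univ, add_assoc,
        hscard]
      ring
    -- the value on a conjugate inside the radical
    obtain ⟨S1, S2, S3, S4, S5⟩ := swapEl_apply T (one_ne_zero (α := F))
    have hconj : swapEl Q e f (u : V) g 1 * kE Q e (A : V) * (swapEl Q e f (u : V) g 1)⁻¹ =
        kE Q (u : V) (A : V) := by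
      rw [kE_conj, S1, inv_one, one_smul, S5 _ ae af ua ga]
    have hv1 : ρ.character (kE Q (u : V) (A : V)) = (D.dim ρ 0 : ℂ) - 1 + q := by
      rw [← hconj, ρ.char_conj, rad_char hV.nondeg h hψ ρ hiso hone A, add_right_inj]
      have hsum := sum_iso_char_scale (Q := Q.restrict (H5.pperp Q e f)) A hψ
      rw [← hR, hW.count] at hsum
      have hR' := congrArg (Nat.cast : ℕ → ℂ) hRcard
      push_cast at hR' hsum
      have hq1 : (q : ℂ) - 1 ≠ 0 := by
        rw [sub_ne_zero]; exact_mod_cast (show q ≠ 1 by omega)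
      apply mul_left_cancel₀ hq1
      rw [← hqd] at hsum
      linear_combination hsum + (q : ℂ) * hR'
    -- the value as an element of the Levi group
    have hfixiff : ∀ v : H5.pperp Q e f, v ∈ s ↔ v ≠ 0 ∧ Q (v : V) = 0 ∧
        ((kE Q (u : V) (A : V)).1 : V ≃ₗ[F] V) (v : V) = (v : V) := by
      intro v
      constructor
      · intro hv
        obtain ⟨c, hc, rfl⟩ := Finset.mem_image.1 hv
        refine ⟨smul_ne_zero (Finset.mem_erase.1 hc).1 hu.ne_zero, ?_, ?_⟩
        · rw [Submodule.coe_smul, QuadraticMap.map_smul, huQ, smul_zero]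
        · exact kE_fix huQ ua
            (by rw [Submodule.coe_smul, polar_smul_right, polar_self', huQ]; simp)
            (by rw [Submodule.coe_smul, polar_smul_right, hau, smul_zero])
      · rintro ⟨hv0, hQv, hfx⟩
        rw [kE_apply huQ ua] at hfx
        have h1 := congrArg (polar Q (A : V)) hfx
        simp [polar_add_right, polar_sub_right, polar_smul_right, hau, polar_self',
          mul_ne_zero hV.two_ne hQa] at h1
        have hb : polar Q (u : V) (v : V) = 0 := h1
        have h2 := congrArg (polar Q (g : V)) hfx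
        simp [polar_add_right, polar_sub_right, polar_smul_right, hb, gu] at h2
        have hd := hline v h2
        rw [hb, zero_smul, add_zero] at hd
        exact Finset.mem_image.2 ⟨_, Finset.mem_erase.2
          ⟨fun h4 => hv0 (by rw [hd, h4, zero_smul]), mem_univ _⟩, hd.symm⟩
    obtain ⟨μ, hμ⟩ := exists_fieldGen (F := F)
    obtain ⟨Ge, Gf, Gu, -, Gx⟩ := bothEl_apply T hμ.ne_zero
    have hμ1 : μ ≠ 1 := fun h1 => hμ.sq_ne hq (by rw [h1, mul_one])
    have hph : ∀ v ∈ s, ρ (kE Q (u : V) (A : V)) * D.proj ρ v = D.proj ρ v := by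
      intro v hv
      obtain ⟨hv0, hQv, -⟩ := (hfixiff v).1 hv
      obtain ⟨c, -, rfl⟩ := Finset.mem_image.1 hv
      refine phase_of_scale hV.nondeg h hψ ρ (hone _ hv0 hQv) huQ ua ue hae uf haf
        (by rw [Submodule.coe_smul, polar_smul_right, polar_self', huQ]; simp)
        (by rw [Submodule.coe_smul, polar_smul_right, hau, smul_zero]) hμ.ne_zero hμ1 Ge Gf
        (by rw [Submodule.coe_smul, map_smul, Gu, smul_comm]) fun t => ?_
      rw [kE_conj, Gu, map_smul, Gx _ ae af ua ga,
        kE_smul_smul huQ (by rw [polar_smul_right, ua, smul_zero]), smul_smul]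
    have hK : leviK h (kE (Q.restrict (H5.pperp Q e f)) u A) = kE Q (u : V) (A : V) :=
      leviK_kE h huQ ua
    have hchar := levi_char hV.nondeg h hψ ρ hiso hone (g := kE Q (u : V) (A : V))
      (by rw [← hK]; exact orthExt_left h _) (by rw [← hK]; exact orthExt_right h _) s hfixiff hph
    rw [hv1] at hchar
    rw [hP.trace_rep, hK]
    have hs' := congrArg (Nat.cast : ℕ → ℂ) hscard
    push_cast at hs'
    linear_combination -hchar - hs'
  set D' := radData hW.nondeg hu ψ hψ with hD'
  have hdim0 : D'.dim hP.rep 0 = finrank ℂ (LinearMap.range (D.proj ρ 0)) := by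
    apply Nat.cast_injective (R := ℂ)
    rw [← D'.trace_proj]
    show LinearMap.trace ℂ _ ((Fintype.card _ : ℂ)⁻¹ • ∑ a, D'.χ 0 (-a) • hP.rep (D'.u a)) = _
    rw [map_smul, map_sum,
      Finset.sum_congr rfl (g := fun _ => (D.dim ρ 0 : ℂ)) (fun a _ => by
        rw [map_smul, smul_eq_mul, show D'.u a = kE _ u (a : H5.pperp Q e f) from rfl, key a]
        simp [D', radData]), Finset.sum_const, Finset.card_univ, nsmul_eq_mul, smul_eq_mul,
      ← mul_assoc, inv_mul_cancel₀ (Nat.cast_ne_zero.2 Fintype.card_ne_zero), one_mul]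
    rfl
  have hrest : ∀ v, v ≠ 0 → D'.dim hP.rep v = 0 := by
    intro v hv
    have hsum := D'.sum_dim hP.rep
    have := Finset.sum_le_sum_of_subset (f := D'.dim hP.rep)
      (Finset.subset_univ ({0, v} : Finset _))
    rw [Finset.sum_pair (Ne.symm hv), hsum, ← hdim0] at this
    omega
  have htriv := rad_trivial hW.nondeg hu hψ hP.rep (by rw [hW.dim]) hrest k
  exact LinearMap.ext fun y => congrArg Subtype.val
    (LinearMap.congr_fun htriv ⟨D.proj ρ 0 y, LinearMap.mem_range_self _ y⟩)

end Cfsg.Agent.H39
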