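import Cfsg.Agent.H39.OmegaOddThree

/-!
# Degrees of representations of odd dimensional orthogonal groups
-/

namespace Cfsg.Agent.H39

open QuadraticMap hiding sq
open Cfsg.Agent.H5
open Finset Module
open scoped Classical commutatorElement

variable {F V : Type*} [Field F] [Fintype F] [AddCommGroup V] [Module F V] [FiniteDimensional F V]
  [Fintype V] {Q : QuadraticForm F V}

/-- The conclusion of the induction. -/
def OddConcl {k : ℕ} (hV : OddForm Q k) {e f : V} (h : HypPair Q e f) {ψ : AddChar F ℂ}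
    (hψ : ψ ≠ 1) {M : Type} [AddCommGroup M] [Module ℂ M]
    (ρ : Representation ℂ (eichGroup Q) M) (b : ℕ) : Prop :=
  b ≤ finrank ℂ M ∧ ∃ x : M, x ≠ 0 ∧ (radData hV.nondeg h ψ hψ).proj ρ 0 x = x ∧
    ∀ k, ρ (leviK h k) x = x

/-- The hypothesis of the induction step. -/
def OddIH (Q : QuadraticForm F V) (j : ℕ) : Prop :=
  ∀ (hV : OddForm Q (j + 3)) {e f : V} (h : HypPair Q e f) {ψ : AddChar F ℂ} (hψ : ψ ≠ 1)
    (M : Type) [AddCommGroup M] [Module ℂ M] [FiniteDimensional ℂ M]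
    (ρ : Representation ℂ (eichGroup Q) M),
    (∀ v : H5.pperp Q e f, Q (v : V) ≠ 0 → (radData hV.nondeg h ψ hψ).dim ρ v = 0) →
    (∀ v : H5.pperp Q e f, v ≠ 0 → Q (v : V) = 0 → (radData hV.nondeg h ψ hψ).dim ρ v = 1) →
    (∀ x : M, (∀ g, ρ g x = x) → x = 0) →
      OddConcl hV h hψ ρ (oddB (Fintype.card F) (j + 3))

theorem odd_step {j : ℕ}
    (IH : ∀ e f : V, HypPair Q e f → OddIH (Q.restrict (H5.pperp Q e f)) j) :
    OddIH Q (j + 1) := by
  intro hV e f h ψ hψ M _ _ _ ρ hiso hone hfix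
  set D := radData hV.nondeg h ψ hψ with hD
  set q := Fintype.card F with hqd
  have hW := hV.pperp h
  obtain ⟨u, g, hu⟩ := hW.exists_pair
  have hW2 := hW.pperp hu
  obtain ⟨u₃, g₃, h₃⟩ := hW2.exists_pair
  have hW3 := hW2.pperp h₃
  obtain ⟨u₄, g₄, h₄⟩ := hW3.exists_pair
  obtain ⟨μ, hμ⟩ := exists_fieldGen (F := F)
  have happly : ∀ {P : Module.End ℂ M}, (hP : LeviProj hV.nondeg h hψ ρ P) →
      (∀ y, P y = y → (∀ k, ρ (leviK h k) y = y) → y = 0) →
      oddB q (j + 3) ≤ finrank ℂ (LinearMap.range P) ∧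
        ∃ y, y ≠ 0 ∧ Inner hV h hψ ρ hu P y := by
    intro P hP hnf
    obtain ⟨hi, ho⟩ := LeviProj.single (j := j + 1) hV h hψ ρ hu hP hiso hone
    obtain ⟨hb, z, hz0, hz1, hz2⟩ := IH e f h hW hu hψ _ hP.rep hi ho fun x hx =>
      Subtype.ext (hnf x (hP.apply_eq x.2) fun k => by rw [← hP.rep_coe k x, hx k])
    refine ⟨hb, z, fun h0 => hz0 (Subtype.ext h0), hP.apply_eq z.2, ?_, fun k => ?_⟩
    · have h1 := congrArg Subtype.val hz1
      rwa [hP.proj_coe] at h1
    · have h1 := congrArg Subtype.val (hz2 k)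
      rw [hP.rep_coe] at h1
      rw [lev2_apply]
      exact h1
  have hex : ∃ x : M, x ≠ 0 ∧ D.proj ρ 0 x = x ∧ ∀ k, ρ (leviK h k) x = x := by
    by_contra hno
    push Not at hno
    have hnf : ∀ y, D.proj ρ 0 y = y → (∀ k, ρ (leviK h k) y = y) → y = 0 := fun y h1 h2 => by
      by_contra h0
      obtain ⟨k, hk⟩ := hno y h0 h1
      exact hk (h2 k)
    have hP := leviProj_zero hV.nondeg h hψ ρ
    obtain ⟨-, y, hy0, hy⟩ := happly hP hnf
    refine hy0 (final_zero hV h hψ ρ hu h₃ hμ (c := (1 : ℂ)) hy ?_ fun z hz hzc => ?_)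
    · rw [one_smul]
      exact hy.scale_one hV h hψ ρ hu h₃ h₄ hμ hiso hone hP hnf
    · have h2 := LeviProj.neg hV h hψ ρ hu hP hiso hone hnf h₃ hμ hz.mem hz.radical hz.levi
      rw [hzc, one_smul] at h2
      exact (smul_eq_zero.1 (show (2 : ℂ) • z = 0 by
        rw [two_smul]; exact eq_neg_iff_add_eq_zero.1 h2)).resolve_left two_ne_zero
  refine ⟨?_, hex⟩
  obtain ⟨x, hx0, hx1, hx2⟩ := hex
  obtain ⟨P, hPd⟩ : ∃ P, P = D.proj ρ 0 * (1 - leviAvg h ρ) := ⟨_, rfl⟩
  have hP : LeviProj hV.nondeg h hψ ρ P := hPd ▸ leviProj_compl hV.nondeg h hψ ρ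
  have hPx : P x = 0 := by
    rw [hPd, Module.End.mul_apply, LinearMap.sub_apply, Module.End.one_apply,
      leviAvg_apply_fixed h ρ hx2, sub_self, map_zero]
  have hnf : ∀ y, P y = y → (∀ k, ρ (leviK h k) y = y) → y = 0 := fun y hy hK => by
    rw [← hy, hPd, Module.End.mul_apply, LinearMap.sub_apply, Module.End.one_apply,
      leviAvg_apply_fixed h ρ hK, sub_self, map_zero]
  obtain ⟨hb, -⟩ := happly hP hnf
  have hlt : finrank ℂ (LinearMap.range P) < D.dim ρ 0 := by
    refine Submodule.finrank_lt_finrank_of_lt (lt_of_le_of_ne ?_ fun heq => hx0 ?_)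
    · rintro _ ⟨y, rfl⟩
      exact ⟨P y, LinearMap.congr_fun hP.le y⟩
    · have hxm : x ∈ LinearMap.range P := by rw [heq]; exact ⟨x, hx1⟩
      rw [← hP.apply_eq hxm, hPx]
  have hfin := rad_finrank hV.nondeg h hψ ρ hiso hone
  rw [hW.count, ← hD] at hfin
  rw [show j + 1 + 3 = j + 3 + 1 from rfl, oddB_succ]
  rw [show 2 * (j + 1 + 2) = 2 * (j + 3) by ring, ← hqd] at hfin
  omega

/-- Representations with each singular character once and no fixed vector. -/
theorem odd_main {F : Type*} [Field F] [Fintype F] :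
    ∀ (j : ℕ) {V : Type*} [AddCommGroup V] [Module F V] [FiniteDimensional F V] [Fintype V]
      {Q : QuadraticForm F V}, OddIH Q j := by
  intro j
  induction j with
  | zero =>
    intro V _ _ _ _ Q hV e f h ψ hψ M _ _ _ ρ hiso hone hfix
    exact odd_three hV h hψ ρ hiso hone hfix
  | succ j ih =>
    intro V _ _ _ _ Q
    exact odd_step fun e f _ => ih

/-- Nontrivial representations in odd dimension from seven on. -/
theorem odd_lowDeg {j : ℕ} (hV : OddForm Q (j + 3)) :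
    LowDeg Q (oddB (Fintype.card F) (j + 3)) := by
  refine lowDeg_of_irreducible fun M _ _ _ ρ hirr hne => ?_
  set q := Fintype.card F with hqd
  have hq := hV.five_le
  obtain ⟨e, f, h⟩ := hV.exists_pair
  obtain ⟨ψ, hψ1⟩ := (AddChar.exists_apply_ne_zero (a := (1 : F))).2 one_ne_zero
  have hψ : ψ ≠ 1 := fun hh => hψ1 (by rw [hh, AddChar.one_apply])
  have hW := hV.pperp h
  obtain ⟨e₁, f₁, h₁⟩ := hW.exists_pair
  have hb := oddB_closed q (j + 3) (by omega)
  have hbq : oddB q (j + 3) * (q ^ 2 - 1) ≤ q ^ (2 * (j + 3)) := by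
    rw [← hb]
    exact (Nat.div_mul_le_self _ _).trans (Nat.sub_le _ _)
  have hL : ∀ c : F, c ≠ 0 → (q - 1) * q ^ (2 * j + 3) ≤
      (univ.filter fun w : H5.pperp Q e f => Q (w : V) = c).card := by
    intro c _
    have := card_level_ge h₁ c
    rw [card_pperp_eq hW.nondeg h₁, hW.dim, show 2 * (j + 2) + 1 - 2 = 2 * j + 3 by omega] at this
    simpa using this
  rcases rad_cases hV.nondeg h hψ ρ h₁ (by rw [hV.dim]; omega) _ hL hne with hbig | ⟨hiso, m, hm, hall⟩
  · refine le_trans ?_ hbig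
    obtain ⟨r, hr⟩ : ∃ r, q = r + 1 := ⟨q - 1, by omega⟩
    have hs := sq_le_numSq (F := F) hV.four_le
    rw [← hqd, hr, Nat.add_sub_cancel] at hs
    rw [hr, show (r + 1) ^ 2 - 1 = r * (r + 2) by
      rw [show (r + 1) ^ 2 = r * (r + 2) + 1 by ring]; omega,
      show 2 * (j + 3) = 2 * j + 3 + 3 by ring, pow_add] at hbq
    rw [hr, Nat.add_sub_cancel]
    refine Nat.le_of_mul_le_mul_right ?_ (show 0 < r * (r + 2) by
      exact Nat.mul_pos (by omega) (by omega))
    calc oddB (r + 1) (j + 3) * (r * (r + 2)) ≤ (r + 1) ^ (2 * j + 3) * (r + 1) ^ 3 := hbq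
      _ = (r + 1) ^ (2 * j + 3) * ((r + 1) ^ 2 * (r + 1)) := by ring
      _ ≤ (r + 1) ^ (2 * j + 3) * (numSq F * r ^ 2 * (r + 2)) :=
          Nat.mul_le_mul_left _ (Nat.mul_le_mul hs (by omega))
      _ = _ := by ring
  by_cases hm1 : m = 1
  · subst hm1
    have hfix : ∀ x : M, (∀ g, ρ g x = x) → x = 0 := by
      intro x hx
      by_contra hx0
      obtain ⟨g, hg⟩ := hne
      obtain ⟨-, hinv⟩ := (H26.isIrreducible_iff_forall ρ).1 hirr
      let U : Submodule ℂ M :=
        { carrier := {y | ∀ g, ρ g y = y}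
          add_mem' := fun {a b} ha hb g => by rw [map_add, ha g, hb g]
          zero_mem' := fun g => map_zero _
          smul_mem' := fun c a ha g => by rw [map_smul, ha g] }
      rcases hinv U (fun g y hy g' => by rw [hy g, hy g']) with hU | hU
      · exact hx0 ((Submodule.eq_bot_iff U).1 hU x hx)
      · exact hg (LinearMap.ext fun y => (show y ∈ U by rw [hU]; trivial) g)
    exact (odd_main j hV h hψ M ρ hiso hall hfix).1
  set N := isoN (Q.restrict (H5.pperp Q e f)) with hNd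
  have hsum : (N - 1) * m ≤ finrank ℂ M := by
    rw [← (radData hV.nondeg h ψ hψ).sum_dim ρ]
    refine le_trans (le_of_eq ?_) (Finset.sum_le_sum_of_subset
      (Finset.subset_univ ((univ.filter fun v : H5.pperp Q e f => Q (v : V) = 0).erase 0)))
    rw [Finset.sum_congr rfl (fun v hv => hall v (Finset.mem_erase.1 hv).1
      (Finset.mem_filter.1 (Finset.mem_erase.1 hv).2).2), Finset.sum_const, smul_eq_mul,
      Finset.card_erase_of_mem (by simp),
      show N = (univ.filter fun v : H5.pperp Q e f => Q (v : V) = 0).card from isoN_eq_card _]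
  rw [hW.count] at hNd
  have hb2 := oddB_closed q (j + 2) (by omega)
  have hsmall : oddB q (j + 2) * 24 ≤ N := by
    rw [hNd, ← hqd]
    refine le_trans (Nat.mul_le_mul_left _ ?_) ((hb2 ▸ Nat.div_mul_le_self _ _ :
      oddB q (j + 2) * (q ^ 2 - 1) ≤ q ^ (2 * (j + 2)) - 1).trans (Nat.sub_le _ _))
    have : 25 ≤ q ^ 2 := by nlinarith
    omega
  have hbig : 625 ≤ N := by
    rw [hNd, ← hqd]
    calc 625 = 5 ^ 4 := by norm_num
      _ ≤ q ^ 4 := Nat.pow_le_pow_left hq 4
      _ ≤ q ^ (2 * (j + 2)) := Nat.pow_le_pow_right (by omega) (by omega)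
  have : (N - 1) * 2 ≤ (N - 1) * m := Nat.mul_le_mul_left _ (by omega)
  rw [show j + 3 = j + 2 + 1 from rfl, oddB_succ, ← hNd]
  omega

lemma oddForm_qOdd {F : Type*} [Field F] [Fintype F] (hodd : Odd (Fintype.card F))
    (h3 : 3 < Fintype.card F) (m : ℕ) : OddForm (qOdd m F) m := by
  have h2 : (2 : F) ≠ 0 := by
    intro h
    have h1 : ((Fintype.card F : ℕ) : F) = 0 := Nat.cast_card_eq_zero F
    obtain ⟨r, hr⟩ := hodd
    rw [hr] at h1
    push_cast at h1
    rw [h, zero_mul, zero_add] at h1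
    exact one_ne_zero h1
  refine ⟨qOdd_nondegenerate m h2, ?_, ?_, h2, ?_⟩
  · rw [Module.finrank_fintype_fun_eq_card, Fintype.card_sum, Fintype.card_sum, Fintype.card_fin,
      Fintype.card_unit]
    omega
  · have h := H4.card_qOdd_zeros (F := F) m
    rw [isoN, coe_qOdd]
    exact h
  · obtain ⟨r, hr⟩ := hodd
    omega

end Cfsg.Agent.H39
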