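import Cfsg.Agent.H39.OmegaStep

/-!
# Explicit elements on two orthogonal hyperbolic pairs

Exchanges, scalings and flips, all given as products of Eichler transformations.
-/

namespace Cfsg.Agent.H39

open QuadraticMap hiding sq
open Cfsg.Agent.H5
open scoped commutatorElement

variable {F V : Type*} [Field F] [AddCommGroup V] [Module F V] {Q : QuadraticForm F V}

/-- `e ↦ u / s`, `u ↦ -s e`. -/
noncomputable def swapEl (Q : QuadraticForm F V) (e f u g : V) (s : F) : eichGroup Q :=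
  kE Q e (s • g) * kE Q u ((-s⁻¹) • f) * kE Q e (s • g)

/-- `e ↦ μ e`, `u ↦ μ⁻¹ u`. -/
noncomputable def scaleEl (Q : QuadraticForm F V) (e f u g : V) (μ : F) : eichGroup Q :=
  swapEl Q e f u g μ * swapEl Q e f u g (-1)

/-- `e ↦ μ e`, `u ↦ μ u`. -/
noncomputable def bothEl (Q : QuadraticForm F V) (e f u g : V) (μ : F) : eichGroup Q :=
  scaleEl Q e f g u μ

/-- `e ↦ -f`, `u ↦ -g`, and back. -/
noncomputable def flipEl (Q : QuadraticForm F V) (e f u g : V) : eichGroup Q :=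
  swapEl Q e f g u 1 * swapEl Q e f u g 1

/-- An anisotropic reflection followed by the exchange of a pair. -/
noncomputable def weylEl (Q : QuadraticForm F V) (u g a : V) (c : F) : eichGroup Q :=
  kE Q u (c • a) * kE Q g ((c * Q a)⁻¹ • a) * kE Q u (c • a)

/-- `u ↦ μ² u`, fixing the complement of the pair. -/
noncomputable def oneEl (Q : QuadraticForm F V) (u g a : V) (μ : F) : eichGroup Q :=
  weylEl Q u g a μ * weylEl Q u g a 1

lemma kE_apply {x a : V} (hx : Q x = 0) (ha : polar Q x a = 0) (y : V) :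
    ((kE Q x a).1 : V ≃ₗ[F] V) y =
      y + polar Q x y • a - polar Q a y • x - (Q a * polar Q x y) • x :=
  eich_apply hx ha y

lemma eichGroup_mul_apply (g k : eichGroup Q) (x : V) :
    ((g * k).1 : V ≃ₗ[F] V) x = (g.1 : V ≃ₗ[F] V) ((k.1 : V ≃ₗ[F] V) x) := rfl

lemma eichGroup_ext {g k : eichGroup Q}
    (hgk : ∀ x, (g.1 : V ≃ₗ[F] V) x = (k.1 : V ≃ₗ[F] V) x) : g = k :=
  Subtype.ext (orth_ext hgk)

lemma eichGroup_inv_apply_of_eq {g : eichGroup Q} {x y : V} (h : (g.1 : V ≃ₗ[F] V) x = y) :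
    ((g⁻¹).1 : V ≃ₗ[F] V) y = x := by
  rw [← h]
  exact orth_inv_apply_apply g.1 x

/-- A root element scaled by `g` is a commutator with it. -/
lemma kE_eq_commutator_scale {x a : V} (hx : Q x = 0) (ha : polar Q x a = 0) {g : eichGroup Q}
    {l m : F} (hgx : (g.1 : V ≃ₗ[F] V) x = l • x) (hga : (g.1 : V ≃ₗ[F] V) a = m • a)
    (hlm : l * m ≠ 1) :
    ⁅g, kE Q x ((l * m - 1)⁻¹ • a)⁆ = kE Q x a := by
  have ht : l * m * (l * m - 1)⁻¹ = 1 + (l * m - 1)⁻¹ := by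
    have : l * m - 1 ≠ 0 := sub_ne_zero.2 hlm
    field_simp
    ring
  have hp : ∀ t : F, polar Q x (t • a) = 0 := fun t => by rw [polar_smul_right, ha, smul_zero]
  rw [commutatorElement_def, kE_conj, hgx, map_smul, hga, smul_smul,
    kE_smul_smul hx (hp _), smul_smul,
    show l * ((l * m - 1)⁻¹ * m) = l * m * (l * m - 1)⁻¹ by ring, ht, add_smul, one_smul,
    kE_add hx ha (hp _), mul_assoc, mul_inv_cancel, mul_one]

lemma kE_shift {e g : V} (he : Q e = 0) (hg : Q g = 0) (heg : polar Q e g = 0) (t c : F) :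
    kE Q (e + t • g) (c • g) = kE Q e (c • g) := by
  refine eichGroup_ext fun x => ?_
  rw [kE_apply (by rw [map_add_smul, he, hg, heg]; ring)
      (by simp [polar_add_left, polar_smul_left, polar_smul_right, polar_self', heg, hg]),
    kE_apply he (by rw [polar_smul_right, heg, smul_zero]), QuadraticMap.map_smul, hg]
  simp only [polar_add_left, polar_smul_left, smul_eq_mul]
  module

lemma kE_anti {a b : V} (ha : Q a = 0) (hb : Q b = 0) (hab : polar Q a b = 0) :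
    kE Q a b = kE Q b (-a) := by
  refine eichGroup_ext fun x => ?_
  rw [kE_apply ha hab, kE_apply hb (by rw [polar_neg_right, polar_comm, hab, neg_zero]),
    QuadraticMap.map_neg, ha, hb, polar_neg_left]
  simp only [zero_mul, zero_smul, sub_zero, smul_neg, neg_smul]
  abel

/-- Two isometries agreeing on a pair and on its complement are equal. -/
lemma pair_ext {e f : V} (h : HypPair Q e f) {g k : eichGroup Q}
    (he : (g.1 : V ≃ₗ[F] V) e = (k.1 : V ≃ₗ[F] V) e)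
    (hf : (g.1 : V ≃ₗ[F] V) f = (k.1 : V ≃ₗ[F] V) f)
    (hr : ∀ x, polar Q e x = 0 → polar Q f x = 0 →
      (g.1 : V ≃ₗ[F] V) x = (k.1 : V ≃ₗ[F] V) x) : g = k := by
  refine eichGroup_ext fun x => ?_
  obtain ⟨h1, h2⟩ := mem_pperp.1 (perpProj h x).2
  rw [pair_decomp h x]
  simp only [map_add, map_smul, he, hf, hr _ h1 h2]

section TwoPairs

variable {e f u g : V} (T : TwoPairs Q e f u g)
include T

lemma TwoPairs.rev : TwoPairs Q u g e f := by
  obtain ⟨u1, u2⟩ := mem_pperp.1 T.memu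
  obtain ⟨g1, g2⟩ := mem_pperp.1 T.memf
  exact ⟨T.snd, T.fst,
    mem_pperp.2 ⟨by rw [polar_comm]; exact u1, by rw [polar_comm]; exact g1⟩,
    mem_pperp.2 ⟨by rw [polar_comm]; exact u2, by rw [polar_comm]; exact g2⟩⟩

lemma TwoPairs.polars :
    (polar Q e u = 0 ∧ polar Q u e = 0 ∧ polar Q f u = 0 ∧ polar Q u f = 0) ∧
    (polar Q e g = 0 ∧ polar Q g e = 0 ∧ polar Q f g = 0 ∧ polar Q g f = 0) ∧
    (polar Q e f = 1 ∧ polar Q f e = 1 ∧ polar Q u g = 1 ∧ polar Q g u = 1) := by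
  obtain ⟨u1, u2⟩ := mem_pperp.1 T.memu
  obtain ⟨g1, g2⟩ := mem_pperp.1 T.memf
  exact ⟨⟨u1, by rw [polar_comm]; exact u1, u2, by rw [polar_comm]; exact u2⟩,
    ⟨g1, by rw [polar_comm]; exact g1, g2, by rw [polar_comm]; exact g2⟩,
    ⟨T.fst.pair, T.fst.symm.pair, T.snd.pair, T.snd.symm.pair⟩⟩

/-- Two isometries agreeing on both pairs and on their common complement are equal. -/
lemma TwoPairs.ext {a b : eichGroup Q} (he : (a.1 : V ≃ₗ[F] V) e = (b.1 : V ≃ₗ[F] V) e)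
    (hf : (a.1 : V ≃ₗ[F] V) f = (b.1 : V ≃ₗ[F] V) f)
    (hu : (a.1 : V ≃ₗ[F] V) u = (b.1 : V ≃ₗ[F] V) u)
    (hg : (a.1 : V ≃ₗ[F] V) g = (b.1 : V ≃ₗ[F] V) g)
    (hr : ∀ x, polar Q e x = 0 → polar Q f x = 0 → polar Q u x = 0 → polar Q g x = 0 →
      (a.1 : V ≃ₗ[F] V) x = (b.1 : V ≃ₗ[F] V) x) : a = b := by
  refine pair_ext T.fst he hf fun x h1 h2 => ?_
  obtain ⟨k1, k2⟩ := mem_pperp.1 (perpProj T.snd x).2
  obtain ⟨⟨p1, -, p2, -⟩, ⟨p3, -, p4, -⟩, -⟩ := T.polars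
  rw [pair_decomp T.snd x]
  simp only [map_add, map_smul, hu, hg]
  rw [hr _ ?_ ?_ k1 k2] <;> rw [coe_perpProj] <;>
    simp [polar_sub_right, polar_smul_right, h1, h2, p1, p2, p3, p4]

lemma swapEl_apply {s : F} (hs : s ≠ 0) :
    ((swapEl Q e f u g s).1 : V ≃ₗ[F] V) e = s⁻¹ • u ∧
    ((swapEl Q e f u g s).1 : V ≃ₗ[F] V) u = -(s • e) ∧
    ((swapEl Q e f u g s).1 : V ≃ₗ[F] V) f = s • g ∧
    ((swapEl Q e f u g s).1 : V ≃ₗ[F] V) g = -(s⁻¹ • f) ∧
    ∀ x, polar Q e x = 0 → polar Q f x = 0 → polar Q u x = 0 → polar Q g x = 0 →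
      ((swapEl Q e f u g s).1 : V ≃ₗ[F] V) x = x := by
  obtain ⟨⟨eu, ue, fu, uf⟩, ⟨eg, ge, fg, gf⟩, ⟨ef, fe, ug, gu⟩⟩ := T.polars
  have A : ∀ t x, ((kE Q e (t • g)).1 : V ≃ₗ[F] V) x =
      x + (t * polar Q e x) • g - (t * polar Q g x) • e := fun t x => by
    rw [kE_apply T.fst.left (by rw [polar_smul_right, eg, smul_zero]), polar_smul_left,
      QuadraticMap.map_smul, T.snd.right]
    simp only [smul_eq_mul]
    module
  have B : ∀ t x, ((kE Q u (t • f)).1 : V ≃ₗ[F] V) x =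
      x + (t * polar Q u x) • f - (t * polar Q f x) • u := fun t x => by
    rw [kE_apply T.snd.left (by rw [polar_smul_right, uf, smul_zero]), polar_smul_left,
      QuadraticMap.map_smul, T.fst.right]
    simp only [smul_eq_mul]
    module
  have ee : polar Q e e = 0 := by rw [polar_self', T.fst.left, mul_zero]
  have ff : polar Q f f = 0 := by rw [polar_self', T.fst.right, mul_zero]
  have uu : polar Q u u = 0 := by rw [polar_self', T.snd.left, mul_zero]
  have gg : polar Q g g = 0 := by rw [polar_self', T.snd.right, mul_zero]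
  refine ⟨?_, ?_, ?_, ?_, fun x h1 h2 h3 h4 => ?_⟩ <;>
    simp only [swapEl, eichGroup_mul_apply, A, B, polar_add_right, polar_sub_right,
      polar_smul_right, smul_eq_mul, eu, ue, fu, uf, eg, ge, fg, gf, ef, fe, ug, gu, ee, ff, uu,
      gg, *] <;>
    match_scalars <;> field_simp <;> ring

lemma scaleEl_apply {μ : F} (hμ : μ ≠ 0) :
    ((scaleEl Q e f u g μ).1 : V ≃ₗ[F] V) e = μ • e ∧
    ((scaleEl Q e f u g μ).1 : V ≃ₗ[F] V) f = μ⁻¹ • f ∧
    ((scaleEl Q e f u g μ).1 : V ≃ₗ[F] V) u = μ⁻¹ • u ∧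
    ((scaleEl Q e f u g μ).1 : V ≃ₗ[F] V) g = μ • g ∧
    ∀ x, polar Q e x = 0 → polar Q f x = 0 → polar Q u x = 0 → polar Q g x = 0 →
      ((scaleEl Q e f u g μ).1 : V ≃ₗ[F] V) x = x := by
  obtain ⟨a1, a2, a3, a4, a5⟩ := swapEl_apply T hμ
  obtain ⟨b1, b2, b3, b4, b5⟩ := swapEl_apply T (neg_ne_zero.2 (one_ne_zero (α := F)))
  refine ⟨?_, ?_, ?_, ?_, fun x h1 h2 h3 h4 => ?_⟩ <;>
    simp only [scaleEl, eichGroup_mul_apply]
  · rw [b1, map_smul, a2]; simp
  · rw [b3, map_smul, a4]; simp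
  · rw [b2, map_neg, map_smul, a1]; simp
  · rw [b4, map_neg, map_smul, a3]; simp
  · rw [b5 x h1 h2 h3 h4, a5 x h1 h2 h3 h4]

lemma bothEl_apply {μ : F} (hμ : μ ≠ 0) :
    ((bothEl Q e f u g μ).1 : V ≃ₗ[F] V) e = μ • e ∧
    ((bothEl Q e f u g μ).1 : V ≃ₗ[F] V) f = μ⁻¹ • f ∧
    ((bothEl Q e f u g μ).1 : V ≃ₗ[F] V) u = μ • u ∧
    ((bothEl Q e f u g μ).1 : V ≃ₗ[F] V) g = μ⁻¹ • g ∧
    ∀ x, polar Q e x = 0 → polar Q f x = 0 → polar Q u x = 0 → polar Q g x = 0 →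
      ((bothEl Q e f u g μ).1 : V ≃ₗ[F] V) x = x := by
  obtain ⟨a1, a2, a3, a4, a5⟩ := scaleEl_apply T.flip hμ
  exact ⟨a1, a2, a4, a3, fun x h1 h2 h3 h4 => a5 x h1 h2 h4 h3⟩

lemma flipEl_apply :
    ((flipEl Q e f u g).1 : V ≃ₗ[F] V) e = -f ∧
    ((flipEl Q e f u g).1 : V ≃ₗ[F] V) f = -e ∧
    ((flipEl Q e f u g).1 : V ≃ₗ[F] V) u = -g ∧
    ((flipEl Q e f u g).1 : V ≃ₗ[F] V) g = -u ∧
    ∀ x, polar Q e x = 0 → polar Q f x = 0 → polar Q u x = 0 → polar Q g x = 0 →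
      ((flipEl Q e f u g).1 : V ≃ₗ[F] V) x = x := by
  obtain ⟨a1, a2, a3, a4, a5⟩ := swapEl_apply T.flip (one_ne_zero (α := F))
  obtain ⟨b1, b2, b3, b4, b5⟩ := swapEl_apply T (one_ne_zero (α := F))
  simp only [one_smul, inv_one] at a1 a2 a3 a4 b1 b2 b3 b4
  refine ⟨?_, ?_, ?_, ?_, fun x h1 h2 h3 h4 => ?_⟩ <;>
    simp only [flipEl, eichGroup_mul_apply]
  · rw [b1, a4]
  · rw [b3, a2]
  · rw [b2, map_neg, a1]
  · rw [b4, map_neg, a3]
  · rw [b5 x h1 h2 h3 h4, a5 x h1 h2 h4 h3]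

lemma flipEl_conj_bothEl {μ : F} (hμ : μ ≠ 0) :
    bothEl Q e f u g μ * flipEl Q e f u g * bothEl Q e f u g μ = flipEl Q e f u g := by
  obtain ⟨a1, a2, a3, a4, a5⟩ := bothEl_apply T hμ
  obtain ⟨b1, b2, b3, b4, b5⟩ := flipEl_apply T
  refine T.ext ?_ ?_ ?_ ?_ fun x h1 h2 h3 h4 => ?_ <;> simp only [eichGroup_mul_apply]
  · rw [a1, map_smul, b1, map_smul, map_neg, a2]; simp [hμ]
  · rw [a2, map_smul, b2, map_smul, map_neg, a1]; simp [hμ]
  · rw [a3, map_smul, b3, map_smul, map_neg, a4]; simp [hμ]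
  · rw [a4, map_smul, b4, map_smul, map_neg, a3]; simp [hμ]
  · rw [a5 x h1 h2 h3 h4, b5 x h1 h2 h3 h4, a5 x h1 h2 h3 h4]

lemma bothEl_pow {μ : F} (hμ : μ ≠ 0) (j : ℕ) :
    ((bothEl Q e f u g μ ^ j).1 : V ≃ₗ[F] V) e = μ ^ j • e ∧
    ((bothEl Q e f u g μ ^ j).1 : V ≃ₗ[F] V) f = μ⁻¹ ^ j • f ∧
    ((bothEl Q e f u g μ ^ j).1 : V ≃ₗ[F] V) u = μ ^ j • u ∧
    ((bothEl Q e f u g μ ^ j).1 : V ≃ₗ[F] V) g = μ⁻¹ ^ j • g ∧
    ∀ x, polar Q e x = 0 → polar Q f x = 0 → polar Q u x = 0 → polar Q g x = 0 →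
      ((bothEl Q e f u g μ ^ j).1 : V ≃ₗ[F] V) x = x := by
  obtain ⟨a1, a2, a3, a4, a5⟩ := bothEl_apply T hμ
  induction j with
  | zero =>
    refine ⟨?_, ?_, ?_, ?_, fun x _ _ _ _ => ?_⟩ <;> simp only [pow_zero, one_smul] <;> rfl
  | succ j ih =>
    obtain ⟨i1, i2, i3, i4, i5⟩ := ih
    refine ⟨?_, ?_, ?_, ?_, fun x h1 h2 h3 h4 => ?_⟩ <;>
      simp only [pow_succ, eichGroup_mul_apply]
    · rw [a1, map_smul, i1, smul_smul, mul_comm]
    · rw [a2, map_smul, i2, smul_smul, mul_comm]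
    · rw [a3, map_smul, i3, smul_smul, mul_comm]
    · rw [a4, map_smul, i4, smul_smul, mul_comm]
    · rw [a5 x h1 h2 h3 h4, i5 x h1 h2 h3 h4]

lemma bothEl_pow_eq_one {μ : F} (hμ : μ ≠ 0) {m : ℕ} (hm : μ ^ m = 1) :
    bothEl Q e f u g μ ^ m = 1 := by
  obtain ⟨a1, a2, a3, a4, a5⟩ := bothEl_pow T hμ m
  rw [hm, one_smul] at a1 a3
  rw [inv_pow, hm, inv_one, one_smul] at a2 a4
  exact T.ext a1 a2 a3 a4 a5

end TwoPairs

section OnePair

variable {u g a : V} (h : HypPair Q u g) (ha : Q a ≠ 0) (hua : polar Q u a = 0)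
  (hga : polar Q g a = 0)
include h ha hua hga

lemma weylEl_apply {c : F} (hc : c ≠ 0) :
    ((weylEl Q u g a c).1 : V ≃ₗ[F] V) u = -((c * c * Q a)⁻¹ • g) ∧
    ((weylEl Q u g a c).1 : V ≃ₗ[F] V) g = -((c * c * Q a) • u) ∧
    ((weylEl Q u g a c).1 : V ≃ₗ[F] V) a = -a ∧
    ∀ x, polar Q u x = 0 → polar Q g x = 0 → polar Q a x = 0 →
      ((weylEl Q u g a c).1 : V ≃ₗ[F] V) x = x := by
  set al := Q a with hal
  have A : ∀ t x, ((kE Q u (t • a)).1 : V ≃ₗ[F] V) x =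
      x + (t * polar Q u x) • a - (t * polar Q a x + t * t * al * polar Q u x) • u := fun t x => by
    rw [kE_apply h.left (by rw [polar_smul_right, hua, smul_zero]), polar_smul_left,
      QuadraticMap.map_smul, ← hal]
    simp only [smul_eq_mul]
    module
  have B : ∀ t x, ((kE Q g (t • a)).1 : V ≃ₗ[F] V) x =
      x + (t * polar Q g x) • a - (t * polar Q a x + t * t * al * polar Q g x) • g := fun t x => by
    rw [kE_apply h.right (by rw [polar_smul_right, hga, smul_zero]), polar_smul_left,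
      QuadraticMap.map_smul, ← hal]
    simp only [smul_eq_mul]
    module
  have uu : polar Q u u = 0 := by rw [polar_self', h.left, mul_zero]
  have gg : polar Q g g = 0 := by rw [polar_self', h.right, mul_zero]
  have au : polar Q a u = 0 := by rw [polar_comm]; exact hua
  have ag : polar Q a g = 0 := by rw [polar_comm]; exact hga
  have aa : polar Q a a = 2 * al := polar_self' Q a
  refine ⟨?_, ?_, ?_, fun x h1 h2 h3 => ?_⟩
  · simp only [weylEl, ← hal, eichGroup_mul_apply, A, B, polar_add_right, polar_sub_right,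
      polar_smul_right, smul_eq_mul, hua, hga, au, ag, aa, uu, gg, h.pair, h.symm.pair]
    match_scalars <;> field_simp <;> ring
  · simp only [weylEl, ← hal, eichGroup_mul_apply, A, B, polar_add_right, polar_sub_right,
      polar_smul_right, smul_eq_mul, hua, hga, au, ag, aa, uu, gg, h.pair, h.symm.pair]
    match_scalars <;> field_simp <;> ring
  · simp only [weylEl, ← hal, eichGroup_mul_apply, A, B, polar_add_right, polar_sub_right,
      polar_smul_right, smul_eq_mul, hua, hga, au, ag, aa, uu, gg, h.pair, h.symm.pair]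
    match_scalars <;> field_simp <;> ring
  · simp only [weylEl, ← hal, eichGroup_mul_apply, A, B, polar_add_right, polar_sub_right,
      polar_smul_right, smul_eq_mul, h1, h2, h3]
    match_scalars <;> ring

lemma oneEl_apply (h2 : (2 : F) ≠ 0) {μ : F} (hμ : μ ≠ 0) :
    ((oneEl Q u g a μ).1 : V ≃ₗ[F] V) u = (μ * μ) • u ∧
    ((oneEl Q u g a μ).1 : V ≃ₗ[F] V) g = (μ * μ)⁻¹ • g ∧
    ∀ x, polar Q u x = 0 → polar Q g x = 0 → ((oneEl Q u g a μ).1 : V ≃ₗ[F] V) x = x := by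
  obtain ⟨a1, a2, a3, a4⟩ := weylEl_apply h ha hua hga hμ
  obtain ⟨b1, b2, b3, b4⟩ := weylEl_apply h ha hua hga (one_ne_zero (α := F))
  simp only [mul_one, one_mul] at b1 b2
  refine ⟨?_, ?_, fun x k1 k2 => ?_⟩ <;> simp only [oneEl, eichGroup_mul_apply]
  · rw [b1, map_neg, map_smul, a2, smul_neg, neg_neg, smul_smul]
    congr 1
    field_simp
  · rw [b2, map_neg, map_smul, a1, smul_neg, neg_neg, smul_smul]
    congr 1
    field_simp
  · have haa : polar Q a a ≠ 0 := by rw [polar_self']; exact mul_ne_zero h2 ha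
    set r := polar Q a x / polar Q a a with hr
    set y := x - r • a with hy
    have hy3 : polar Q a y = 0 := by
      rw [hy, polar_sub_right, polar_smul_right, hr, smul_eq_mul, div_mul_cancel₀ _ haa,
        sub_self]
    have hy1 : polar Q u y = 0 := by simp [hy, polar_sub_right, polar_smul_right, k1, hua]
    have hy2 : polar Q g y = 0 := by simp [hy, polar_sub_right, polar_smul_right, k2, hga]
    have hx : x = y + r • a := by rw [hy]; abel
    rw [hx, map_add, map_smul, b3, b4 y hy1 hy2 hy3, map_add, map_smul, map_neg, a3, neg_neg,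
      a4 y hy1 hy2 hy3]

end OnePair

section Levi

variable {e f : V} (h : HypPair Q e f) {a b c d : pperp Q e f}
  (T : TwoPairs (Q.restrict (pperp Q e f)) a b c d)
include T

lemma leviK_swapEl (s : F) :
    leviK h (swapEl (Q.restrict (pperp Q e f)) a b c d s) = swapEl Q (a : V) b c d s := by
  obtain ⟨⟨-, -, -, cb⟩, ⟨ad, -, -, -⟩, -⟩ := T.coe.polars
  rw [swapEl, map_mul, map_mul, leviK_kE h T.coe.fst.left
    (by rw [Submodule.coe_smul, polar_smul_right, ad, smul_zero]),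
    leviK_kE h T.coe.snd.left (by rw [Submodule.coe_smul, polar_smul_right, cb, smul_zero])]
  rfl

lemma leviK_bothEl (μ : F) :
    leviK h (bothEl (Q.restrict (pperp Q e f)) a b c d μ) = bothEl Q (a : V) b c d μ := by
  rw [bothEl, scaleEl, map_mul, leviK_swapEl h T.flip, leviK_swapEl h T.flip]
  rfl

lemma leviK_flipEl :
    leviK h (flipEl (Q.restrict (pperp Q e f)) a b c d) = flipEl Q (a : V) b c d := by
  rw [flipEl, map_mul, leviK_swapEl h T.flip, leviK_swapEl h T]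
  rfl

end Levi

end Cfsg.Agent.H39
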