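import Cfsg.Agent.H39.OmegaPlusDeg
import Cfsg.Agent.H39.OmegaLevel
import Cfsg.Agent.H39.OmegaOddEl
import Cfsg.Agent.H5.OmegaForms

/-!
# Odd dimensional spaces: counts, transitivity, and multiplicities from one character value
-/

namespace Cfsg.Agent.H39

open QuadraticMap hiding sq
open Cfsg.Agent.H5
open Finset Module
open scoped Classical commutatorElement

/-- The invariants of a space of dimension `2 k + 1` over a field of odd order at least five. -/
structure OddForm {F V : Type*} [Field F] [Fintype F] [AddCommGroup V] [Module F V]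
    (Q : QuadraticForm F V) (k : ℕ) : Prop where
  nondeg : (polarBilin Q).Nondegenerate
  dim : finrank F V = 2 * k + 1
  count : isoN Q = Fintype.card F ^ (2 * k)
  two_ne : (2 : F) ≠ 0
  five_le : 5 ≤ Fintype.card F

/-- `(q ^ (2 k) - 1) / (q ^ 2 - 1)`. -/
def oddB (q k : ℕ) : ℕ := ∑ i ∈ range k, q ^ (2 * i)

lemma oddB_succ (q k : ℕ) : oddB q (k + 1) = oddB q k + q ^ (2 * k) := Finset.sum_range_succ _ _

lemma oddB_closed (q k : ℕ) (hq : 2 ≤ q) : (q ^ (2 * k) - 1) / (q ^ 2 - 1) = oddB q k := by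
  have h4 : 2 ^ 2 ≤ q ^ 2 := Nat.pow_le_pow_left hq 2
  have key : oddB q k * (q ^ 2 - 1) + 1 = q ^ (2 * k) := by
    induction k with
    | zero => simp [oddB]
    | succ k ih =>
      rw [oddB_succ, add_mul, add_right_comm, ih, show 2 * (k + 1) = 2 * k + 2 by ring, pow_add]
      obtain ⟨r, hr⟩ : ∃ r, q ^ 2 = r + 1 := ⟨q ^ 2 - 1, by omega⟩
      rw [hr, Nat.add_sub_cancel]
      ring
  rw [show q ^ (2 * k) - 1 = oddB q k * (q ^ 2 - 1) by omega]
  exact Nat.mul_div_cancel _ (by omega)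

lemma odd_three_exclude (q d S : ℕ) (hq : 5 ≤ q)
    (hS : S * (q ^ 2 - 1) = (q ^ 6 - 1) * (q ^ 4 - 1)) (hd : d + 3 = q ^ 4 + q ^ 2 + 1)
    (hdvd : d ∣ S * q ^ 4) : False := by
  have h2 : 1 ≤ q ^ 2 := Nat.one_le_pow _ _ (by omega)
  have h4 : 1 ≤ q ^ 4 := Nat.one_le_pow _ _ (by omega)
  have h6 : 1 ≤ q ^ 6 := Nat.one_le_pow _ _ (by omega)
  have hS' : (S : ℤ) * ((q : ℤ) ^ 2 - 1) = ((q : ℤ) ^ 6 - 1) * ((q : ℤ) ^ 4 - 1) := by
    have := congrArg (Nat.cast : ℕ → ℤ) hS
    push_cast [Nat.cast_sub h2, Nat.cast_sub h4, Nat.cast_sub h6] at this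
    exact this
  have hq2 : (25 : ℤ) ≤ (q : ℤ) ^ 2 := by
    have : 5 ^ 2 ≤ q ^ 2 := Nat.pow_le_pow_left hq 2
    exact_mod_cast this
  have hSe : (S : ℤ) = ((q : ℤ) ^ 4 + (q : ℤ) ^ 2 + 1) * ((q : ℤ) ^ 4 - 1) := by
    apply mul_right_cancel₀ (show (q : ℤ) ^ 2 - 1 ≠ 0 by linarith)
    rw [hS']
    ring
  have hde : (d : ℤ) = ((q : ℤ) ^ 2 + 2) * ((q : ℤ) ^ 2 - 1) := by
    have := congrArg (Nat.cast : ℕ → ℤ) hd
    push_cast at this
    linear_combination this
  obtain ⟨c, hc⟩ : (d : ℤ) ∣ (S : ℤ) * (q : ℤ) ^ 4 := by exact_mod_cast hdvd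
  have h12 : ((q : ℤ) ^ 2 + 2) ∣ 12 := by
    refine ⟨3 * (q : ℤ) ^ 4 - 3 * (q : ℤ) ^ 2 + 6 -
      (c - ((q : ℤ) ^ 4 - 1) * (q : ℤ) ^ 4), ?_⟩
    apply mul_left_cancel₀ (show (q : ℤ) ^ 2 - 1 ≠ 0 by linarith)
    rw [hde] at hc
    linear_combination -hc + (q : ℤ) ^ 4 * hSe
  have := Int.le_of_dvd (by norm_num) h12
  linarith

section Squares

variable {F : Type*} [Field F] [Fintype F]

lemma sum_squares_eq_zero (hq : 4 ≤ Fintype.card F) :
    ∑ y ∈ (univ : Finset F).image (fun x => x * x), y = 0 := by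
  obtain ⟨μ, hμ, hμ1⟩ := exists_sq_ne_one (F := F) hq
  set S := (univ : Finset F).image (fun x => x * x) with hS
  have h : S.image (fun y => μ * μ * y) = S := by
    refine Finset.eq_of_subset_of_card_le ?_ (le_of_eq ?_)
    · intro y hy
      obtain ⟨z, hz, rfl⟩ := Finset.mem_image.1 hy
      obtain ⟨x, -, rfl⟩ := Finset.mem_image.1 hz
      exact Finset.mem_image.2 ⟨μ * x, mem_univ _, by ring⟩
    · rw [Finset.card_image_of_injective _ (mul_right_injective₀ (mul_ne_zero hμ hμ))]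
  have h' : ∑ y ∈ S, μ * μ * y = ∑ y ∈ S, y := by
    conv_rhs => rw [← h, Finset.sum_image (fun a _ b _ hab =>
      mul_left_cancel₀ (mul_ne_zero hμ hμ) hab)]
  rw [← Finset.mul_sum] at h'
  by_contra h0
  exact hμ1 (mul_right_cancel₀ h0 (h'.trans (one_mul _).symm))

lemma card_squares_ne_zero (h2 : (2 : F) ≠ 0) :
    (((univ : Finset F).image fun x => x * x).card : F) ≠ 0 := by
  set S := (univ : Finset F).image (fun x => x * x) with hS
  have h1 : 2 * S.card = Fintype.card F + 1 := by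
    have hf : ∀ s ∈ S, ((univ : Finset F).filter fun x => x * x = s).card =
        if s = 0 then 1 else 2 := by
      intro s hs
      obtain ⟨x, -, rfl⟩ := Finset.mem_image.1 hs
      by_cases hx : x = 0
      · subst hx
        rw [if_pos (mul_zero _), Finset.card_eq_one]
        exact ⟨0, by ext; simp⟩
      · rw [if_neg (mul_ne_zero hx hx), Finset.card_eq_two]
        exact ⟨x, -x, fun h => mul_ne_zero h2 hx (by linear_combination h),
          by ext; simp [mul_self_eq_mul_self_iff]⟩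
    have h := Finset.card_eq_sum_card_image (fun x : F => x * x) univ
    rw [← hS, Finset.card_univ, Finset.sum_congr rfl hf,
      ← Finset.add_sum_erase _ _ (show (0 : F) ∈ S from Finset.mem_image.2 ⟨0, mem_univ _, mul_zero 0⟩),
      if_pos rfl, Finset.sum_congr rfl (fun s hs => if_neg (Finset.mem_erase.1 hs).1),
      Finset.sum_const, smul_eq_mul] at h
    have := Finset.card_erase_add_one (s := S) (Finset.mem_image.2 ⟨0, mem_univ _, mul_zero (0:F)⟩)
    omega
  intro h0
  have := congrArg (Nat.cast : ℕ → F) h1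
  push_cast at this
  rw [h0, Nat.cast_card_eq_zero] at this
  simp at this

lemma exists_shift_not_square (h2 : (2 : F) ≠ 0) (hq : 4 ≤ Fintype.card F) {k : F} (hk : k ≠ 0) :
    ∃ s : F, ¬IsSquare (1 - k * (s * s)) := by
  by_contra hc
  push Not at hc
  set S := (univ : Finset F).image (fun x => x * x) with hS
  have hinj : Function.Injective fun y : F => 1 - k * y := fun a b h =>
    mul_left_cancel₀ hk (sub_right_injective h)
  have h : S.image (fun y => 1 - k * y) = S := by
    refine Finset.eq_of_subset_of_card_le ?_ (le_of_eq (Finset.card_image_of_injective _ hinj).symm)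
    intro y hy
    obtain ⟨z, hz, rfl⟩ := Finset.mem_image.1 hy
    obtain ⟨x, -, rfl⟩ := Finset.mem_image.1 hz
    obtain ⟨r, hr⟩ := hc x
    exact Finset.mem_image.2 ⟨r, mem_univ _, hr.symm⟩
  have h' : ∑ y ∈ S, (1 - k * y) = ∑ y ∈ S, y := by
    conv_rhs => rw [← h, Finset.sum_image (fun a _ b _ hab => hinj hab)]
  rw [Finset.sum_sub_distrib, ← Finset.mul_sum, sum_squares_eq_zero hq] at h'
  simp only [Finset.sum_const, nsmul_eq_mul, mul_one, mul_zero, sub_zero] at h'
  exact card_squares_ne_zero h2 h'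

lemma isSquare_mul_not_square {a b : F} (ha : ¬IsSquare a) (hb : ¬IsSquare b) :
    IsSquare (a * b) := by
  have h : a * b ≠ 0 := mul_ne_zero (fun h0 => ha (h0 ▸ IsSquare.zero)) fun h0 => hb (h0 ▸ IsSquare.zero)
  rw [← quadraticChar_one_iff_isSquare h, map_mul, quadraticChar_neg_one_iff_not_isSquare.2 ha,
    quadraticChar_neg_one_iff_not_isSquare.2 hb]
  norm_num

end Squares

variable {F V : Type*} [Field F] [AddCommGroup V] [Module F V] [FiniteDimensional F V]
  {Q : QuadraticForm F V}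

/-- In dimension at least three `eichGroup` is transitive on each non-zero norm, for odd order. -/
theorem exists_map_norm_odd [Fintype F] (hQ : (polarBilin Q).Nondegenerate) (h2 : (2 : F) ≠ 0)
    (hq : 4 ≤ Fintype.card F) (hn : 3 ≤ finrank F V) {u g : V} (h : HypPair Q u g) {v : V}
    (hv : Q v ≠ 0) : ∃ x : eichGroup Q, (x.1 : V ≃ₗ[F] V) v = Q v • u + g := by
  obtain ⟨a, ha', ha⟩ := exists_anisotropic (h.inf_perp hQ)
    (by have := h.finrank_pperp hQ; omega)
  obtain ⟨hua, hga⟩ := mem_pperp.1 ha'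
  have clear : ∀ y, polar Q u y ≠ 0 → ∃ x : eichGroup Q,
      (x.1 : V ≃ₗ[F] V) y = (Q y / polar Q u y) • u + polar Q u y • g := by
    intro y hy
    set b := polar Q u y
    set c := polar Q g y
    set w := y - c • u - b • g with hwd
    have hw : w ∈ H5.pperp Q u g := h.decomp y
    obtain ⟨hw1, hw2⟩ := mem_pperp.1 hw
    have hyd : y = c • u + b • g + w := by rw [hwd]; abel
    refine ⟨kE Q u (-(b⁻¹ • w)), ?_⟩
    have ha : polar Q u (-(b⁻¹ • w)) = 0 := by simp [polar_neg_right, polar_smul_right, hw1]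
    have hww : polar Q w y = 2 * Q w := by
      rw [hyd, polar_add_right, polar_add_right, polar_smul_right, polar_smul_right, polar_self',
        polar_comm (⇑Q) w u, polar_comm (⇑Q) w g, hw1, hw2]
      simp
    have hQy : Q y = c * b + Q w := by
      rw [hyd, QuadraticMap.map_add (⇑Q), map_smul_add_smul, h.left, h.right, h.pair,
        polar_add_left, polar_smul_left, polar_smul_left, hw1, hw2]
      simp
    rw [kE_apply h.left ha, polar_neg_left, polar_smul_left, hww, QuadraticMap.map_neg,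
      QuadraticMap.map_smul, hQy]
    rw [show polar Q u y = b from rfl]
    conv_lhs => arg 1; arg 1; rw [hyd]
    simp only [smul_eq_mul]
    match_scalars <;> field_simp <;> ring
  obtain ⟨g₀, hy⟩ : ∃ x : eichGroup Q, polar Q u ((x.1 : V ≃ₗ[F] V) v) ≠ 0 := by
    obtain ⟨p, hp, hpv⟩ : ∃ p, Q p = 0 ∧ polar Q p v ≠ 0 := by
      by_cases h1 : polar Q u v = 0
      swap
      · exact ⟨u, h.left, h1⟩
      by_cases h1' : polar Q g v = 0
      swap
      · exact ⟨g, h.right, h1'⟩
      obtain ⟨y, hy⟩ := exists_polar_eq_one hQ (x := v)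
        (fun h0 => hv (by rw [h0, QuadraticMap.map_zero]))
      have hw := h.decomp y
      refine ⟨_, (h.singular_lift hw).1, ?_⟩
      simp [polar_add_left, polar_sub_left, polar_smul_left, polar_comm (⇑Q) y v, h1, h1', hy]
    have hp0 : p ≠ 0 := fun h0 => hpv (by rw [h0, polar_zero_left])
    obtain ⟨x, hx, t, ht, hxp⟩ := exists_pairGroup_map hQ hn h hp0 hp
    rw [pairGroup_eq_eichGroup hQ hn h] at hx
    refine ⟨⟨x, hx⟩, fun h0 => hpv ?_⟩
    rw [← orth_polar x, hxp, polar_smul_left, h0, smul_zero]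
  have hsq : ∀ β : F, β ≠ 0 → IsSquare β →
      ∃ x : eichGroup Q, (x.1 : V ≃ₗ[F] V) ((Q v / β) • u + β • g) = Q v • u + g := by
    rintro β hβ ⟨t, rfl⟩
    have ht : t ≠ 0 := fun h0 => hβ (by rw [h0, mul_zero])
    obtain ⟨o1, o2, -⟩ := oneEl_apply h ha hua hga h2 ht
    refine ⟨oneEl Q u g a t, ?_⟩
    rw [map_add, map_smul, map_smul, o1, o2, smul_smul, smul_smul, div_mul_cancel₀ _ hβ,
      mul_inv_cancel₀ hβ, one_smul]
  obtain ⟨g₁, hg₁⟩ := clear _ hy
  rw [orth_map] at hg₁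
  set β := polar Q u ((g₀.1 : V ≃ₗ[F] V) v) with hβd
  by_cases hβ : IsSquare β
  · obtain ⟨g₂, hg₂⟩ := hsq β hy hβ
    exact ⟨g₂ * (g₁ * g₀), by rw [eichGroup_mul_apply, eichGroup_mul_apply, hg₁, hg₂]⟩
  obtain ⟨s, hs⟩ := exists_shift_not_square h2 hq (k := Q a * Q v / (β * β))
    (div_ne_zero (mul_ne_zero ha hv) (mul_ne_zero hy hy))
  have hpy : polar Q u (((kE Q g (s • a)).1 : V ≃ₗ[F] V) ((Q v / β) • u + β • g)) =
      β * (1 - Q a * Q v / (β * β) * (s * s)) := by
    rw [kE_apply h.right (by rw [polar_smul_right, hga, smul_zero]), QuadraticMap.map_smul]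
    simp [polar_add_right, polar_sub_right, polar_smul_right, polar_smul_left, polar_self',
      h.left, h.right, h.pair, h.symm.pair, hua, polar_comm (⇑Q) a u, polar_comm (⇑Q) a g, hga]
    field_simp
  have hsq' := isSquare_mul_not_square hβ hs
  have hne : β * (1 - Q a * Q v / (β * β) * (s * s)) ≠ 0 :=
    mul_ne_zero hy fun h0 => hs (h0 ▸ IsSquare.zero)
  obtain ⟨g₂, hg₂⟩ := clear (((kE Q g (s • a)).1 : V ≃ₗ[F] V) ((Q v / β) • u + β • g))
    (by rw [hpy]; exact hne)
  rw [hpy, orth_map, ← hg₁, orth_map, orth_map] at hg₂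
  obtain ⟨g₃, hg₃⟩ := hsq _ hne hsq'
  exact ⟨g₃ * (g₂ * (kE Q g (s • a) * (g₁ * g₀))), by
    rw [eichGroup_mul_apply, eichGroup_mul_apply, eichGroup_mul_apply, eichGroup_mul_apply, hg₂,
      hg₃]⟩

section Form

variable [Fintype F] [Fintype V]

omit [Fintype V] in
lemma OddForm.exists_pair [Finite V] {k : ℕ} (h : OddForm Q (k + 1)) : ∃ e f, HypPair Q e f := by
  obtain ⟨x, hx0, hx⟩ := exists_singular h.nondeg (by rw [h.dim]; omega)
  obtain ⟨y, hy⟩ := exists_hypPair h.nondeg hx0 hx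
  exact ⟨x, y, hy⟩

lemma OddForm.pperp {k : ℕ} (h : OddForm Q (k + 1)) {e f : V} (hp : HypPair Q e f) :
    OddForm (Q.restrict (H5.pperp Q e f)) k := by
  refine ⟨restrict_nondegenerate (hp.inf_perp h.nondeg), ?_, ?_, h.two_ne, h.five_le⟩
  · have := hp.finrank_pperp h.nondeg
    have := h.dim
    omega
  · have h1 := isoN_pair hp
    rw [card_pperp_eq h.nondeg hp, h.dim, h.count,
      show 2 * (k + 1) + 1 - 2 = 2 * k + 1 by omega] at h1
    refine Nat.eq_of_mul_eq_mul_left (Fintype.card_pos (α := F)) ?_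
    rw [show 2 * (k + 1) = 2 * k + 2 by ring] at h1
    simp only [pow_succ] at h1 ⊢
    linarith

omit [FiniteDimensional F V] in
lemma OddForm.eq_zero_of_iso (h : OddForm Q 0) {x : V} (hx : Q x = 0) : x = 0 := by
  have h1 := h.count
  rw [mul_zero, pow_zero, isoN] at h1
  haveI := (Finite.card_le_one_iff_subsingleton (α := {x : V // Q x = 0})).1 h1.le
  exact congrArg Subtype.val (Subsingleton.elim (⟨x, hx⟩ : {x : V // Q x = 0})
    ⟨0, QuadraticMap.map_zero Q⟩)

lemma OddForm.four_le {k : ℕ} (h : OddForm Q k) : 4 ≤ Fintype.card F :=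
  (by norm_num : 4 ≤ 5).trans h.five_le

variable {e f : V} (h : HypPair Q e f) {ψ : AddChar F ℂ} (hψ : ψ ≠ 1) {M : Type}
  [AddCommGroup M] [Module ℂ M] [FiniteDimensional ℂ M] (ρ : Representation ℂ (eichGroup Q) M)

include hψ in
/-- One character value forces multiplicity one exactly on the singular characters. -/
theorem single_of_drop {k : ℕ} (hV : OddForm Q (k + 2))
    (hout : ∀ v : H5.pperp Q e f, Q (v : V) = 0 → ∀ t : F, t ≠ 0 →
      (radData hV.nondeg h ψ hψ).dim ρ (t • v) = (radData hV.nondeg h ψ hψ).dim ρ v)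
    {w : H5.pperp Q e f} (hw0 : w ≠ 0) (hQw : Q (w : V) = 0)
    (hchar : ρ.character (kE Q e (w : V)) =
      (finrank ℂ M : ℂ) - (Fintype.card F ^ (2 * k + 2) : ℕ)) :
    (∀ v : H5.pperp Q e f, Q (v : V) ≠ 0 → (radData hV.nondeg h ψ hψ).dim ρ v = 0) ∧
      ∀ v : H5.pperp Q e f, v ≠ 0 → Q (v : V) = 0 →
        (radData hV.nondeg h ψ hψ).dim ρ v = 1 := by
  set D := radData hV.nondeg h ψ hψ with hD
  have hW := hV.pperp h
  have hWn := hW.nondeg
  obtain ⟨e₁, f₁, h₁⟩ := hW.exists_pair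
  have hdW : 3 ≤ finrank F (H5.pperp Q e f) := by rw [hW.dim]; omega
  have hlevi : ∀ (g : eichGroup (Q.restrict (H5.pperp Q e f))) (v : (H5.pperp Q e f)), D.dim ρ v = D.dim ρ ((g.1 : (H5.pperp Q e f) ≃ₗ[F] (H5.pperp Q e f)) v) :=
    fun g v => dim_eq_of_comm ρ D (rad_comm_fix hV.nondeg h hψ ρ (g := leviK h g)
      (orthExt_left h _) (orthExt_right h _) (leviK_coe h g v).symm)
  let a : F → ℕ := fun c => if c = 0 then D.dim ρ e₁ else D.dim ρ (c • e₁ + f₁)
  have hconst : ∀ v : (H5.pperp Q e f), v ≠ 0 → D.dim ρ v = a (Q (v : V)) := by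
    intro v hv
    by_cases hc : Q (v : V) = 0
    · obtain ⟨g, hg, t, ht, hgv⟩ := exists_pairGroup_map hWn hdW h₁ hv
        (by rw [QuadraticMap.restrict_apply]; exact hc)
      rw [pairGroup_eq_eichGroup hWn hdW h₁] at hg
      simp only [a, if_pos hc]
      rw [hlevi ⟨g, hg⟩ v]
      show D.dim ρ ((g : (H5.pperp Q e f) ≃ₗ[F] (H5.pperp Q e f)) v) = _
      rw [hgv, hout e₁ h₁.left t ht]
    · obtain ⟨g, hg⟩ := exists_map_norm_odd hWn hV.two_ne hV.four_le hdW h₁ (v := v)
        (by rwa [QuadraticMap.restrict_apply])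
      simp only [a, if_neg hc]
      rw [hlevi g v, hg]
      rfl
  obtain ⟨x, hx⟩ := exists_hypPair hWn hw0 (by rwa [QuadraticMap.restrict_apply])
  have hdrop : ∑ v, (D.dim ρ v : ℂ) * (1 - D.χ v w) = (Fintype.card F ^ (2 * k + 2) : ℕ) := by
    simp only [mul_sub, mul_one, Finset.sum_sub_distrib]
    rw [← Nat.cast_sum, D.sum_dim, show (∑ v, (D.dim ρ v : ℂ) * D.χ v w) =
      ρ.character (kE Q e (w : V)) from
        ((D.trace_apply ρ w).trans (Finset.sum_congr rfl fun v _ => mul_comm _ _)).symm, hchar]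
    ring
  have hterm : ∀ v : (H5.pperp Q e f), (D.dim ρ v : ℂ) * (1 - D.χ v w) =
      (a (Q (v : V)) : ℂ) * (1 - ψ (polar (Q.restrict (H5.pperp Q e f)) w v)) := by
    intro v
    by_cases hv : v = 0
    · subst hv
      simp [D, radData]
    · rw [hconst v hv]
      simp [D, radData, polar_restrict, polar_comm (⇑Q) (v : V)]
  rw [Finset.sum_congr rfl (fun v _ => hterm v),
    ← Finset.sum_fiberwise_of_maps_to (g := fun v : (H5.pperp Q e f) => Q (v : V)) (t := (univ : Finset F))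
      (fun v _ => mem_univ _)] at hdrop
  have hfib : ∀ c : F, ∑ v ∈ univ.filter (fun v : (H5.pperp Q e f) => Q (v : V) = c),
      (a (Q (v : V)) : ℂ) * (1 - ψ (polar (Q.restrict (H5.pperp Q e f)) w v)) =
        (a c : ℂ) * (Fintype.card F ^ (2 * k + 2) : ℕ) := by
    intro c
    rw [Finset.sum_congr rfl (g := fun v => (a c : ℂ) * (1 - ψ (polar (Q.restrict (H5.pperp Q e f)) w v)))
      (fun v hv => by rw [(Finset.mem_filter.1 hv).2]), ← Finset.mul_sum, Finset.sum_sub_distrib]
    have hs := sum_level_char hx hψ c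
    simp only [QuadraticMap.restrict_apply] at hs
    rw [hs, card_pperp_eq hWn hx, hW.dim, show 2 * (k + 1) + 1 - 2 = 2 * k + 1 by omega,
      Finset.sum_const, nsmul_eq_mul, mul_one]
    push_cast
    ring
  rw [Finset.sum_congr rfl (fun c _ => hfib c), ← Finset.sum_mul, ← Nat.cast_sum,
    ← Nat.cast_mul, Nat.cast_inj] at hdrop
  have hsum : ∑ c, a c = 1 :=
    Nat.eq_of_mul_eq_mul_right (Nat.pow_pos Fintype.card_pos) (hdrop.trans (one_mul _).symm)
  have haz : ∀ c : F, c ≠ 0 → a c = 0 := by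
    intro c hc
    obtain ⟨μ, hμ, hμ1⟩ := exists_sq_ne_one (F := F) hV.four_le
    obtain ⟨g, hg, ge, gf, -⟩ := exists_pairScale (twoPairs_of_perp h h₁) (inv_ne_zero hμ)
    set v := c • e₁ + f₁ with hv
    have hQv : Q (v : V) = c := by
      have : (Q.restrict (H5.pperp Q e f)) v = c := by
        rw [hv, QuadraticMap.map_add (⇑(Q.restrict (H5.pperp Q e f))), QuadraticMap.map_smul, polar_smul_left, h₁.left, h₁.right, h₁.pair]; simp
      rwa [QuadraticMap.restrict_apply] at this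
    have hv0 : v ≠ 0 := fun h0 => hc (by rw [← hQv, h0, Submodule.coe_zero, QuadraticMap.map_zero])
    set w' : (H5.pperp Q e f) := ⟨(μ⁻¹)⁻¹ • (g : V ≃ₗ[F] V) (v : V),
      Submodule.smul_mem _ _ (scale_mem_pperp (inv_ne_zero hμ) ge gf v.2)⟩
    have hQw' : Q (w' : V) = μ * μ * c := by simp [w', QuadraticMap.map_smul, orth_map, hQv]
    have hw' : w' ≠ 0 := fun h0 => mul_ne_zero (mul_ne_zero hμ hμ) hc (by
      rw [← hQw', h0, Submodule.coe_zero, QuadraticMap.map_zero])
    have heq : a c = a (μ * μ * c) := by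
      rw [← hQv, ← hconst v hv0, hQv, ← hQw', ← hconst w' hw']
      exact dim_eq_of_comm ρ D
        (rad_comm hV.nondeg h hψ ρ (g := ⟨g, hg⟩) (inv_ne_zero hμ) ge gf rfl)
    have hne : μ * μ * c ≠ c := fun h0 => hμ1 (mul_right_cancel₀ hc (h0.trans (one_mul c).symm))
    have := Finset.sum_le_sum_of_subset (f := a) (Finset.subset_univ ({μ * μ * c, c} : Finset F))
    rw [Finset.sum_pair hne, hsum] at this
    omega
  have ha0 : a 0 = 1 := by
    rw [← hsum, eq_comm]
    exact Finset.sum_eq_single 0 (fun c _ hc => haz c hc) (by simp)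
  refine ⟨fun v hv => ?_, fun v hv0 hv => ?_⟩
  · rw [hconst v (fun h0 => hv (by rw [h0, Submodule.coe_zero, QuadraticMap.map_zero]))]
    exact haz _ hv
  · rw [hconst v hv0, hv, ha0]

variable {k : ℕ} (hV : OddForm Q (k + 3))
  (hiso : ∀ v : H5.pperp Q e f, Q (v : V) ≠ 0 → (radData hV.nondeg h ψ hψ).dim ρ v = 0)
  (hone : ∀ v : H5.pperp Q e f, v ≠ 0 → Q (v : V) = 0 → (radData hV.nondeg h ψ hψ).dim ρ v = 1)

include h hψ hiso hone in
/-- Without fixed vectors the representation is irreducible. -/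
theorem irreducible_of_single (hfix : ∀ x : M, (∀ g, ρ g x = x) → x = 0) [Nontrivial M] :
    ρ.IsIrreducible := by
  haveI : Finite (eichGroup Q) := finite_eichGroup
  haveI : Fintype (eichGroup Q) := Fintype.ofFinite _
  rw [H26.isIrreducible_iff_forall]
  refine ⟨inferInstance, fun U hU => ?_⟩
  set D := radData hV.nondeg h ψ hψ with hD
  have hW := hV.pperp h
  obtain ⟨e₁, f₁, h₁⟩ := hW.exists_pair
  have hdW : 4 ≤ finrank F (H5.pperp Q e f) := by rw [hW.dim]; omega
  set σ := subRep ρ U hU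
  have hpr : ∀ (v : (H5.pperp Q e f)) (x : U), (D.proj σ v x : M) = D.proj ρ v x := by
    intro v x
    simp [AbelData.proj, σ, subRep, LinearMap.sum_apply, LinearMap.smul_apply]
  have hmap : ∀ v, (LinearMap.range (D.proj σ v)).map U.subtype ≤ LinearMap.range (D.proj ρ v) := by
    rintro v _ ⟨_, ⟨x, rfl⟩, rfl⟩
    exact ⟨x, (hpr v x).symm⟩
  have hle : ∀ v, D.dim σ v ≤ D.dim ρ v := fun v => by
    rw [AbelData.dim, ← Submodule.finrank_map_subtype_eq]
    exact Submodule.finrank_mono (hmap v)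
  have hc : ∀ v : (H5.pperp Q e f), v ≠ 0 → Q (v : V) = 0 → D.dim σ v = D.dim σ e₁ := by
    intro v hv hQv
    obtain ⟨g, hg, t, ht, hgv⟩ := exists_pairGroup_map hW.nondeg (by omega) h₁ hv
      (by rwa [QuadraticMap.restrict_apply])
    rw [pairGroup_eq_eichGroup hW.nondeg (by omega) h₁] at hg
    obtain ⟨x, hx, hxe⟩ := exists_eich_scale hW.nondeg hdW h₁ (inv_ne_zero ht)
    refine (dim_eq_of_comm σ D (rad_comm_fix hV.nondeg h hψ σ
      (g := leviK h ⟨x * g, mul_mem hx hg⟩) (orthExt_left h _) (orthExt_right h _)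
      (leviK_coe h _ v).symm)).trans ?_
    show D.dim σ (((x * g : orth _) : (H5.pperp Q e f) ≃ₗ[F] (H5.pperp Q e f)) v) = _
    rw [orth_mul_apply, hgv, map_smul, hxe, smul_smul, mul_inv_cancel₀ ht, one_smul]
  have he1 : e₁ ≠ 0 := h₁.ne_zero
  by_cases h0 : D.dim σ e₁ = 0
  · left
    have htriv := rad_trivial hV.nondeg h hψ σ (by rw [hV.dim]; omega) fun v hv => by
      by_cases hQv : Q (v : V) = 0
      · rw [hc v hv hQv, h0]
      · exact Nat.le_zero.1 ((hle v).trans_eq (hiso v hQv))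
    rw [Submodule.eq_bot_iff]
    exact fun x hx => hfix x fun g =>
      congrArg Subtype.val (LinearMap.congr_fun (htriv g) ⟨x, hx⟩)
  · right
    have hrange : ∀ v : (H5.pperp Q e f), v ≠ 0 → ∀ x, D.proj ρ v x ∈ U := by
      intro v hv x
      by_cases hQv : Q (v : V) = 0
      · have heq := Submodule.eq_of_le_of_finrank_le (hmap v) (by
          rw [Submodule.finrank_map_subtype_eq]
          show D.dim ρ v ≤ D.dim σ v
          rw [hone v hv hQv, hc v hv hQv]
          omega)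
        have hm : D.proj ρ v x ∈ LinearMap.range (D.proj ρ v) := LinearMap.mem_range_self _ x
        rw [← heq] at hm
        obtain ⟨y, -, hy⟩ := hm
        exact hy ▸ y.2
      · rw [AbelData.proj_eq_zero_of_dim ρ D (hiso v hQv)]
        exact U.zero_mem
    set τ := quotRep ρ U hU
    have htriv := rad_trivial hV.nondeg h hψ τ (by rw [hV.dim]; omega) fun v hv => by
      have h1 : D.proj τ v = 0 := LinearMap.ext fun y => by
        obtain ⟨x, rfl⟩ := Submodule.Quotient.mk_surjective U y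
        have : D.proj τ v (Submodule.Quotient.mk x) = Submodule.Quotient.mk (D.proj ρ v x) := by
          simp only [← Submodule.mkQ_apply, AbelData.proj, LinearMap.smul_apply, LinearMap.sum_apply, map_smul, map_sum]; rfl
        rw [this, LinearMap.zero_apply, Submodule.Quotient.mk_eq_zero]
        exact hrange v hv x
      rw [AbelData.dim, h1, LinearMap.range_zero, finrank_bot]
    rw [Submodule.eq_top_iff']
    intro x
    set y := ∑ g : eichGroup Q, ρ g x with hy
    have hy0 : y = 0 := hfix y fun k => by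
      rw [hy, map_sum]
      exact Fintype.sum_equiv (Equiv.mulLeft k) _ _ fun g => by
        simp [map_mul, Module.End.mul_apply]
    have hq : ∀ g, (Submodule.Quotient.mk (ρ g x) : M ⧸ U) = Submodule.Quotient.mk x := fun g =>
      LinearMap.congr_fun (htriv g) (Submodule.Quotient.mk x)
    have h1 : (Submodule.Quotient.mk y : M ⧸ U) =
        (Fintype.card (eichGroup Q) : ℂ) • Submodule.Quotient.mk x := by
      rw [hy, ← Submodule.mkQ_apply, map_sum]
      simp only [Submodule.mkQ_apply, hq, Finset.sum_const, Finset.card_univ]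
      rw [Nat.cast_smul_eq_nsmul]
    rw [hy0, Submodule.Quotient.mk_zero, eq_comm, smul_eq_zero,
      or_iff_right (Nat.cast_ne_zero.2 Fintype.card_ne_zero), Submodule.Quotient.mk_eq_zero] at h1
    exact h1

end Form

end Cfsg.Agent.H39
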