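import Cfsg.Agent.H39.OmegaOddBase

/-!
# Frames of three and four pairs, and vectors fixed by an inner stabiliser
-/

namespace Cfsg.Agent.H39

open QuadraticMap hiding sq
open Cfsg.Agent.H5
open Finset Module
open scoped Classical commutatorElement

section Frames

variable {F V : Type*} [Field F] [AddCommGroup V] [Module F V] {Q : QuadraticForm F V}

/-- Two isometries agreeing on three orthogonal pairs and their complement. -/
lemma triple_ext {e f u g a b : V} (T : TwoPairs Q e f u g) (T' : TwoPairs Q e f a b)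
    (T'' : TwoPairs Q u g a b) {X Y : eichGroup Q}
    (h6 : ∀ y ∈ [e, f, u, g, a, b], (X.1 : V ≃ₗ[F] V) y = (Y.1 : V ≃ₗ[F] V) y)
    (hr : ∀ x, (∀ y ∈ [e, f, u, g, a, b], polar Q y x = 0) →
      (X.1 : V ≃ₗ[F] V) x = (Y.1 : V ≃ₗ[F] V) x) : X = Y := by
  refine T.ext (h6 e (by simp)) (h6 f (by simp)) (h6 u (by simp)) (h6 g (by simp))
    fun x x1 x2 x3 x4 => ?_
  obtain ⟨⟨ea, -, fa, -⟩, ⟨eb, -, fb, -⟩, -⟩ := T'.polars
  obtain ⟨⟨ua, -, ga, -⟩, ⟨ub, -, gb, -⟩, -⟩ := T''.polars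
  obtain ⟨k1, k2⟩ := mem_pperp.1 (perpProj T'.snd x).2
  rw [pair_decomp T'.snd x]
  simp only [map_add, map_smul, h6 a (by simp), h6 b (by simp)]
  rw [hr _ fun y hy => ?_]
  simp only [List.mem_cons, List.not_mem_nil, or_false] at hy
  rcases hy with rfl | rfl | rfl | rfl | rfl | rfl <;> first
    | assumption
    | (rw [coe_perpProj]; simp [polar_sub_right, polar_smul_right, *])

/-- Two isometries agreeing on four orthogonal pairs and their complement. -/
lemma quad_ext {e f u g a b c d : V} (T : TwoPairs Q e f u g) (T13 : TwoPairs Q e f a b)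
    (T23 : TwoPairs Q u g a b) (T14 : TwoPairs Q e f c d) (T24 : TwoPairs Q u g c d)
    (T34 : TwoPairs Q a b c d) {X Y : eichGroup Q}
    (h8 : ∀ y ∈ [e, f, u, g, a, b, c, d], (X.1 : V ≃ₗ[F] V) y = (Y.1 : V ≃ₗ[F] V) y)
    (hr : ∀ x, (∀ y ∈ [e, f, u, g, a, b, c, d], polar Q y x = 0) →
      (X.1 : V ≃ₗ[F] V) x = (Y.1 : V ≃ₗ[F] V) x) : X = Y := by
  refine triple_ext T T13 T23 (fun y hy => h8 y (by
    simp only [List.mem_cons, List.not_mem_nil, or_false] at hy ⊢; tauto)) fun x hx => ?_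
  have x1 := hx e (by simp)
  have x2 := hx f (by simp)
  have x3 := hx u (by simp)
  have x4 := hx g (by simp)
  have x5 := hx a (by simp)
  have x6 := hx b (by simp)
  obtain ⟨⟨ec, -, fc, -⟩, ⟨ed, -, fd, -⟩, -⟩ := T14.polars
  obtain ⟨⟨uc, -, gc, -⟩, ⟨ud, -, gd, -⟩, -⟩ := T24.polars
  obtain ⟨⟨ac, -, bc, -⟩, ⟨ad, -, bd, -⟩, -⟩ := T34.polars
  obtain ⟨k1, k2⟩ := mem_pperp.1 (perpProj T14.snd x).2
  rw [pair_decomp T14.snd x]
  simp only [map_add, map_smul, h8 c (by simp), h8 d (by simp)]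
  rw [hr _ fun y hy => ?_]
  simp only [List.mem_cons, List.not_mem_nil, or_false] at hy
  rcases hy with rfl | rfl | rfl | rfl | rfl | rfl | rfl | rfl <;> first
    | assumption
    | (rw [coe_perpProj]; simp [polar_sub_right, polar_smul_right, *])

variable {e f : V} (h : HypPair Q e f) {u g : H5.pperp Q e f}
  (hu : HypPair (Q.restrict (H5.pperp Q e f)) u g)

/-- The inner stabiliser, in the whole group. -/
noncomputable def lev2 :
    eichGroup ((Q.restrict (H5.pperp Q e f)).restrict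
      (H5.pperp (Q.restrict (H5.pperp Q e f)) u g)) →* eichGroup Q :=
  (leviK h).comp (leviK hu)

lemma lev2_apply (k : eichGroup ((Q.restrict (H5.pperp Q e f)).restrict
      (H5.pperp (Q.restrict (H5.pperp Q e f)) u g))) :
    lev2 h hu k = leviK h (leviK hu k) := rfl

lemma lev2_fix (k : eichGroup ((Q.restrict (H5.pperp Q e f)).restrict
      (H5.pperp (Q.restrict (H5.pperp Q e f)) u g))) :
    ((lev2 h hu k).1 : V ≃ₗ[F] V) e = e ∧ ((lev2 h hu k).1 : V ≃ₗ[F] V) f = f ∧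
      ((lev2 h hu k).1 : V ≃ₗ[F] V) (u : V) = (u : V) ∧
      ((lev2 h hu k).1 : V ≃ₗ[F] V) (g : V) = (g : V) := by
  refine ⟨orthExt_left h _, orthExt_right h _, ?_, ?_⟩
  · rw [lev2_apply, leviK_coe]
    exact congrArg Subtype.val (orthExt_left hu _)
  · rw [lev2_apply, leviK_coe]
    exact congrArg Subtype.val (orthExt_right hu _)

lemma lev2_kE {a b : H5.pperp (Q.restrict (H5.pperp Q e f)) u g}
    (ha : Q ((a : H5.pperp Q e f) : V) = 0)
    (hab : polar Q ((a : H5.pperp Q e f) : V) ((b : H5.pperp Q e f) : V) = 0) :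
    lev2 h hu (kE ((Q.restrict (H5.pperp Q e f)).restrict
      (H5.pperp (Q.restrict (H5.pperp Q e f)) u g)) a b) =
      kE Q ((a : H5.pperp Q e f) : V) ((b : H5.pperp Q e f) : V) := by
  rw [lev2_apply, leviK_kE hu (by rwa [QuadraticMap.restrict_apply]) (by rwa [polar_restrict]),
    leviK_kE h ha hab]

lemma pperp2_of_polar {x : V} (h1 : polar Q e x = 0) (h2 : polar Q f x = 0)
    (h3 : polar Q (u : V) x = 0) (h4 : polar Q (g : V) x = 0) :
    ∃ a : H5.pperp (Q.restrict (H5.pperp Q e f)) u g, ((a : H5.pperp Q e f) : V) = x :=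
  ⟨⟨⟨x, mem_pperp.2 ⟨h1, h2⟩⟩, mem_pperp.2
    ⟨by rw [polar_restrict]; exact h3, by rw [polar_restrict]; exact h4⟩⟩, rfl⟩

lemma pperp2_polar (a : H5.pperp (Q.restrict (H5.pperp Q e f)) u g) :
    polar Q e ((a : H5.pperp Q e f) : V) = 0 ∧ polar Q f ((a : H5.pperp Q e f) : V) = 0 ∧
      polar Q (u : V) ((a : H5.pperp Q e f) : V) = 0 ∧
      polar Q (g : V) ((a : H5.pperp Q e f) : V) = 0 := by
  obtain ⟨a1, a2⟩ := mem_pperp.1 a.2
  rw [polar_restrict] at a1 a2
  exact ⟨(mem_pperp.1 (a : H5.pperp Q e f).2).1, (mem_pperp.1 (a : H5.pperp Q e f).2).2, a1, a2⟩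

lemma lev2_conj_mem (X : eichGroup Q)
    (hX : ∀ a : H5.pperp (Q.restrict (H5.pperp Q e f)) u g,
      ∃ a' : H5.pperp (Q.restrict (H5.pperp Q e f)) u g,
        ((a' : H5.pperp Q e f) : V) = (X.1 : V ≃ₗ[F] V) ((a : H5.pperp Q e f) : V))
    (k : eichGroup ((Q.restrict (H5.pperp Q e f)).restrict
      (H5.pperp (Q.restrict (H5.pperp Q e f)) u g))) :
    X * lev2 h hu k * X⁻¹ ∈ (lev2 h hu).range := by
  let S : Subgroup (eichGroup ((Q.restrict (H5.pperp Q e f)).restrict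
      (H5.pperp (Q.restrict (H5.pperp Q e f)) u g))) :=
    Subgroup.comap ((MulAut.conj X).toMonoidHom.comp (lev2 h hu)) (lev2 h hu).range
  suffices hle : eichGroup ((Q.restrict (H5.pperp Q e f)).restrict
      (H5.pperp (Q.restrict (H5.pperp Q e f)) u g)) ≤
      S.map (eichGroup ((Q.restrict (H5.pperp Q e f)).restrict
        (H5.pperp (Q.restrict (H5.pperp Q e f)) u g))).subtype by
    obtain ⟨k', hk', he⟩ := hle k.2
    rw [← Subtype.ext he]
    exact hk'
  refine (Subgroup.closure_le _).2 ?_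
  rintro _ ⟨a, b, ha, hb, rfl⟩
  refine ⟨kE ((Q.restrict (H5.pperp Q e f)).restrict
      (H5.pperp (Q.restrict (H5.pperp Q e f)) u g)) a b, ?_, rfl⟩
  have ha' : Q ((a : H5.pperp Q e f) : V) = 0 := ha
  have hb' : polar Q ((a : H5.pperp Q e f) : V) ((b : H5.pperp Q e f) : V) = 0 := by
    rwa [← polar_restrict, ← polar_restrict]
  show X * lev2 h hu (kE _ a b) * X⁻¹ ∈ (lev2 h hu).range
  rw [lev2_kE h hu ha' hb', kE_conj]
  obtain ⟨a', ha2⟩ := hX a
  obtain ⟨b', hb2⟩ := hX b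
  refine ⟨kE ((Q.restrict (H5.pperp Q e f)).restrict
      (H5.pperp (Q.restrict (H5.pperp Q e f)) u g)) a' b', ?_⟩
  rw [lev2_kE h hu (by rw [ha2, orth_map, ha']) (by rw [ha2, hb2, orth_polar, hb']), ha2, hb2]

end Frames

variable {F V : Type*} [Field F] [Fintype F] [AddCommGroup V] [Module F V] [FiniteDimensional F V]
  [Fintype V] {Q : QuadraticForm F V}

variable {j : ℕ} (hV : OddForm Q (j + 3)) {e f : V} (h : HypPair Q e f) {ψ : AddChar F ℂ}
  (hψ : ψ ≠ 1) {M : Type} [AddCommGroup M] [Module ℂ M] [FiniteDimensional ℂ M]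
  (ρ : Representation ℂ (eichGroup Q) M)
  {u g : H5.pperp Q e f} (hu : HypPair (Q.restrict (H5.pperp Q e f)) u g)

/-- Vectors of the range fixed by the inner radical and the inner stabiliser. -/
structure Inner (P : Module.End ℂ M) (y : M) : Prop where
  mem : P y = y
  radical : (levData hV h hψ hu).proj ρ 0 y = y
  levi : ∀ k, ρ (lev2 h hu k) y = y

include hV h hψ hu in
omit [FiniteDimensional ℂ M] in
lemma lev_radical_fix {y : M} (hy : (levData hV h hψ hu).proj ρ 0 y = y)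
    (a : H5.pperp (Q.restrict (H5.pperp Q e f)) u g) :
    ρ (kE Q (u : V) ((a : H5.pperp Q e f) : V)) y = y := by
  have h1 := LinearMap.congr_fun ((levData hV h hψ hu).apply_mul_proj ρ 0 a) y
  rw [Module.End.mul_apply, LinearMap.smul_apply, hy] at h1
  rw [show kE Q (u : V) ((a : H5.pperp Q e f) : V) = (levData hV h hψ hu).u a from
    (leviK_kE h hu.left (pperp2_polar a).2.2.1).symm, h1]
  simp [levData, AbelData.map, radData]

include hV h hψ hu in
omit [FiniteDimensional ℂ M] in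
lemma lev_radical_of_fix {y : M}
    (hy : ∀ a : H5.pperp (Q.restrict (H5.pperp Q e f)) u g,
      ρ (kE Q (u : V) ((a : H5.pperp Q e f) : V)) y = y) :
    (levData hV h hψ hu).proj ρ 0 y = y :=
  (levData hV h hψ hu).proj_apply_fixed ρ (fun a => by
    rw [show (levData hV h hψ hu).u a = kE Q (u : V) ((a : H5.pperp Q e f) : V) from
      leviK_kE h hu.left (pperp2_polar a).2.2.1]
    exact hy a) fun a => by simp [levData, AbelData.map, radData]

omit [FiniteDimensional ℂ M] in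
lemma lev2_fix_apply (X : eichGroup Q)
    (hX : ∀ a : H5.pperp (Q.restrict (H5.pperp Q e f)) u g,
      ∃ a' : H5.pperp (Q.restrict (H5.pperp Q e f)) u g,
        ((a' : H5.pperp Q e f) : V) = ((X⁻¹).1 : V ≃ₗ[F] V) ((a : H5.pperp Q e f) : V))
    {x : M} (hx : ∀ k, ρ (lev2 h hu k) x = x) (k) : ρ (lev2 h hu k) (ρ X x) = ρ X x := by
  obtain ⟨k', hk'⟩ := lev2_conj_mem h hu X⁻¹ hX k
  rw [← Module.End.mul_apply, ← map_mul,
    show lev2 h hu k * X = X * lev2 h hu k' by rw [hk']; group, map_mul, Module.End.mul_apply, hx]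

omit [FiniteDimensional ℂ M] [FiniteDimensional F V] [Fintype F] [Fintype V] in
/-- An element mapping the four vectors orthogonally to the inner complement preserves it. -/
lemma pperp2_inv_mem (X : eichGroup Q) (a : H5.pperp (Q.restrict (H5.pperp Q e f)) u g)
    (hX : ∀ y ∈ [e, f, (u : V), (g : V)],
      polar Q ((X.1 : V ≃ₗ[F] V) y) ((a : H5.pperp Q e f) : V) = 0) :
    ∃ a' : H5.pperp (Q.restrict (H5.pperp Q e f)) u g,
      ((a' : H5.pperp Q e f) : V) = ((X⁻¹).1 : V ≃ₗ[F] V) ((a : H5.pperp Q e f) : V) := by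
  have key : ∀ y ∈ [e, f, (u : V), (g : V)],
      polar Q y (((X⁻¹).1 : V ≃ₗ[F] V) ((a : H5.pperp Q e f) : V)) = 0 := fun y hy => by
    rw [← orth_polar X.1, show (X.1 : V ≃ₗ[F] V) (((X⁻¹).1 : V ≃ₗ[F] V) _) = _ from
      orth_apply_inv_apply X.1 _]
    exact hX y hy
  exact pperp2_of_polar (key e (by simp)) (key f (by simp)) (key _ (by simp)) (key _ (by simp))

omit [FiniteDimensional ℂ M] in
/-- Scalings of both pairs permute the inner vectors. -/
lemma Inner.scale {P : Module.End ℂ M} (hP : LeviProj hV.nondeg h hψ ρ P) {y : M}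
    (hy : Inner hV h hψ ρ hu P y) {X : eichGroup Q} {ν l : F} (hν : ν ≠ 0) (hl : l ≠ 0)
    (Xe : (X.1 : V ≃ₗ[F] V) e = ν • e) (Xf : (X.1 : V ≃ₗ[F] V) f = ν⁻¹ • f)
    (Xu : (X.1 : V ≃ₗ[F] V) (u : V) = l • (u : V))
    (Xg : (X.1 : V ≃ₗ[F] V) (g : V) = l⁻¹ • (g : V)) : Inner hV h hψ ρ hu P (ρ X y) := by
  refine ⟨?_, ?_, fun k => ?_⟩
  · rw [← Module.End.mul_apply, ← hP.comm X ν hν Xe Xf, Module.End.mul_apply, hy.mem]
  · rw [← Module.End.mul_apply, ← lev_comm hV h hψ ρ hu hν hl Xe Xf Xu Xg (v := 0) (v' := 0)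
      (by simp), Module.End.mul_apply, hy.radical]
  · refine lev2_fix_apply h ρ hu X (fun a => pperp2_inv_mem X a fun y hy => ?_) hy.levi k
    obtain ⟨a1, a2, a3, a4⟩ := pperp2_polar a
    simp only [List.mem_cons, List.not_mem_nil, or_false] at hy
    rcases hy with rfl | rfl | rfl | rfl <;>
      simp [Xe, Xf, Xu, Xg, polar_smul_left, a1, a2, a3, a4]

end Cfsg.Agent.H39
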