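import Cfsg.Agent.H39.OmegaOddStep

/-!
# With four pairs the double scaling fixes the inner vectors
-/

namespace Cfsg.Agent.H39

open QuadraticMap hiding sq
open Cfsg.Agent.H5
open Finset Module
open scoped Classical commutatorElement

variable {F V : Type*} [Field F] [Fintype F] [AddCommGroup V] [Module F V] [FiniteDimensional F V]
  [Fintype V] {Q : QuadraticForm F V}

variable {j : ℕ} (hV : OddForm Q (j + 3)) {e f : V} (h : HypPair Q e f) {ψ : AddChar F ℂ}
  (hψ : ψ ≠ 1) {M : Type} [AddCommGroup M] [Module ℂ M] [FiniteDimensional ℂ M]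
  (ρ : Representation ℂ (eichGroup Q) M)
  {u g : H5.pperp Q e f} (hu : HypPair (Q.restrict (H5.pperp Q e f)) u g)
  {u₃ g₃ : H5.pperp (Q.restrict (H5.pperp Q e f)) u g}
  (h₃ : HypPair ((Q.restrict (H5.pperp Q e f)).restrict
    (H5.pperp (Q.restrict (H5.pperp Q e f)) u g)) u₃ g₃)
  {u₄ g₄ : H5.pperp ((Q.restrict (H5.pperp Q e f)).restrict
    (H5.pperp (Q.restrict (H5.pperp Q e f)) u g)) u₃ g₃}
  (h₄ : HypPair (((Q.restrict (H5.pperp Q e f)).restrict
    (H5.pperp (Q.restrict (H5.pperp Q e f)) u g)).restrict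
      (H5.pperp ((Q.restrict (H5.pperp Q e f)).restrict
        (H5.pperp (Q.restrict (H5.pperp Q e f)) u g)) u₃ g₃)) u₄ g₄)
  {μ : F} (hμ : FieldGen μ)
  (hiso : ∀ v : H5.pperp Q e f, Q (v : V) ≠ 0 → (radData hV.nondeg h ψ hψ).dim ρ v = 0)
  (hone : ∀ v : H5.pperp Q e f, v ≠ 0 → Q (v : V) = 0 → (radData hV.nondeg h ψ hψ).dim ρ v = 1)
  {P : Module.End ℂ M} (hP : LeviProj hV.nondeg h hψ ρ P)

include hV h hψ hu h₃ h₄ hμ hiso hone hP in
/-- The double scaling fixes the lines of the inner radical at the fourth pair. -/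
theorem line_phase_one {γ : F} (hγ : γ ≠ 0) {y : M} (hy : P y = y) :
    ρ (bothEl Q e f ((u₃ : H5.pperp Q e f) : V) ((g₃ : H5.pperp Q e f) : V) μ)
        ((levData hV h hψ hu).proj ρ (γ • (u₄ : H5.pperp (Q.restrict (H5.pperp Q e f)) u g)) y) =
      (levData hV h hψ hu).proj ρ (γ • (u₄ : H5.pperp (Q.restrict (H5.pperp Q e f)) u g)) y := by
  set D := radData hV.nondeg h ψ hψ with hD
  set L := levData hV h hψ hu with hL
  have hμ0 := hμ.ne_zero
  obtain ⟨W4, hW4⟩ : ∃ W4 : H5.pperp (Q.restrict (H5.pperp Q e f)) u g, W4 = u₄ := ⟨_, rfl⟩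
  obtain ⟨X4, hX4⟩ : ∃ X4 : H5.pperp (Q.restrict (H5.pperp Q e f)) u g, X4 = g₄ := ⟨_, rfl⟩
  obtain ⟨T, T13, T23⟩ := step_frames h hu h₃
  have h4' := hypPair_coe h₄
  rw [← hW4, ← hX4] at h4'
  obtain ⟨-, T14, T24⟩ := step_frames h hu h4'
  have T34 : TwoPairs Q ((u₃ : H5.pperp Q e f) : V) ((g₃ : H5.pperp Q e f) : V)
      ((W4 : H5.pperp Q e f) : V) ((X4 : H5.pperp Q e f) : V) := by
    rw [hW4, hX4]; exact (twoPairs_of_perp h₃ h₄).coe.coe
  rw [← hW4]
  obtain ⟨⟨eu, ue, fu, uf⟩, ⟨eg, ge, fg, gf⟩, ⟨ef, fe, ug, gu⟩⟩ := T.polars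
  obtain ⟨⟨e3, a3e, f3, a3f⟩, ⟨e3', b3e, f3', b3f⟩, -⟩ := T13.polars
  obtain ⟨⟨u3, a3u, g3, a3g⟩, ⟨u3', b3u, g3', b3g⟩, -⟩ := T23.polars
  obtain ⟨⟨e4, a4e, f4, a4f⟩, ⟨e4', b4e, f4', b4f⟩, ⟨-, -, ab4, ba4⟩⟩ := T14.polars
  obtain ⟨⟨u4, a4u, g4, a4g⟩, ⟨u4', b4u, g4', b4g⟩, -⟩ := T24.polars
  obtain ⟨⟨p34, q34, r34, s34⟩, ⟨p34', q34', r34', s34'⟩, -⟩ := T34.polars
  obtain ⟨G13, hG13⟩ : ∃ X, X = bothEl Q e f ((u₃ : H5.pperp Q e f) : V)
    ((g₃ : H5.pperp Q e f) : V) μ := ⟨_, rfl⟩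
  obtain ⟨G24, hG24⟩ : ∃ X, X = bothEl Q (u : V) g ((W4 : H5.pperp Q e f) : V)
    ((X4 : H5.pperp Q e f) : V) μ := ⟨_, rfl⟩
  obtain ⟨G14, hG14⟩ : ∃ X, X = bothEl Q e f ((W4 : H5.pperp Q e f) : V)
    ((X4 : H5.pperp Q e f) : V) μ := ⟨_, rfl⟩
  obtain ⟨G23, hG23⟩ : ∃ X, X = bothEl Q (u : V) g ((u₃ : H5.pperp Q e f) : V)
    ((g₃ : H5.pperp Q e f) : V) μ := ⟨_, rfl⟩
  obtain ⟨S, hSd⟩ : ∃ S, S = swapEl Q e f (u : V) g 1 := ⟨_, rfl⟩
  obtain ⟨a1, a2, a3, a4, a5⟩ := bothEl_apply T13 hμ0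
  obtain ⟨b1, b2, b3, b4, b5⟩ := bothEl_apply T24 hμ0
  obtain ⟨c1, c2, c3, c4, c5⟩ := bothEl_apply T14 hμ0
  obtain ⟨d1, d2, d3, d4, d5⟩ := bothEl_apply T23 hμ0
  obtain ⟨S1, S2, S3, S4, S5⟩ := swapEl_apply T (one_ne_zero (α := F))
  rw [← hG13] at a1 a2 a3 a4
  rw [← hG24] at b1 b2 b3 b4
  rw [← hG14] at c1 c2 c3 c4
  rw [← hG23] at d1 d2 d3 d4
  rw [← hSd, one_smul] at S2 S3
  rw [← hSd, inv_one, one_smul] at S1 S4
  have a5' : ∀ x, polar Q e x = 0 → polar Q f x = 0 → polar Q ((u₃ : H5.pperp Q e f) : V) x = 0 →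
      polar Q ((g₃ : H5.pperp Q e f) : V) x = 0 → (G13.1 : V ≃ₗ[F] V) x = x := fun x => by
    rw [hG13]; exact a5 x
  have b5' : ∀ x, polar Q (u : V) x = 0 → polar Q (g : V) x = 0 →
      polar Q ((W4 : H5.pperp Q e f) : V) x = 0 → polar Q ((X4 : H5.pperp Q e f) : V) x = 0 →
        (G24.1 : V ≃ₗ[F] V) x = x := fun x => by rw [hG24]; exact b5 x
  have c5' : ∀ x, polar Q e x = 0 → polar Q f x = 0 → polar Q ((W4 : H5.pperp Q e f) : V) x = 0 →
      polar Q ((X4 : H5.pperp Q e f) : V) x = 0 → (G14.1 : V ≃ₗ[F] V) x = x := fun x => by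
    rw [hG14]; exact c5 x
  have d5' : ∀ x, polar Q (u : V) x = 0 → polar Q (g : V) x = 0 →
      polar Q ((u₃ : H5.pperp Q e f) : V) x = 0 → polar Q ((g₃ : H5.pperp Q e f) : V) x = 0 →
        (G23.1 : V ≃ₗ[F] V) x = x := fun x => by rw [hG23]; exact d5 x
  have S5' : ∀ x, polar Q e x = 0 → polar Q f x = 0 → polar Q (u : V) x = 0 →
      polar Q (g : V) x = 0 → (S.1 : V ≃ₗ[F] V) x = x := fun x => by rw [hSd]; exact S5 x
  -- the product in two ways
  obtain ⟨K, hK⟩ : ∃ K, K = G13 * G24 := ⟨_, rfl⟩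
  have Ke : (K.1 : V ≃ₗ[F] V) e = μ • e := by
    rw [hK, eichGroup_mul_apply, b5' e ue ge a4e b4e, a1]
  have Kf : (K.1 : V ≃ₗ[F] V) f = μ⁻¹ • f := by
    rw [hK, eichGroup_mul_apply, b5' f uf gf a4f b4f, a2]
  have Ku : (K.1 : V ≃ₗ[F] V) (u : V) = μ • (u : V) := by
    rw [hK, eichGroup_mul_apply, b1, map_smul, a5' _ eu fu a3u b3u]
  have Kg : (K.1 : V ≃ₗ[F] V) (g : V) = μ⁻¹ • (g : V) := by
    rw [hK, eichGroup_mul_apply, b2, map_smul, a5' _ eg fg a3g b3g]
  have Kb4 : (K.1 : V ≃ₗ[F] V) ((X4 : H5.pperp Q e f) : V) = μ⁻¹ • ((X4 : H5.pperp Q e f) : V) := by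
    rw [hK, eichGroup_mul_apply, b4, map_smul, a5' _ e4' f4' p34' r34']
  have hK2 : K = G14 * G23 := by
    refine quad_ext T T13 T23 T14 T24 T34 (fun x hx => ?_) fun x hx => ?_
    · simp only [List.mem_cons, List.not_mem_nil, or_false] at hx
      rw [eichGroup_mul_apply]
      rcases hx with hh | hh | hh | hh | hh | hh | hh | hh <;> rw [hh]
      · rw [Ke, d5' e ue ge a3e b3e, c1]
      · rw [Kf, d5' f uf gf a3f b3f, c2]
      · rw [Ku, d1, map_smul, c5' _ eu fu a4u b4u]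
      · rw [Kg, d2, map_smul, c5' _ eg fg a4g b4g]
      · rw [hK, eichGroup_mul_apply, b5' _ u3 g3 q34 q34', a3, d3, map_smul, c5' _ e3 f3 q34 q34']
      · rw [hK, eichGroup_mul_apply, b5' _ u3' g3' s34 s34', a4, d4, map_smul, c5' _ e3' f3' s34 s34']
      · rw [hK, eichGroup_mul_apply, b3, map_smul, a5' _ e4 f4 p34 r34, d5' _ u4 g4 p34 r34, c3]
      · rw [Kb4, d5' _ u4' g4' p34' r34', c4]
    · rw [hK, eichGroup_mul_apply, eichGroup_mul_apply,
        b5' x (hx _ (by simp)) (hx _ (by simp)) (hx _ (by simp)) (hx _ (by simp)),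
        a5' x (hx _ (by simp)) (hx _ (by simp)) (hx _ (by simp)) (hx _ (by simp)),
        d5' x (hx _ (by simp)) (hx _ (by simp)) (hx _ (by simp)) (hx _ (by simp)),
        c5' x (hx _ (by simp)) (hx _ (by simp)) (hx _ (by simp)) (hx _ (by simp))]
  have hKS : K * S = S * K := by
    refine T.ext ?_ ?_ ?_ ?_ fun x x1 x2 x3 x4 => ?_ <;> simp only [eichGroup_mul_apply]
    · rw [S1, Ku, Ke, map_smul, S1]
    · rw [S3, Kg, Kf, map_smul, S3]
    · rw [S2, map_neg, Ke, Ku, map_smul, S2, smul_neg]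
    · rw [S4, map_neg, Kf, Kg, map_smul, S4, smul_neg]
    · rw [S5' x x1 x2 x3 x4, S5']
      · have := orth_polar K.1 e x
        rw [Ke, polar_smul_left, x1, smul_eq_mul, mul_eq_zero, or_iff_right hμ0] at this
        exact this
      · have := orth_polar K.1 f x
        rw [Kf, polar_smul_left, x2, smul_eq_mul, mul_eq_zero, or_iff_right (inv_ne_zero hμ0)] at this
        exact this
      · have := orth_polar K.1 (u : V) x
        rw [Ku, polar_smul_left, x3, smul_eq_mul, mul_eq_zero, or_iff_right hμ0] at this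
        exact this
      · have := orth_polar K.1 (g : V) x
        rw [Kg, polar_smul_left, x4, smul_eq_mul, mul_eq_zero, or_iff_right (inv_ne_zero hμ0)] at this
        exact this
  set ξ := L.proj ρ (γ • W4) y with hξ
  have hξ24 : ρ G24 ξ = -ξ := by
    rw [hG24, hξ]
    exact LeviProj.line hV h hψ ρ hu hP hiso hone h4' hμ hγ hy
  have hξ0 : D.proj ρ 0 ξ = ξ := by
    have hc : D.proj ρ 0 * L.proj ρ (γ • W4) = L.proj ρ (γ • W4) * D.proj ρ 0 := by
      have hL' : L.proj ρ (γ • W4) = (Fintype.card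
          (H5.pperp (Q.restrict (H5.pperp Q e f)) u g) : ℂ)⁻¹ •
            ∑ a, L.χ (γ • W4) (-a) • ρ (L.u a) := rfl
      simp only [hL', mul_smul_comm, smul_mul_assoc, Finset.mul_sum, Finset.sum_mul]
      congr 1
      exact Finset.sum_congr rfl fun a _ => by
        congr 1
        exact (rad_zero_comm hV.nondeg h hψ ρ (L.u a) 1 one_ne_zero
          (by rw [one_smul]; exact orthExt_left h _)
          (by rw [inv_one, one_smul]; exact orthExt_right h _)).symm
    rw [hξ, ← Module.End.mul_apply, hc, Module.End.mul_apply,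
      show D.proj ρ 0 y = y by conv_lhs => rw [← hy, ← Module.End.mul_apply, hP.le, hy]]
  set η := ρ S ξ with hη
  have hSie : ((S⁻¹).1 : V ≃ₗ[F] V) e = (-1 : F) • (u : V) :=
    eichGroup_inv_apply_of_eq (by simp [S2])
  have hηa : ∀ a : H5.pperp (Q.restrict (H5.pperp Q e f)) u g,
      ρ (kE Q e ((a : H5.pperp Q e f) : V)) η =
        ψ (-(γ * polar Q ((W4 : H5.pperp Q e f) : V) ((a : H5.pperp Q e f) : V))) • η := by
    intro a
    obtain ⟨p1, p2, p3, p4⟩ := pperp2_polar a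
    rw [hη, ← Module.End.mul_apply, ← map_mul,
      show kE Q e ((a : H5.pperp Q e f) : V) * S =
        S * (S⁻¹ * kE Q e ((a : H5.pperp Q e f) : V) * (S⁻¹)⁻¹) by group, kE_conj, hSie,
      eichGroup_inv_apply_of_eq (S5' _ p1 p2 p3 p4), kE_smul_smul T.snd.left p3, map_mul,
      Module.End.mul_apply, show kE Q (u : V) ((-1 : F) • ((a : H5.pperp Q e f) : V)) =
        L.u ((-1 : F) • a) from (leviK_kE h hu.left (pperp2_polar ((-1 : F) • a)).2.2.1).symm,
      hξ, ← Module.End.mul_apply (ρ (L.u _)), L.apply_mul_proj, LinearMap.smul_apply, map_smul]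
    congr 1
    simp [hL, levData, AbelData.map, radData, polar_smul_left, polar_smul_right, polar_restrict]
  have hηu : ∀ t : F, ρ (kE Q e (t • (u : V))) η = η := by
    intro t
    rw [hη, ← Module.End.mul_apply, ← map_mul,
      show kE Q e (t • (u : V)) * S = S * (S⁻¹ * kE Q e (t • (u : V)) * (S⁻¹)⁻¹) by group, kE_conj,
      hSie, eichGroup_inv_apply_of_eq (show (S.1 : V ≃ₗ[F] V) (t • e) = t • (u : V) by
        rw [map_smul, S1]),
      kE_smul_smul T.snd.left (by rw [polar_smul_right, ue, smul_zero]), smul_smul,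
      kE_anti T.snd.left (by rw [QuadraticMap.map_smul, h.left, smul_zero])
        (by rw [polar_smul_right, ue, smul_zero]),
      kE_smul_smul h.left (by rw [polar_neg_right, eu, neg_zero]),
      show ((-1 : F) * t) • -(u : V) = t • (u : V) by simp, map_mul, Module.End.mul_apply,
      radical_fix hV h hψ ρ hξ0 (Submodule.smul_mem _ _ u.2)]
  have hKη : ρ K η = -η := by
    have key : ∀ v : H5.pperp Q e f, ρ K (D.proj ρ v η) = -D.proj ρ v η := by
      intro v
      by_cases hne : D.proj ρ v η = 0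
      · rw [hne, map_zero, neg_zero]
      have hQv : Q (v : V) = 0 := by
        by_contra hQv
        exact hne (by rw [AbelData.proj_eq_zero_of_dim ρ D (hiso v hQv)]; rfl)
      obtain ⟨b, hb⟩ := AddChar.ne_one_iff.1 hψ
      have hvu : polar Q (v : V) (u : V) = 0 := by
        by_contra h0
        refine hne (D.proj_apply_zero ρ (a := (b / polar Q (v : V) (u : V)) • u) (c := 1)
          (by rw [one_smul]; exact hηu _) ?_)
        simpa [D, radData, polar_smul_right, div_mul_cancel₀ b h0] using hb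
      have hva : ∀ a : H5.pperp (Q.restrict (H5.pperp Q e f)) u g,
          polar Q (v : V) ((a : H5.pperp Q e f) : V) +
            γ * polar Q ((W4 : H5.pperp Q e f) : V) ((a : H5.pperp Q e f) : V) = 0 := by
        intro a
        by_contra h0
        set t := b / (polar Q (v : V) ((a : H5.pperp Q e f) : V) +
            γ * polar Q ((W4 : H5.pperp Q e f) : V) ((a : H5.pperp Q e f) : V)) with ht
        refine hne (D.proj_apply_zero ρ (a := ((t • a : H5.pperp (Q.restrict (H5.pperp Q e f)) u g) :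
          H5.pperp Q e f)) (hηa (t • a)) ?_)
        simp only [D, radData, radChar_apply, Submodule.coe_smul, polar_smul_right, smul_eq_mul]
        intro heq
        have h5 : ψ (t * polar Q (v : V) ((a : H5.pperp Q e f) : V)) *
            ψ (γ * (t * polar Q ((W4 : H5.pperp Q e f) : V) ((a : H5.pperp Q e f) : V))) = 1 := by
          rw [heq, ← AddChar.map_add_eq_mul, neg_add_cancel, AddChar.map_zero_eq_one]
        rw [← AddChar.map_add_eq_mul,
          show t * polar Q (v : V) ((a : H5.pperp Q e f) : V) +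
            γ * (t * polar Q ((W4 : H5.pperp Q e f) : V) ((a : H5.pperp Q e f) : V)) =
            t * (polar Q (v : V) ((a : H5.pperp Q e f) : V) +
              γ * polar Q ((W4 : H5.pperp Q e f) : V) ((a : H5.pperp Q e f) : V)) by ring,
          ht, div_mul_cancel₀ b h0] at h5
        exact hb h5
      -- the character is the shear of a multiple of the fourth vector
      set al := polar Q (g : V) (v : V) with hal
      have hv : v = al • u + (-γ) • (W4 : H5.pperp Q e f) := by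
        refine sub_eq_zero.1 (eq_zero_of_polar_pperp hV.nondeg h fun w => ?_)
        have hd := pair_decomp hu w
        have h1 := hva (perpProj hu w)
        obtain ⟨p1, p2, p3, p4⟩ := pperp2_polar (perpProj hu w)
        rw [hd]
        simp only [Submodule.coe_add, Submodule.coe_smul, Submodule.coe_sub, polar_sub_left,
          polar_add_left, polar_smul_left, polar_add_right, polar_smul_right, polar_self',
          T.snd.left, hvu, ug, polar_comm (⇑Q) (v : V) (g : V), ← hal, a4u, a4g, p3, p4, smul_eq_mul]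
        linear_combination h1
      obtain ⟨X, hX⟩ : ∃ X, X = kE Q (u : V) ((al / γ) • ((X4 : H5.pperp Q e f) : V)) := ⟨_, rfl⟩
      have hxp : polar Q (u : V) ((al / γ) • ((X4 : H5.pperp Q e f) : V)) = 0 := by
        rw [polar_smul_right, u4', smul_zero]
      have Xe : (X.1 : V ≃ₗ[F] V) e = e := by
        rw [hX]; exact kE_fix T.snd.left hxp ue (by rw [polar_smul_left, b4e, smul_zero])
      have Xf : (X.1 : V ≃ₗ[F] V) f = f := by
        rw [hX]; exact kE_fix T.snd.left hxp uf (by rw [polar_smul_left, b4f, smul_zero])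
      set v0 : H5.pperp Q e f := (-γ) • (W4 : H5.pperp Q e f) with hv0
      have hXv : (v : V) = (X.1 : V ≃ₗ[F] V) (v0 : V) := by
        rw [hv, hX, kE_apply T.snd.left hxp, hv0]
        simp only [Submodule.coe_add, Submodule.coe_smul, polar_smul_right, polar_smul_left, u4,
          ba4, smul_eq_mul]
        match_scalars <;> field_simp <;> ring
      have hXc := rad_comm_fix hV.nondeg h hψ ρ Xe Xf hXv
      have hKX : K * X = X * K := by
        rw [← mul_inv_eq_iff_eq_mul, hX, kE_conj, Ku, map_smul, Kb4,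
          kE_smul_smul T.snd.left (by rw [polar_smul_right, polar_smul_right, u4', smul_zero, smul_zero]),
          smul_smul, smul_smul]
        congr 2
        field_simp
      have hQ0 : Q (v0 : V) = 0 := by
        rw [hv0, Submodule.coe_smul, QuadraticMap.map_smul, T14.snd.left, smul_zero]
      have hv00 : v0 ≠ 0 := by
        refine smul_ne_zero (neg_ne_zero.2 hγ) fun h0 => ?_
        exact T14.snd.ne_zero (congrArg Subtype.val h0)
      have h14 : ρ G14 * D.proj ρ v0 = -D.proj ρ v0 := by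
        rw [hG14, hv0]
        exact line_sign hV h hψ ρ hiso hone (k := j + 1) (u := (W4 : H5.pperp Q e f))
          (g := (X4 : H5.pperp Q e f)) (hypPair_coe h4') hμ (neg_ne_zero.2 hγ)
      have h23 : ρ G23 * D.proj ρ v0 = D.proj ρ v0 := by
        rw [hG23]
        refine phase_bothEl hV h hψ ρ (k := j + 1) (hone v0 hv00 hQ0) T23 hμ fun z hz => ?_
        simp only [List.mem_cons, List.not_mem_nil, or_false] at hz
        rcases hz with hh | hh | hh <;> rw [hh]
        · exact ⟨ue, ge, a3e, b3e⟩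
        · exact ⟨uf, gf, a3f, b3f⟩
        · simp [hv0, polar_smul_right, u4, g4, p34, r34]
      have hKv0 : ρ K * D.proj ρ v0 = -D.proj ρ v0 := by
        rw [hK2, map_mul, mul_assoc, h23, h14]
      have hKv : ρ K * D.proj ρ v * ρ X = -D.proj ρ v * ρ X := by
        rw [mul_assoc, ← hXc, ← mul_assoc, ← map_mul, hKX, map_mul, mul_assoc, hKv0, mul_neg, hXc,
          neg_mul]
      have hKv' : ρ K * D.proj ρ v = -D.proj ρ v := by
        have := congrArg (· * ρ X⁻¹) hKv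
        simp only [mul_assoc, ← map_mul, mul_inv_cancel, map_one, mul_one] at this
        exact this
      rw [← Module.End.mul_apply, hKv']
      rfl
    conv_lhs => rw [← D.sum_proj_apply ρ η, map_sum]
    rw [Finset.sum_congr rfl fun v _ => key v, Finset.sum_neg_distrib, D.sum_proj_apply]
  have hKξ : ρ K ξ = -ξ := by
    have h1 : ρ S (ρ K ξ) = ρ S (-ξ) := by
      rw [map_neg, ← Module.End.mul_apply, ← map_mul, ← hKS, map_mul, Module.End.mul_apply, ← hη,
        hKη]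
    have hSinv : ∀ z, ρ S⁻¹ (ρ S z) = z := fun z => by
      rw [← Module.End.mul_apply, ← map_mul, inv_mul_cancel, map_one, Module.End.one_apply]
    have h2 := congrArg (ρ S⁻¹) h1
    rwa [hSinv, hSinv] at h2
  rw [hK, map_mul, Module.End.mul_apply, hξ24, map_neg, neg_inj] at hKξ
  rw [← hG13]
  exact hKξ

include hV h hψ hu h₃ h₄ hμ hiso hone hP in
/-- The double scaling fixes the inner vectors. -/
theorem Inner.scale_one (hnf : ∀ y, P y = y → (∀ k, ρ (leviK h k) y = y) → y = 0) {y : M}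
    (hy : Inner hV h hψ ρ hu P y) :
    ρ (bothEl Q e f ((u₃ : H5.pperp Q e f) : V) ((g₃ : H5.pperp Q e f) : V) μ) y = y := by
  set L := levData hV h hψ hu with hL
  have hμ0 := hμ.ne_zero
  obtain ⟨W4, hW4⟩ : ∃ W4 : H5.pperp (Q.restrict (H5.pperp Q e f)) u g, W4 = u₄ := ⟨_, rfl⟩
  obtain ⟨X4, hX4⟩ : ∃ X4 : H5.pperp (Q.restrict (H5.pperp Q e f)) u g, X4 = g₄ := ⟨_, rfl⟩
  obtain ⟨T, T13, T23⟩ := step_frames h hu h₃
  have h4' := hypPair_coe h₄
  rw [← hW4, ← hX4] at h4'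
  obtain ⟨-, T14, T24⟩ := step_frames h hu h4'
  have T34 : TwoPairs Q ((u₃ : H5.pperp Q e f) : V) ((g₃ : H5.pperp Q e f) : V)
      ((W4 : H5.pperp Q e f) : V) ((X4 : H5.pperp Q e f) : V) := by
    rw [hW4, hX4]; exact (twoPairs_of_perp h₃ h₄).coe.coe
  obtain ⟨⟨eu, ue, fu, uf⟩, ⟨eg, ge, fg, gf⟩, ⟨ef, fe, ug, gu⟩⟩ := T.polars
  obtain ⟨⟨e3, a3e, f3, a3f⟩, ⟨e3', b3e, f3', b3f⟩, -⟩ := T13.polars
  obtain ⟨⟨u3, a3u, g3, a3g⟩, ⟨u3', b3u, g3', b3g⟩, -⟩ := T23.polars
  obtain ⟨⟨e4, a4e, f4, a4f⟩, ⟨e4', b4e, f4', b4f⟩, -⟩ := T14.polars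
  obtain ⟨⟨u4, a4u, g4, a4g⟩, ⟨u4', b4u, g4', b4g⟩, -⟩ := T24.polars
  obtain ⟨⟨p34, q34, r34, s34⟩, ⟨p34', q34', r34', s34'⟩, -⟩ := T34.polars
  obtain ⟨a1, a2, a3, a4, a5⟩ := bothEl_apply T13 hμ0
  obtain ⟨R1, R2, R3, R4, R5⟩ := flipEl_apply T24
  obtain ⟨G, hG⟩ : ∃ X, X = bothEl Q e f ((u₃ : H5.pperp Q e f) : V)
    ((g₃ : H5.pperp Q e f) : V) μ := ⟨_, rfl⟩
  obtain ⟨R, hR⟩ : ∃ X, X = flipEl Q (u : V) g ((W4 : H5.pperp Q e f) : V)
    ((X4 : H5.pperp Q e f) : V) := ⟨_, rfl⟩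
  rw [← hG] at a1 a2 a3 a4
  rw [← hR] at R1 R2 R3 R4
  rw [← hG]
  have a5' : ∀ x, polar Q e x = 0 → polar Q f x = 0 → polar Q ((u₃ : H5.pperp Q e f) : V) x = 0 →
      polar Q ((g₃ : H5.pperp Q e f) : V) x = 0 → (G.1 : V ≃ₗ[F] V) x = x := fun x => by
    rw [hG]; exact a5 x
  have R5' : ∀ x, polar Q (u : V) x = 0 → polar Q (g : V) x = 0 →
      polar Q ((W4 : H5.pperp Q e f) : V) x = 0 → polar Q ((X4 : H5.pperp Q e f) : V) x = 0 →
        (R.1 : V ≃ₗ[F] V) x = x := fun x => by rw [hR]; exact R5 x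
  have Gu : (G.1 : V ≃ₗ[F] V) (u : V) = (1 : F) • (u : V) := by
    rw [a5' _ eu fu a3u b3u, one_smul]
  have Gg : (G.1 : V ≃ₗ[F] V) (g : V) = (1 : F)⁻¹ • (g : V) := by
    rw [a5' _ eg fg a3g b3g, inv_one, one_smul]
  have Re : (R.1 : V ≃ₗ[F] V) e = e := R5' e ue ge a4e b4e
  have Rf : (R.1 : V ≃ₗ[F] V) f = f := R5' f uf gf a4f b4f
  have hGR : G * R = R * G := by
    refine quad_ext T T13 T23 T14 T24 T34 (fun x hx => ?_) fun x hx => ?_
    · simp only [List.mem_cons, List.not_mem_nil, or_false] at hx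
      rw [eichGroup_mul_apply, eichGroup_mul_apply]
      rcases hx with hh | hh | hh | hh | hh | hh | hh | hh <;> rw [hh]
      · rw [Re, a1, map_smul, Re]
      · rw [Rf, a2, map_smul, Rf]
      · rw [R1, map_neg, a5' _ eg fg a3g b3g, a5' _ eu fu a3u b3u, R1]
      · rw [R2, map_neg, a5' _ eu fu a3u b3u, a5' _ eg fg a3g b3g, R2]
      · rw [R5' _ u3 g3 q34 q34', a3, map_smul, R5' _ u3 g3 q34 q34']
      · rw [R5' _ u3' g3' s34 s34', a4, map_smul, R5' _ u3' g3' s34 s34']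
      · rw [R3, map_neg, a5' _ e4' f4' p34' r34', a5' _ e4 f4 p34 r34, R3]
      · rw [R4, map_neg, a5' _ e4 f4 p34 r34, a5' _ e4' f4' p34' r34', R4]
    · rw [eichGroup_mul_apply, eichGroup_mul_apply,
        R5' x (hx _ (by simp)) (hx _ (by simp)) (hx _ (by simp)) (hx _ (by simp)),
        a5' x (hx _ (by simp)) (hx _ (by simp)) (hx _ (by simp)) (hx _ (by simp)),
        R5' x (hx _ (by simp)) (hx _ (by simp)) (hx _ (by simp)) (hx _ (by simp))]
  have hGy := hy.scale hV h hψ ρ hu hP hμ0 one_ne_zero a1 a2 Gu Gg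
  set d := ρ G y - y with hd
  set z := ρ R d with hz
  have hRP : ρ R * P = P * ρ R :=
    hP.comm R 1 one_ne_zero (by rw [one_smul]; exact Re) (by rw [inv_one, one_smul]; exact Rf)
  have hdP : P d = d := by rw [hd, map_sub, hy.mem, hGy.mem]
  have hzP : P z = z := by rw [hz, ← Module.End.mul_apply, ← hRP, Module.End.mul_apply, hdP]
  have hdK : ∀ k, ρ (lev2 h hu k) d = d := fun k => by rw [hd, map_sub, hy.levi, hGy.levi]
  have hRperp : ∀ a : H5.pperp (Q.restrict (H5.pperp Q e f)) u g,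
      ∃ a' : H5.pperp (Q.restrict (H5.pperp Q e f)) u g,
        ((a' : H5.pperp Q e f) : V) = ((R⁻¹).1 : V ≃ₗ[F] V) ((a : H5.pperp Q e f) : V) := by
    intro a
    refine pperp2_inv_mem R a fun x hx => ?_
    obtain ⟨q1, q2, q3, q4⟩ := pperp2_polar a
    simp only [List.mem_cons, List.not_mem_nil, or_false] at hx
    rcases hx with hh | hh | hh | hh <;> rw [hh]
    · rw [Re, q1]
    · rw [Rf, q2]
    · rw [R1, polar_neg_left, q4, neg_zero]
    · rw [R2, polar_neg_left, q3, neg_zero]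
  have hzK : ∀ k, ρ (lev2 h hu k) z = z := lev2_fix_apply h ρ hu R hRperp hdK
  have hzg : ∀ a : H5.pperp (Q.restrict (H5.pperp Q e f)) u g,
      ρ (kE Q (g : V) ((a : H5.pperp Q e f) : V)) z = z := by
    intro a
    obtain ⟨a', ha'⟩ := hRperp a
    rw [hz, ← Module.End.mul_apply, ← map_mul,
      show kE Q (g : V) ((a : H5.pperp Q e f) : V) * R =
        R * (R⁻¹ * kE Q (g : V) ((a : H5.pperp Q e f) : V) * (R⁻¹)⁻¹) by group, kE_conj,
      eichGroup_inv_apply_of_eq (show (R.1 : V ≃ₗ[F] V) ((-1 : F) • (u : V)) = (g : V) by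
        simp [R1]), ← ha', kE_smul_smul T.snd.left (pperp2_polar a').2.2.1, map_mul,
      Module.End.mul_apply]
    congr 1
    rw [show ((-1 : F) • ((a' : H5.pperp Q e f) : V)) =
      ((((-1 : F) • a' : H5.pperp (Q.restrict (H5.pperp Q e f)) u g) : H5.pperp Q e f) : V) from rfl,
      hd, map_sub, lev_radical_fix hV h hψ ρ hu hy.radical,
      lev_radical_fix hV h hψ ρ hu hGy.radical]
  have hline : ∀ γ : F, γ ≠ 0 → L.proj ρ (γ • W4) z = 0 := by
    intro γ hγ
    have hc := lev_comm hV h hψ ρ hu (X := G) hμ0 one_ne_zero a1 a2 Gu Gg (v := γ • W4)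
      (v' := γ • W4) (by
        rw [inv_one, one_smul]
        show γ • ((W4 : H5.pperp Q e f) : V) = _
        rw [show (((γ • W4 : H5.pperp (Q.restrict (H5.pperp Q e f)) u g) : H5.pperp Q e f) : V) =
          γ • ((W4 : H5.pperp Q e f) : V) from rfl, map_smul, a5' _ e4 f4 p34 r34])
    have hRy : P (ρ R y) = ρ R y := by
      rw [← Module.End.mul_apply, ← hRP, Module.End.mul_apply, hy.mem]
    have h1 := line_phase_one hV h hψ ρ hu h₃ h₄ hμ hiso hone hP hγ hRy
    rw [← hG, ← hW4, ← Module.End.mul_apply, hc, Module.End.mul_apply] at h1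
    rw [hz, hd, map_sub, map_sub, ← Module.End.mul_apply (ρ R), ← map_mul, ← hGR, map_mul,
      Module.End.mul_apply, h1, sub_self]
  have hW2 := (hV.pperp h).pperp hu
  have hz0 : L.proj ρ 0 z = z := by
    conv_rhs => rw [← L.sum_proj_apply ρ z]
    rw [Finset.sum_eq_single 0 (fun v _ hv => ?_) (by simp)]
    by_cases hQv : Q ((v : H5.pperp Q e f) : V) = 0
    · obtain ⟨b, hb, t, ht, hbv⟩ := exists_pairGroup_map hW2.nondeg (by rw [hW2.dim]; omega) h4' hv
        (by rw [QuadraticMap.restrict_apply, QuadraticMap.restrict_apply]; exact hQv)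
      rw [pairGroup_eq_eichGroup hW2.nondeg (by rw [hW2.dim]; omega) h4'] at hb
      obtain ⟨k1, k2, k3, k4⟩ := lev2_fix h hu ⟨b, hb⟩
      have hc := lev_comm hV h hψ ρ hu (X := lev2 h hu ⟨b, hb⟩) one_ne_zero one_ne_zero
        (by rw [one_smul]; exact k1) (by rw [inv_one, one_smul]; exact k2)
        (by rw [one_smul]; exact k3) (by rw [inv_one, one_smul]; exact k4) (v := v)
        (v' := t • W4) (by
          rw [inv_one, one_smul, lev2_apply, leviK_coe, leviK_coe]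
          exact congrArg Subtype.val (congrArg Subtype.val hbv.symm))
      have h2 := LinearMap.congr_fun hc z
      rw [Module.End.mul_apply, Module.End.mul_apply, hzK, hline t ht] at h2
      rw [← Module.End.one_apply (R := ℂ) (L.proj ρ v z), ← map_one ρ,
        ← inv_mul_cancel (lev2 h hu ⟨b, hb⟩), map_mul, Module.End.mul_apply, h2, map_zero]
    · obtain ⟨hi, -⟩ := LeviProj.single hV h hψ ρ hu hP hiso hone
      have h1 := AbelData.proj_eq_zero_of_dim hP.rep (radData (hV.pperp h).nondeg hu ψ hψ)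
        (hi v (by rw [QuadraticMap.restrict_apply]; exact hQv))
      have h2 := congrArg Subtype.val (LinearMap.congr_fun h1 ⟨z, z, hzP⟩)
      rw [hP.proj_coe] at h2
      exact h2
  have hfix := fixed_of_root_groups hu (ρ.comp (leviK h)) (x := z)
    (fun a ha => by
      show ρ (leviK h (kE (Q.restrict (H5.pperp Q e f)) u a)) z = z
      rw [leviK_kE h hu.left (pperp2_polar ⟨a, ha⟩).2.2.1]
      exact lev_radical_fix hV h hψ ρ hu hz0 ⟨a, ha⟩)
    (fun a ha => by
      show ρ (leviK h (kE (Q.restrict (H5.pperp Q e f)) g a)) z = z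
      rw [leviK_kE h hu.right (pperp2_polar ⟨a, ha⟩).2.2.2]
      exact hzg ⟨a, ha⟩)
    (by rw [(hV.pperp h).dim]; omega) (hV.pperp h).nondeg
  have hz00 : z = 0 := hnf z hzP hfix
  have hd0 : d = 0 := by
    rw [← Module.End.one_apply (R := ℂ) d, ← map_one ρ, ← inv_mul_cancel R, map_mul,
      Module.End.mul_apply, ← hz, hz00, map_zero]
  rwa [hd, sub_eq_zero] at hd0

end Cfsg.Agent.H39
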