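import Cfsg.Agent.H39.OmegaOddFrame

/-!
# Inner vectors vanish when the Levi group has no fixed vector
-/

namespace Cfsg.Agent.H39

open QuadraticMap hiding sq
open Cfsg.Agent.H5
open Finset Module
open scoped Classical commutatorElement

variable {F V : Type*} [Field F] [Fintype F] [AddCommGroup V] [Module F V] [FiniteDimensional F V]
  [Fintype V] {Q : QuadraticForm F V}

variable {j : ℕ} (hV : OddForm Q (j + 3)) {e f : V} (h : HypPair Q e f) {ψ : AddChar F ℂ}
  (hψ : ψ ≠ 1) {M : Type} [AddCommGroup M] [Module ℂ M] [FiniteDimensional ℂ M]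
  (ρ : Representation ℂ (eichGroup Q) M)
  {u g : H5.pperp Q e f} (hu : HypPair (Q.restrict (H5.pperp Q e f)) u g)
  {u₃ g₃ : H5.pperp (Q.restrict (H5.pperp Q e f)) u g}
  (h₃ : HypPair ((Q.restrict (H5.pperp Q e f)).restrict
    (H5.pperp (Q.restrict (H5.pperp Q e f)) u g)) u₃ g₃)
  {μ : F} (hμ : FieldGen μ)

include h hu h₃ in
omit [Fintype F] [FiniteDimensional F V] [Fintype V] in
lemma step_frames : TwoPairs Q e f (u : V) g ∧
    TwoPairs Q e f ((u₃ : H5.pperp Q e f) : V) ((g₃ : H5.pperp Q e f) : V) ∧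
    TwoPairs Q (u : V) g ((u₃ : H5.pperp Q e f) : V) ((g₃ : H5.pperp Q e f) : V) :=
  ⟨twoPairs_of_perp h hu, twoPairs_of_perp h (hypPair_coe h₃), (twoPairs_of_perp hu h₃).coe⟩

section Neg

variable (hiso : ∀ v : H5.pperp Q e f, Q (v : V) ≠ 0 → (radData hV.nondeg h ψ hψ).dim ρ v = 0)
  (hone : ∀ v : H5.pperp Q e f, v ≠ 0 → Q (v : V) = 0 → (radData hV.nondeg h ψ hψ).dim ρ v = 1)
  {P : Module.End ℂ M} (hP : LeviProj hV.nondeg h hψ ρ P)
  (hnf : ∀ y, P y = y → (∀ k, ρ (leviK h k) y = y) → y = 0)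

include hV h hψ hu h₃ hμ hiso hone hP hnf in
/-- The two double scalings at `e` are opposite on inner vectors. -/
theorem Inner.opposite {y : M} (hy : Inner hV h hψ ρ hu P y) :
    ρ (bothEl Q e f (u : V) g μ) y =
      -ρ (bothEl Q e f ((u₃ : H5.pperp Q e f) : V) ((g₃ : H5.pperp Q e f) : V) μ) y := by
  obtain ⟨T, T13, T23⟩ := step_frames h hu h₃
  have hμ0 := hμ.ne_zero
  obtain ⟨a1, a2, a3, a4, a5⟩ := bothEl_apply T hμ0
  obtain ⟨b1, b2, b3, b4, b5⟩ := bothEl_apply T13 hμ0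
  obtain ⟨c1, c2, c3, c4, c5⟩ := bothEl_apply T23.flip hμ0
  obtain ⟨⟨q1, q2, q3, q4⟩, ⟨q5, q6, q7, q8⟩, -⟩ := T.polars
  obtain ⟨⟨r1, r2, r3, r4⟩, ⟨r5, r6, r7, r8⟩, -⟩ := T13.polars
  obtain ⟨⟨s1, s2, s3, s4⟩, ⟨s5, s6, s7, s8⟩, -⟩ := T23.polars
  have hprod : bothEl Q e f (u : V) g μ =
      bothEl Q e f ((u₃ : H5.pperp Q e f) : V) ((g₃ : H5.pperp Q e f) : V) μ *
        bothEl Q (u : V) g ((g₃ : H5.pperp Q e f) : V) ((u₃ : H5.pperp Q e f) : V) μ := by
    refine triple_ext T T13 T23 (fun x hx => ?_) fun x hx => ?_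
    · simp only [List.mem_cons, List.not_mem_nil, or_false] at hx
      rw [eichGroup_mul_apply]
      rcases hx with hh | hh | hh | hh | hh | hh <;> rw [hh]
      · rw [a1, c5 e q2 q6 r6 r2, b1]
      · rw [a2, c5 f q4 q8 r8 r4, b2]
      · rw [a3, c1, map_smul, b5 _ q1 q3 s2 s6]
      · rw [a4, c2, map_smul, b5 _ q5 q7 s4 s8]
      · rw [a5 _ r1 r3 s1 s3, c4, map_smul, b3, smul_smul, inv_mul_cancel₀ hμ0, one_smul]
      · rw [a5 _ r5 r7 s5 s7, c3, map_smul, b4, smul_smul, mul_inv_cancel₀ hμ0, one_smul]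
    · rw [eichGroup_mul_apply, a5 x (hx _ (by simp)) (hx _ (by simp)) (hx _ (by simp)) (hx _ (by simp)),
        c5 x (hx _ (by simp)) (hx _ (by simp)) (hx _ (by simp)) (hx _ (by simp)),
        b5 x (hx _ (by simp)) (hx _ (by simp)) (hx _ (by simp)) (hx _ (by simp))]
  rw [hprod, map_mul, Module.End.mul_apply,
    LeviProj.neg hV h hψ ρ hu hP hiso hone hnf h₃.symm hμ hy.mem hy.radical hy.levi, map_neg]

end Neg

include hV h hψ hu h₃ hμ in
/-- An eigenvector of a double scaling vanishes if all inner eigenvectors of the moved one do. -/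
theorem final_zero {x : M} {c : ℂ}
    (hx : Inner hV h hψ ρ hu ((radData hV.nondeg h ψ hψ).proj ρ 0) x)
    (hc : ρ (bothEl Q e f ((u₃ : H5.pperp Q e f) : V) ((g₃ : H5.pperp Q e f) : V) μ) x = c • x)
    (hkill : ∀ y, Inner hV h hψ ρ hu ((radData hV.nondeg h ψ hψ).proj ρ 0) y →
      ρ (bothEl Q (u : V) g ((u₃ : H5.pperp Q e f) : V) ((g₃ : H5.pperp Q e f) : V) μ) y = c • y →
        y = 0) : x = 0 := by
  set D := radData hV.nondeg h ψ hψ with hD
  obtain ⟨T, T13, T23⟩ := step_frames h hu h₃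
  have hμ0 := hμ.ne_zero
  obtain ⟨⟨eu, ue, fu, uf⟩, ⟨eg, ge, fg, gf⟩, ⟨ef, fe, ug, gu⟩⟩ := T.polars
  obtain ⟨⟨r1, r2, r3, r4⟩, ⟨r5, r6, r7, r8⟩, -⟩ := T13.polars
  obtain ⟨⟨s1, s2, s3, s4⟩, ⟨s5, s6, s7, s8⟩, -⟩ := T23.polars
  have hPP : ∀ y, D.proj ρ 0 (D.proj ρ 0 y) = D.proj ρ 0 y := fun y => by
    rw [← Module.End.mul_apply, D.proj_mul_proj, if_pos rfl]
  -- the moved vectors vanish
  have hS : ∀ s : F, s ≠ 0 → D.proj ρ 0 (ρ (swapEl Q e f (u : V) g s) x) = 0 := by
    intro s hs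
    obtain ⟨S, hSd⟩ : ∃ S, S = swapEl Q e f (u : V) g s := ⟨_, rfl⟩
    obtain ⟨S1, S2, S3, S4, S5⟩ := swapEl_apply T hs
    rw [← hSd] at S1 S2 S3 S4 ⊢
    obtain ⟨a1, a2, a3, a4, a5⟩ := bothEl_apply T13 hμ0
    obtain ⟨b1, b2, b3, b4, b5⟩ := bothEl_apply T23 hμ0
    refine hkill _ ⟨hPP _, lev_radical_of_fix hV h hψ ρ hu fun a => ?_, fun k => ?_⟩ ?_
    · obtain ⟨p1, p2, p3, p4⟩ := pperp2_polar a
      have hSi : ((S⁻¹).1 : V ≃ₗ[F] V) (u : V) = s • e :=
        eichGroup_inv_apply_of_eq (by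
          rw [map_smul, S1, smul_smul, mul_inv_cancel₀ hs, one_smul])
      have hSa : ((S⁻¹).1 : V ≃ₗ[F] V) ((a : H5.pperp Q e f) : V) = ((a : H5.pperp Q e f) : V) :=
        eichGroup_inv_apply_of_eq (by rw [hSd]; exact S5 _ p1 p2 p3 p4)
      rw [← Module.End.mul_apply, rad_zero_comm hV.nondeg h hψ ρ (kE Q (u : V) _) 1 one_ne_zero
        (by rw [one_smul]; exact kE_fix T.snd.left p3 ue (by rw [polar_comm]; exact p1))
        (by rw [inv_one, one_smul]; exact kE_fix T.snd.left p3 uf (by rw [polar_comm]; exact p2)),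
        Module.End.mul_apply, ← Module.End.mul_apply (ρ (kE Q (u : V) _)), ← map_mul,
        show kE Q (u : V) ((a : H5.pperp Q e f) : V) * S =
          S * (S⁻¹ * kE Q (u : V) ((a : H5.pperp Q e f) : V) * (S⁻¹)⁻¹) by group, kE_conj, hSi,
        hSa, kE_smul_smul h.left p1, map_mul, Module.End.mul_apply,
        radical_fix hV h hψ ρ hx.mem (Submodule.smul_mem _ _ (mem_pperp.2 ⟨p1, p2⟩))]
    · obtain ⟨k1, k2, k3, k4⟩ := lev2_fix h hu k
      have hcomm : lev2 h hu k * S = S * lev2 h hu k := by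
        refine T.ext ?_ ?_ ?_ ?_ fun y y1 y2 y3 y4 => ?_ <;> simp only [eichGroup_mul_apply]
        · rw [S1, map_smul, k3, k1, S1]
        · rw [S3, map_smul, k4, k2, S3]
        · rw [S2, map_neg, map_smul, k1, k3, S2]
        · rw [S4, map_neg, map_smul, k2, k4, S4]
        · have hS5 : ∀ y, polar Q e y = 0 → polar Q f y = 0 → polar Q (u : V) y = 0 →
              polar Q (g : V) y = 0 → (S.1 : V ≃ₗ[F] V) y = y := fun y => by rw [hSd]; exact S5 y
          rw [hS5 y y1 y2 y3 y4, hS5]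
          · exact (congrArg (fun z => polar Q z _) k1.symm).trans ((orth_polar _ _ _).trans y1)
          · exact (congrArg (fun z => polar Q z _) k2.symm).trans ((orth_polar _ _ _).trans y2)
          · exact (congrArg (fun z => polar Q z _) k3.symm).trans ((orth_polar _ _ _).trans y3)
          · exact (congrArg (fun z => polar Q z _) k4.symm).trans ((orth_polar _ _ _).trans y4)
      rw [← Module.End.mul_apply, rad_zero_comm hV.nondeg h hψ ρ (lev2 h hu k) 1 one_ne_zero
        (by rw [one_smul]; exact k1) (by rw [inv_one, one_smul]; exact k2), Module.End.mul_apply,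
        ← Module.End.mul_apply (ρ (lev2 h hu k)), ← map_mul, hcomm, map_mul, Module.End.mul_apply,
        hx.levi]
    · have hmove : bothEl Q (u : V) g ((u₃ : H5.pperp Q e f) : V) ((g₃ : H5.pperp Q e f) : V) μ * S =
          S * bothEl Q e f ((u₃ : H5.pperp Q e f) : V) ((g₃ : H5.pperp Q e f) : V) μ := by
        have hS5 : ∀ y, polar Q e y = 0 → polar Q f y = 0 → polar Q (u : V) y = 0 →
            polar Q (g : V) y = 0 → (S.1 : V ≃ₗ[F] V) y = y := fun y => by rw [hSd]; exact S5 y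
        refine triple_ext T T13 T23 (fun y hy => ?_) fun y hy => ?_
        · simp only [List.mem_cons, List.not_mem_nil, or_false] at hy
          rw [eichGroup_mul_apply, eichGroup_mul_apply]
          rcases hy with hh | hh | hh | hh | hh | hh <;> rw [hh]
          · rw [S1, map_smul, b1, a1, map_smul, S1, smul_comm]
          · rw [S3, map_smul, b2, a2, map_smul, S3, smul_comm]
          · rw [S2, map_neg, map_smul, b5 e ue ge r2 r6, a5 _ eu fu s2 s6, S2]
          · rw [S4, map_neg, map_smul, b5 f uf gf r4 r8, a5 _ eg fg s4 s8, S4]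
          · rw [hS5 _ r1 r3 s1 s3, b3, a3, map_smul, hS5 _ r1 r3 s1 s3]
          · rw [hS5 _ r5 r7 s5 s7, b4, a4, map_smul, hS5 _ r5 r7 s5 s7]
        · rw [eichGroup_mul_apply, eichGroup_mul_apply,
            a5 y (hy _ (by simp)) (hy _ (by simp)) (hy _ (by simp)) (hy _ (by simp)),
            hS5 y (hy _ (by simp)) (hy _ (by simp)) (hy _ (by simp)) (hy _ (by simp)),
            b5 y (hy _ (by simp)) (hy _ (by simp)) (hy _ (by simp)) (hy _ (by simp))]
      rw [← Module.End.mul_apply, rad_zero_comm hV.nondeg h hψ ρ _ 1 one_ne_zero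
        (by rw [one_smul]; exact b5 e ue ge r2 r6) (by rw [inv_one, one_smul]; exact b5 f uf gf r4 r8),
        Module.End.mul_apply, ← Module.End.mul_apply (ρ (bothEl _ _ _ _ _ _)), ← map_mul, hmove,
        map_mul, Module.End.mul_apply, hc, map_smul, map_smul]
  have hA0 : ∀ t : F, ρ (kE Q e (t • (g : V))) * D.proj ρ 0 = D.proj ρ 0 := fun t => by
    rw [show kE Q e (t • (g : V)) = D.u (t • g) from rfl, D.apply_mul_proj]
    simp [D, radData]
  have hB : ∀ t : F, t ≠ 0 → D.proj ρ 0 (ρ (kE Q (u : V) (t • f)) x) = 0 := by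
    intro t ht
    obtain ⟨s, rfl⟩ : ∃ s : F, t = -s⁻¹ := ⟨-t⁻¹, by rw [inv_neg, inv_inv, neg_neg]⟩
    have hs : s ≠ 0 := fun h0 => ht (by rw [h0, inv_zero, neg_zero])
    have hgp : polar Q e (s • (g : V)) = 0 := by rw [polar_smul_right, eg, smul_zero]
    have hsplit : kE Q (u : V) ((-s⁻¹) • f) =
        (kE Q e (s • (g : V)))⁻¹ * swapEl Q e f (u : V) g s * (kE Q e (s • (g : V)))⁻¹ := by
      rw [swapEl]; group
    have hinv : (kE Q e (s • (g : V)))⁻¹ = kE Q e ((-s) • (g : V)) := by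
      refine inv_eq_of_mul_eq_one_right ?_
      rw [← kE_add h.left hgp (by rw [polar_smul_right, eg, smul_zero]), ← add_smul, add_neg_cancel,
        zero_smul, kE_zero]
    rw [hsplit, hinv, map_mul, map_mul, Module.End.mul_apply, Module.End.mul_apply]
    have hfx : ρ (kE Q e ((-s) • (g : V))) x = x := by
      conv_lhs => rw [← hx.mem, ← Module.End.mul_apply, hA0]
      exact hx.mem
    rw [hfx, ← Module.End.mul_apply (D.proj ρ 0), show kE Q e ((-s) • (g : V)) = D.u ((-s) • g) from rfl,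
      ← D.proj_comm, Module.End.mul_apply, hS s hs, map_zero]
  obtain ⟨S, hSd⟩ : ∃ S, S = swapEl Q e f (u : V) g 1 := ⟨_, rfl⟩
  obtain ⟨S1, S2, S3, S4, S5⟩ := swapEl_apply T (one_ne_zero (α := F))
  rw [← hSd, one_smul] at S2 S3
  rw [← hSd, inv_one, one_smul] at S1 S4
  set y := ρ S x with hy
  have hSie : ((S⁻¹).1 : V ≃ₗ[F] V) e = (-1 : F) • (u : V) :=
    eichGroup_inv_apply_of_eq (by simp [S2])
  have hyE : ∀ (z : V), ρ (kE Q ((-1 : F) • (u : V)) (((S⁻¹).1 : V ≃ₗ[F] V) z)) x = x →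
      ρ (kE Q e z) y = y := fun z hz => by
    rw [hy, ← Module.End.mul_apply, ← map_mul,
      show kE Q e z * S = S * (S⁻¹ * kE Q e z * (S⁻¹)⁻¹) by group, kE_conj, hSie, map_mul,
      Module.End.mul_apply, hz]
  have hya : ∀ a : H5.pperp (Q.restrict (H5.pperp Q e f)) u g,
      ρ (kE Q e ((a : H5.pperp Q e f) : V)) y = y := by
    intro a
    obtain ⟨p1, p2, p3, p4⟩ := pperp2_polar a
    refine hyE _ ?_
    rw [eichGroup_inv_apply_of_eq (by rw [hSd]; exact S5 _ p1 p2 p3 p4), kE_smul_smul T.snd.left p3]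
    exact lev_radical_fix hV h hψ ρ hu hx.radical ((-1 : F) • a)
  have hyu : ∀ t : F, ρ (kE Q e (t • (u : V))) y = y := by
    intro t
    refine hyE _ ?_
    rw [eichGroup_inv_apply_of_eq (show (S.1 : V ≃ₗ[F] V) (t • e) = t • (u : V) by rw [map_smul, S1]),
      kE_smul_smul T.snd.left (by rw [polar_smul_right, ue, smul_zero]), smul_smul,
      kE_anti T.snd.left (by rw [QuadraticMap.map_smul, h.left, smul_zero])
        (by rw [polar_smul_right, ue, smul_zero]),
      kE_smul_smul h.left (by rw [polar_neg_right, eu, neg_zero]),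
      show ((-1 : F) * t) • -(u : V) = t • (u : V) by simp]
    exact radical_fix hV h hψ ρ hx.mem (Submodule.smul_mem _ _ u.2)
  have hAy : ∑ t : F, ρ (kE Q e (t • (g : V))) y = 0 := by
    have h1 : ∀ t : F, ρ (kE Q e (t • (g : V))) y =
        ∑ v : H5.pperp Q e f, ψ (t * polar Q (g : V) (v : V)) • D.proj ρ v y := fun t => by
      rw [show kE Q e (t • (g : V)) = D.u (t • g) from rfl, D.apply_eq_sum, LinearMap.sum_apply]
      refine Finset.sum_congr rfl fun v _ => ?_
      simp [D, radData, polar_smul_right, polar_comm (⇑Q) (v : V)]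
    simp only [h1]
    rw [Finset.sum_comm]
    refine Finset.sum_eq_zero fun v _ => ?_
    rw [← Finset.sum_smul]
    by_cases hvg : polar Q (g : V) (v : V) = 0
    swap
    · rw [show (∑ t : F, ψ (t * polar Q (g : V) (v : V))) = 0 from
        (AddChar.sum_mulShift _ (AddChar.IsPrimitive.of_ne_one hψ)).trans (by simp [hvg]), zero_smul]
    suffices hv0 : D.proj ρ v y = 0 by rw [hv0, smul_zero]
    by_cases hv : v = 0
    · rw [hv, hy, hSd, hS 1 one_ne_zero]
    -- some element of the radical moves this character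
    have hkillv : ∀ w : H5.pperp Q e f, (∀ t : F, ρ (kE Q e (t • (w : V))) y = y) →
        polar Q (v : V) (w : V) ≠ 0 → D.proj ρ v y = 0 := by
      intro w hw hne
      obtain ⟨b, hb⟩ := AddChar.ne_one_iff.1 hψ
      refine D.proj_apply_zero ρ (a := (b / polar Q (v : V) (w : V)) • w) (c := 1)
        (by rw [one_smul]; exact hw _) ?_
      simpa [D, radData, polar_smul_right, div_mul_cancel₀ b hne] using hb
    by_cases hvu : polar Q (v : V) (u : V) = 0
    swap
    · exact hkillv u hyu hvu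
    by_contra hne
    have hall : ∀ a : H5.pperp (Q.restrict (H5.pperp Q e f)) u g,
        polar Q (v : V) ((a : H5.pperp Q e f) : V) = 0 := fun a => by
      by_contra h0
      exact hne (hkillv (a : H5.pperp Q e f) (fun t => hya (t • a)) h0)
    apply hv
    refine eq_zero_of_polar_pperp hV.nondeg h fun w => ?_
    have hd := pair_decomp hu w
    rw [hd]
    simp only [Submodule.coe_add, Submodule.coe_smul, polar_add_right, polar_smul_right, hvu,
      hall, polar_comm (⇑Q) (v : V) (g : V), hvg, smul_zero, add_zero]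
  have hmove : ∀ t : F, ρ (kE Q e (t • (g : V))) y = ρ S (ρ (kE Q (u : V) ((-t) • f)) x) := by
    intro t
    rw [hy, ← Module.End.mul_apply, ← map_mul,
      show kE Q e (t • (g : V)) * S = S * (S⁻¹ * kE Q e (t • (g : V)) * (S⁻¹)⁻¹) by group, kE_conj,
      hSie, eichGroup_inv_apply_of_eq (show (S.1 : V ≃ₗ[F] V) (t • f) = t • (g : V) by
        rw [map_smul, S3]), kE_smul_smul T.snd.left (by rw [polar_smul_right, uf, smul_zero]),
      smul_smul, neg_one_mul, map_mul, Module.End.mul_apply]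
  simp only [hmove, ← map_sum] at hAy
  have h0 : ∑ t : F, ρ (kE Q (u : V) ((-t) • f)) x = 0 := by
    rw [← Module.End.one_apply (R := ℂ) (∑ t : F, _), ← map_one ρ, ← inv_mul_cancel S, map_mul,
      Module.End.mul_apply, hAy, map_zero]
  have h1 := congrArg (D.proj ρ 0) h0
  rw [map_sum, map_zero, Finset.sum_eq_single (0 : F) (fun t _ ht => hB (-t) (neg_ne_zero.2 ht))
    (by simp), neg_zero, zero_smul, kE_zero, map_one, Module.End.one_apply, hx.mem] at h1
  exact h1

end Cfsg.Agent.H39
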