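import Cfsg.Agent.H39.OmegaLineSign

/-!
# The Levi group on the fixed space of the radical

A projector into the fixed space which commutes with the scalings of the pair gives a
representation of the Levi group with each singular character once.
-/

namespace Cfsg.Agent.H39

open QuadraticMap hiding sq
open Cfsg.Agent.H5
open Finset Module
open scoped Classical commutatorElement

variable {F V : Type*} [Field F] [Fintype F] [AddCommGroup V] [Module F V] [FiniteDimensional F V]
  [Fintype V] {Q : QuadraticForm F V}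

/-- An invariant part of the fixed space of the radical, with trivial Levi action on the rest. -/
structure LeviProj (hQ : (polarBilin Q).Nondegenerate) {e f : V} (h : HypPair Q e f)
    {ψ : AddChar F ℂ} (hψ : ψ ≠ 1) {M : Type} [AddCommGroup M] [Module ℂ M]
    (ρ : Representation ℂ (eichGroup Q) M) (P : Module.End ℂ M) : Prop where
  idem : P * P = P
  le : (radData hQ h ψ hψ).proj ρ 0 * P = P
  comm : ∀ (X : eichGroup Q) (ν : F), ν ≠ 0 → (X.1 : V ≃ₗ[F] V) e = ν • e →
    (X.1 : V ≃ₗ[F] V) f = ν⁻¹ • f → ρ X * P = P * ρ X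
  triv : ∀ k, ρ (leviK h k) * ((radData hQ h ψ hψ).proj ρ 0 - P) =
    (radData hQ h ψ hψ).proj ρ 0 - P

section General

variable {hQ : (polarBilin Q).Nondegenerate} {e f : V} {h : HypPair Q e f} {ψ : AddChar F ℂ}
  {hψ : ψ ≠ 1} {M : Type} [AddCommGroup M] [Module ℂ M] {ρ : Representation ℂ (eichGroup Q) M}
  {P : Module.End ℂ M} (hP : LeviProj hQ h hψ ρ P)
include hP

lemma LeviProj.comm_levi (k : eichGroup (Q.restrict (H5.pperp Q e f))) :
    ρ (leviK h k) * P = P * ρ (leviK h k) :=
  hP.comm _ 1 one_ne_zero (by rw [one_smul]; exact orthExt_left h _)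
    (by rw [inv_one, one_smul]; exact orthExt_right h _)

lemma LeviProj.apply_mem (k : eichGroup (Q.restrict (H5.pperp Q e f))) (y : M)
    (hy : y ∈ LinearMap.range P) : ρ (leviK h k) y ∈ LinearMap.range P := by
  obtain ⟨x, rfl⟩ := hy
  exact ⟨ρ (leviK h k) x, (LinearMap.congr_fun (hP.comm_levi k) x).symm⟩

/-- The representation of the Levi group on the range. -/
noncomputable def LeviProj.rep :
    Representation ℂ (eichGroup (Q.restrict (H5.pperp Q e f))) (LinearMap.range P) :=
  subRep (ρ.comp (leviK h)) (LinearMap.range P) fun k y hy => hP.apply_mem k y hy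

lemma LeviProj.rep_coe (k : eichGroup (Q.restrict (H5.pperp Q e f))) (y : LinearMap.range P) :
    (hP.rep k y : M) = ρ (leviK h k) y := rfl

lemma LeviProj.apply_eq {y : M} (hy : y ∈ LinearMap.range P) : P y = y := by
  obtain ⟨x, rfl⟩ := hy
  exact LinearMap.congr_fun hP.idem x

lemma LeviProj.proj_coe {A I : Type*} [AddCommGroup A] [Fintype A] [Fintype I]
    (D : AbelData (eichGroup (Q.restrict (H5.pperp Q e f))) A I) (i : I) (y : LinearMap.range P) :
    (D.proj hP.rep i y : M) = (D.map (leviK h)).proj ρ i y := by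
  simp only [AbelData.proj, LinearMap.smul_apply, LinearMap.sum_apply, Submodule.coe_smul,
    Submodule.coe_sum, hP.rep_coe]
  rfl

variable [FiniteDimensional ℂ M]

lemma LeviProj.trace_rep (k : eichGroup (Q.restrict (H5.pperp Q e f))) :
    LinearMap.trace ℂ (LinearMap.range P) (hP.rep k) =
      LinearMap.trace ℂ M (ρ (leviK h k) * P) := by
  have hmaps : ∀ x : M, (ρ (leviK h k) * P) x ∈ LinearMap.range P := fun x =>
    hP.apply_mem k _ (LinearMap.mem_range_self P x)
  rw [← LinearMap.trace_restrict_eq_of_forall_mem _ _ hmaps]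
  congr 1
  refine LinearMap.ext fun y => Subtype.ext ?_
  show ρ (leviK h k) (y : M) = ρ (leviK h k) (P y)
  rw [hP.apply_eq y.2]

lemma LeviProj.trace_eq : LinearMap.trace ℂ M P = finrank ℂ (LinearMap.range P) :=
  LinearMap.IsProj.trace ⟨fun x => LinearMap.mem_range_self _ x, fun _ hy => hP.apply_eq hy⟩

lemma LeviProj.dim_eq {A I : Type*} [AddCommGroup A] [Fintype A] [Fintype I]
    (D : AbelData (eichGroup (Q.restrict (H5.pperp Q e f))) A I) (i : I) :
    (D.dim hP.rep i : ℂ) = LinearMap.trace ℂ M ((D.map (leviK h)).proj ρ i * P) := by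
  rw [← D.trace_proj, AbelData.proj, AbelData.proj, map_smul, map_sum, smul_mul_assoc,
    Finset.sum_mul, map_smul, map_sum]
  refine congrArg _ (Finset.sum_congr rfl fun a _ => ?_)
  rw [map_smul, smul_mul_assoc, map_smul, hP.trace_rep]
  rfl

end General

variable {j : ℕ} (hV : OddForm Q (j + 3)) {e f : V} (h : HypPair Q e f) {ψ : AddChar F ℂ}
  (hψ : ψ ≠ 1) {M : Type} [AddCommGroup M] [Module ℂ M] [FiniteDimensional ℂ M]
  (ρ : Representation ℂ (eichGroup Q) M)
  {u g : H5.pperp Q e f} (hu : HypPair (Q.restrict (H5.pperp Q e f)) u g)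

/-- The radical inside the Levi group of the point `u`, in the whole group. -/
noncomputable def levData :
    AbelData (eichGroup Q) (H5.pperp (Q.restrict (H5.pperp Q e f)) u g)
      (H5.pperp (Q.restrict (H5.pperp Q e f)) u g) :=
  (radData (hV.pperp h).nondeg hu ψ hψ).map (leviK h)

include hV h hψ hu in
omit [FiniteDimensional ℂ M] in
/-- Scalings of both pairs permute the inner projectors. -/
lemma lev_comm {X : eichGroup Q} {ν l : F} (hν : ν ≠ 0) (hl : l ≠ 0)
    (Xe : (X.1 : V ≃ₗ[F] V) e = ν • e) (Xf : (X.1 : V ≃ₗ[F] V) f = ν⁻¹ • f)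
    (Xu : (X.1 : V ≃ₗ[F] V) (u : V) = l • (u : V))
    (Xg : (X.1 : V ≃ₗ[F] V) (g : V) = l⁻¹ • (g : V))
    {v v' : H5.pperp (Q.restrict (H5.pperp Q e f)) u g}
    (hv : ((v' : H5.pperp Q e f) : V) = l⁻¹ • (X.1 : V ≃ₗ[F] V) ((v : H5.pperp Q e f) : V)) :
    ρ X * (levData hV h hψ hu).proj ρ v = (levData hV h hψ hu).proj ρ v' * ρ X := by
  have hmem : ∀ a : H5.pperp (Q.restrict (H5.pperp Q e f)) u g,
      (⟨(X.1 : V ≃ₗ[F] V) ((a : H5.pperp Q e f) : V),
        scale_mem_pperp hν Xe Xf (a : H5.pperp Q e f).2⟩ : H5.pperp Q e f) ∈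
          H5.pperp (Q.restrict (H5.pperp Q e f)) u g := by
    intro a
    obtain ⟨a1, a2⟩ := mem_pperp.1 a.2
    rw [polar_restrict] at a1 a2
    rw [mem_pperp, polar_restrict, polar_restrict]
    constructor
    · rw [← orth_polar X.1, Xu, polar_smul_left, smul_eq_zero, or_iff_right hl] at a1
      exact a1
    · rw [← orth_polar X.1, Xg, polar_smul_left, smul_eq_zero,
        or_iff_right (inv_ne_zero hl)] at a2
      exact a2
  let τ0 : H5.pperp (Q.restrict (H5.pperp Q e f)) u g →
      H5.pperp (Q.restrict (H5.pperp Q e f)) u g := fun a => l • ⟨_, hmem a⟩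
  have hinj : Function.Injective τ0 := fun a b hab => by
    have h1 := congrArg (fun z : H5.pperp (Q.restrict (H5.pperp Q e f)) u g =>
      ((z : H5.pperp Q e f) : V)) hab
    exact Subtype.ext (Subtype.ext ((X.1 : V ≃ₗ[F] V).injective (smul_right_injective V hl h1)))
  have huQ : Q (u : V) = 0 := hu.left
  have hperp : ∀ a : H5.pperp (Q.restrict (H5.pperp Q e f)) u g,
      polar Q (u : V) ((a : H5.pperp Q e f) : V) = 0 := fun a => by
    rw [← polar_restrict]; exact (mem_pperp.1 a.2).1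
  refine AbelData.comm_proj _ ρ X (Equiv.ofBijective τ0 (Finite.injective_iff_bijective.1 hinj))
    (fun a => ?_) (fun a => ?_)
  · show leviK h (kE (Q.restrict (H5.pperp Q e f)) u (τ0 a : H5.pperp Q e f)) * X =
      X * leviK h (kE (Q.restrict (H5.pperp Q e f)) u (a : H5.pperp Q e f))
    rw [leviK_kE h huQ (hperp _), leviK_kE h huQ (hperp _), mul_inv_eq_iff_eq_mul.1 (kE_conj X (u : V) _),
      Xu, kE_smul_smul huQ]
    · rfl
    · have := hperp (⟨_, hmem a⟩ : H5.pperp (Q.restrict (H5.pperp Q e f)) u g)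
      exact this
  · show ψ (polar Q ((v' : H5.pperp Q e f) : V) ((τ0 a : H5.pperp Q e f) : V)) =
      ψ (polar Q ((v : H5.pperp Q e f) : V) ((a : H5.pperp Q e f) : V))
    simp only [τ0, Submodule.coe_smul, hv, polar_smul_left, polar_smul_right, smul_smul,
      orth_polar]
    rw [mul_inv_cancel₀ hl, one_smul]

section Drop

variable (hiso : ∀ v : H5.pperp Q e f, Q (v : V) ≠ 0 → (radData hV.nondeg h ψ hψ).dim ρ v = 0)
  (hone : ∀ v : H5.pperp Q e f, v ≠ 0 → Q (v : V) = 0 → (radData hV.nondeg h ψ hψ).dim ρ v = 1)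

include hV h hψ hiso hone hu in
/-- A long root element on the fixed space of the radical. -/
theorem levi_drop {w : H5.pperp (Q.restrict (H5.pperp Q e f)) u g} (hw0 : w ≠ 0)
    (hQw : Q ((w : H5.pperp Q e f) : V) = 0) :
    LinearMap.trace ℂ M (ρ (leviK h (kE (Q.restrict (H5.pperp Q e f)) u (w : H5.pperp Q e f))) *
        (radData hV.nondeg h ψ hψ).proj ρ 0) =
      ((radData hV.nondeg h ψ hψ).dim ρ 0 : ℂ) - (Fintype.card F ^ (2 * j + 2) : ℕ) := by
  set D := radData hV.nondeg h ψ hψ with hD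
  have hW := hV.pperp h
  have hW2 := hW.pperp hu
  obtain ⟨x, h₂⟩ := exists_hypPair hW2.nondeg hw0 (by
    rwa [QuadraticMap.restrict_apply, QuadraticMap.restrict_apply])
  have hW3 := hW2.pperp h₂
  have t12 : TwoPairs (Q.restrict (H5.pperp Q e f)) u g w x := twoPairs_of_perp hu h₂
  have hu12 : polar Q (u : V) ((w : H5.pperp Q e f) : V) = 0 := (mem_pperp.1 t12.coe.memu).1
  have hg1 : Q (u : V) = 0 := hu.left
  obtain ⟨X, hX⟩ : ∃ X, X = leviK h (kE (Q.restrict (H5.pperp Q e f)) u (w : H5.pperp Q e f)) :=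
    ⟨_, rfl⟩
  rw [← hX]
  have hXk : X = kE Q (u : V) ((w : H5.pperp Q e f) : V) := hX.trans (leviK_kE h hg1 hu12)
  have hlong : LongPair Q ((u : V), ((w : H5.pperp Q e f) : V)) := by
    refine ⟨t12.coe.fst.ne_zero, hg1, hQw, hu12, fun hsp => ?_⟩
    obtain ⟨t, ht⟩ := Submodule.mem_span_singleton.1 hsp
    have := t12.coe.snd.pair
    change polar Q ((w : H5.pperp Q e f) : V) _ = 1 at this
    rw [show ((w : H5.pperp Q e f) : V) = t • (u : V) from ht.symm, polar_smul_left,
      (mem_pperp.1 t12.coe.memf).1, smul_zero] at this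
    exact zero_ne_one this
  set s := (univ.filter fun v : H5.pperp Q e f => (Q.restrict (H5.pperp Q e f)) v = 0 ∧
    polar (Q.restrict (H5.pperp Q e f)) u v = 0 ∧
    polar (Q.restrict (H5.pperp Q e f)) (w : H5.pperp Q e f) v = 0).erase 0 with hs
  have hfix : ∀ v : H5.pperp Q e f, v ∈ s ↔ v ≠ 0 ∧ Q (v : V) = 0 ∧
      (X.1 : V ≃ₗ[F] V) (v : V) = (v : V) := by
    intro v
    simp only [hs, Finset.mem_erase, Finset.mem_filter, mem_univ, true_and, hXk]
    show v ≠ 0 ∧ _ ↔ v ≠ 0 ∧ _ ∧
      (eich Q (u : V) ((w : H5.pperp Q e f) : V) : V ≃ₗ[F] V) (v : V) = (v : V)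
    rw [hlong.eich_apply, QuadraticMap.restrict_apply, polar_restrict, polar_restrict]
    refine and_congr_right fun _ => and_congr_right fun _ => ⟨fun ⟨h1, h2⟩ => ?_, fun hh => ?_⟩
    · rw [show polar Q (u : V) (v : V) = 0 from h1,
        show polar Q ((w : H5.pperp Q e f) : V) (v : V) = 0 from h2]
      simp
    · have h' : polar Q (u : V) (v : V) • ((w : H5.pperp Q e f) : V) -
          polar Q ((w : H5.pperp Q e f) : V) (v : V) • (u : V) = 0 := by
        linear_combination (norm := module) hh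
      have hind : ∀ {r t : F}, r • ((w : H5.pperp Q e f) : V) - t • (u : V) = 0 → r = 0 := by
        intro r t hrt
        by_contra hr
        refine hlong.2.2.2.2 (Submodule.mem_span_singleton.2 ⟨r⁻¹ * t, ?_⟩)
        rw [sub_eq_zero] at hrt
        show (r⁻¹ * t) • (u : V) = ((w : H5.pperp Q e f) : V)
        rw [mul_smul, ← hrt, smul_smul, inv_mul_cancel₀ hr, one_smul]
      refine ⟨hind h', ?_⟩
      rw [hind h', zero_smul, zero_sub, neg_eq_zero, smul_eq_zero] at h'
      exact h'.resolve_right hlong.1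
  have hph : ∀ v ∈ s, ρ X * D.proj ρ v = D.proj ρ v := by
    intro v hv
    simp only [hs, Finset.mem_erase, Finset.mem_filter, mem_univ, true_and] at hv
    obtain ⟨hv0, hQv, hv1, hv2⟩ := hv
    set y := perpProj hu v with hy
    set r := perpProj h₂ y with hr
    have hy2 : polar ((Q.restrict (H5.pperp Q e f)).restrict
        (H5.pperp (Q.restrict (H5.pperp Q e f)) u g)) w y = 0 := by
      obtain ⟨w1, w2⟩ := mem_pperp.1 w.2
      rw [polar_restrict, hy, coe_perpProj]
      simp [polar_sub_right, polar_smul_right,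
        polar_comm (⇑(Q.restrict (H5.pperp Q e f))) (w : H5.pperp Q e f) u,
        polar_comm (⇑(Q.restrict (H5.pperp Q e f))) (w : H5.pperp Q e f) g, w1, w2, hv2]
    have hQr : (((Q.restrict (H5.pperp Q e f)).restrict
        (H5.pperp (Q.restrict (H5.pperp Q e f)) u g)).restrict
          (H5.pperp ((Q.restrict (H5.pperp Q e f)).restrict
            (H5.pperp (Q.restrict (H5.pperp Q e f)) u g)) w x)) r = 0 := by
      have h1 := hQv
      rw [pair_decomp hu v, map_pair_add hu, hv1, mul_zero, zero_add, ← hy] at h1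
      change ((Q.restrict (H5.pperp Q e f)).restrict
        (H5.pperp (Q.restrict (H5.pperp Q e f)) u g)) y = 0 at h1
      rw [pair_decomp h₂ y, map_pair_add h₂, hy2, mul_zero, zero_add] at h1
      exact h1
    obtain ⟨a, b, haw, hbw, hab⟩ := exists_pair_perp hW3.nondeg r (by rw [hW3.dim]; omega)
      (fun hr0 _ => by
        rcases j with _ | j
        · exact absurd (hW3.eq_zero_of_iso hQr) hr0
        · rw [hW3.dim]; omega)
      (fun hQ0 => absurd hQr hQ0)
    have hpp : ∀ z : H5.pperp ((Q.restrict (H5.pperp Q e f)).restrict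
        (H5.pperp (Q.restrict (H5.pperp Q e f)) u g)) w x,
        polar Q (u : V) (((z : H5.pperp (Q.restrict (H5.pperp Q e f)) u g) : H5.pperp Q e f) : V) = 0 ∧
        polar Q ((w : H5.pperp Q e f) : V)
          (((z : H5.pperp (Q.restrict (H5.pperp Q e f)) u g) : H5.pperp Q e f) : V) = 0 ∧
        polar Q (((z : H5.pperp (Q.restrict (H5.pperp Q e f)) u g) : H5.pperp Q e f) : V) (v : V) =
          polar (((Q.restrict (H5.pperp Q e f)).restrict
            (H5.pperp (Q.restrict (H5.pperp Q e f)) u g)).restrict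
              (H5.pperp ((Q.restrict (H5.pperp Q e f)).restrict
                (H5.pperp (Q.restrict (H5.pperp Q e f)) u g)) w x)) z r := by
      intro z
      obtain ⟨z1, z2⟩ := mem_pperp.1 (z : H5.pperp (Q.restrict (H5.pperp Q e f)) u g).2
      obtain ⟨z3, z4⟩ := mem_pperp.1 z.2
      refine ⟨(polar_restrict _ _).symm.trans z1,
        (polar_restrict _ _).symm.trans
          ((polar_restrict (Q := Q.restrict (H5.pperp Q e f)) _ _).symm.trans z3), ?_⟩
      rw [← polar_restrict (Q := Q)]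
      conv_lhs => rw [pair_decomp hu v, hv1, ← hy]
      rw [polar_add_right, polar_add_right, polar_smul_right, polar_smul_right,
        polar_comm (⇑(Q.restrict (H5.pperp Q e f))) _ u, z1,
        polar_comm (⇑(Q.restrict (H5.pperp Q e f))) _ g, z2,
        ← polar_restrict (Q := Q.restrict (H5.pperp Q e f))]
      simp only [smul_zero, zero_smul, zero_add, smul_eq_mul, mul_zero, zero_mul]
      conv_lhs => rw [pair_decomp h₂ y, hy2, ← hr]
      rw [polar_add_right, polar_add_right, polar_smul_right, polar_smul_right,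
        polar_comm (⇑((Q.restrict (H5.pperp Q e f)).restrict
          (H5.pperp (Q.restrict (H5.pperp Q e f)) u g))) _ w, z3,
        polar_comm (⇑((Q.restrict (H5.pperp Q e f)).restrict
          (H5.pperp (Q.restrict (H5.pperp Q e f)) u g))) _ x, z4, polar_restrict]
      simp [polar_restrict]
    obtain ⟨ua, ca, hav⟩ := hpp a
    obtain ⟨ub, cb, hbv⟩ := hpp b
    rw [haw] at hav
    rw [hbw] at hbv
    rw [polar_restrict] at hv1 hv2
    have hfe : ∀ z : H5.pperp Q e f, polar Q (z : V) e = 0 ∧ polar Q (z : V) f = 0 := fun z =>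
      ⟨by rw [polar_comm]; exact (mem_pperp.1 z.2).1, by rw [polar_comm]; exact (mem_pperp.1 z.2).2⟩
    rw [hXk, kE_eq_comm hg1 hQw hu12 ua ub ca cb
      (by rw [← hab, polar_restrict, polar_restrict, polar_restrict])]
    refine proj_phase ρ _ (hone v hv0 (by rwa [QuadraticMap.restrict_apply] at hQv))
      (rad_comm_fix hV.nondeg h hψ ρ ?_ ?_ ?_) (rad_comm_fix hV.nondeg h hψ ρ ?_ ?_ ?_)
    · exact kE_fix hQw ca (hfe _).1 (hfe _).1
    · exact kE_fix hQw ca (hfe _).2 (hfe _).2
    · exact (kE_fix hQw ca hv2 hav).symm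
    · exact kE_fix hg1 ub (hfe _).1 (hfe _).1
    · exact kE_fix hg1 ub (hfe _).2 (hfe _).2
    · exact (kE_fix hg1 ub hv1 hbv).symm
  have hchar := levi_char hV.nondeg h hψ ρ hiso hone (g := X)
    (by rw [hX]; exact orthExt_left h _) (by rw [hX]; exact orthExt_right h _) s hfix hph
  rw [long_char hV.nondeg h hψ ρ hu hiso hone (by rw [hV.dim]; omega)
    (mem_longSet.2 ⟨_, hlong, hXk.symm⟩)] at hchar
  have hfin := rad_finrank hV.nondeg h hψ ρ hiso hone
  rw [hW.count] at hfin
  have hscard : s.card + 1 =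
      Fintype.card F * (Fintype.card F * Fintype.card F ^ (2 * j)) := by
    rw [hs, Finset.card_erase_add_one (by simp), ← hW3.count, ← card_iso_perp_two hu h₂]
  rw [show finrank F V - 3 = 2 * j + 4 by rw [hV.dim]; omega] at hchar
  apply_fun (Nat.cast : ℕ → ℂ) at hfin hscard
  push_cast at hfin hscard hchar ⊢
  linear_combination -hchar + hfin - hscard

end Drop

section Proj

variable {P : Module.End ℂ M} (hP : LeviProj hV.nondeg h hψ ρ P)
  (hiso : ∀ v : H5.pperp Q e f, Q (v : V) ≠ 0 → (radData hV.nondeg h ψ hψ).dim ρ v = 0)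
  (hone : ∀ v : H5.pperp Q e f, v ≠ 0 → Q (v : V) = 0 → (radData hV.nondeg h ψ hψ).dim ρ v = 1)

include hiso hone in
/-- On the range each singular character occurs once. -/
theorem LeviProj.single :
    (∀ v : H5.pperp (Q.restrict (H5.pperp Q e f)) u g,
      (Q.restrict (H5.pperp Q e f)) (v : H5.pperp Q e f) ≠ 0 →
        (radData (hV.pperp h).nondeg hu ψ hψ).dim hP.rep v = 0) ∧
    ∀ v : H5.pperp (Q.restrict (H5.pperp Q e f)) u g, v ≠ 0 →
      (Q.restrict (H5.pperp Q e f)) (v : H5.pperp Q e f) = 0 →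
        (radData (hV.pperp h).nondeg hu ψ hψ).dim hP.rep v = 1 := by
  have hW := hV.pperp h
  have hW2 := hW.pperp hu
  obtain ⟨w, x, h₂⟩ := hW2.exists_pair
  refine single_of_drop (k := j) hu hψ hP.rep hW (fun v hv t ht => ?_) h₂.ne_zero h₂.left ?_
  · by_cases hv0 : v = 0
    · rw [hv0, smul_zero]
    obtain ⟨v', hv'⟩ := exists_hypPair hW2.nondeg hv0 (by
      rw [QuadraticMap.restrict_apply]; exact hv)
    have tu := twoPairs_of_perp hu hv'
    have T := twoPairs_of_perp h (hypPair_coe hv')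
    obtain ⟨Xe, Xf, Xv, -, Xfix⟩ := bothEl_apply T ht
    obtain ⟨X, hX⟩ : ∃ X, X = bothEl Q e f ((v : H5.pperp Q e f) : V)
      ((v' : H5.pperp Q e f) : V) t := ⟨_, rfl⟩
    obtain ⟨u1, u2⟩ := mem_pperp.1 u.2
    obtain ⟨g1, g2⟩ := mem_pperp.1 g.2
    obtain ⟨⟨p1, p2, p3, p4⟩, ⟨q1, q2, q3, q4⟩, -⟩ := tu.coe.polars
    have Xu : (X.1 : V ≃ₗ[F] V) (u : V) = (1 : F) • (u : V) := by
      rw [hX, Xfix _ u1 u2 p2 q2, one_smul]
    have Xg : (X.1 : V ≃ₗ[F] V) (g : V) = (1 : F)⁻¹ • (g : V) := by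
      rw [hX, Xfix _ g1 g2 p4 q4, inv_one, one_smul]
    rw [← hX] at Xe Xf Xv
    have hc := lev_comm hV h hψ ρ hu (X := X) ht one_ne_zero Xe Xf Xu Xg (v := v) (v' := t • v)
      (by rw [inv_one, one_smul, Xv]; simp)
    apply Nat.cast_injective (R := ℂ)
    rw [hP.dim_eq, hP.dim_eq]
    show LinearMap.trace ℂ M ((levData hV h hψ hu).proj ρ (t • v) * P) =
      LinearMap.trace ℂ M ((levData hV h hψ hu).proj ρ v * P)
    calc LinearMap.trace ℂ M ((levData hV h hψ hu).proj ρ (t • v) * P)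
        = LinearMap.trace ℂ M (ρ X * ((levData hV h hψ hu).proj ρ v * P) * ρ X⁻¹) := by
          rw [← mul_assoc, hc, mul_assoc _ (ρ X) P, hP.comm X t ht Xe Xf, mul_assoc,
            mul_assoc P, ← map_mul, mul_inv_cancel, map_one, mul_one]
      _ = _ := by
          rw [LinearMap.trace_mul_cycle, ← map_mul, inv_mul_cancel, map_one, one_mul]
  · show LinearMap.trace ℂ _ (hP.rep _) = _
    rw [hP.trace_rep, ← hP.trace_eq]
    have h0 := levi_drop hV h hψ ρ hu hiso hone h₂.ne_zero h₂.left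
    have ht := congrArg (LinearMap.trace ℂ M)
      (hP.triv (kE (Q.restrict (H5.pperp Q e f)) u (w : H5.pperp Q e f)))
    rw [mul_sub, map_sub, map_sub, h0, AbelData.trace_proj] at ht
    linear_combination -ht

include hP hiso hone hu in
/-- The sign on the lines of the inner radical. -/
theorem LeviProj.line {u₃ g₃ : H5.pperp (Q.restrict (H5.pperp Q e f)) u g}
    (h₃ : HypPair ((Q.restrict (H5.pperp Q e f)).restrict
      (H5.pperp (Q.restrict (H5.pperp Q e f)) u g)) u₃ g₃) {μ : F} (hμ : FieldGen μ) {γ : F}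
    (hγ : γ ≠ 0) {y : M} (hy : P y = y) :
    ρ (bothEl Q (u : V) g ((u₃ : H5.pperp Q e f) : V) ((g₃ : H5.pperp Q e f) : V) μ)
        ((levData hV h hψ hu).proj ρ (γ • u₃) y) =
      -(levData hV h hψ hu).proj ρ (γ • u₃) y := by
  obtain ⟨hi, ho⟩ := LeviProj.single hV h hψ ρ hu hP hiso hone
  have h1 := congrArg Subtype.val (LinearMap.congr_fun
    (line_sign (hV.pperp h) hu hψ hP.rep hi ho h₃ hμ hγ) ⟨y, y, hy⟩)
  rw [Module.End.mul_apply, LinearMap.neg_apply, Submodule.coe_neg, hP.rep_coe, hP.proj_coe,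
    leviK_bothEl h (twoPairs_of_perp hu h₃)] at h1
  exact h1

include hP hiso hone hu in
/-- The inner fixed vectors are negated. -/
theorem LeviProj.neg (hnf : ∀ y, P y = y → (∀ k, ρ (leviK h k) y = y) → y = 0)
    {u₃ g₃ : H5.pperp (Q.restrict (H5.pperp Q e f)) u g}
    (h₃ : HypPair ((Q.restrict (H5.pperp Q e f)).restrict
      (H5.pperp (Q.restrict (H5.pperp Q e f)) u g)) u₃ g₃) {μ : F} (hμ : FieldGen μ)
    {y : M} (hy : P y = y) (hy0 : (levData hV h hψ hu).proj ρ 0 y = y)
    (hyK : ∀ k, ρ (leviK h (leviK hu k)) y = y) :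
    ρ (bothEl Q (u : V) g ((u₃ : H5.pperp Q e f) : V) ((g₃ : H5.pperp Q e f) : V) μ) y = -y := by
  obtain ⟨hi, ho⟩ := LeviProj.single hV h hψ ρ hu hP hiso hone
  have h1 := congrArg Subtype.val (levi_fixed_neg (hV.pperp h) hu hψ hP.rep hi ho
    (fun z hz => Subtype.ext (hnf z (hP.apply_eq z.2) fun k => by
      rw [← hP.rep_coe k z, hz k]))
    h₃ hμ (x := ⟨y, y, hy⟩) (Subtype.ext (by rw [hP.proj_coe]; exact hy0))
    (fun k => Subtype.ext (hyK k)))
  rw [hP.rep_coe, Submodule.coe_neg, leviK_bothEl h (twoPairs_of_perp hu h₃)] at h1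
  exact h1

include hP hiso hone hu in
/-- The degree on the range. -/
theorem LeviProj.finrank_eq :
    finrank ℂ (LinearMap.range P) + 1 =
      (radData (hV.pperp h).nondeg hu ψ hψ).dim hP.rep 0 + Fintype.card F ^ (2 * (j + 1)) := by
  obtain ⟨hi, ho⟩ := LeviProj.single hV h hψ ρ hu hP hiso hone
  rw [← ((hV.pperp h).pperp hu).count]
  exact rad_finrank (hV.pperp h).nondeg hu hψ hP.rep hi ho

end Proj

end Cfsg.Agent.H39
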