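import Cfsg.Agent.H39.OmegaOddPhase

/-!
# Dimension seven
-/

namespace Cfsg.Agent.H39

open QuadraticMap hiding sq
open Cfsg.Agent.H5
open Finset Module
open scoped Classical commutatorElement

variable {F V : Type*} [Field F] [Fintype F] [AddCommGroup V] [Module F V] [FiniteDimensional F V]
  [Fintype V] {Q : QuadraticForm F V}

section Traces

variable {j : ℕ} (hV : OddForm Q (j + 3)) {e f : V} (h : HypPair Q e f) {ψ : AddChar F ℂ}
  (hψ : ψ ≠ 1) {M : Type} [AddCommGroup M] [Module ℂ M] [FiniteDimensional ℂ M]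
  (ρ : Representation ℂ (eichGroup Q) M)
  {u g : H5.pperp Q e f} (hu : HypPair (Q.restrict (H5.pperp Q e f)) u g)
  {P : Module.End ℂ M} (hP : LeviProj hV.nondeg h hψ ρ P)

include hV h hψ hu hP in
omit [FiniteDimensional ℂ M] in
lemma lev_proj_comm (v : H5.pperp (Q.restrict (H5.pperp Q e f)) u g) :
    (levData hV h hψ hu).proj ρ v * P = P * (levData hV h hψ hu).proj ρ v := by
  have hL : (levData hV h hψ hu).proj ρ v = (Fintype.card
      (H5.pperp (Q.restrict (H5.pperp Q e f)) u g) : ℂ)⁻¹ •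
        ∑ a, (levData hV h hψ hu).χ v (-a) • ρ ((levData hV h hψ hu).u a) := rfl
  simp only [hL, mul_smul_comm, smul_mul_assoc, Finset.mul_sum, Finset.sum_mul]
  congr 1
  exact Finset.sum_congr rfl fun a _ => by
    congr 1
    exact hP.comm_levi _

variable (hiso : ∀ v : H5.pperp Q e f, Q (v : V) ≠ 0 → (radData hV.nondeg h ψ hψ).dim ρ v = 0)
  (hone : ∀ v : H5.pperp Q e f, v ≠ 0 → Q (v : V) = 0 → (radData hV.nondeg h ψ hψ).dim ρ v = 1)

include hV h hψ hu hP hiso hone in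
/-- Only the inner fixed space contributes to the trace of an element moving all singular
characters. -/
theorem trace_moved {X : eichGroup Q} {ν l : F} (hν : ν ≠ 0) (hl : l ≠ 0)
    (Xe : (X.1 : V ≃ₗ[F] V) e = ν • e) (Xf : (X.1 : V ≃ₗ[F] V) f = ν⁻¹ • f)
    (Xu : (X.1 : V ≃ₗ[F] V) (u : V) = l • (u : V))
    (Xg : (X.1 : V ≃ₗ[F] V) (g : V) = l⁻¹ • (g : V))
    (hmove : ∀ v : H5.pperp (Q.restrict (H5.pperp Q e f)) u g, v ≠ 0 →
      Q ((v : H5.pperp Q e f) : V) = 0 →
        l⁻¹ • (X.1 : V ≃ₗ[F] V) ((v : H5.pperp Q e f) : V) ≠ ((v : H5.pperp Q e f) : V)) :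
    LinearMap.trace ℂ M (ρ X * P) =
      LinearMap.trace ℂ M (ρ X * ((levData hV h hψ hu).proj ρ 0 * P)) := by
  set L := levData hV h hψ hu with hL
  conv_lhs => rw [← one_mul P, ← L.sum_proj ρ, Finset.sum_mul, Finset.mul_sum, map_sum]
  refine Finset.sum_eq_single 0 (fun v _ hv => ?_) (by simp)
  by_cases hQv : Q ((v : H5.pperp Q e f) : V) = 0
  · obtain ⟨p1, p2, p3, p4⟩ := pperp2_polar v
    have key : ∀ (y : V) (r : F), r ≠ 0 → (X.1 : V ≃ₗ[F] V) y = r • y →
        polar Q y ((v : H5.pperp Q e f) : V) = 0 →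
          polar Q y (l⁻¹ • (X.1 : V ≃ₗ[F] V) ((v : H5.pperp Q e f) : V)) = 0 := by
      intro y r hr hy h0
      rw [← orth_polar X.1, hy, polar_smul_left, smul_eq_zero, or_iff_right hr] at h0
      rw [polar_smul_right, h0, smul_zero]
    obtain ⟨v', hv'⟩ := pperp2_of_polar (u := u) (g := g) (key _ _ hν Xe p1)
      (key _ _ (inv_ne_zero hν) Xf p2) (key _ _ hl Xu p3) (key _ _ (inv_ne_zero hl) Xg p4)
    have hc := lev_comm hV h hψ ρ hu hν hl Xe Xf Xu Xg hv'
    have hne : v ≠ v' := fun h0 => hmove v hv hQv (by rw [← hv', ← h0])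
    have hPv := lev_proj_comm hV h hψ ρ hu hP v
    calc LinearMap.trace ℂ M (ρ X * (L.proj ρ v * P))
        = LinearMap.trace ℂ M ((ρ X * P) * L.proj ρ v * L.proj ρ v) := by
          rw [mul_assoc, L.proj_mul_proj, if_pos rfl, mul_assoc, hPv]
      _ = LinearMap.trace ℂ M (L.proj ρ v * ((ρ X * P) * L.proj ρ v)) := by
          rw [LinearMap.trace_mul_comm]
      _ = 0 := by
          rw [mul_assoc (ρ X), ← hPv, ← mul_assoc (ρ X), hc, ← mul_assoc, ← mul_assoc,
            L.proj_mul_proj, if_neg hne, zero_mul, zero_mul, map_zero]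
  · have h1 := AbelData.proj_eq_zero_of_dim hP.rep (radData (hV.pperp h).nondeg hu ψ hψ)
      ((LeviProj.single hV h hψ ρ hu hP hiso hone).1 v (by
        rw [QuadraticMap.restrict_apply]; exact hQv))
    have h2 : L.proj ρ v * P = 0 := LinearMap.ext fun y => by
      have h3 := congrArg Subtype.val (LinearMap.congr_fun h1 ⟨P y, LinearMap.mem_range_self _ y⟩)
      rw [hP.proj_coe] at h3
      exact h3
    rw [h2, mul_zero, map_zero]

end Traces

variable (hV : OddForm Q 3) {e f : V} (h : HypPair Q e f) {ψ : AddChar F ℂ} (hψ : ψ ≠ 1)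
  {M : Type} [AddCommGroup M] [Module ℂ M] [FiniteDimensional ℂ M]
  (ρ : Representation ℂ (eichGroup Q) M)
  (hiso : ∀ v : H5.pperp Q e f, Q (v : V) ≠ 0 → (radData hV.nondeg h ψ hψ).dim ρ v = 0)
  (hone : ∀ v : H5.pperp Q e f, v ≠ 0 → Q (v : V) = 0 → (radData hV.nondeg h ψ hψ).dim ρ v = 1)

include hV h hψ hiso hone in
/-- The degree in dimension seven, and a vector fixed by the radical and the Levi group. -/
theorem odd_three (hfix : ∀ x : M, (∀ g, ρ g x = x) → x = 0) :
    oddB (Fintype.card F) 3 ≤ finrank ℂ M ∧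
      ∃ x : M, x ≠ 0 ∧ (radData hV.nondeg h ψ hψ).proj ρ 0 x = x ∧
        ∀ k, ρ (leviK h k) x = x := by
  set D := radData hV.nondeg h ψ hψ with hD
  set q := Fintype.card F with hqd
  have hq := hV.five_le
  have hW := hV.pperp h
  obtain ⟨u, g, hu⟩ := hW.exists_pair
  have hW2 := hW.pperp hu
  obtain ⟨u₃, g₃, h₃⟩ := hW2.exists_pair
  have hW3 := hW2.pperp h₃
  obtain ⟨μ, hμ⟩ := exists_fieldGen (F := F)
  have hμ0 := hμ.ne_zero
  have hμ1 : μ ≠ 1 := fun h1 => hμ.sq_ne hV.four_le (by rw [h1, mul_one])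
  obtain ⟨T, T13, T23⟩ := step_frames h hu h₃
  obtain ⟨P, hPd⟩ : ∃ P, P = D.proj ρ 0 * (1 - leviAvg h ρ) := ⟨_, rfl⟩
  have hP : LeviProj hV.nondeg h hψ ρ P := hPd ▸ leviProj_compl hV.nondeg h hψ ρ
  have hPE : ∀ y, D.proj ρ 0 (leviAvg h ρ y) = D.proj ρ 0 y - P y := fun y => by
    rw [hPd, Module.End.mul_apply, LinearMap.sub_apply, Module.End.one_apply, map_sub, sub_sub_cancel]
  have hEfix : ∀ y k, ρ (leviK h k) (D.proj ρ 0 (leviAvg h ρ y)) = D.proj ρ 0 (leviAvg h ρ y) :=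
    fun y k => by
      rw [← Module.End.mul_apply, rad_zero_comm hV.nondeg h hψ ρ _ 1 one_ne_zero
        (by rw [one_smul]; exact orthExt_left h _) (by rw [inv_one, one_smul]; exact orthExt_right h _),
        Module.End.mul_apply, leviAvg_fixed]
  have hnf : ∀ y, P y = y → (∀ k, ρ (leviK h k) y = y) → y = 0 := fun y hy hK => by
    rw [← hy, hPd, Module.End.mul_apply, LinearMap.sub_apply, Module.End.one_apply,
      leviAvg_apply_fixed h ρ hK, sub_self, map_zero]
  obtain ⟨hi, ho⟩ := LeviProj.single hV h hψ ρ hu hP hiso hone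
  set L := levData hV h hψ hu with hL
  have hz1 := LeviProj.finrank_eq hV h hψ ρ hu hP hiso hone
  set z0 := (radData hW.nondeg hu ψ hψ).dim hP.rep 0 with hz0d
  -- inner vectors of the part without fixed vectors
  have hinner : ∀ y, P y = y → L.proj ρ 0 y = y → Inner hV h hψ ρ hu P y := by
    intro y hy hy0
    refine ⟨hy, hy0, fun k => ?_⟩
    have h1 := congrArg Subtype.val (LinearMap.congr_fun
      (base_two hW hu hψ hP.rep hi ho k) ⟨y, y, hy⟩)
    rw [Module.End.mul_apply, hP.rep_coe, hP.proj_coe] at h1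
    rw [lev2_apply]
    exact (congrArg (ρ (leviK h (leviK hu k))) hy0).symm.trans (h1.trans hy0)
  obtain ⟨Q0, hQ0⟩ : ∃ Q0, Q0 = L.proj ρ 0 * P := ⟨_, rfl⟩
  have hQQ : Q0 * Q0 = Q0 := by
    rw [hQ0, mul_assoc, ← mul_assoc P, ← lev_proj_comm hV h hψ ρ hu hP 0, mul_assoc (L.proj ρ 0) P P,
      hP.idem, ← mul_assoc, L.proj_mul_proj, if_pos rfl]
  have hQfix : ∀ y, Q0 y = y → P y = y ∧ L.proj ρ 0 y = y := by
    intro y hy
    refine ⟨?_, ?_⟩ <;> conv_lhs => rw [← hy, hQ0, ← Module.End.mul_apply]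
    · rw [← mul_assoc, ← lev_proj_comm hV h hψ ρ hu hP 0, mul_assoc, hP.idem, ← hQ0, hy]
    · rw [← mul_assoc, L.proj_mul_proj, if_pos rfl, ← hQ0, hy]
  have hQmem : ∀ y, P y = y → L.proj ρ 0 y = y → Q0 y = y := fun y h1 h2 => by
    rw [hQ0, Module.End.mul_apply, h1, h2]
  have htrQ : LinearMap.trace ℂ M Q0 = (z0 : ℂ) := by
    rw [hQ0]; exact (hP.dim_eq (radData hW.nondeg hu ψ hψ) 0).symm
  have hproj : LinearMap.IsProj (LinearMap.range Q0) Q0 :=
    ⟨fun x => LinearMap.mem_range_self _ x, by rintro _ ⟨y, rfl⟩; exact LinearMap.congr_fun hQQ y⟩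
  have hrQ : finrank ℂ (LinearMap.range Q0) = z0 := by
    apply Nat.cast_injective (R := ℂ)
    rw [← hproj.trace, htrQ]
  obtain ⟨G, hG⟩ : ∃ X, X = bothEl Q e f ((u₃ : H5.pperp Q e f) : V)
    ((g₃ : H5.pperp Q e f) : V) μ := ⟨_, rfl⟩
  obtain ⟨G12, hG12⟩ : ∃ X, X = bothEl Q e f (u : V) g μ := ⟨_, rfl⟩
  obtain ⟨Sw, hSw⟩ : ∃ X, X = swapEl Q (u : V) g ((u₃ : H5.pperp Q e f) : V)
    ((g₃ : H5.pperp Q e f) : V) 1 := ⟨_, rfl⟩
  obtain ⟨⟨eu, ue, fu, uf⟩, ⟨eg, ge, fg, gf⟩, -⟩ := T.polars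
  obtain ⟨⟨e3, a3e, f3, a3f⟩, ⟨e3', b3e, f3', b3f⟩, -⟩ := T13.polars
  obtain ⟨⟨u3, a3u, g3, a3g⟩, ⟨u3', b3u, g3', b3g⟩, -⟩ := T23.polars
  obtain ⟨a1, a2, a3, a4, a5⟩ := bothEl_apply T13 hμ0
  obtain ⟨b1, b2, b3, b4, b5⟩ := bothEl_apply T hμ0
  obtain ⟨S1, S2, S3, S4, S5⟩ := swapEl_apply T23 (one_ne_zero (α := F))
  rw [← hG] at a1 a2 a3 a4
  rw [← hG12] at b1 b2 b3 b4
  rw [← hSw, one_smul] at S2 S3
  rw [← hSw, inv_one, one_smul] at S1 S4
  have a5' : ∀ x, polar Q e x = 0 → polar Q f x = 0 → polar Q ((u₃ : H5.pperp Q e f) : V) x = 0 →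
      polar Q ((g₃ : H5.pperp Q e f) : V) x = 0 → (G.1 : V ≃ₗ[F] V) x = x := fun x => by
    rw [hG]; exact a5 x
  have b5' : ∀ x, polar Q e x = 0 → polar Q f x = 0 → polar Q (u : V) x = 0 →
      polar Q (g : V) x = 0 → (G12.1 : V ≃ₗ[F] V) x = x := fun x => by rw [hG12]; exact b5 x
  have S5' : ∀ x, polar Q (u : V) x = 0 → polar Q (g : V) x = 0 →
      polar Q ((u₃ : H5.pperp Q e f) : V) x = 0 → polar Q ((g₃ : H5.pperp Q e f) : V) x = 0 →
        (Sw.1 : V ≃ₗ[F] V) x = x := fun x => by rw [hSw]; exact S5 x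
  have Gu : (G.1 : V ≃ₗ[F] V) (u : V) = (1 : F) • (u : V) := by
    rw [a5' _ eu fu a3u b3u, one_smul]
  have Gg : (G.1 : V ≃ₗ[F] V) (g : V) = (1 : F)⁻¹ • (g : V) := by
    rw [a5' _ eg fg a3g b3g, inv_one, one_smul]
  -- both scalings have trace zero on the inner fixed space
  have hopp : ρ G12 * Q0 = -(ρ G * Q0) := by
    refine LinearMap.ext fun y => ?_
    rw [Module.End.mul_apply, LinearMap.neg_apply, Module.End.mul_apply, hG12, hG]
    obtain ⟨h1, h2⟩ := hQfix (Q0 y) (LinearMap.congr_fun hQQ y)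
    exact (hinner _ h1 h2).opposite hV h hψ ρ hu h₃ hμ hiso hone hP hnf
  have htr0 : LinearMap.trace ℂ M (ρ G * Q0) = 0 := by
    have m12 : LinearMap.trace ℂ M (ρ G12 * P) = LinearMap.trace ℂ M (ρ G12 * Q0) := by
      rw [hQ0]
      refine trace_moved hV h hψ ρ hu hP hiso hone hμ0 hμ0 b1 b2 b3 b4 fun v hv _ heq => ?_
      obtain ⟨p1, p2, p3, p4⟩ := pperp2_polar v
      rw [b5' _ p1 p2 p3 p4] at heq
      have h0 : (μ⁻¹ - 1) • ((v : H5.pperp Q e f) : V) = 0 := by
        rw [sub_smul, heq, one_smul, sub_self]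
      rcases smul_eq_zero.1 h0 with h0 | h0
      · exact hμ1 (inv_eq_one.1 (sub_eq_zero.1 h0))
      · exact hv (Subtype.ext (Subtype.ext h0))
    have m13 : LinearMap.trace ℂ M (ρ G * P) = LinearMap.trace ℂ M (ρ G * Q0) := by
      rw [hQ0]
      refine trace_moved hV h hψ ρ hu hP hiso hone hμ0 one_ne_zero a1 a2 Gu Gg
        fun v hv hQv heq => ?_
      rw [inv_one, one_smul] at heq
      have h3 : ∀ (y : V) (r : F), r ≠ 1 → (G.1 : V ≃ₗ[F] V) y = r • y →
          polar Q y ((v : H5.pperp Q e f) : V) = 0 := by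
        intro y r hr hy
        have h4 := orth_polar G.1 y ((v : H5.pperp Q e f) : V)
        rw [hy, heq, polar_smul_left, smul_eq_mul] at h4
        by_contra h0
        exact hr (mul_right_cancel₀ h0 (h4.trans (one_mul _).symm))
      have k1 : polar ((Q.restrict (H5.pperp Q e f)).restrict
          (H5.pperp (Q.restrict (H5.pperp Q e f)) u g)) u₃ v = 0 := by
        rw [polar_restrict, polar_restrict]; exact h3 _ _ hμ1 a3
      have k2 : polar ((Q.restrict (H5.pperp Q e f)).restrict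
          (H5.pperp (Q.restrict (H5.pperp Q e f)) u g)) g₃ v = 0 := by
        rw [polar_restrict, polar_restrict]
        exact h3 _ _ (fun h0 => hμ1 (inv_eq_one.1 h0)) a4
      have hd := pair_decomp h₃ v
      rw [k1, k2, zero_smul, zero_smul, zero_add, zero_add] at hd
      have h5 : perpProj h₃ v = 0 := hW3.eq_zero_of_iso (by
        rw [QuadraticMap.restrict_apply, ← hd, QuadraticMap.restrict_apply,
          QuadraticMap.restrict_apply, hQv])
      exact hv (by rw [hd, h5]; rfl)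
    have hconj : G * Sw = Sw * G12 := by
      refine triple_ext T T13 T23 (fun x hx => ?_) fun x hx => ?_
      · simp only [List.mem_cons, List.not_mem_nil, or_false] at hx
        rw [eichGroup_mul_apply, eichGroup_mul_apply]
        rcases hx with hh | hh | hh | hh | hh | hh <;> rw [hh]
        · rw [S5' e ue ge a3e b3e, a1, b1, map_smul, S5' e ue ge a3e b3e]
        · rw [S5' f uf gf a3f b3f, a2, b2, map_smul, S5' f uf gf a3f b3f]
        · rw [S1, a3, b3, map_smul, S1]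
        · rw [S3, a4, b4, map_smul, S3]
        · rw [S2, map_neg, a5' _ eu fu a3u b3u, b5' _ e3 f3 u3 g3, S2]
        · rw [S4, map_neg, a5' _ eg fg a3g b3g, b5' _ e3' f3' u3' g3', S4]
      · rw [eichGroup_mul_apply, eichGroup_mul_apply,
          S5' x (hx _ (by simp)) (hx _ (by simp)) (hx _ (by simp)) (hx _ (by simp)),
          b5' x (hx _ (by simp)) (hx _ (by simp)) (hx _ (by simp)) (hx _ (by simp)),
          a5' x (hx _ (by simp)) (hx _ (by simp)) (hx _ (by simp)) (hx _ (by simp)),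
          S5' x (hx _ (by simp)) (hx _ (by simp)) (hx _ (by simp)) (hx _ (by simp))]
    have hSP : ρ Sw * P = P * ρ Sw := hP.comm Sw 1 one_ne_zero
      (by rw [one_smul]; exact S5' e ue ge a3e b3e) (by rw [inv_one, one_smul]; exact S5' f uf gf a3f b3f)
    have heq : LinearMap.trace ℂ M (ρ G * P) = LinearMap.trace ℂ M (ρ G12 * P) := by
      have h1 : ρ G * P = ρ Sw * (ρ G12 * P) * ρ Sw⁻¹ := by
        rw [← mul_assoc, ← map_mul, ← hconj, map_mul, mul_assoc _ (ρ Sw) P, hSP, mul_assoc (ρ G),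
          mul_assoc P, ← map_mul, mul_inv_cancel, map_one, mul_one]
      rw [h1, LinearMap.trace_mul_cycle, ← map_mul, inv_mul_cancel, map_one, one_mul]
    have h2 : LinearMap.trace ℂ M (ρ G * Q0) = -LinearMap.trace ℂ M (ρ G * Q0) := by
      conv_lhs => rw [← m13, heq, m12, hopp, map_neg]
    linear_combination (1 / 2 : ℂ) * h2
  -- the count
  have hPdim : (D.dim ρ 0 : ℂ) = LinearMap.trace ℂ M (D.proj ρ 0 - P) + finrank ℂ (LinearMap.range P) := by
    rw [map_sub, D.trace_proj, hP.trace_eq, sub_add_cancel]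
  have hR2 : (D.proj ρ 0 - P) * (D.proj ρ 0 - P) = D.proj ρ 0 - P := by
    have h1 : P * D.proj ρ 0 = P := by
      have hc : D.proj ρ 0 * leviAvg h ρ = leviAvg h ρ * D.proj ρ 0 := by
        simp only [leviAvg, mul_smul_comm, smul_mul_assoc, Finset.mul_sum, Finset.sum_mul]
        congr 1
        exact Finset.sum_congr rfl fun k _ => (rad_zero_comm hV.nondeg h hψ ρ _ 1 one_ne_zero
          (by rw [one_smul]; exact orthExt_left h _)
          (by rw [inv_one, one_smul]; exact orthExt_right h _)).symm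
      rw [hPd, mul_assoc, sub_mul, one_mul, ← hc, mul_sub, ← mul_assoc, D.proj_mul_proj, if_pos rfl,
        mul_sub, mul_one]
    rw [sub_mul, mul_sub, mul_sub, D.proj_mul_proj, if_pos rfl, hP.le, hP.idem, h1]
    abel
  have hRproj : LinearMap.IsProj (LinearMap.range (D.proj ρ 0 - P)) (D.proj ρ 0 - P) :=
    ⟨fun x => LinearMap.mem_range_self _ x, by rintro _ ⟨y, rfl⟩; exact LinearMap.congr_fun hR2 y⟩
  rw [hRproj.trace, ← Nat.cast_add, Nat.cast_inj] at hPdim
  have hfin := rad_finrank hV.nondeg h hψ ρ hiso hone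
  rw [hW.count, ← hD] at hfin
  have hPD : ∀ y, D.proj ρ 0 (P y) = P y := fun y => LinearMap.congr_fun hP.le y
  -- inner vectors in the whole fixed space
  have hInner0 : ∀ y, Inner hV h hψ ρ hu P y → Inner hV h hψ ρ hu (D.proj ρ 0) y := fun y hy =>
    ⟨by rw [← hy.mem, hPD], hy.radical, hy.levi⟩
  have hG23 : ∀ y, (∀ k, ρ (leviK h k) y = y) →
      ρ (bothEl Q (u : V) g ((u₃ : H5.pperp Q e f) : V) ((g₃ : H5.pperp Q e f) : V) μ) y = y :=
    fun y hy => by rw [← leviK_bothEl h (twoPairs_of_perp hu h₃) μ]; exact hy _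
  have hb : oddB q 3 = 1 + q ^ 2 + q ^ 4 := by
    simp [oddB, Finset.sum_range_succ]
  by_cases hz0 : z0 = 0
  · -- no inner vectors: no fixed vector, hence an impossible degree
    exfalso
    have hQ00 : Q0 = 0 := LinearMap.range_eq_bot.1 (Submodule.finrank_eq_zero.1 (hrQ.trans hz0))
    have hF0 : ∀ x, D.proj ρ 0 x = x → (∀ k, ρ (leviK h k) x = x) → x = 0 := by
      intro x hx hK
      have hin : Inner hV h hψ ρ hu (D.proj ρ 0) x :=
        ⟨hx, lev_radical_of_fix hV h hψ ρ hu fun a => by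
          rw [← leviK_kE h hu.left (pperp2_polar a).2.2.1]; exact hK _, fun k => by
          rw [lev2_apply]; exact hK _⟩
      refine final_zero hV h hψ ρ hu h₃ hμ (c := (-1 : ℂ)) hin ?_ fun y hy hyc => ?_
      · rw [neg_one_smul]
        exact levi_fixed_neg hV h hψ ρ hiso hone hfix (hypPair_coe h₃) hμ hx hK
      · have h1 : P y = 0 := by
          have h2 : L.proj ρ 0 (P y) = P y := by
            rw [← Module.End.mul_apply, lev_proj_comm hV h hψ ρ hu hP 0, Module.End.mul_apply,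
              hy.radical]
          have h3 := hQmem (P y) (LinearMap.congr_fun hP.idem y) h2
          rw [hQ00, LinearMap.zero_apply] at h3
          exact h3.symm
        have h4 : D.proj ρ 0 (leviAvg h ρ y) = y := by rw [hPE, h1, sub_zero, hy.mem]
        rw [neg_one_smul, hG23 y (fun k => by rw [← h4]; exact hEfix y k)] at hyc
        exact (smul_eq_zero.1 (show (2 : ℂ) • y = 0 by rw [two_smul]; exact eq_neg_iff_add_eq_zero.1 hyc)).resolve_left two_ne_zero
    have hR0 : D.proj ρ 0 - P = 0 := LinearMap.ext fun y => by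
      rw [LinearMap.sub_apply, ← hPE, LinearMap.zero_apply]
      exact hF0 _ (by rw [← Module.End.mul_apply, D.proj_mul_proj, if_pos rfl]) (hEfix y)
    rw [hR0, LinearMap.range_zero, finrank_bot] at hPdim
    haveI : Nontrivial M := by
      by_contra hnt
      rw [not_nontrivial_iff_subsingleton] at hnt
      have h1 := hone u hu.ne_zero hu.left
      rw [AbelData.dim, Subsingleton.elim (LinearMap.range _) ⊥, finrank_bot] at h1
      exact zero_ne_one h1
    haveI : ρ.IsIrreducible := irreducible_of_single (k := 0) h hψ ρ hV hiso hone hfix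
    have hdrop := dvd_card_longSet_mul ρ _ fun x hx =>
      long_char hV.nondeg h hψ ρ hu hiso hone (by rw [hV.dim]; omega) hx
    rw [show finrank F V - 3 = 4 by rw [hV.dim]] at hdrop
    have hS := card_longSet hV.nondeg (q ^ 4) fun x y hxy => by rw [(hV.pperp hxy).count]
    rw [hV.count] at hS
    refine odd_three_exclude q (finrank ℂ M) _ hq hS ?_ hdrop
    norm_num at hz1 hfin ⊢
    rw [← hqd] at hz1 hfin
    rw [hz0] at hz1
    omega
  -- an eigenvector with eigenvalue other than `-1`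
  have hGinv : ∀ y ∈ LinearMap.range Q0, ρ G y ∈ LinearMap.range Q0 := by
    intro y hy
    obtain ⟨h1, h2⟩ := hQfix y (hproj.map_id y hy)
    have h3 := (hinner y h1 h2).scale hV h hψ ρ hu hP hμ0 one_ne_zero a1 a2 Gu Gg
    exact ⟨_, hQmem _ h3.mem h3.radical⟩
  have hGm : G ^ (q - 1) = 1 := by
    rw [hG]; exact bothEl_pow_eq_one T13 hμ0 (FiniteField.pow_card_sub_one_eq_one μ hμ0)
  haveI : NeZero (q - 1) := ⟨by omega⟩
  obtain ⟨x, hx, hxne⟩ : ∃ x ∈ LinearMap.range Q0, ρ G x ≠ (-1 : ℂ) • x := by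
    by_contra hc
    push Not at hc
    have h1 : ρ G * Q0 = -Q0 := LinearMap.ext fun y => by
      rw [Module.End.mul_apply, hc _ (LinearMap.mem_range_self _ y), neg_one_smul]
      rfl
    rw [h1, map_neg, htrQ, neg_eq_zero, Nat.cast_eq_zero] at htr0
    exact hz0 htr0
  obtain ⟨c, hc, y, hy, hy0, hyc⟩ := exists_eigen_ne ρ hGm (LinearMap.range Q0) hGinv hx hxne
  obtain ⟨hy1, hy2⟩ := hQfix y (hproj.map_id y hy)
  have hyin := hinner y hy1 hy2
  have hex : ∃ x : M, x ≠ 0 ∧ D.proj ρ 0 x = x ∧ ∀ k, ρ (leviK h k) x = x := by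
    by_contra hno
    push Not at hno
    refine hy0 (final_zero hV h hψ ρ hu h₃ hμ (c := c) (hInner0 y hyin) (hG ▸ hyc) fun z hz hzc => ?_)
    have hzP : P z = z := by
      have h1 : D.proj ρ 0 (leviAvg h ρ z) = 0 := by
        by_contra h0
        obtain ⟨k, hk⟩ := hno _ h0 (by rw [← Module.End.mul_apply, D.proj_mul_proj, if_pos rfl])
        exact hk (hEfix z k)
      rw [hPE, hz.mem, sub_eq_zero] at h1
      exact h1.symm
    have h2 := LeviProj.neg hV h hψ ρ hu hP hiso hone hnf h₃ hμ hzP hz.radical hz.levi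
    rw [hzc] at h2
    by_contra h0
    exact hc (smul_left_injective ℂ h0 (h2.trans (neg_one_smul ℂ z).symm))
  refine ⟨?_, hex⟩
  obtain ⟨x', hx'0, hx'1, hx'2⟩ := hex
  have hf1 : 1 ≤ finrank ℂ (LinearMap.range (D.proj ρ 0 - P)) := by
    by_contra h0
    push Not at h0
    have h1 := LinearMap.congr_fun
      (LinearMap.range_eq_bot.1 (Submodule.finrank_eq_zero.1 (Nat.lt_one_iff.1 h0))) x'
    rw [LinearMap.sub_apply, hx'1, LinearMap.zero_apply, hPd, Module.End.mul_apply,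
      LinearMap.sub_apply, Module.End.one_apply, leviAvg_apply_fixed h ρ hx'2, sub_self, map_zero,
      sub_zero] at h1
    exact hx'0 h1
  have hz2 : 2 ≤ z0 := by
    by_contra h0
    have h1 : finrank ℂ (LinearMap.range Q0) = 1 := by rw [hrQ]; omega
    have hall : ρ G * Q0 = c • Q0 := LinearMap.ext fun w => by
      obtain ⟨r, hr⟩ := exists_smul_eq_of_finrank_eq_one h1
        (x := (⟨y, hy⟩ : LinearMap.range Q0)) (fun h2 => hy0 (congrArg Subtype.val h2))
        ⟨Q0 w, LinearMap.mem_range_self _ w⟩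
      have hr' : r • y = Q0 w := congrArg Subtype.val hr
      rw [Module.End.mul_apply, LinearMap.smul_apply, ← hr', map_smul, hyc, smul_comm]
    rw [hall, map_smul, htrQ, smul_eq_mul, mul_eq_zero, Nat.cast_eq_zero] at htr0
    have hc0 : c = 0 := htr0.resolve_right hz0
    rw [hc0, zero_smul] at hyc
    exact hy0 (by
      rw [← Module.End.one_apply (R := ℂ) y, ← map_one ρ, ← inv_mul_cancel G, map_mul,
        Module.End.mul_apply, hyc, map_zero])
  rw [hb]
  norm_num at hz1 hfin ⊢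
  rw [← hqd] at hz1 hfin
  omega

end Cfsg.Agent.H39
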