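import Mathlib

/-!
# Arithmetic of the bound for plus type orthogonal groups
-/

namespace Cfsg.Agent.H39

/-- The bound, indexed by the Witt index less one. -/
def plusB (q : ℕ) : ℕ → ℕ
  | 0 => 1
  | m + 1 => q ^ (2 * m + 1) + q ^ (m + 1) - q ^ m + plusB q m

lemma plusB_spec (q : ℕ) (hq : 1 ≤ q) : ∀ m, (plusB q m : ℤ) * ((q : ℤ) ^ 2 - 1) =
    (q : ℤ) ^ (2 * m + 1) + (q : ℤ) ^ (m + 2) - (q : ℤ) ^ m - q := by
  intro m
  induction m with
  | zero => simp [plusB]; ring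
  | succ m ih =>
    have hle : q ^ m ≤ q ^ (2 * m + 1) + q ^ (m + 1) :=
      le_add_left (Nat.pow_le_pow_right hq (by omega))
    rw [plusB, Nat.cast_add, Nat.cast_sub hle]
    push_cast
    linear_combination ih

lemma dvd_plusB (q : ℕ) (hq : 1 ≤ q) : ∀ m, 1 ≤ m → q ∣ plusB q m := by
  intro m hm
  induction m, hm using Nat.le_induction with
  | base => simp [plusB]; exact ⟨2, by omega⟩
  | succ m hm ih =>
    rw [plusB]
    exact dvd_add (Nat.dvd_sub (dvd_add (dvd_pow_self _ (by omega)) (dvd_pow_self _ (by omega)))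
      (dvd_pow_self _ (by omega))) ih

lemma plusB_succ_eq (q : ℕ) (hq : 1 ≤ q) {m N : ℕ}
    (hN : (q : ℤ) * N = (q : ℤ) ^ (2 * m + 2) + (q : ℤ) ^ (m + 2) - (q : ℤ) ^ (m + 1)) :
    plusB q (m + 1) = N + plusB q m := by
  rw [plusB]
  congr 1
  have hle : q ^ m ≤ q ^ (2 * m + 1) + q ^ (m + 1) :=
    le_add_left (Nat.pow_le_pow_right hq (by omega))
  apply Nat.cast_injective (R := ℤ)
  rw [Nat.cast_sub hle]
  apply mul_left_cancel₀ (show (q : ℤ) ≠ 0 by exact_mod_cast (show q ≠ 0 by omega))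
  rw [hN]
  push_cast
  ring

/-- The statement's closed form. -/
lemma plusB_closed (q n : ℕ) (hq : 2 ≤ q) :
    (q ^ (n + 1) - 1) * (q ^ n + q) / (q ^ 2 - 1) = plusB q n := by
  have h1 : 1 ≤ q ^ 2 := Nat.one_le_pow _ _ (by omega)
  have h2 : 1 ≤ q ^ (n + 1) := Nat.one_le_pow _ _ (by omega)
  refine Nat.div_eq_of_eq_mul_left (by nlinarith [Nat.sub_add_cancel h1]) ?_
  apply Nat.cast_injective (R := ℤ)
  push_cast [Nat.cast_sub h1, Nat.cast_sub h2]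
  linear_combination -(plusB_spec q (by omega) n)

/-- The bound is small against the number of vectors of a given norm. -/
lemma plusB_mul_le (q m : ℕ) (hq : 4 ≤ q) (hm : 2 ≤ m) :
    plusB q m * (q - 1) ≤ q ^ (2 * m) := by
  have h := plusB_spec q (by omega) m
  have h1 : (q : ℤ) ^ (m + 2) ≤ (q : ℤ) ^ (2 * m) :=
    pow_le_pow_right₀ (by exact_mod_cast (show 1 ≤ q by omega)) (by omega)
  have h2 : (0 : ℤ) ≤ (q : ℤ) ^ m := by positivity
  have hq' : (4 : ℤ) ≤ q := by exact_mod_cast hq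
  zify [show 1 ≤ q by omega]
  have : ((plusB q m : ℤ) * ((q : ℤ) - 1)) * (q + 1) ≤ (q : ℤ) ^ (2 * m) * (q + 1) := by
    calc ((plusB q m : ℤ) * ((q : ℤ) - 1)) * (q + 1)
        = (plusB q m : ℤ) * ((q : ℤ) ^ 2 - 1) := by ring
      _ ≤ _ := by rw [h, pow_succ]; nlinarith
  exact le_of_mul_le_mul_right this (by linarith)

/-- No degree one below the bound divides the class function. -/
lemma plus_exclude (q m d S e : ℕ) (hq : 4 ≤ q) (hm : 3 ≤ m) (hd : d + 1 = plusB q m)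
    (hS : (q : ℤ) ^ 2 * ((S : ℤ) * ((q : ℤ) ^ 2 - 1)) =
      ((q : ℤ) ^ (2 * m + 2) + (q : ℤ) ^ (m + 2) - (q : ℤ) ^ (m + 1) - q) *
        ((q : ℤ) ^ (2 * m) + (q : ℤ) ^ (m + 1) - (q : ℤ) ^ m - q))
    (hdvd : d ∣ S * q ^ e) : False := by
  have hq' : (4 : ℤ) ≤ q := by exact_mod_cast hq
  have hspec := plusB_spec q (by omega) m
  obtain ⟨k, rfl⟩ : ∃ k, m = k + 1 := ⟨m - 1, by omega⟩
  have hle : 1 ≤ q ^ (2 * (k + 1)) := Nat.one_le_pow _ _ (by omega)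
  have hkey : q * S = plusB q (k + 1) * (q ^ (2 * (k + 1)) - 1) := by
    apply Nat.cast_injective (R := ℤ)
    push_cast [Nat.cast_sub hle]
    have hne : (q : ℤ) * ((q : ℤ) ^ 2 - 1) ≠ 0 := mul_ne_zero (by linarith) (by nlinarith)
    apply mul_left_cancel₀ hne
    linear_combination hS - (q : ℤ) * ((q : ℤ) ^ (2 * (k + 1)) - 1) * hspec
  have hcop : Nat.Coprime d (plusB q (k + 1)) := by
    rw [← hd]; exact Nat.coprime_self_add_right.2 (Nat.coprime_one_right d)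
  have hcq : Nat.Coprime d (q ^ e) :=
    (Nat.Coprime.coprime_dvd_right (dvd_plusB q (by omega) (k + 1) (by omega)) hcop).pow_right e
  have hd1 : d ∣ S := hcq.dvd_of_dvd_mul_right hdvd
  have hd2 : d ∣ q ^ (2 * (k + 1)) - 1 :=
    hcop.dvd_of_dvd_mul_left (hkey ▸ dvd_mul_of_dvd_right hd1 q)
  obtain ⟨t, ht⟩ := hd2
  have hT : (q : ℤ) ^ (2 * (k + 1)) - 1 = (d : ℤ) * t := by
    have := congrArg (Nat.cast : ℕ → ℤ) ht
    rw [Nat.cast_sub hle] at this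
    push_cast at this
    exact this
  have hdz : (d : ℤ) = plusB q (k + 1) - 1 := by rw [← hd]; push_cast; ring
  set m := k + 1
  have hq1 : (1 : ℤ) ≤ q := by linarith
  have p1 : (q : ℤ) ^ (m + 3) ≤ (q : ℤ) ^ (2 * m) := pow_le_pow_right₀ hq1 (by omega)
  have p2 : (q : ℤ) ^ (m + 1) ≤ (q : ℤ) ^ (2 * m) := pow_le_pow_right₀ hq1 (by omega)
  have p3 : (q : ℤ) ^ 3 ≤ (q : ℤ) ^ (m + 3) := pow_le_pow_right₀ hq1 (by omega)
  have p4 : (q : ℤ) ^ 2 ≤ (q : ℤ) ^ (2 * m) := pow_le_pow_right₀ hq1 (by omega)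
  have p5 : (q : ℤ) ^ m ≤ (q : ℤ) ^ (m + 1) := pow_le_pow_right₀ hq1 (by omega)
  have p6 : (q : ℤ) ^ (m + 1) ≤ (q : ℤ) ^ (m + 2) := pow_le_pow_right₀ hq1 (by omega)
  have p7 : 4 * (q : ℤ) ^ (2 * m) ≤ (q : ℤ) ^ (2 * m + 1) := by
    rw [pow_succ]; nlinarith [pow_pos (show (0 : ℤ) < q by linarith) (2 * m)]
  have p8 : (q : ℤ) ≤ (q : ℤ) ^ (2 * m) := le_self_pow₀ hq1 (by omega)
  have hw : (0 : ℤ) < (q : ℤ) ^ 2 - 1 := by nlinarith
  have hup : (q : ℤ) ^ (2 * m) - 1 < (q : ℤ) * d := by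
    refine lt_of_mul_lt_mul_right ?_ hw.le
    have : (q : ℤ) * d * ((q : ℤ) ^ 2 - 1) =
        (q : ℤ) ^ (2 * m + 2) + (q : ℤ) ^ (m + 3) - (q : ℤ) ^ (m + 1) - q ^ 2 - q ^ 3 + q := by
      rw [hdz]; linear_combination (q : ℤ) * hspec
    rw [this]
    have hq2 : (1 : ℤ) < q := by linarith
    linear_combination p2 + p3 + hq2
  have hlo : ((q : ℤ) - 1) * d < (q : ℤ) ^ (2 * m) - 1 := by
    refine lt_of_mul_lt_mul_right ?_ hw.le
    have : ((q : ℤ) - 1) * d * ((q : ℤ) ^ 2 - 1) =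
        (q : ℤ) ^ (2 * m + 2) + (q : ℤ) ^ (m + 3) - (q : ℤ) ^ (m + 1) - q ^ 2 - q ^ 3 + q -
          ((q : ℤ) ^ (2 * m + 1) + (q : ℤ) ^ (m + 2) - (q : ℤ) ^ m - q - q ^ 2 + 1) := by
      rw [hdz]; linear_combination ((q : ℤ) - 1) * hspec
    rw [this]
    have p9 : 2 * (q : ℤ) ≤ (q : ℤ) ^ 2 := by nlinarith
    have p10 : (q : ℤ) ^ 2 ≤ (q : ℤ) ^ 3 := pow_le_pow_right₀ hq1 (by omega)
    have p11 : (0 : ℤ) < (q : ℤ) ^ (2 * m) + (q : ℤ) ^ (m + 2) + 2 := by positivity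
    linear_combination p7 + p1 + p5 + p10 + p9 + p4 + p11
  have hd0 : (0 : ℤ) ≤ d := Nat.cast_nonneg d
  rcases Nat.lt_or_ge t q with htq | htq
  · have h' : (t : ℤ) ≤ (q : ℤ) - 1 := by omega
    have := mul_le_mul_of_nonneg_left h' hd0
    linarith [mul_comm ((q : ℤ) - 1) (d : ℤ)]
  · have h' : (q : ℤ) ≤ t := by omega
    have := mul_le_mul_of_nonneg_left h' hd0
    linarith [mul_comm (q : ℤ) (d : ℤ)]

end Cfsg.Agent.H39
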