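import Cfsg.Agent.H39.OmegaPlusDeg
import Cfsg.Agent.H5.OmegaForms

/-!
# Plus type in dimension six, and the bound in all dimensions
-/

namespace Cfsg.Agent.H39

open QuadraticMap hiding sq
open Cfsg.Agent.H5
open Finset Module
open scoped Classical commutatorElement

lemma six_exclude (q j d S : ℕ) (hq : 4 ≤ q) (hj1 : 1 ≤ j) (hj3 : j ≤ 3)
    (hd : d + j = q ^ 3 + q ^ 2 + q)
    (hS : (S : ℤ) = ((q : ℤ) ^ 3 - 1) * ((q : ℤ) ^ 2 + 1) * ((q : ℤ) + 1))
    (hdvd : d ∣ S * q ^ 3) : False := by
  have hdz : (d : ℤ) = (q : ℤ) ^ 3 + (q : ℤ) ^ 2 + q - j := by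
    have := congrArg (Nat.cast : ℕ → ℤ) hd
    push_cast at this
    linarith
  have hjq : j ≤ 2 * q ^ 2 + q := by nlinarith
  have h1 : (d : ℤ) ∣ (S : ℤ) * (q : ℤ) ^ 3 := by exact_mod_cast hdvd
  -- reduction modulo `d`
  have h2 : (d : ℤ) ∣ ((j * (j + 1) * (2 * q ^ 2 + q - j) : ℕ) : ℤ) := by
    push_cast [Nat.cast_sub hjq]
    have e : (j : ℤ) * (j + 1) * (2 * (q : ℤ) ^ 2 + q - j) =
        (d : ℤ) * (((q : ℤ) - 1) * ((q : ℤ) + 1) * ((q : ℤ) ^ 2 + 1) * (q : ℤ) ^ 2 +
          j * ((q : ℤ) - 1) * (q : ℤ) ^ 2 + j * ((j : ℤ) + 1)) - S * (q : ℤ) ^ 3 := by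
      rw [hS, hdz]; ring
    rw [e]
    exact (Dvd.intro _ rfl).sub h1
  have h3 := Int.natCast_dvd_natCast.1 h2
  have hpos : 0 < j * (j + 1) * (2 * q ^ 2 + q - j) :=
    Nat.mul_pos (Nat.mul_pos hj1 (by omega)) (by
      have : q ^ 2 ≥ 16 := by nlinarith
      omega)
  have hle := Nat.le_of_dvd hpos h3
  have hbig : q ≤ 23 := by
    by_contra hc
    push Not at hc
    have : j * (j + 1) * (2 * q ^ 2 + q - j) ≤ 12 * (2 * q ^ 2 + q) :=
      Nat.mul_le_mul (by nlinarith) (Nat.sub_le _ _)
    have : 24 * q ^ 2 ≤ q ^ 3 := by rw [pow_succ q 2]; nlinarith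
    nlinarith
  interval_cases q <;> interval_cases j <;>
    (rw [show d = _ from Nat.eq_sub_of_add_eq hd] at h3; norm_num at h3)

variable {F V : Type*} [Field F] [Fintype F] [AddCommGroup V] [Module F V] [FiniteDimensional F V]
  [Fintype V] {Q : QuadraticForm F V}

omit [FiniteDimensional F V] in
lemma PlusForm.iso_plane (h : PlusForm Q 0) : isoN Q + 1 = 2 * Fintype.card F := by
  apply Nat.cast_injective (R := ℤ)
  apply mul_left_cancel₀ (show (Fintype.card F : ℤ) ≠ 0 by exact_mod_cast Fintype.card_ne_zero)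
  push_cast
  linear_combination h.count

/-- In four dimensions a vector of non-zero norm is orthogonal to `q ^ 2` singular vectors. -/
lemma card_iso_aniso_perp (h : PlusForm Q 1) {a : V} (ha : Q a ≠ 0) :
    (univ.filter fun x : V => Q x = 0 ∧ polar Q a x = 0).card = Fintype.card F ^ 2 := by
  set q := Fintype.card F with hq
  obtain ⟨e, f, he⟩ := h.exists_pair
  have hP := h.pperp he
  obtain ⟨g, -, hga⟩ := exists_eichGroup_map_norm h.nondeg (by rw [h.dim]) he ha
  set c := Q a
  set lev := fun d : F => (univ.filter fun u : H5.pperp Q e f => Q (u : V) = d).card with hlev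
  -- the level sets of the plane
  have hsum : ∑ d, lev d = q ^ 2 := by
    rw [hlev, Finset.sum_congr rfl (fun d _ => rfl),
      ← Finset.card_eq_sum_card_fiberwise (f := fun u : H5.pperp Q e f => Q (u : V))
        (fun _ _ => mem_univ _), Finset.card_univ, Module.card_eq_pow_finrank (K := F), hP.dim]
  have h0 : lev 0 + 1 = 2 * q := by
    rw [← hP.iso_plane, show isoN (Q.restrict (H5.pperp Q e f)) = lev 0 from isoN_eq_card _]
  have hlev1 : ∀ d, d ≠ 0 → lev d = q - 1 := by
    obtain ⟨e₁, f₁, h₁⟩ := hP.exists_pair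
    have hge : ∀ d ∈ (univ : Finset F).erase 0, q - 1 ≤ lev d := fun d _ => by
      have := card_level_ge h₁ d
      rw [card_pperp_eq hP.nondeg h₁, hP.dim, pow_zero, mul_one] at this
      simpa using this
    have htot : ∑ d ∈ (univ : Finset F).erase 0, lev d = ∑ d ∈ (univ : Finset F).erase 0, (q - 1) := by
      rw [Finset.sum_const, smul_eq_mul, Finset.card_erase_of_mem (mem_univ _), Finset.card_univ]
      rw [← Finset.add_sum_erase _ _ (mem_univ (0 : F))] at hsum
      obtain ⟨r, hr⟩ : ∃ r, q = r + 1 := ⟨q - 1, by have := Fintype.one_lt_card (α := F); omega⟩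
      rw [hr] at hsum h0
      rw [← hq, hr, Nat.add_sub_cancel]
      nlinarith
    intro d hd
    exact ((Finset.sum_eq_sum_iff_of_le hge).1 htot.symm d (by simp [hd])).symm
  have hcount : (univ.filter fun x : V => Q x = 0 ∧ polar Q a x = 0).card =
      ∑ β : F, lev (c * (β * β)) := by
    rw [← Finset.card_sigma]
    symm
    refine Finset.card_bij
      (fun p _ => ((g : V ≃ₗ[F] V).symm ((pairSplit he).symm (-(c * p.1), p.1, p.2))))
      (fun p hp => ?_) (fun p _ p' _ hh => ?_) (fun x hx => ?_)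
    · simp only [Finset.mem_sigma, mem_univ, true_and, mem_filter] at hp
      simp only [mem_filter, mem_univ, true_and]
      set y := (pairSplit he).symm (-(c * p.1), p.1, p.2)
      have hy : y = -(c * p.1) • e + p.1 • f + (p.2 : V) := rfl
      rw [← orth_map g ((g : V ≃ₗ[F] V).symm y), ← orth_polar g a,
        LinearEquiv.apply_symm_apply, hga, polar_add_left, polar_smul_left, hy,
        (polar_pair_add he _ _ _).1, (polar_pair_add he _ _ _).2, map_pair_add he, hp]
      constructor <;> simp [mul_assoc]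
    · have := (pairSplit he).symm.injective ((g : V ≃ₗ[F] V).symm.injective hh)
      simp only [Prod.mk.injEq] at this
      exact Sigma.ext this.2.1 (heq_of_eq this.2.2)
    · simp only [mem_filter, mem_univ, true_and] at hx
      set y := (g : V ≃ₗ[F] V) x with hy
      have hyp : c * polar Q e y + polar Q f y = 0 := by
        have := hx.2
        rw [← orth_polar g, hga, ← hy, polar_add_left, polar_smul_left] at this
        simpa using this
      refine ⟨⟨polar Q e y, perpProj he y⟩, ?_, ?_⟩
      · simp only [Finset.mem_sigma, mem_univ, true_and, mem_filter]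
        have := hx.1
        rw [← orth_map g, ← hy, pair_decomp he y, map_pair_add he] at this
        linear_combination this - polar Q e y * hyp
      · show (g : V ≃ₗ[F] V).symm (-(c * polar Q e y) • e + polar Q e y • f + (perpProj he y : V)) = x
        rw [show -(c * polar Q e y) = polar Q f y by linear_combination -hyp, ← pair_decomp he y, hy,
          LinearEquiv.symm_apply_apply]
  rw [hcount, ← Finset.add_sum_erase _ _ (mem_univ (0 : F)), mul_zero, mul_zero,
    Finset.sum_congr rfl (g := fun _ => q - 1) (fun β hβ => hlev1 _ (by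
      have := (Finset.mem_erase.1 hβ).1
      exact mul_ne_zero ha (mul_ne_zero this this))), Finset.sum_const, smul_eq_mul,
    Finset.card_erase_of_mem (mem_univ _), Finset.card_univ]
  obtain ⟨r, hr⟩ : ∃ r, q = r + 1 := ⟨q - 1, by have := Fintype.one_lt_card (α := F); omega⟩
  rw [hr] at h0
  rw [← hq, hr, Nat.add_sub_cancel]
  nlinarith

/-- The case of dimension six. -/
theorem plus_base (hV : PlusForm Q 2) (hq : 4 ≤ Fintype.card F) :
    LowDeg Q (plusB (Fintype.card F) 2) := by
  refine lowDeg_of_irreducible fun M _ _ _ ρ hirr hne => ?_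
  set q := Fintype.card F with hqd
  obtain ⟨e, f, h⟩ := hV.exists_pair
  obtain ⟨ψ, hψ1⟩ := (AddChar.exists_apply_ne_zero (a := (1 : F))).2 one_ne_zero
  have hψ : ψ ≠ 1 := fun hh => hψ1 (by rw [hh, AddChar.one_apply])
  rcases plus_front (k := 0) hV hq h hψ ρ hne with hb | ⟨hiso, hone⟩
  · exact hb
  set W := H5.pperp Q e f with hWd
  set QW := Q.restrict W with hQW
  set D := radData hV.nondeg h ψ hψ with hD
  have hW : PlusForm QW 1 := hV.pperp h
  obtain ⟨a₁, b₁, h₁⟩ := hW.exists_pair
  have hW2 := hW.pperp h₁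
  obtain ⟨a₂, b₂, h₂⟩ := hW2.exists_pair
  have t : TwoPairs Q e f (a₁ : V) (b₁ : V) := twoPairs_of_perp h h₁
  have t2 : TwoPairs Q (a₁ : V) (b₁ : V) ((a₂ : W) : V) ((b₂ : W) : V) :=
    (twoPairs_of_perp h₁ h₂).coe
  set a : V := ((a₂ : W) : V) + ((b₂ : W) : V) with ha
  set u : V := (a₁ : V) with hu
  have hQa : Q a = 1 := by
    rw [ha, QuadraticMap.map_add (⇑Q), t2.snd.left, t2.snd.right, t2.snd.pair]; simp
  have hQu : Q u = 0 := t.snd.left
  obtain ⟨ue, uf⟩ := mem_pperp.1 a₁.2
  have ha_perp : a ∈ H5.pperp Q e f := add_mem (a₂ : W).2 (b₂ : W).2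
  obtain ⟨ae, af⟩ := mem_pperp.1 ha_perp
  have hua : polar Q u a = 0 := by
    rw [ha, polar_add_right, (mem_pperp.1 t2.memu).1, (mem_pperp.1 t2.memf).1, add_zero]
  have hb1a : polar Q (b₁ : V) a = 0 := by
    rw [ha, polar_add_right, (mem_pperp.1 t2.memu).2, (mem_pperp.1 t2.memf).2, add_zero]
  obtain ⟨μ, hμ, hμ1⟩ := exists_sq_ne_one hq
  have hμ1' : μ ≠ 1 := fun hh => hμ1 (by rw [hh, mul_one])
  obtain ⟨g, hg, ge, gf, -, gu, gfix⟩ := exists_pairScale t.flip hμ
  have ga : (g : V ≃ₗ[F] V) a = a := gfix a ae af hb1a hua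
  have hlv : Nat.card (H5.pperp (QW.restrict (H5.pperp QW a₁ b₁)) a₂ b₂) = 1 := by
    rw [card_pperp_eq hW2.nondeg h₂, hW2.dim, pow_zero]
  -- the fixed singular characters
  set s := ((univ : Finset F).erase 0).image fun c => c • a₁ with hs
  have ha10 : a₁ ≠ 0 := h₁.ne_zero
  have hscard : s.card + 1 = q := by
    rw [hs, Finset.card_image_of_injective _ (smul_left_injective F ha10),
      Finset.card_erase_add_one (mem_univ _), Finset.card_univ]
  have hfix : ∀ c : F, c ≠ 0 → ∀ v : W, v ∈ s ↔ v ≠ 0 ∧ Q (v : V) = 0 ∧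
      (eich Q u (c • a) : V ≃ₗ[F] V) (v : V) = (v : V) := by
    intro c hc v
    have hca : polar Q u (c • a) = 0 := by rw [polar_smul_right, hua, smul_zero]
    constructor
    · intro hv
      obtain ⟨r, hr, rfl⟩ := Finset.mem_image.1 hv
      refine ⟨smul_ne_zero (Finset.mem_erase.1 hr).1 ha10, ?_, ?_⟩
      · rw [Submodule.coe_smul, QuadraticMap.map_smul, ← hu, hQu, smul_zero]
      · exact eich_apply_of_ortho hQu hca
          (by rw [Submodule.coe_smul, ← hu, polar_smul_right, polar_self', hQu]; simp)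
          (by rw [Submodule.coe_smul, ← hu, polar_smul_right, polar_comm, hca]; simp)
    · rintro ⟨hv0, hQv, hfx⟩
      rw [eich_apply hQu hca] at hfx
      have hf2a : polar Q ((b₂ : W) : V) a = 1 := by
        rw [ha, polar_add_right, polar_comm (⇑Q) ((b₂ : W) : V) ((a₂ : W) : V), t2.snd.pair,
          polar_self', t2.snd.right]
        simp
      have hf2u : polar Q ((b₂ : W) : V) u = 0 := by
        rw [polar_comm]; exact (mem_pperp.1 t2.memf).1
      have h1 := congrArg (polar Q ((b₂ : W) : V)) hfx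
      simp [polar_add_right, polar_sub_right, polar_smul_right, hf2a, hf2u, hc] at h1
      have huv : polar Q u (v : V) = 0 := h1
      have h2 := congrArg (polar Q (b₁ : V)) hfx
      simp [polar_add_right, polar_sub_right, polar_smul_right, huv, polar_smul_left, hc,
        show polar Q (b₁ : V) u = 1 by rw [polar_comm]; exact t.snd.pair] at h2
      -- split along the two pairs
      set w := perpProj h₁ v
      have hd := pair_decomp h₁ v
      rw [show polar QW a₁ v = 0 by rw [hQW, polar_restrict]; exact huv, zero_smul, add_zero] at hd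
      have hQw : Q ((w : W) : V) = 0 := by
        have := map_pair_add h₁ (polar QW b₁ v) 0 w
        rw [zero_smul, add_zero, mul_zero, zero_add, ← hd] at this
        exact this.symm.trans hQv
      set r := perpProj h₂ w
      have hr : r = 0 := by
        haveI := (Finite.card_le_one_iff_subsingleton.1 hlv.le)
        exact Subsingleton.elim _ _
      have hw := pair_decomp h₂ w
      rw [show perpProj h₂ w = 0 from hr, Submodule.coe_zero, add_zero] at hw
      have hwV : ((w : W) : V) =
          polar (QW.restrict (H5.pperp QW a₁ b₁)) b₂ w • ((a₂ : W) : V) +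
            polar (QW.restrict (H5.pperp QW a₁ b₁)) a₂ w • ((b₂ : W) : V) := by
        conv_lhs => rw [hw]
        simp
      set γ := polar (QW.restrict (H5.pperp QW a₁ b₁)) b₂ w
      set δ := polar (QW.restrict (H5.pperp QW a₁ b₁)) a₂ w
      have hvV : (v : V) = polar QW b₁ v • u + ((w : W) : V) := by
        conv_lhs => rw [hd]
        simp [hu]
        rfl
      have haw : γ + δ = 0 := by
        have : polar Q a (v : V) = γ + δ := by
          rw [hvV, hwV]
          simp [ha, polar_add_left, polar_add_right, polar_smul_right, polar_self',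
            t2.snd.left, t2.snd.right, t2.snd.pair,
            polar_comm (⇑Q) ((b₂ : W) : V) ((a₂ : W) : V),
            polar_comm (⇑Q) ((a₂ : W) : V) u, polar_comm (⇑Q) ((b₂ : W) : V) u,
            (mem_pperp.1 t2.memu).1, (mem_pperp.1 t2.memf).1]
        rw [← this]
        exact h2
      have hgd : γ * δ = 0 := by
        have : Q ((w : W) : V) = γ * δ := by
          rw [hwV, map_smul_add_smul, t2.snd.left, t2.snd.right, t2.snd.pair]; ring
        rw [← this, hQw]
      have hγ : γ = 0 := by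
        have h' : γ * γ = 0 := by linear_combination γ * haw - hgd
        exact mul_self_eq_zero.1 h'
      have hδ : δ = 0 := by linear_combination haw - hγ
      have hw0 : w = 0 := Subtype.ext (Subtype.ext (by rw [hwV, hγ, hδ]; simp))
      rw [show perpProj h₁ v = 0 from hw0, Submodule.coe_zero, add_zero] at hd
      refine Finset.mem_image.2 ⟨polar QW b₁ v, Finset.mem_erase.2 ⟨fun h0 => hv0 ?_, mem_univ _⟩,
        hd.symm⟩
      rw [hd, h0, zero_smul]
  -- the trace on the fixed space of the radical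
  have hT : ∀ c : F, c ≠ 0 →
      LinearMap.trace ℂ M (ρ (kE Q u (c • a)) * D.proj ρ 0) = (D.dim ρ 0 : ℂ) - 2 * q := by
    intro c hc
    have hca : polar Q u (c • a) = 0 := by rw [polar_smul_right, hua, smul_zero]
    have hph : ∀ v ∈ s, ρ (kE Q u (c • a)) * D.proj ρ v = D.proj ρ v := by
      intro v hv
      obtain ⟨hv0, hQv, -⟩ := (hfix c hc v).1 hv
      obtain ⟨r, -, rfl⟩ := Finset.mem_image.1 hv
      refine phase_of_scale hV.nondeg h hψ ρ (hone _ hv0 hQv) hQu hca
        (by rw [polar_comm]; exact ue) (by rw [polar_smul_left, polar_comm, ae, smul_zero])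
        (by rw [polar_comm]; exact uf) (by rw [polar_smul_left, polar_comm, af, smul_zero])
        (by rw [Submodule.coe_smul, ← hu, polar_smul_right, polar_self', hQu]; simp)
        (by rw [Submodule.coe_smul, ← hu, polar_smul_right, polar_comm, hca]; simp)
        (g := ⟨g, hg⟩) hμ hμ1' ge gf ?_ fun t => ?_
      · show (g : V ≃ₗ[F] V) ((r • a₁ : W) : V) = _
        rw [Submodule.coe_smul, map_smul, ← hu, gu, smul_comm]
      · rw [kE_conj]
        show kE Q ((g : V ≃ₗ[F] V) u) ((g : V ≃ₗ[F] V) (t • c • a)) = _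
        rw [map_smul, map_smul, ga, gu,
          kE_smul_smul hQu (by rw [polar_smul_right, hca, smul_zero]), smul_smul]
    have hchar := levi_char hV.nondeg h hψ ρ hiso hone (g := kE Q u (c • a))
      (kE_fix hQu hca (by rw [polar_comm]; exact ue)
        (by rw [polar_smul_left, polar_comm, ae, smul_zero]))
      (kE_fix hQu hca (by rw [polar_comm]; exact uf)
        (by rw [polar_smul_left, polar_comm, af, smul_zero])) s (hfix c hc) hph
    obtain ⟨k, w, t, ht, hQw, -, hk⟩ := exists_conj_into_radical hV.nondeg (by rw [hV.dim]; omega) h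
      (u := u) (a := c • a) (fun h0 => ha10 (Subtype.ext h0)) hQu hca
    rw [← ρ.char_conj (kE Q u (c • a)) k, hk, rad_char hV.nondeg h hψ ρ hiso hone w] at hchar
    have hQw0 : QW w ≠ 0 := by
      rw [hQW, QuadraticMap.restrict_apply, hQw, QuadraticMap.map_smul, hQa]
      simp [ht, hc]
    have hsum := sum_iso_char_scale (Q := QW) w hψ
    rw [card_iso_aniso_perp hW hQw0] at hsum
    have hN : (q : ℂ) * isoN QW = (q : ℂ) ^ 4 + (q : ℂ) ^ 3 - (q : ℂ) ^ 2 := by
      exact_mod_cast hW.count
    have hN' : (isoN QW : ℂ) = (q : ℂ) ^ 3 + (q : ℂ) ^ 2 - q := by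
      apply mul_left_cancel₀ (show (q : ℂ) ≠ 0 by exact_mod_cast (show q ≠ 0 by omega))
      rw [hN]; ring
    push_cast at hsum
    rw [← hqd] at hsum
    set S := ∑ v ∈ univ.filter (fun v : W => QW v = 0), ψ (polar QW w v)
    have hSv : S = -(q : ℂ) := by
      apply mul_left_cancel₀ (show (q : ℂ) - 1 ≠ 0 by
        rw [sub_ne_zero]; exact_mod_cast (show q ≠ 1 by omega))
      linear_combination hsum - hN'
    rw [hSv] at hchar
    have hs' : (s.card : ℂ) = (q : ℂ) - 1 := by
      have := congrArg (Nat.cast : ℕ → ℂ) hscard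
      push_cast at this
      linear_combination this
    rw [hs'] at hchar
    linear_combination -hchar
  -- averaging over the root group
  set x : F → Module.End ℂ M := fun c => ρ (kE Q u (c • a)) with hx
  have hxadd : ∀ c d, x c * x d = x (c + d) := fun c d => by
    simp only [hx]
    rw [← map_mul, ← kE_add hQu (by rw [polar_smul_right, hua, smul_zero])
      (by rw [polar_smul_right, hua, smul_zero]), ← add_smul]
  have hxP : ∀ c, x c * D.proj ρ 0 = D.proj ρ 0 * x c := fun c => by
    have hca : polar Q u (c • a) = 0 := by rw [polar_smul_right, hua, smul_zero]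
    exact rad_comm_fix hV.nondeg h hψ ρ
      (kE_fix hQu hca (by rw [polar_comm]; exact ue)
        (by rw [polar_smul_left, polar_comm, ae, smul_zero]))
      (kE_fix hQu hca (by rw [polar_comm]; exact uf)
        (by rw [polar_smul_left, polar_comm, af, smul_zero]))
      (by rw [Submodule.coe_zero, map_zero])
  set E : Module.End ℂ M := (q : ℂ)⁻¹ • ∑ c, x c * D.proj ρ 0 with hE
  have hq0 : (q : ℂ) ≠ 0 := by exact_mod_cast (show q ≠ 0 by omega)
  have hEE : E * E = E := by
    have hterm : ∀ c d, (x c * D.proj ρ 0) * (x d * D.proj ρ 0) = x (c + d) * D.proj ρ 0 := by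
      intro c d
      rw [mul_assoc (x c), ← mul_assoc (D.proj ρ 0), ← hxP d, mul_assoc (x d),
        show D.proj ρ 0 * D.proj ρ 0 = D.proj ρ 0 by simp [D.proj_mul_proj], ← mul_assoc, hxadd]
    rw [hE, smul_mul_smul_comm, Finset.sum_mul_sum]
    simp only [hterm]
    have hshift : ∀ c, ∑ d, x (c + d) * D.proj ρ 0 = ∑ d, x d * D.proj ρ 0 := fun c =>
      Fintype.sum_equiv (Equiv.addLeft c) (fun d => x (c + d) * D.proj ρ 0)
        (fun d => x d * D.proj ρ 0) fun d => rfl
    simp only [hshift]
    rw [Finset.sum_const, Finset.card_univ,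
      ← hqd, ← Nat.cast_smul_eq_nsmul ℂ, smul_smul]
    congr 1
    field_simp
  have htrE : LinearMap.trace ℂ M E = finrank ℂ (LinearMap.range E) :=
    LinearMap.IsProj.trace ⟨fun y => LinearMap.mem_range_self _ y, by
      rintro _ ⟨y, rfl⟩
      simpa using LinearMap.congr_fun hEE y⟩
  have hsumT : ∑ c, LinearMap.trace ℂ M (x c * D.proj ρ 0) =
      (q : ℂ) * D.dim ρ 0 - 2 * q * ((q : ℂ) - 1) := by
    rw [← Finset.add_sum_erase _ _ (mem_univ (0 : F)),
      Finset.sum_congr rfl (g := fun _ => (D.dim ρ 0 : ℂ) - 2 * q)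
        (fun c hc => hT c (Finset.mem_erase.1 hc).1), Finset.sum_const, nsmul_eq_mul,
      Finset.card_erase_of_mem (mem_univ _), Finset.card_univ, ← hqd,
      Nat.cast_sub (by omega : 1 ≤ q)]
    simp only [hx, zero_smul, kE_zero, map_one, one_mul, D.trace_proj]
    push_cast
    ring
  have hz : D.dim ρ 0 + 2 = finrank ℂ (LinearMap.range E) + 2 * q := by
    rw [hE, map_smul, map_sum, hsumT, smul_eq_mul] at htrE
    apply Nat.cast_injective (R := ℂ)
    push_cast
    field_simp at htrE
    linear_combination htrE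
  have hfin := rad_finrank hV.nondeg h hψ ρ hiso hone
  rw [← hQW, ← hD] at hfin
  have hNn : isoN QW + q = q ^ 3 + q ^ 2 := by
    apply Nat.cast_injective (R := ℤ)
    apply mul_left_cancel₀ (show (q : ℤ) ≠ 0 by exact_mod_cast (show q ≠ 0 by omega))
    push_cast
    linear_combination hW.count
  have hb : plusB q 2 = q ^ 3 + q ^ 2 + q := by
    simp only [plusB]
    have : q ≤ q ^ 3 + q ^ 2 := le_add_left (Nat.le_self_pow (by omega) q)
    simp
    omega
  rcases Nat.lt_or_ge (finrank ℂ M) (plusB q 2) with hlt | hge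
  swap
  · exact hge
  exfalso
  rw [hb] at hlt
  obtain ⟨j, hj⟩ : ∃ j, finrank ℂ M + j = q ^ 3 + q ^ 2 + q :=
    ⟨q ^ 3 + q ^ 2 + q - finrank ℂ M, by omega⟩
  haveI := hirr
  have hN : ∀ x y, HypPair Q x y → isoN (Q.restrict (H5.pperp Q x y)) = isoN QW := by
    intro x y hxy
    have h1 := (hV.pperp hxy).count
    rw [← hW.count] at h1
    exact_mod_cast mul_left_cancel₀ (by exact_mod_cast (show q ≠ 0 by omega)) h1
  have hS : (longSet Q).card * (q ^ 2 - 1) = (isoN Q - 1) * (isoN QW - 1) :=
    card_longSet hV.nondeg _ hN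
  refine six_exclude q j (finrank ℂ M) (longSet Q).card hq (by omega) (by omega) hj ?_ ?_
  · have h1 := congrArg (Nat.cast : ℕ → ℤ) hS
    have i1 : 1 ≤ isoN Q := one_le_isoN Q
    have i2 : 1 ≤ isoN QW := one_le_isoN QW
    have i3 : 1 ≤ q ^ 2 := Nat.one_le_pow _ _ (by omega)
    push_cast [Nat.cast_sub i1, Nat.cast_sub i2, Nat.cast_sub i3] at h1
    have hq2 : (q : ℤ) ^ 2 * ((q : ℤ) ^ 2 - 1) ≠ 0 := by
      have : (4 : ℤ) ≤ q := by exact_mod_cast hq
      exact mul_ne_zero (by positivity) (by nlinarith)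
    apply mul_left_cancel₀ hq2
    linear_combination (q : ℤ) ^ 2 * h1 + ((q : ℤ) * isoN QW - q) * hV.count +
      ((q : ℤ) ^ 6 + (q : ℤ) ^ 4 - (q : ℤ) ^ 3 - q) * hW.count
  · have := dvd_card_longSet_mul ρ _ fun g hg =>
      long_char hV.nondeg h hψ ρ h₁ hiso hone (by rw [hV.dim]) hg
    rw [hV.dim] at this
    exact this

/-- Nontrivial representations in plus type, in all dimensions from six on. -/
theorem plus_lowDeg {F : Type*} [Field F] [Fintype F] (hq : 4 ≤ Fintype.card F) :
    ∀ (k : ℕ) {V : Type*} [AddCommGroup V] [Module F V] [FiniteDimensional F V] [Fintype V]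
      {Q : QuadraticForm F V}, PlusForm Q (k + 2) → LowDeg Q (plusB (Fintype.card F) (k + 2)) := by
  intro k
  induction k with
  | zero => intro V _ _ _ _ Q hV; exact plus_base hV hq
  | succ k ih => intro V _ _ _ _ Q hV; exact plus_step hV hq fun e f h => ih (hV.pperp h)

lemma plusForm_qPlus {F : Type*} [Field F] [Fintype F] (m : ℕ) :
    PlusForm (qPlus (m + 1) F) m := by
  refine ⟨qPlus_nondegenerate _, by
    rw [Module.finrank_fintype_fun_eq_card, Fintype.card_sum, Fintype.card_fin]; omega, ?_⟩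
  have h := H4.card_qPlus_zeros (F := F) (m + 1)
  rw [show 2 * (m + 1) = 2 * m + 2 by ring, show m + 1 + 1 = m + 2 by ring] at h
  rw [isoN, coe_qPlus]
  exact h

end Cfsg.Agent.H39
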