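import Cfsg.Agent.H39.OmegaStep
import Cfsg.Agent.H39.OmegaPlusArith
import Cfsg.Agent.H4.Count

/-!
# Degrees of representations of plus type orthogonal groups
-/

namespace Cfsg.Agent.H39

open QuadraticMap hiding sq
open Cfsg.Agent.H5
open Finset Module
open scoped Classical commutatorElement

/-- The invariants of a plus type space of dimension `2 (m + 1)`. -/
structure PlusForm {F V : Type*} [Field F] [Fintype F] [AddCommGroup V] [Module F V]
    (Q : QuadraticForm F V) (m : ℕ) : Prop where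
  nondeg : (polarBilin Q).Nondegenerate
  dim : finrank F V = 2 * (m + 1)
  count : (Fintype.card F : ℤ) * isoN Q = (Fintype.card F : ℤ) ^ (2 * m + 2) +
    (Fintype.card F : ℤ) ^ (m + 2) - (Fintype.card F : ℤ) ^ (m + 1)

variable {F V : Type*} [Field F] [Fintype F] [AddCommGroup V] [Module F V] [FiniteDimensional F V]
  [Fintype V] {Q : QuadraticForm F V}

omit [FiniteDimensional F V] in
lemma PlusForm.two_le {m : ℕ} (h : PlusForm Q m) : 2 ≤ isoN Q := by
  have hq : (2 : ℤ) ≤ Fintype.card F := by exact_mod_cast Fintype.one_lt_card (α := F)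
  have h1 : (Fintype.card F : ℤ) ^ (m + 1) ≤ (Fintype.card F : ℤ) ^ (m + 2) :=
    pow_le_pow_right₀ (by linarith) (by omega)
  have h2 : (Fintype.card F : ℤ) ^ 2 ≤ (Fintype.card F : ℤ) ^ (2 * m + 2) :=
    pow_le_pow_right₀ (by linarith) (by omega)
  have h3 : (2 : ℤ) ≤ isoN Q := by
    refine le_of_mul_le_mul_left ?_ (show (0 : ℤ) < Fintype.card F by linarith)
    rw [h.count]
    nlinarith
  exact_mod_cast h3

lemma PlusForm.exists_pair {m : ℕ} (h : PlusForm Q m) : ∃ e f, HypPair Q e f := by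
  obtain ⟨x, hx0, hx⟩ := exists_singular_of_isoN h.two_le
  obtain ⟨y, hy⟩ := exists_hypPair h.nondeg hx0 hx
  exact ⟨x, y, hy⟩

lemma PlusForm.pperp {m : ℕ} (h : PlusForm Q (m + 1)) {e f : V} (hp : HypPair Q e f) :
    PlusForm (Q.restrict (H5.pperp Q e f)) m := by
  refine ⟨restrict_nondegenerate (hp.inf_perp h.nondeg), ?_, ?_⟩
  · have := hp.finrank_pperp h.nondeg
    have := h.dim
    omega
  · have h1 := isoN_pair hp
    rw [card_pperp_eq h.nondeg hp, h.dim, show 2 * (m + 1 + 1) - 2 = 2 * m + 2 by omega] at h1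
    have h2 := congrArg (Nat.cast : ℕ → ℤ) h1
    have hq : (Fintype.card F : ℤ) ≠ 0 := by exact_mod_cast Fintype.card_ne_zero
    push_cast at h2
    apply mul_left_cancel₀ hq
    linear_combination h.count - (Fintype.card F : ℤ) * h2

omit [FiniteDimensional F V] in
lemma sq_le_numSq (hq : 4 ≤ Fintype.card F) :
    Fintype.card F ^ 2 ≤ numSq F * (Fintype.card F - 1) ^ 2 := by
  set q := Fintype.card F with hqd
  have hcard : ((univ : Finset F).erase 0).card = q - 1 := by
    rw [Finset.card_erase_of_mem (mem_univ _), Finset.card_univ]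
  have h2 : q - 1 ≤ 2 * numSq F := by
    rw [← hcard]
    refine Finset.card_le_mul_card_image _ 2 fun s hs => ?_
    obtain ⟨a, -, rfl⟩ := Finset.mem_image.1 hs
    refine (Finset.card_le_card (t := {a, -a}) fun x hx => ?_).trans Finset.card_le_two
    simpa [mul_self_eq_mul_self_iff] using (Finset.mem_filter.1 hx).2
  rcases hq.eq_or_lt with h4 | h5
  · have hF2 : (2 : F) = 0 := by
      have h0 : ((Fintype.card F : ℕ) : F) = 0 := Nat.cast_card_eq_zero F
      rw [← hqd, ← h4, show ((4 : ℕ) : F) = 2 * 2 by norm_num] at h0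
      exact mul_self_eq_zero.1 h0
    have hs : numSq F = q - 1 := by
      rw [numSq, Finset.card_image_of_injective _ (fun a b hab => ?_), hcard]
      rcases mul_self_eq_mul_self_iff.1 hab with h | h
      · exact h
      · linear_combination h + (-b) * hF2 + 2 * 0
    rw [hs, ← h4]
    norm_num
  · obtain ⟨r, hr⟩ : ∃ r, q = r + 1 := ⟨q - 1, by omega⟩
    rw [hr, Nat.add_sub_cancel] at h2 ⊢
    have h6 : 4 ≤ r := by omega
    have := Nat.mul_le_mul_right (r ^ 2) h2
    nlinarith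

lemma exists_sq_ne_one (hq : 4 ≤ Fintype.card F) : ∃ μ : F, μ ≠ 0 ∧ μ * μ ≠ 1 := by
  by_contra hc
  push Not at hc
  have : (univ : Finset F).card ≤ ({0, 1, -1} : Finset F).card := Finset.card_le_card fun x _ => by
    by_cases hx : x = 0
    · simp [hx]
    · rcases mul_self_eq_one_iff.1 (hc x hx) with h | h <;> simp [h]
  rw [Finset.card_univ] at this
  exact absurd (this.trans Finset.card_le_three) (by omega)

section Rep

variable {k : ℕ} (hV : PlusForm Q (k + 2)) (hq : 4 ≤ Fintype.card F) {e f : V}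
  (h : HypPair Q e f) {ψ : AddChar F ℂ} (hψ : ψ ≠ 1) {M : Type} [AddCommGroup M] [Module ℂ M]
  [FiniteDimensional ℂ M] (ρ : Representation ℂ (eichGroup Q) M)

include hV hq h hψ in
/-- Either the bound holds or only singular characters occur, once each. -/
lemma plus_front (hne : ∃ g, ρ g ≠ 1) :
    plusB (Fintype.card F) (k + 2) ≤ finrank ℂ M ∨
      ((∀ v : H5.pperp Q e f, Q (v : V) ≠ 0 → (radData hV.nondeg h ψ hψ).dim ρ v = 0) ∧
        ∀ v : H5.pperp Q e f, v ≠ 0 → Q (v : V) = 0 →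
          (radData hV.nondeg h ψ hψ).dim ρ v = 1) := by
  set q := Fintype.card F
  have hW := hV.pperp h
  obtain ⟨e₁, f₁, h₁⟩ := hW.exists_pair
  have hb := plusB_mul_le q (k + 2) hq (by omega)
  have hL : ∀ c : F, c ≠ 0 → (q - 1) * q ^ (2 * k + 2) ≤
      (univ.filter fun w : H5.pperp Q e f => Q (w : V) = c).card := by
    intro c _
    have := card_level_ge h₁ c
    rw [card_pperp_eq hW.nondeg h₁, hW.dim, show 2 * (k + 1 + 1) - 2 = 2 * k + 2 by omega] at this
    simpa using this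
  rcases rad_cases hV.nondeg h hψ ρ h₁ (by rw [hV.dim]; omega) _ hL hne with hbig | ⟨hiso, m, hm, hall⟩
  · left
    refine le_trans ?_ hbig
    refine Nat.le_of_mul_le_mul_right ?_ (show 0 < q - 1 by omega)
    calc plusB q (k + 2) * (q - 1) ≤ q ^ (2 * (k + 2)) := hb
      _ = q ^ 2 * q ^ (2 * k + 2) := by rw [← pow_add]; ring_nf
      _ ≤ numSq F * (q - 1) ^ 2 * q ^ (2 * k + 2) := Nat.mul_le_mul_right _ (sq_le_numSq hq)
      _ = _ := by ring
  by_cases hm1 : m = 1
  · subst hm1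
    exact Or.inr ⟨hiso, hall⟩
  left
  set N := isoN (Q.restrict (H5.pperp Q e f))
  have hsum : (N - 1) * m ≤ finrank ℂ M := by
    rw [← (radData hV.nondeg h ψ hψ).sum_dim ρ]
    refine le_trans (le_of_eq ?_) (Finset.sum_le_sum_of_subset
      (Finset.subset_univ ((univ.filter fun v : H5.pperp Q e f => Q (v : V) = 0).erase 0)))
    rw [Finset.sum_congr rfl (fun v hv => hall v (Finset.mem_erase.1 hv).1
      (Finset.mem_filter.1 (Finset.mem_erase.1 hv).2).2), Finset.sum_const, smul_eq_mul,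
      Finset.card_erase_of_mem (by simp),
      show N = (univ.filter fun v : H5.pperp Q e f => Q (v : V) = 0).card from isoN_eq_card _]
  have hN3 : 3 * plusB q (k + 2) ≤ 4 * N := by
    have h1 : (q : ℤ) ^ (2 * (k + 2)) ≤ (q : ℤ) * N := by
      rw [hW.count, show 2 * (k + 1) + 2 = 2 * (k + 2) by ring]
      have : (q : ℤ) ^ (k + 1 + 1) ≤ (q : ℤ) ^ (k + 1 + 2) :=
        pow_le_pow_right₀ (by exact_mod_cast (show 1 ≤ q by omega)) (by omega)
      linarith
    have h2 : q ^ (2 * (k + 2)) ≤ q * N := by exact_mod_cast h1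
    obtain ⟨r, hr⟩ : ∃ r, q = r + 4 := ⟨q - 4, by omega⟩
    have h3 := hb.trans h2
    rw [hr, show r + 4 - 1 = r + 3 by omega] at h3
    rw [hr]
    nlinarith
  have hN4 : 3 ≤ N := by
    have h1 := dvd_plusB q (by omega) (k + 2) (by omega)
    have h2 : 0 < plusB q (k + 2) := by
      rw [plusB]
      have : q ^ (k + 1) < q ^ (k + 1 + 1) := Nat.pow_lt_pow_right (by omega) (by omega)
      omega
    have := Nat.le_of_dvd h2 h1
    omega
  have : (N - 1) * 2 ≤ (N - 1) * m := Nat.mul_le_mul_left _ (by omega)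
  omega

end Rep

/-- The induction step, from dimension `2 (m + 1)` to `2 (m + 2)`, for `m ≥ 2`. -/
theorem plus_step {k : ℕ} (hV : PlusForm Q (k + 3)) (hq : 4 ≤ Fintype.card F)
    (IH : ∀ e f, HypPair Q e f →
      LowDeg (Q.restrict (H5.pperp Q e f)) (plusB (Fintype.card F) (k + 2))) :
    LowDeg Q (plusB (Fintype.card F) (k + 3)) := by
  refine lowDeg_of_irreducible fun M _ _ _ ρ hirr hne => ?_
  set q := Fintype.card F
  obtain ⟨e, f, h⟩ := hV.exists_pair
  obtain ⟨ψ, hψ1⟩ := (AddChar.exists_apply_ne_zero (a := (1 : F))).2 one_ne_zero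
  have hψ : ψ ≠ 1 := fun hh => hψ1 (by rw [hh, AddChar.one_apply])
  rcases plus_front (k := k + 1) hV hq h hψ ρ hne with hb | ⟨hiso, hone⟩
  · exact hb
  set W := H5.pperp Q e f with hWd
  set QW := Q.restrict W with hQW
  have hW := hV.pperp h
  obtain ⟨a₁, b₁, h₁⟩ := hW.exists_pair
  have hW2 := hW.pperp h₁
  obtain ⟨a₂, b₂, h₂⟩ := hW2.exists_pair
  have hW3 := hW2.pperp h₂
  obtain ⟨a₃, b₃, h₃⟩ := hW3.exists_pair
  have t12 : TwoPairs QW a₁ b₁ a₂ b₂ := twoPairs_of_perp h₁ h₂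
  have t13 : TwoPairs QW a₁ b₁ (a₃.1.1) (b₃.1.1) :=
    twoPairs_of_perp h₁ (hypPair_coe h₃)
  have t23 : TwoPairs QW (a₂ : W) b₂ (a₃.1.1) (b₃.1.1) := (twoPairs_of_perp h₂ h₃).coe
  set u₁ : V := (a₁ : V) with hu1
  set u₂ : V := ((a₂ : W) : V) with hu2
  have hu12 : polar Q u₁ u₂ = 0 := (mem_pperp.1 t12.coe.memu).1
  have hg1 : Q u₁ = 0 := h₁.left
  have hg2 : Q u₂ = 0 := h₂.left
  set xW : eichGroup QW := kE QW a₁ a₂ with hxW
  have hx : leviK h xW = kE Q u₁ u₂ := leviK_kE h hg1 hu12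
  have hlong : LongPair Q (u₁, u₂) := by
    refine ⟨t12.coe.fst.ne_zero, hg1, hg2, hu12, fun hsp => ?_⟩
    obtain ⟨t, ht⟩ := Submodule.mem_span_singleton.1 hsp
    have := t12.coe.snd.pair
    change polar Q u₂ _ = 1 at this
    rw [show u₂ = t • u₁ from ht.symm, polar_smul_left, (mem_pperp.1 t12.coe.memf).1,
      smul_zero] at this
    exact zero_ne_one this
  set D := radData hV.nondeg h ψ hψ with hD
  set s := (univ.filter fun v : W =>
    QW v = 0 ∧ polar QW a₁ v = 0 ∧ polar QW (a₂ : W) v = 0).erase 0 with hs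
  have hfix : ∀ v : W, v ∈ s ↔ v ≠ 0 ∧ Q (v : V) = 0 ∧
      (((leviK h xW).1 : orth Q) : V ≃ₗ[F] V) (v : V) = (v : V) := by
    intro v
    simp only [hs, Finset.mem_erase, Finset.mem_filter, mem_univ, true_and, hx]
    show v ≠ 0 ∧ _ ↔ v ≠ 0 ∧ _ ∧ (eich Q u₁ u₂ : V ≃ₗ[F] V) (v : V) = (v : V)
    rw [hlong.eich_apply, hQW, QuadraticMap.restrict_apply, polar_restrict, polar_restrict]
    refine and_congr_right fun _ => and_congr_right fun _ => ⟨fun ⟨h1, h2⟩ => ?_, fun hh => ?_⟩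
    · rw [show polar Q u₁ (v : V) = 0 from h1, show polar Q u₂ (v : V) = 0 from h2]
      simp
    · have h' : polar Q u₁ (v : V) • u₂ - polar Q u₂ (v : V) • u₁ = 0 := by
        linear_combination (norm := module) hh
      have hind : ∀ {r t : F}, r • u₂ - t • u₁ = 0 → r = 0 := by
        intro r t hrt
        by_contra hr
        refine hlong.2.2.2.2 (Submodule.mem_span_singleton.2 ⟨r⁻¹ * t, ?_⟩)
        rw [sub_eq_zero] at hrt
        show (r⁻¹ * t) • u₁ = u₂
        rw [mul_smul, ← hrt, smul_smul, inv_mul_cancel₀ hr, one_smul]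
      refine ⟨hind h', ?_⟩
      rw [hind h', zero_smul, zero_sub, neg_eq_zero, smul_eq_zero] at h'
      exact h'.resolve_right hlong.1
  obtain ⟨μ, hμ, hμ1⟩ := exists_sq_ne_one hq
  have hph : ∀ v ∈ s, ρ (leviK h xW) * D.proj ρ v = D.proj ρ v := by
    intro v hv
    simp only [hs, Finset.mem_erase, Finset.mem_filter, mem_univ, true_and] at hv
    obtain ⟨hv0, hQv, hv1, hv2⟩ := hv
    rw [hQW, polar_restrict] at hv1 hv2
    obtain ⟨hve, hvf⟩ := mem_pperp.1 v.2
    obtain ⟨g, ν, hν, ge, gf, gv, gu1, gu2⟩ := exists_levi_scale hV.nondeg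
      (twoPairs_of_perp h h₁) (twoPairs_of_perp h (hypPair_coe h₂))
      (twoPairs_of_perp h (hypPair_coe (hypPair_coe h₃))) t12.coe t13.coe t23.coe hμ hve hvf
      hv1 hv2
    rw [hx]
    have ue : polar Q u₁ e = 0 := by rw [polar_comm]; exact (mem_pperp.1 a₁.2).1
    have uf : polar Q u₁ f = 0 := by rw [polar_comm]; exact (mem_pperp.1 a₁.2).2
    have ae : polar Q u₂ e = 0 := by rw [polar_comm]; exact (mem_pperp.1 (a₂ : W).2).1
    have af : polar Q u₂ f = 0 := by rw [polar_comm]; exact (mem_pperp.1 (a₂ : W).2).2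
    refine phase_of_scale hV.nondeg h hψ ρ (hone v hv0 hQv) hg1 hu12 ue ae uf af hv1 hv2 hν hμ1
      ge gf gv fun t => ?_
    rw [kE_conj, map_smul, gu1, gu2, smul_smul,
      kE_smul_smul hg1 (by rw [polar_smul_right, hu12, smul_zero]), smul_smul]
    congr 2
    ring
  have hchar := levi_char hV.nondeg h hψ ρ hiso hone (g := leviK h xW) (orthExt_left h _)
    (orthExt_right h _) s hfix hph
  have hmem : leviK h xW ∈ longSet Q := mem_longSet.2 ⟨(u₁, u₂), hlong, hx.symm⟩
  have hlc := long_char hV.nondeg h hψ ρ h₁ hiso hone (by rw [hV.dim]; omega) hmem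
  have hfin := rad_finrank hV.nondeg h hψ ρ hiso hone
  have hscard : s.card + 1 = q * (q * isoN (F := F)
      (V := H5.pperp (QW.restrict (H5.pperp QW a₁ b₁)) a₂ b₂) ((QW.restrict (H5.pperp QW a₁ b₁)).restrict
      (H5.pperp (QW.restrict (H5.pperp QW a₁ b₁)) a₂ b₂))) := by
    rw [hs, Finset.card_erase_add_one (by simp), ← card_iso_perp_two h₁ h₂]
  have hz : plusB q (k + 2) ≤ D.dim ρ 0 := by
    refine dim_zero_ge hV.nondeg h hψ ρ (IH e f h) xW fun htr => ?_
    rw [htr, hlc] at hchar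
    have p1 := isoN_pair h₁
    have p2 := isoN_pair h₂
    rw [card_pperp_eq hW.nondeg h₁, hW.dim, show 2 * (k + 2 + 1) - 2 = 2 * k + 4 by omega] at p1
    rw [card_pperp_eq hW2.nondeg h₂, hW2.dim, show 2 * (k + 1 + 1) - 2 = 2 * k + 2 by omega] at p2
    rw [show finrank F V - 3 = 2 * k + 5 by rw [hV.dim]; omega] at hchar
    have hzero : ((q ^ (2 * k + 3) : ℕ) : ℂ) = 0 := by
      apply_fun (Nat.cast : ℕ → ℂ) at hfin hscard p1 p2
      push_cast at hfin hscard p1 p2 hchar ⊢
      linear_combination p1 + (q : ℂ) * p2 - hchar + hfin - hscard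
    exact absurd (Nat.cast_eq_zero.1 hzero) (pow_ne_zero _ (by omega))
  have hb1 := plusB_succ_eq q (by omega) hW.count
  rw [hD] at hz
  rcases Nat.lt_or_ge (finrank ℂ M) (plusB q (k + 3)) with hlt | hge
  swap
  · exact hge
  exfalso
  set N := isoN QW
  have hN : ∀ x y, HypPair Q x y → isoN (Q.restrict (H5.pperp Q x y)) = N := by
    intro x y hxy
    have h1 := (hV.pperp hxy).count
    rw [← hW.count] at h1
    exact_mod_cast mul_left_cancel₀ (by exact_mod_cast (show q ≠ 0 by omega)) h1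
  have hS : (longSet Q).card * (q ^ 2 - 1) = (isoN Q - 1) * (N - 1) :=
    card_longSet hV.nondeg N hN
  have hd : finrank ℂ M + 1 = plusB q (k + 3) := by
    rw [show k + 3 = k + 2 + 1 from rfl, hb1] at hlt ⊢
    omega
  haveI := hirr
  refine plus_exclude q (k + 3) (finrank ℂ M) (longSet Q).card (finrank F V - 3) hq (by omega) hd ?_
    (dvd_card_longSet_mul ρ _ fun g hg =>
      long_char hV.nondeg h hψ ρ h₁ hiso hone (by rw [hV.dim]; omega) hg)
  have h1 := congrArg (Nat.cast : ℕ → ℤ) hS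
  have i1 : 1 ≤ isoN Q := one_le_isoN Q
  have i2 : 1 ≤ N := one_le_isoN QW
  have i3 : 1 ≤ q ^ 2 := Nat.one_le_pow _ _ (by omega)
  push_cast [Nat.cast_sub i1, Nat.cast_sub i2, Nat.cast_sub i3] at h1
  rw [h1]
  linear_combination ((q : ℤ) * N - q) * hV.count +
    ((q : ℤ) ^ (2 * (k + 3) + 2) + (q : ℤ) ^ (k + 3 + 2) - (q : ℤ) ^ (k + 3 + 1) - q) * hW.count

end Cfsg.Agent.H39
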