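import Cfsg.Agent.H39.OmegaLong
import Cfsg.Agent.H39.AbelProj
import Cfsg.Agent.H39.WeilRep
import Cfsg.Agent.H26.CharBasic

/-!
# Representations on the radical of the stabiliser of a singular point
-/

namespace Cfsg.Agent.H39

open QuadraticMap hiding sq
open Cfsg.Agent.H5
open Finset Module
open scoped Classical commutatorElement

variable {F V : Type*} [Field F] [AddCommGroup V] [Module F V] {Q : QuadraticForm F V}

lemma kE_add {e a b : V} (he : Q e = 0) (ha : polar Q e a = 0) (hb : polar Q e b = 0) :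
    kE Q e (a + b) = kE Q e a * kE Q e b :=
  Subtype.ext (eich_mul he ha hb).symm

lemma kE_zero (e : V) : kE Q e 0 = 1 := Subtype.ext (eich_zero e)

lemma kE_smul_smul {e a : V} (he : Q e = 0) (ha : polar Q e a = 0) (t : F) :
    kE Q (t • e) a = kE Q e (t • a) :=
  Subtype.ext (eich_smul_smul he ha t)

lemma orthExt_right {e f : V} (h : HypPair Q e f) (g : orth (Q.restrict (pperp Q e f))) :
    (orthExt h g : V ≃ₗ[F] V) f = f := by
  have hf : perpProj h f = 0 := Subtype.ext (by
    rw [coe_perpProj]; simp [polar_self', h.right, h.pair])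
  rw [orthExt_apply, hf]
  simp [polar_self', h.right, h.pair]

/-- The Levi group of the complement inside the whole group. -/
noncomputable def leviK {e f : V} (h : HypPair Q e f) :
    eichGroup (Q.restrict (pperp Q e f)) →* eichGroup Q where
  toFun g := ⟨orthExt h g.1, orthExt_mem h g.2⟩
  map_one' := Subtype.ext (map_one _)
  map_mul' a b := Subtype.ext (map_mul _ _ _)

lemma leviK_coe {e f : V} (h : HypPair Q e f) (g : eichGroup (Q.restrict (pperp Q e f)))
    (w : pperp Q e f) :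
    (((leviK h g).1 : orth Q) : V ≃ₗ[F] V) (w : V) =
      ((g.1 : pperp Q e f ≃ₗ[F] pperp Q e f) w : V) :=
  orthExt_coe h g.1 w

lemma leviK_kE {e f : V} (h : HypPair Q e f) {u a : pperp Q e f} (hu : Q (u : V) = 0)
    (ha : polar Q (u : V) (a : V) = 0) :
    leviK h (kE (Q.restrict (pperp Q e f)) u a) = kE Q (u : V) (a : V) :=
  Subtype.ext (orthExt_eich h hu ha)

/-- An isometry fixing a pair up to opposite scalars preserves the complement. -/
lemma scale_mem_pperp {e f : V} {g : orth Q} {μ : F} (hμ : μ ≠ 0)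
    (he : (g : V ≃ₗ[F] V) e = μ • e) (hf : (g : V ≃ₗ[F] V) f = μ⁻¹ • f) {x : V}
    (hx : x ∈ pperp Q e f) : (g : V ≃ₗ[F] V) x ∈ pperp Q e f := by
  obtain ⟨h1, h2⟩ := mem_pperp.1 hx
  rw [← orth_polar g, he, polar_smul_left, smul_eq_zero, or_iff_right hμ] at h1
  rw [← orth_polar g, hf, polar_smul_left, smul_eq_zero, or_iff_right (inv_ne_zero hμ)] at h2
  exact mem_pperp.2 ⟨h1, h2⟩

variable [FiniteDimensional F V]

/-- Every scalar on a singular vector is induced by a product of Eichler transformations. -/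
lemma exists_eich_scale [Finite F] (hQ : (polarBilin Q).Nondegenerate)
    (hn : 4 ≤ finrank F V) {e f : V} (h : HypPair Q e f) {t : F} (ht : t ≠ 0) :
    ∃ g ∈ eichGroup Q, (g : V ≃ₗ[F] V) e = t • e := by
  have key : ∀ c : F, c ≠ 0 → ∃ g ∈ eichGroup Q, (g : V ≃ₗ[F] V) e = c • f := by
    intro c hc
    obtain ⟨w, hw, hQw⟩ := h.exists_norm hQ hn (-c)
    obtain ⟨hp0, hpe, hpf⟩ := h.singular_lift hw
    set p := e + (-Q w) • f + w with hp
    have hpe' : polar Q e p = c := by rw [hpe, hQw]; simp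
    have h' : HypPair Q f p := ⟨h.right, hp0, hpf⟩
    obtain ⟨a, -, ha⟩ := exists_eich_map h.symm h'
    have h'' : HypPair Q e (c⁻¹ • p) :=
      ⟨h.left, by simp [QuadraticMap.map_smul, hp0],
        by rw [polar_smul_right, hpe', smul_eq_mul, inv_mul_cancel₀ hc]⟩
    obtain ⟨b, -, hb⟩ := exists_eich_map h'' h
    rw [map_smul] at hb
    refine ⟨eich Q e b * eich Q f a, mul_mem (eich_mem_eichGroup _ _) (eich_mem_eichGroup _ _), ?_⟩
    rw [orth_mul_apply, ha, ← hb, smul_smul, mul_inv_cancel₀ hc, one_smul]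
  obtain ⟨g₁, hg₁, h1⟩ := key 1 one_ne_zero
  obtain ⟨g₂, hg₂, h2⟩ := key t ht
  refine ⟨g₁⁻¹ * g₂, mul_mem (inv_mem hg₁) hg₂, ?_⟩
  rw [one_smul] at h1
  rw [orth_mul_apply, h2, map_smul]
  conv_lhs => rw [← h1]
  rw [orth_inv_apply_apply]

variable [Fintype F] [Fintype V]

omit [FiniteDimensional F V] [Fintype F] in
lemma finite_eichGroup : Finite (eichGroup Q) :=
  Finite.of_injective (fun g : eichGroup Q => ((g.1.1 : V ≃ₗ[F] V) : V → V))
    fun _ _ e => Subtype.ext (Subtype.ext (DFunLike.coe_injective e))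

/-- The character attached to a vector of the complement. -/
def radChar {e f : V} (ψ : AddChar F ℂ) (v : pperp Q e f) : AddChar (pperp Q e f) ℂ :=
  ψ.compAddMonoidHom (AddMonoidHom.mk' (fun w : pperp Q e f => polar Q (v : V) (w : V))
    fun a b => by rw [Submodule.coe_add, polar_add_right])

@[simp] lemma radChar_apply {e f : V} (ψ : AddChar F ℂ) (v w : pperp Q e f) :
    radChar ψ v w = ψ (polar Q (v : V) (w : V)) := rfl

omit [Fintype F] [Fintype V] in
lemma eq_zero_of_polar_pperp (hQ : (polarBilin Q).Nondegenerate) {e f : V} (h : HypPair Q e f)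
    {a : pperp Q e f} (ha : ∀ v : pperp Q e f, polar Q (a : V) (v : V) = 0) : a = 0 :=
  (restrict_nondegenerate (h.inf_perp hQ)).1 a fun v => by
    simpa [polarBilin_apply_apply, polar_restrict] using ha v

/-- The radical with all its characters. -/
noncomputable def radData (hQ : (polarBilin Q).Nondegenerate) {e f : V} (h : HypPair Q e f)
    (ψ : AddChar F ℂ) (hψ : ψ ≠ 1) : AbelData (eichGroup Q) (pperp Q e f) (pperp Q e f) where
  u w := kE Q e (w : V)
  u_add a b := by
    rw [Submodule.coe_add, kE_add h.left (mem_pperp.1 a.2).1 (mem_pperp.1 b.2).1]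
  u_zero := kE_zero e
  χ := radChar ψ
  inj v v' hvv := by
    refine sub_eq_zero.1 (eq_zero_of_polar_pperp hQ h fun w => ?_)
    by_contra hne
    set k := polar Q ((v - v' : pperp Q e f) : V) (w : V)
    obtain ⟨x, hx⟩ := AddChar.ne_one_iff.1 hψ
    apply hx
    have := DFunLike.congr_fun hvv ((x / k) • w)
    simp only [radChar_apply, Submodule.coe_smul, polar_smul_right, smul_eq_mul] at this
    rw [show x = x / k * polar Q (v : V) (w : V) + -(x / k * polar Q (v' : V) (w : V)) by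
      rw [← mul_neg, ← mul_add, ← sub_eq_add_neg, ← polar_sub_left]
      exact (div_mul_cancel₀ x hne).symm,
      AddChar.map_add_eq_mul, AddChar.map_neg_eq_inv, this,
      mul_inv_cancel₀]
    exact (AddChar.val_isUnit ψ _).ne_zero
  complete a ha := by
    simp only [radChar_apply]
    let φ : AddChar (pperp Q e f) ℂ := radChar ψ a
    have hφ : φ ≠ 1 := by
      intro h1
      apply ha
      refine eq_zero_of_polar_pperp hQ h fun w => ?_
      by_contra hne
      obtain ⟨x, hx⟩ := AddChar.ne_one_iff.1 hψ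
      apply hx
      have := DFunLike.congr_fun h1 ((x / polar Q (a : V) (w : V)) • w)
      simpa [φ, polar_smul_right, div_mul_cancel₀ x hne] using this
    simpa [φ, polar_comm (⇑Q) (a : V)] using AddChar.sum_eq_zero_of_ne_one hφ
  card_eq := rfl

variable (hQ : (polarBilin Q).Nondegenerate) {e f : V} (h : HypPair Q e f)
  {ψ : AddChar F ℂ} (hψ : ψ ≠ 1) {M : Type} [AddCommGroup M] [Module ℂ M]
  (ρ : Representation ℂ (eichGroup Q) M)

/-- Elements scaling the pair permute the eigen-projectors. -/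
lemma rad_comm {g : eichGroup Q} {μ : F} (hμ : μ ≠ 0)
    (he : (g.1 : V ≃ₗ[F] V) e = μ • e) (hf : (g.1 : V ≃ₗ[F] V) f = μ⁻¹ • f)
    {v v' : pperp Q e f} (hv : (v' : V) = μ⁻¹ • (g.1 : V ≃ₗ[F] V) (v : V)) :
    ρ g * (radData hQ h ψ hψ).proj ρ v = (radData hQ h ψ hψ).proj ρ v' * ρ g := by
  let τ0 : pperp Q e f → pperp Q e f := fun a =>
    ⟨μ • (g.1 : V ≃ₗ[F] V) (a : V), Submodule.smul_mem _ _ (scale_mem_pperp hμ he hf a.2)⟩
  have hinj : Function.Injective τ0 := fun a b hab => Subtype.ext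
    ((g.1 : V ≃ₗ[F] V).injective (smul_right_injective V hμ (congrArg Subtype.val hab)))
  refine AbelData.comm_proj _ ρ g (Equiv.ofBijective τ0 (Finite.injective_iff_bijective.1 hinj))
    (fun a => ?_) (fun a => ?_)
  · show kE Q e (μ • (g.1 : V ≃ₗ[F] V) (a : V)) * g = g * kE Q e (a : V)
    rw [← kE_smul_smul h.left (mem_pperp.1 (scale_mem_pperp hμ he hf a.2)).1, ← he, ← kE_conj,
      inv_mul_cancel_right]
  · show ψ (polar Q (v' : V) (μ • (g.1 : V ≃ₗ[F] V) (a : V))) = ψ (polar Q (v : V) (a : V))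
    rw [hv, polar_smul_left, polar_smul_right, smul_smul, inv_mul_cancel₀ hμ, one_smul, orth_polar]

/-- Elements fixing the pair. -/
lemma rad_comm_fix {g : eichGroup Q} (he : (g.1 : V ≃ₗ[F] V) e = e)
    (hf : (g.1 : V ≃ₗ[F] V) f = f) {v v' : pperp Q e f}
    (hv : (v' : V) = (g.1 : V ≃ₗ[F] V) (v : V)) :
    ρ g * (radData hQ h ψ hψ).proj ρ v = (radData hQ h ψ hψ).proj ρ v' * ρ g :=
  rad_comm hQ h hψ ρ one_ne_zero (by simpa using he) (by simpa using hf) (by simpa using hv)

variable [FiniteDimensional ℂ M]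

omit [FiniteDimensional F V] in
lemma dim_eq_of_comm {A I : Type*} [AddCommGroup A] [Fintype A] [Fintype I]
    (D : AbelData (eichGroup Q) A I) {g : eichGroup Q} {i j : I}
    (hc : ρ g * D.proj ρ i = D.proj ρ j * ρ g) : D.dim ρ i = D.dim ρ j := by
  apply Nat.cast_injective (R := ℂ)
  rw [← D.trace_proj ρ i, ← D.trace_proj ρ j,
    show D.proj ρ j = ρ g * D.proj ρ i * ρ g⁻¹ by
      rw [hc, mul_assoc, ← map_mul, mul_inv_cancel, map_one, mul_one],
    LinearMap.trace_mul_cycle, ← map_mul, inv_mul_cancel, map_one, one_mul]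

omit [FiniteDimensional F V] [Fintype F] [Fintype V] in
lemma AbelData.proj_eq_zero_of_dim {A I : Type*} [AddCommGroup A] [Fintype A] [Fintype I]
    (D : AbelData (eichGroup Q) A I) {i : I} (h0 : D.dim ρ i = 0) : D.proj ρ i = 0 :=
  LinearMap.range_eq_bot.1 (Submodule.finrank_eq_zero.1 h0)

include h hψ in
/-- A representation with no nontrivial character on the radical is trivial. -/
lemma rad_trivial (hn : 3 ≤ finrank F V)
    (h0 : ∀ v : pperp Q e f, v ≠ 0 → (radData hQ h ψ hψ).dim ρ v = 0) : ∀ g, ρ g = 1 := by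
  set D := radData hQ h ψ hψ
  have hu : ∀ w : pperp Q e f, ρ (kE Q e (w : V)) = 1 := by
    intro w
    have hz : ∀ v, v ≠ 0 → D.proj ρ v = 0 := fun v hv =>
      AbelData.proj_eq_zero_of_dim ρ D (h0 v hv)
    have h1 := D.sum_proj ρ
    rw [Finset.sum_eq_single 0 (fun v _ hv => hz v hv) (by simp)] at h1
    show ρ (D.u w) = 1
    rw [D.apply_eq_sum, Finset.sum_eq_single 0 (fun v _ hv => by rw [hz v hv, smul_zero]) (by simp),
      h1]
    simp [D, radData]
  have hgen : ∀ u a : V, ρ (kE Q u a) = 1 := by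
    intro u a
    by_cases hc : Q u = 0 ∧ polar Q u a = 0
    · by_cases hu0 : u = 0
      · have : kE Q u a = 1 := Subtype.ext (orth_ext fun y => by
          show (eich Q u a : V ≃ₗ[F] V) y = y
          rw [eich_apply hc.1 hc.2, hu0]; simp)
        rw [this, map_one]
      obtain ⟨g, w, t, -, -, -, hg⟩ := exists_conj_into_radical hQ hn h hu0 hc.1 hc.2
      rw [show kE Q u a = g⁻¹ * (g * kE Q u a * g⁻¹) * g by group, hg, map_mul, map_mul, hu,
        mul_one, ← map_mul, inv_mul_cancel, map_one]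
    · rw [show kE Q u a = 1 from Subtype.ext (eich_eq_one_of_not hc), map_one]
  rintro ⟨g, hg⟩
  induction hg using Subgroup.closure_induction with
  | mem x hx =>
    obtain ⟨u, a, -, -, rfl⟩ := hx
    exact hgen u a
  | one => exact map_one ρ
  | mul a b ha hb iha ihb =>
    rw [show (⟨a * b, _⟩ : eichGroup Q) = ⟨a, ha⟩ * ⟨b, hb⟩ from rfl, map_mul, iha, ihb, mul_one]
  | inv a ha iha =>
    rw [show (⟨a⁻¹, _⟩ : eichGroup Q) = (⟨a, ha⟩ : eichGroup Q)⁻¹ from rfl]
    have := map_mul ρ (⟨a, ha⟩ : eichGroup Q)⁻¹ ⟨a, ha⟩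
    rw [inv_mul_cancel, map_one, iha, mul_one] at this
    exact this.symm

/-- The number of non-zero squares. -/
noncomputable def numSq (F : Type*) [Field F] [Fintype F] : ℕ :=
  (((univ : Finset F).erase 0).image fun μ => μ * μ).card

variable {e₁ f₁ : pperp Q e f} (h₁ : HypPair (Q.restrict (pperp Q e f)) e₁ f₁)

include h₁ in
/-- Either a character of non-zero norm occurs and the degree is large, or all occurring
characters are singular, equally often. -/
theorem rad_cases (hn : 6 ≤ finrank F V) (L : ℕ)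
    (hL : ∀ c : F, c ≠ 0 → L ≤ (univ.filter fun w : pperp Q e f => Q (w : V) = c).card)
    (hne : ∃ g, ρ g ≠ 1) :
    numSq F * L ≤ finrank ℂ M ∨
      ((∀ v : pperp Q e f, Q (v : V) ≠ 0 → (radData hQ h ψ hψ).dim ρ v = 0) ∧
        ∃ m, 1 ≤ m ∧ ∀ v : pperp Q e f, v ≠ 0 → Q (v : V) = 0 →
          (radData hQ h ψ hψ).dim ρ v = m) := by
  set D := radData hQ h ψ hψ with hD
  have hW : finrank F (pperp Q e f) + 2 = finrank F V := h.finrank_pperp hQ
  have hWn := restrict_nondegenerate (h.inf_perp hQ)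
  have hlevi : ∀ (g : eichGroup (Q.restrict (pperp Q e f))) (v : pperp Q e f),
      D.dim ρ v = D.dim ρ ((g.1 : pperp Q e f ≃ₗ[F] pperp Q e f) v) := fun g v =>
    dim_eq_of_comm ρ D (rad_comm_fix hQ h hψ ρ (g := leviK h g) (orthExt_left h _)
      (orthExt_right h _) (leviK_coe h g v).symm)
  by_cases han : ∃ v : pperp Q e f, Q (v : V) ≠ 0 ∧ D.dim ρ v ≠ 0
  · left
    obtain ⟨v, hv, hdv⟩ := han
    have hlevel : ∀ a b : pperp Q e f, Q (a : V) ≠ 0 → Q (b : V) = Q (a : V) →
        D.dim ρ a = D.dim ρ b := by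
      intro a b ha hab
      obtain ⟨g, hg, hga⟩ := exists_eichGroup_map_norm hWn (by omega) h₁ (v := a)
        (by rwa [QuadraticMap.restrict_apply])
      obtain ⟨k, hk, hkb⟩ := exists_eichGroup_map_norm hWn (by omega) h₁ (v := b)
        (by rwa [QuadraticMap.restrict_apply, hab])
      rw [hlevi ⟨g, hg⟩ a, hlevi ⟨k, hk⟩ b]
      show D.dim ρ ((g : _ ≃ₗ[F] _) a) = D.dim ρ ((k : _ ≃ₗ[F] _) b)
      rw [hga, hkb, QuadraticMap.restrict_apply, QuadraticMap.restrict_apply, hab]
    have hT : TwoPairs Q e f (e₁ : V) (f₁ : V) :=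
      ⟨h, ⟨h₁.left, h₁.right, by rw [← polar_restrict]; exact h₁.pair⟩, e₁.2, f₁.2⟩
    have hsc : ∀ w : pperp Q e f, ∀ μ : F, μ ≠ 0 →
        ∃ w' : pperp Q e f, Q (w' : V) = μ * μ * Q (w : V) ∧ D.dim ρ w = D.dim ρ w' := by
      intro w μ hμ
      obtain ⟨g, hg, ge, gf, -⟩ := exists_pairScale hT (inv_ne_zero hμ)
      refine ⟨⟨(μ⁻¹)⁻¹ • (g : V ≃ₗ[F] V) (w : V),
        Submodule.smul_mem _ _ (scale_mem_pperp (inv_ne_zero hμ) ge gf w.2)⟩, ?_,
        dim_eq_of_comm ρ D (rad_comm hQ h hψ ρ (g := ⟨g, hg⟩) (inv_ne_zero hμ) ge gf rfl)⟩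
      simp [QuadraticMap.map_smul, orth_map]
    set S := ((univ : Finset F).erase 0).image fun μ => μ * μ with hS
    have hsub : ∀ s ∈ S, ∀ w ∈ univ.filter (fun w : pperp Q e f => Q (w : V) = s * Q (v : V)),
        1 ≤ D.dim ρ w := by
      intro s hs w hw
      obtain ⟨μ, hμ, rfl⟩ := Finset.mem_image.1 hs
      have hμ0 := (Finset.mem_erase.1 hμ).1
      obtain ⟨w', hw', hdw⟩ := hsc v μ hμ0
      have : D.dim ρ w' = D.dim ρ w := hlevel w' w
        (by rw [hw']; exact mul_ne_zero (mul_ne_zero hμ0 hμ0) hv)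
        (by rw [hw', (mem_filter.1 hw).2])
      omega
    calc numSq F * L = ∑ s ∈ S, L := by rw [Finset.sum_const, smul_eq_mul]; rfl
      _ ≤ ∑ s ∈ S, ∑ w ∈ univ.filter (fun w : pperp Q e f => Q (w : V) = s * Q (v : V)),
            D.dim ρ w := by
          refine Finset.sum_le_sum fun s hs => le_trans (hL (s * Q (v : V)) (mul_ne_zero ?_ hv)) ?_
          · obtain ⟨μ, hμ, rfl⟩ := Finset.mem_image.1 hs
            exact mul_ne_zero (Finset.mem_erase.1 hμ).1 (Finset.mem_erase.1 hμ).1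
          · rw [Finset.card_eq_sum_ones]
            exact Finset.sum_le_sum (hsub s hs)
      _ = ∑ w ∈ univ.filter (fun w : pperp Q e f => Q (w : V) / Q (v : V) ∈ S), D.dim ρ w := by
          rw [← Finset.sum_fiberwise_of_maps_to (g := fun w : pperp Q e f => Q (w : V) / Q (v : V))
            (t := S) (fun w hw => (mem_filter.1 hw).2)]
          refine Finset.sum_congr rfl fun s hs => Finset.sum_congr ?_ fun _ _ => rfl
          ext w
          simp only [Finset.mem_filter, mem_univ, true_and]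
          rw [div_eq_iff hv]
          exact ⟨fun hw => ⟨by rw [hw, mul_div_assoc, div_self hv, mul_one]; exact hs, hw⟩,
            fun hw => hw.2⟩
      _ ≤ ∑ w, D.dim ρ w := Finset.sum_le_sum_of_subset (Finset.subset_univ _)
      _ = finrank ℂ M := D.sum_dim ρ
  · right
    push Not at han
    obtain ⟨v₀, hv₀, hd₀⟩ : ∃ v : pperp Q e f, v ≠ 0 ∧ D.dim ρ v ≠ 0 := by
      by_contra hc
      push Not at hc
      obtain ⟨g, hg⟩ := hne
      exact hg (rad_trivial hQ h hψ ρ (by omega) hc g)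
    have hQv₀ : Q (v₀ : V) = 0 := by
      by_contra hc
      exact hd₀ (han v₀ hc)
    have htr : ∀ v : pperp Q e f, v ≠ 0 → Q (v : V) = 0 → D.dim ρ v = D.dim ρ e₁ := by
      intro v hv hQv
      obtain ⟨g, hg, t, ht, hgv⟩ := exists_pairGroup_map hWn (by omega) h₁ hv hQv
      rw [pairGroup_eq_eichGroup hWn (by omega) h₁] at hg
      obtain ⟨k, hk, hke⟩ := exists_eich_scale hWn (by omega) h₁ (inv_ne_zero ht)
      rw [hlevi ⟨k * g, mul_mem hk hg⟩ v]
      show D.dim ρ (((k * g : orth _) : _ ≃ₗ[F] _) v) = _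
      rw [orth_mul_apply, hgv, map_smul, hke, smul_smul, mul_inv_cancel₀ ht, one_smul]
    refine ⟨han, D.dim ρ e₁, ?_, htr⟩
    have := htr v₀ hv₀ hQv₀
    omega

omit [FiniteDimensional ℂ M] in
/-- Commutators of elements preserving a line act trivially on it. -/
lemma proj_phase {A I : Type*} [AddCommGroup A] [Fintype A] [Fintype I]
    [FiniteDimensional ℂ M] (D : AbelData (eichGroup Q) A I) {i : I} (h1 : D.dim ρ i = 1)
    {a b : eichGroup Q} (ha : ρ a * D.proj ρ i = D.proj ρ i * ρ a)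
    (hb : ρ b * D.proj ρ i = D.proj ρ i * ρ b) :
    ρ ⁅a, b⁆ * D.proj ρ i = D.proj ρ i := by
  obtain ⟨ca, hca⟩ := D.exists_scalar ρ ha h1
  obtain ⟨cb, hcb⟩ := D.exists_scalar ρ hb h1
  have hab : ρ (a * b) * D.proj ρ i = (cb * ca) • D.proj ρ i := by
    rw [map_mul, mul_assoc, hcb, mul_smul_comm, hca, smul_smul]
  have hba : ρ (b * a) * D.proj ρ i = (cb * ca) • D.proj ρ i := by
    rw [map_mul, mul_assoc, hca, mul_smul_comm, hcb, smul_smul, mul_comm ca]
  have hc0 : cb * ca ≠ 0 := by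
    intro hc
    rw [hc, zero_smul] at hab
    have hP : D.proj ρ i = 0 := by
      calc D.proj ρ i = ρ (a * b)⁻¹ * (ρ (a * b) * D.proj ρ i) := by
            rw [← mul_assoc, ← map_mul, inv_mul_cancel, map_one, one_mul]
        _ = 0 := by rw [hab, mul_zero]
    rw [AbelData.dim, hP, LinearMap.range_zero, finrank_bot] at h1
    exact zero_ne_one h1
  have := congrArg (fun T => ρ ⁅a, b⁆ * T) hba
  simp only [← mul_assoc, ← map_mul, mul_smul_comm] at this
  rw [show ⁅a, b⁆ * b * a = a * b by rw [commutatorElement_def]; group, hab] at this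
  exact (smul_right_injective _ hc0 this).symm

variable (hiso : ∀ v : pperp Q e f, Q (v : V) ≠ 0 → (radData hQ h ψ hψ).dim ρ v = 0)
  (hone : ∀ v : pperp Q e f, v ≠ 0 → Q (v : V) = 0 → (radData hQ h ψ hψ).dim ρ v = 1)

include hiso hone in
/-- The degree in terms of the fixed space of the radical. -/
lemma rad_finrank :
    finrank ℂ M + 1 = (radData hQ h ψ hψ).dim ρ 0 + isoN (Q.restrict (pperp Q e f)) := by
  set D := radData hQ h ψ hψ
  set s := univ.filter fun v : pperp Q e f => Q (v : V) = 0 with hs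
  rw [← D.sum_dim ρ, ← Finset.sum_subset (Finset.subset_univ s) (fun v _ hv =>
      hiso v (by simpa [hs] using hv)), ← Finset.add_sum_erase s _ (a := 0) (by simp [hs]),
    Finset.sum_congr rfl (fun v hv => hone v (Finset.mem_erase.1 hv).1
      (by simpa [hs] using (Finset.mem_erase.1 hv).2)), Finset.sum_const, smul_eq_mul, mul_one,
    Finset.card_erase_of_mem (by simp [hs]),
    show isoN (Q.restrict (pperp Q e f)) = s.card from isoN_eq_card _]
  have : 0 < s.card := Finset.card_pos.2 ⟨0, by simp [hs]⟩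
  omega

include hiso hone in
/-- The character on the radical. -/
lemma rad_char (w : pperp Q e f) :
    ρ.character (kE Q e (w : V)) =
      (radData hQ h ψ hψ).dim ρ 0 - 1 +
        ∑ v ∈ univ.filter (fun v : pperp Q e f => (Q.restrict (pperp Q e f)) v = 0),
          ψ (polar (Q.restrict (pperp Q e f)) w v) := by
  set D := radData hQ h ψ hψ with hD
  set s := univ.filter fun v : pperp Q e f => (Q.restrict (pperp Q e f)) v = 0 with hs
  have htr : ρ.character (kE Q e (w : V)) = ∑ v, D.χ v w * D.dim ρ v := D.trace_apply ρ w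
  rw [htr, ← Finset.sum_subset (Finset.subset_univ s) (fun v _ hv => by
      rw [hiso v (by simpa [hs] using hv), Nat.cast_zero, mul_zero]),
    ← Finset.add_sum_erase s _ (a := 0) (by simp [hs]),
    ← Finset.add_sum_erase s (fun v => ψ (polar (Q.restrict (pperp Q e f)) w v))
      (a := 0) (by simp [hs]),
    Finset.sum_congr rfl (g := fun v => ψ (polar (Q.restrict (pperp Q e f)) w v)) (fun v hv => by
      rw [hone v (Finset.mem_erase.1 hv).1 (by simpa [hs] using (Finset.mem_erase.1 hv).2)]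
      simp [D, radData, polar_restrict, polar_comm (⇑Q) (v : V)])]
  simp [D, radData]
  ring

include h₁ hiso hone in
/-- The character on long root elements. -/
lemma long_char (hn : 6 ≤ finrank F V) {g : eichGroup Q} (hg : g ∈ longSet Q) :
    ρ.character g = (finrank ℂ M : ℂ) - (Fintype.card F ^ (finrank F V - 3) : ℕ) := by
  obtain ⟨⟨u, a⟩, ⟨hu0, hu, ha, hua, hsp⟩, rfl⟩ := mem_longSet.1 hg
  obtain ⟨k, w, t, -, hQw, hw0, hk⟩ := exists_conj_into_radical hQ (by omega) h hu0 hu hua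
  rw [ha, mul_zero] at hQw
  have hw0' := hw0 hsp
  rw [← ρ.char_conj (kE Q u a) k, hk, rad_char hQ h hψ ρ hiso hone w]
  have hWn := restrict_nondegenerate (h.inf_perp hQ)
  obtain ⟨x, hx⟩ := exists_hypPair hWn hw0' hQw
  have hfin := rad_finrank hQ h hψ ρ hiso hone
  have hp := isoN_pair hx
  have hc := card_pperp_eq hWn hx
  have hd : finrank F (pperp Q e f) + 2 = finrank F V := h.finrank_pperp hQ
  rw [sum_iso_char hx hψ]
  rw [show finrank F (pperp Q e f) - 2 = finrank F V - 4 by omega] at hc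
  rw [hc] at hp ⊢
  rw [show finrank F V - 3 = finrank F V - 4 + 1 by omega]
  apply_fun (Nat.cast : ℕ → ℂ) at hfin hp
  push_cast at hfin hp ⊢
  linear_combination -hp - hfin

include hiso hone in
/-- The character on an element fixing the pair. -/
lemma levi_char {g : eichGroup Q} (hge : (g.1 : V ≃ₗ[F] V) e = e)
    (hgf : (g.1 : V ≃ₗ[F] V) f = f) (s : Finset (pperp Q e f))
    (hs : ∀ v : pperp Q e f, v ∈ s ↔ v ≠ 0 ∧ Q (v : V) = 0 ∧ (g.1 : V ≃ₗ[F] V) (v : V) = (v : V))
    (hph : ∀ v ∈ s, ρ g * (radData hQ h ψ hψ).proj ρ v = (radData hQ h ψ hψ).proj ρ v) :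
    ρ.character g =
      LinearMap.trace ℂ M (ρ g * (radData hQ h ψ hψ).proj ρ 0) + s.card := by
  set D := radData hQ h ψ hψ with hD
  have h0s : (0 : pperp Q e f) ∉ s := fun h => ((hs 0).1 h).1 rfl
  show LinearMap.trace ℂ M (ρ g) = _
  conv_lhs => rw [← mul_one (ρ g), ← D.sum_proj ρ, Finset.mul_sum, map_sum]
  rw [← Finset.sum_subset (Finset.subset_univ (insert 0 s)), Finset.sum_insert h0s,
    Finset.sum_congr rfl (g := fun _ => (1 : ℂ)) (fun v hv => by
      rw [hph v hv, D.trace_proj, hone v ((hs v).1 hv).1 ((hs v).1 hv).2.1, Nat.cast_one])]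
  · simp
  intro v _ hv
  simp only [Finset.mem_insert, not_or] at hv
  by_cases hQv : Q (v : V) = 0
  · have hgv : (g.1 : V ≃ₗ[F] V) (v : V) ≠ (v : V) := fun hgv => hv.2 ((hs v).2 ⟨hv.1, hQv, hgv⟩)
    refine D.trace_mul_proj_eq_zero ρ (rad_comm_fix hQ h hψ ρ hge hgf
      (v' := ⟨_, scale_mem_pperp one_ne_zero (by simpa using hge) (by simpa using hgf) v.2⟩) rfl)
      fun he => hgv (congrArg Subtype.val he).symm
  · rw [AbelData.proj_eq_zero_of_dim ρ D (hiso v hQv), mul_zero, map_zero]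

end Cfsg.Agent.H39
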