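import Cfsg.Agent.H39.OmegaRadical

/-!
# Counting and phases for the induction step on orthogonal degrees
-/

namespace Cfsg.Agent.H39

open QuadraticMap hiding sq
open Cfsg.Agent.H5
open Finset Module
open scoped Classical commutatorElement

/-- Every nontrivial representation has degree at least `b`. -/
def LowDeg {F V : Type*} [Field F] [AddCommGroup V] [Module F V] (Q : QuadraticForm F V)
    (b : ℕ) : Prop :=
  ∀ (M : Type) [AddCommGroup M] [Module ℂ M] [FiniteDimensional ℂ M]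
    (ρ : Representation ℂ (eichGroup Q) M), (∃ g, ρ g ≠ 1) → b ≤ finrank ℂ M

/-- The restriction of a representation to an invariant subspace. -/
def subRep {G M : Type*} [Group G] [AddCommGroup M] [Module ℂ M] (ρ : Representation ℂ G M)
    (U : Submodule ℂ M) (hU : ∀ g, ∀ v ∈ U, ρ g v ∈ U) : Representation ℂ G U where
  toFun g := (ρ g).restrict (hU g)
  map_one' := LinearMap.ext fun u => Subtype.ext (by simp)
  map_mul' a b := LinearMap.ext fun u => Subtype.ext (by simp)

/-- The representation on a quotient. -/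
def quotRep {G M : Type*} [Group G] [AddCommGroup M] [Module ℂ M] (ρ : Representation ℂ G M)
    (U : Submodule ℂ M) (hU : ∀ g, ∀ v ∈ U, ρ g v ∈ U) : Representation ℂ G (M ⧸ U) where
  toFun g := U.mapQ U (ρ g) (hU g)
  map_one' := LinearMap.ext fun x => by
    obtain ⟨y, rfl⟩ := Submodule.Quotient.mk_surjective U x
    simp
  map_mul' a b := LinearMap.ext fun x => by
    obtain ⟨y, rfl⟩ := Submodule.Quotient.mk_surjective U x
    simp

variable {F V : Type*} [Field F] [AddCommGroup V] [Module F V] {Q : QuadraticForm F V}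

/-- It suffices to bound the irreducible representations. -/
lemma lowDeg_of_irreducible [Fintype V] {b : ℕ}
    (H : ∀ (M : Type) [AddCommGroup M] [Module ℂ M] [FiniteDimensional ℂ M]
      (ρ : Representation ℂ (eichGroup Q) M), ρ.IsIrreducible → (∃ g, ρ g ≠ 1) →
        b ≤ finrank ℂ M) : LowDeg Q b := by
  haveI : Finite (eichGroup Q) := finite_eichGroup
  suffices ∀ (d : ℕ) (M : Type) [AddCommGroup M] [Module ℂ M] [FiniteDimensional ℂ M]
      (ρ : Representation ℂ (eichGroup Q) M), finrank ℂ M = d → (∃ g, ρ g ≠ 1) → b ≤ d by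
    intro M _ _ _ ρ hρ
    exact this _ M ρ rfl hρ
  intro d
  induction d using Nat.strong_induction_on with
  | _ d ih =>
    intro M _ _ _ ρ hd hρ
    by_cases hirr : ρ.IsIrreducible
    · exact hd ▸ H M ρ hirr hρ
    obtain ⟨g, hg⟩ := hρ
    haveI : Nontrivial M := by
      by_contra hnt
      rw [not_nontrivial_iff_subsingleton] at hnt
      exact hg (LinearMap.ext fun v => Subsingleton.elim _ _)
    rw [H26.isIrreducible_iff_forall] at hirr
    push Not at hirr
    obtain ⟨U, hU, hbot, htop⟩ := hirr inferInstance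
    have hlt := Submodule.finrank_lt htop
    have hpos : 0 < finrank ℂ U :=
      Nat.pos_of_ne_zero fun h0 => hbot (Submodule.finrank_eq_zero.1 h0)
    have hadd := Submodule.finrank_quotient_add_finrank U
    by_cases h1 : ∃ g, subRep ρ U hU g ≠ 1
    · have := ih _ (by omega) U (subRep ρ U hU) rfl h1
      omega
    by_cases h2 : ∃ g, quotRep ρ U hU g ≠ 1
    · have := ih _ (by omega) (M ⧸ U) (quotRep ρ U hU) rfl h2
      omega
    push Not at h1 h2
    refine absurd (eq_one_of_unipotent ρ U g (fun u hu => ?_) (fun v => ?_)) hg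
    · exact congrArg Subtype.val (LinearMap.congr_fun (h1 g) ⟨u, hu⟩)
    · rw [← Submodule.Quotient.eq]
      exact LinearMap.congr_fun (h2 g) (Submodule.Quotient.mk v)

lemma hypPair_coe {W : Submodule F V} {x y : W} (h : HypPair (Q.restrict W) x y) :
    HypPair Q (x : V) (y : V) :=
  ⟨h.left, h.right, by rw [← polar_restrict]; exact h.pair⟩

lemma twoPairs_of_perp {e f : V} (h : HypPair Q e f) {x y : pperp Q e f}
    (hxy : HypPair (Q.restrict (pperp Q e f)) x y) : TwoPairs Q e f x y :=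
  ⟨h, hypPair_coe hxy, x.2, y.2⟩

lemma TwoPairs.coe {W : Submodule F V} {a b c d : W} (h : TwoPairs (Q.restrict W) a b c d) :
    TwoPairs Q (a : V) b c d := by
  refine ⟨hypPair_coe h.fst, hypPair_coe h.snd, ?_, ?_⟩
  · rw [mem_pperp, ← polar_restrict, ← polar_restrict]; exact mem_pperp.1 h.memu
  · rw [mem_pperp, ← polar_restrict, ← polar_restrict]; exact mem_pperp.1 h.memf

variable [FiniteDimensional F V] [Fintype F] [Fintype V]

omit [FiniteDimensional F V] in
/-- Singular vectors orthogonal to a totally singular plane. -/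
lemma card_iso_perp_two {e f : V} (h : HypPair Q e f) {u g : pperp Q e f}
    (hu : HypPair (Q.restrict (pperp Q e f)) u g) :
    (univ.filter fun x : V => Q x = 0 ∧ polar Q e x = 0 ∧ polar Q (u : V) x = 0).card =
      Fintype.card F * (Fintype.card F *
        isoN ((Q.restrict (pperp Q e f)).restrict (pperp (Q.restrict (pperp Q e f)) u g))) := by
  rw [← card_iso_perp hu, ← Finset.card_univ (α := F), ← Finset.card_product]
  symm
  refine Finset.card_bij (fun p _ => (pairSplit h).symm (p.1, 0, p.2)) (fun p hp => ?_)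
    (fun p _ p' _ he => ?_) (fun x hx => ?_)
  · simp only [mem_product, mem_univ, true_and, mem_filter, QuadraticMap.restrict_apply,
      polar_restrict] at hp
    simp only [mem_filter, mem_univ, true_and]
    refine ⟨?_, (polar_pair_add h _ _ _).1, ?_⟩
    · show Q (p.1 • e + (0 : F) • f + (p.2 : V)) = 0
      rw [map_pair_add h, hp.1, mul_zero, add_zero]
    · show polar Q (u : V) (p.1 • e + (0 : F) • f + (p.2 : V)) = 0
      simp [polar_add_right, polar_smul_right, polar_comm (⇑Q) (u : V) e, (mem_pperp.1 u.2).1,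
        hp.2]
  · have := (pairSplit h).symm.injective he
    simp only [Prod.mk.injEq, true_and] at this
    exact Prod.ext this.1 this.2
  · simp only [mem_filter, mem_univ, true_and] at hx
    refine ⟨(polar Q f x, perpProj h x), ?_, ?_⟩
    · simp only [mem_product, mem_univ, true_and, mem_filter, QuadraticMap.restrict_apply,
        polar_restrict]
      have h1 := hx.1
      rw [pair_decomp h x, map_pair_add h, hx.2.1, mul_zero, zero_add] at h1
      refine ⟨h1, ?_⟩
      rw [coe_perpProj]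
      simp [polar_sub_right, polar_smul_right, polar_comm (⇑Q) (u : V) e,
        polar_comm (⇑Q) (u : V) f, (mem_pperp.1 u.2).1, (mem_pperp.1 u.2).2, hx.2.2]
    · show polar Q f x • e + (0 : F) • f + (perpProj h x : V) = x
      conv_rhs => rw [pair_decomp h x, hx.2.1]

omit [FiniteDimensional F V] [Fintype F] [Fintype V] in
/-- A line preserved by a scaling carries no phase for the long root element it scales. -/
lemma kE_fix {u₁ u₂ x : V} (h0 : Q u₁ = 0) (h12 : polar Q u₁ u₂ = 0) (h1 : polar Q u₁ x = 0)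
    (h2 : polar Q u₂ x = 0) : ((kE Q u₁ u₂).1 : V ≃ₗ[F] V) x = x :=
  eich_apply_of_ortho h0 h12 h1 h2

omit [FiniteDimensional F V] [Fintype F] [Fintype V] in
/-- An element of the Levi group scaling a singular vector and a long root group, fixing a given
character up to the scalar of the pair. -/
lemma exists_levi_scale (hQ : (polarBilin Q).Nondegenerate) {e f u₁ g₁ u₂ g₂ u₃ g₃ : V}
    (h₁ : TwoPairs Q e f u₁ g₁) (h₂ : TwoPairs Q e f u₂ g₂) (h₃ : TwoPairs Q e f u₃ g₃)
    (h12 : TwoPairs Q u₁ g₁ u₂ g₂) (h13 : TwoPairs Q u₁ g₁ u₃ g₃) (h23 : TwoPairs Q u₂ g₂ u₃ g₃)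
    {μ : F} (hμ : μ ≠ 0) {v : V} (hve : polar Q e v = 0) (hvf : polar Q f v = 0)
    (hv1 : polar Q u₁ v = 0) (hv2 : polar Q u₂ v = 0) :
    ∃ (g : eichGroup Q) (ν : F), ν ≠ 0 ∧ (g.1 : V ≃ₗ[F] V) e = ν • e ∧
      (g.1 : V ≃ₗ[F] V) f = ν⁻¹ • f ∧ (g.1 : V ≃ₗ[F] V) v = ν • v ∧
      (g.1 : V ≃ₗ[F] V) u₁ = μ • u₁ ∧ (g.1 : V ≃ₗ[F] V) u₂ = μ • u₂ := by
  obtain ⟨a1, a2⟩ := mem_pperp.1 h₁.memu
  obtain ⟨b1, b2⟩ := mem_pperp.1 h₁.memf
  obtain ⟨c1, c2⟩ := mem_pperp.1 h₂.memu
  obtain ⟨d1, d2⟩ := mem_pperp.1 h₂.memf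
  obtain ⟨p1, p2⟩ := mem_pperp.1 h12.memu
  obtain ⟨r1, r2⟩ := mem_pperp.1 h12.memf
  obtain ⟨s1, s2⟩ := mem_pperp.1 h₃.memu
  obtain ⟨t1, t2⟩ := mem_pperp.1 h₃.memf
  obtain ⟨x1, x2⟩ := mem_pperp.1 h13.memu
  obtain ⟨y1, y2⟩ := mem_pperp.1 h13.memf
  obtain ⟨z1, z2⟩ := mem_pperp.1 h23.memu
  obtain ⟨o1, o2⟩ := mem_pperp.1 h23.memf
  set α := polar Q g₁ v with hα
  set β := polar Q g₂ v with hβ
  set w := v - α • u₁ - β • u₂ with hw
  obtain ⟨gμ, hgμ, gu1, -, -, gu2, gfix⟩ := exists_pairScale h12.flip hμ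
  have ge : (gμ : V ≃ₗ[F] V) e = e :=
    gfix e (by rw [polar_comm]; exact a1) (by rw [polar_comm]; exact b1)
      (by rw [polar_comm]; exact d1) (by rw [polar_comm]; exact c1)
  have gf : (gμ : V ≃ₗ[F] V) f = f :=
    gfix f (by rw [polar_comm]; exact a2) (by rw [polar_comm]; exact b2)
      (by rw [polar_comm]; exact d2) (by rw [polar_comm]; exact c2)
  have hwperp : polar Q u₁ w = 0 ∧ polar Q g₁ w = 0 ∧ polar Q u₂ w = 0 ∧ polar Q g₂ w = 0 ∧
      polar Q e w = 0 ∧ polar Q f w = 0 := by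
    simp [hw, polar_sub_right, polar_smul_right, polar_self', h12.fst.left, h12.snd.left,
      h12.fst.pair, h12.snd.pair, polar_comm (⇑Q) g₁ u₁, polar_comm (⇑Q) g₂ u₂,
      polar_comm (⇑Q) u₂ u₁, polar_comm (⇑Q) u₂ g₁, polar_comm (⇑Q) g₂ u₁, hv1, hv2,
      ← hα, ← hβ, hve, hvf, a1, a2, c1, c2, p1, p2, r1]
  obtain ⟨w1, w2, w3, w4, w5, w6⟩ := hwperp
  have gw : (gμ : V ≃ₗ[F] V) w = w := gfix w w1 w2 w4 w3
  have hvw : v = w + α • u₁ + β • u₂ := by rw [hw]; abel
  by_cases hw0 : w = 0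
  · obtain ⟨gt, hgt, te, tf, -, -, tfix⟩ := exists_pairScale h₃.flip hμ
    have tu1 : (gt : V ≃ₗ[F] V) u₁ = u₁ :=
      tfix u₁ a1 a2 (by rw [polar_comm]; exact y1) (by rw [polar_comm]; exact x1)
    have tu2 : (gt : V ≃ₗ[F] V) u₂ = u₂ :=
      tfix u₂ c1 c2 (by rw [polar_comm]; exact o1) (by rw [polar_comm]; exact z1)
    refine ⟨⟨gμ * gt, mul_mem hgμ hgt⟩, μ, hμ, ?_, ?_, ?_, ?_, ?_⟩ <;>
      simp only [orth_mul_apply]
    · rw [te, map_smul, ge]
    · rw [tf, map_smul, gf]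
    · rw [hvw, hw0, zero_add, map_add, map_smul, map_smul, tu1, tu2, map_add, map_smul, map_smul,
        gu1, gu2, smul_add, smul_comm α, smul_comm β]
    · rw [tu1, gu1]
    · rw [tu2, gu2]
  · obtain ⟨y, hy⟩ := exists_polar_eq_one hQ hw0
    set r := y - polar Q f y • e - polar Q e y • f - polar Q g₁ y • u₁ - polar Q u₁ y • g₁
      - polar Q g₂ y • u₂ - polar Q u₂ y • g₂ with hr
    have hwy : polar Q r w = 1 := by
      simp [hr, polar_sub_left, polar_smul_left, w1, w2, w3, w4, w5, w6]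
      first
        | exact hy
        | rw [polar_comm]; exact hy
    have hre : polar Q e r = 0 ∧ polar Q f r = 0 ∧ polar Q u₁ r = 0 ∧ polar Q u₂ r = 0 := by
      simp [hr, polar_sub_right, polar_smul_right, polar_self', h₁.fst.left, h₁.fst.right,
        h₁.fst.pair, polar_comm (⇑Q) f e, h12.fst.left, h12.snd.left, h12.fst.pair, h12.snd.pair,
        polar_comm (⇑Q) u₁ e, polar_comm (⇑Q) u₁ f, polar_comm (⇑Q) u₂ e, polar_comm (⇑Q) u₂ f,
        polar_comm (⇑Q) u₂ u₁, polar_comm (⇑Q) u₂ g₁, a1, a2, b1, b2, c1, c2, d1, d2, p1, p2, r1]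
    obtain ⟨e1, e2, e3, e4⟩ := hre
    have i1 : polar Q u₁ (α • r) = 0 := by rw [polar_smul_right, e3, smul_zero]
    have i2 : polar Q u₂ (β • r) = 0 := by rw [polar_smul_right, e4, smul_zero]
    have kfix : ∀ {c : F} {x z : V}, polar Q z x = 0 → polar Q r x = 0 → Q z = 0 →
        polar Q z r = 0 → (eich Q z (c • r) : V ≃ₗ[F] V) x = x := fun {c x z} hzx hrx hz hzr =>
      eich_apply_of_ortho hz (by rw [polar_smul_right, hzr, smul_zero]) hzx
        (by rw [polar_smul_left, hrx, smul_zero])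
    let k : eichGroup Q := kE Q u₁ (α • r) * kE Q u₂ (β • r)
    have kap : ∀ x, (k.1 : V ≃ₗ[F] V) x =
        (eich Q u₁ (α • r) : V ≃ₗ[F] V) ((eich Q u₂ (β • r) : V ≃ₗ[F] V) x) := fun x => rfl
    have krest : ∀ {x : V}, polar Q u₁ x = 0 → polar Q u₂ x = 0 → polar Q r x = 0 →
        (k.1 : V ≃ₗ[F] V) x = x := fun {x} h1 h2 h3 => by
      rw [kap, kfix h2 h3 h12.snd.left e4, kfix h1 h3 h12.fst.left e3]
    have ke : (k.1 : V ≃ₗ[F] V) e = e :=
      krest (by rw [polar_comm]; exact a1) (by rw [polar_comm]; exact c1)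
        (by rw [polar_comm]; exact e1)
    have kf : (k.1 : V ≃ₗ[F] V) f = f :=
      krest (by rw [polar_comm]; exact a2) (by rw [polar_comm]; exact c2)
        (by rw [polar_comm]; exact e2)
    have ku1 : (k.1 : V ≃ₗ[F] V) u₁ = u₁ :=
      krest (by rw [polar_self', h12.fst.left, mul_zero]) (by rw [polar_comm]; exact p1)
        (by rw [polar_comm]; exact e3)
    have ku2 : (k.1 : V ≃ₗ[F] V) u₂ = u₂ :=
      krest p1 (by rw [polar_self', h12.snd.left, mul_zero]) (by rw [polar_comm]; exact e4)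
    have kv : (k.1 : V ≃ₗ[F] V) v = w := by
      have hrv : polar Q r v = 1 := by
        rw [hvw, polar_add_right, polar_add_right, polar_smul_right, polar_smul_right, hwy,
          polar_comm (⇑Q) r u₁, polar_comm (⇑Q) r u₂, e3, e4]
        simp
      rw [kap, eich_apply h12.snd.left i2, hv2, polar_smul_left, hrv]
      simp only [zero_smul, add_zero, smul_eq_mul, mul_one, mul_zero, sub_zero]
      rw [eich_apply h12.fst.left i1]
      simp only [polar_sub_right, polar_smul_right, polar_smul_left, hv1, p1, hrv,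
        polar_comm (⇑Q) r u₂, e4, smul_eq_mul, mul_zero, mul_one, sub_zero, zero_smul, add_zero]
      rw [hw]; abel
    have ki : ∀ {x : V}, (k.1 : V ≃ₗ[F] V) x = x →
        ((k⁻¹ : eichGroup Q).1 : V ≃ₗ[F] V) x = x := fun {x} hx => by
      conv_lhs => rw [← hx]
      exact orth_inv_apply_apply k.1 x
    have gap : ∀ x, (((k⁻¹ * ⟨gμ, hgμ⟩ * k : eichGroup Q).1 : orth Q) : V ≃ₗ[F] V) x =
        ((k⁻¹ : eichGroup Q).1 : V ≃ₗ[F] V) ((gμ : V ≃ₗ[F] V) ((k.1 : V ≃ₗ[F] V) x)) := fun x => rfl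
    refine ⟨k⁻¹ * ⟨gμ, hgμ⟩ * k, 1, one_ne_zero, ?_, ?_, ?_, ?_, ?_⟩ <;> rw [gap]
    · rw [ke, ge, one_smul]; exact ki ke
    · rw [kf, gf, inv_one, one_smul]; exact ki kf
    · rw [kv, gw, one_smul]
      conv_lhs => rw [← kv]
      exact orth_inv_apply_apply k.1 v
    · rw [ku1, gu1, map_smul, ki ku1]
    · rw [ku2, gu2, map_smul, ki ku2]

variable (hQ : (polarBilin Q).Nondegenerate) {e f : V} (h : HypPair Q e f)
  {ψ : AddChar F ℂ} (hψ : ψ ≠ 1) {M : Type} [AddCommGroup M] [Module ℂ M]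
  [FiniteDimensional ℂ M] (ρ : Representation ℂ (eichGroup Q) M)

include h hψ in
/-- A root subgroup scaled by an element fixing a character has no phase on its line. -/
lemma phase_of_scale {v : pperp Q e f} (h1 : (radData hQ h ψ hψ).dim ρ v = 1) {u a : V}
    (hu : Q u = 0) (hua : polar Q u a = 0) (hue : polar Q u e = 0) (hae : polar Q a e = 0)
    (huf : polar Q u f = 0) (haf : polar Q a f = 0) (huv : polar Q u (v : V) = 0)
    (hav : polar Q a (v : V) = 0) {g : eichGroup Q} {ν γ : F} (hν : ν ≠ 0) (hγ : γ ≠ 1)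
    (he : (g.1 : V ≃ₗ[F] V) e = ν • e) (hf : (g.1 : V ≃ₗ[F] V) f = ν⁻¹ • f)
    (hv : (g.1 : V ≃ₗ[F] V) (v : V) = ν • (v : V))
    (hg : ∀ t : F, g * kE Q u (t • a) * g⁻¹ = kE Q u ((γ * t) • a)) :
    ρ (kE Q u a) * (radData hQ h ψ hψ).proj ρ v = (radData hQ h ψ hψ).proj ρ v := by
  set t := (γ - 1)⁻¹ with ht
  have hγt : γ * t = 1 + t := by
    have : γ - 1 ≠ 0 := sub_ne_zero.2 hγ
    rw [ht]; field_simp; ring
  have hcomm : ⁅g, kE Q u (t • a)⁆ = kE Q u a := by
    rw [commutatorElement_def, hg, hγt, add_smul, one_smul,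
      kE_add hu hua (by rw [polar_smul_right, hua, smul_zero]), mul_assoc, mul_inv_cancel, mul_one]
  rw [← hcomm]
  refine proj_phase ρ _ h1 (rad_comm hQ h hψ ρ hν he hf ?_) (rad_comm_fix hQ h hψ ρ ?_ ?_ ?_)
  · rw [hv, smul_smul, inv_mul_cancel₀ hν, one_smul]
  · exact kE_fix hu (by rw [polar_smul_right, hua, smul_zero]) hue
      (by rw [polar_smul_left, hae, smul_zero])
  · exact kE_fix hu (by rw [polar_smul_right, hua, smul_zero]) huf
      (by rw [polar_smul_left, haf, smul_zero])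
  · exact (kE_fix hu (by rw [polar_smul_right, hua, smul_zero]) huv
      (by rw [polar_smul_left, hav, smul_zero])).symm

include h hψ in
/-- The space fixed by the radical is a representation of the Levi group. -/
lemma dim_zero_ge {b : ℕ} (IH : LowDeg (Q.restrict (pperp Q e f)) b)
    (x : eichGroup (Q.restrict (pperp Q e f)))
    (hx : LinearMap.trace ℂ M (ρ (leviK h x) * (radData hQ h ψ hψ).proj ρ 0) ≠
      ((radData hQ h ψ hψ).dim ρ 0 : ℂ)) :
    b ≤ (radData hQ h ψ hψ).dim ρ 0 := by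
  set D := radData hQ h ψ hψ with hD
  set Z := LinearMap.range (D.proj ρ 0) with hZ
  have hc : ∀ g : eichGroup (Q.restrict (pperp Q e f)),
      ρ (leviK h g) * D.proj ρ 0 = D.proj ρ 0 * ρ (leviK h g) := fun g =>
    rad_comm_fix hQ h hψ ρ (g := leviK h g) (orthExt_left h _) (orthExt_right h _)
      (by rw [Submodule.coe_zero, map_zero])
  have hinv : ∀ g, ∀ v ∈ Z, (ρ.comp (leviK h)) g v ∈ Z := by
    rintro g _ ⟨y, rfl⟩
    exact ⟨ρ (leviK h g) y, (LinearMap.congr_fun (hc g) y).symm⟩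
  refine IH Z (subRep (ρ.comp (leviK h)) Z hinv) ⟨x, fun h1 => hx ?_⟩
  have : ρ (leviK h x) * D.proj ρ 0 = D.proj ρ 0 := LinearMap.ext fun y =>
    congrArg Subtype.val (LinearMap.congr_fun h1 ⟨D.proj ρ 0 y, LinearMap.mem_range_self _ y⟩)
  rw [this, D.trace_proj]

end Cfsg.Agent.H39
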