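import Cfsg.Agent.H5.OmegaSimple
import Cfsg.Agent.H39.OmegaStep

/-!
# Three anisotropic planes over two elements

An element of order three rotating three planes at once is a commutator inside the orthogonal
group of six dimensions and is inverted in the group of eight dimensions.
-/

namespace Cfsg.Agent.H39

open QuadraticMap hiding sq
open Cfsg.Agent.H5
open Finset Module
open scoped Classical commutatorElement

variable {F V : Type*} [Field F] [AddCommGroup V] [Module F V] {Q : QuadraticForm F V}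

/-- Three orthogonal planes with all values one, spanning. -/
structure ThreePlanes (Q : QuadraticForm F V) (p₁ s₁ p₂ s₂ p₃ s₃ : V) : Prop where
  p1 : Q p₁ = 1
  q1 : Q s₁ = 1
  p2 : Q p₂ = 1
  q2 : Q s₂ = 1
  p3 : Q p₃ = 1
  q3 : Q s₃ = 1
  ps1 : polar Q p₁ s₁ = 1
  ps2 : polar Q p₂ s₂ = 1
  ps3 : polar Q p₃ s₃ = 1
  o12a : polar Q p₁ p₂ = 0
  o12b : polar Q p₁ s₂ = 0
  o12c : polar Q s₁ p₂ = 0
  o12d : polar Q s₁ s₂ = 0
  o13a : polar Q p₁ p₃ = 0
  o13b : polar Q p₁ s₃ = 0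
  o13c : polar Q s₁ p₃ = 0
  o13d : polar Q s₁ s₃ = 0
  o23a : polar Q p₂ p₃ = 0
  o23b : polar Q p₂ s₃ = 0
  o23c : polar Q s₂ p₃ = 0
  o23d : polar Q s₂ s₃ = 0
  span : ∀ v, ∃ a b c d r t : F, v = a • p₁ + b • s₁ + c • p₂ + d • s₂ + r • p₃ + t • s₃

/-- A combination in the six vectors. -/
def comb (p₁ s₁ p₂ s₂ p₃ s₃ : V) (a b c d r t : F) : V :=
  a • p₁ + b • s₁ + c • p₂ + d • s₂ + r • p₃ + t • s₃

variable (h2 : (2 : F) = 0)
include h2

omit [Module F V] in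
lemma neg_eq_self_two (x : F) : -x = x := by linear_combination (-x) * h2

lemma eich_swap {u a x : V} (hu : Q u = 0) (ha : Q a = 0) (hua : polar Q u a = 0) :
    (eich Q u a : V ≃ₗ[F] V) x = x + polar Q u x • a + polar Q a x • u := by
  rw [eich_apply hu hua, ha]
  simp only [zero_mul, zero_smul, sub_zero]
  rw [sub_eq_add_neg, ← neg_smul, neg_eq_self_two h2]

lemma refl_one {v : V} (hv : Q v = 1) (x : V) :
    (refl Q v : V ≃ₗ[F] V) x = x + polar Q v x • v := by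
  rw [refl_apply, hv, inv_one, one_mul, sub_eq_add_neg, ← neg_smul, neg_eq_self_two h2]

variable {p₁ s₁ p₂ s₂ p₃ s₃ : V} (T : ThreePlanes Q p₁ s₁ p₂ s₂ p₃ s₃)
include T

lemma ThreePlanes.polar_comb (a b c d r t : F) :
    polar Q p₁ (comb p₁ s₁ p₂ s₂ p₃ s₃ a b c d r t) = b ∧
      polar Q s₁ (comb p₁ s₁ p₂ s₂ p₃ s₃ a b c d r t) = a ∧
      polar Q p₂ (comb p₁ s₁ p₂ s₂ p₃ s₃ a b c d r t) = d ∧
      polar Q s₂ (comb p₁ s₁ p₂ s₂ p₃ s₃ a b c d r t) = c ∧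
      polar Q p₃ (comb p₁ s₁ p₂ s₂ p₃ s₃ a b c d r t) = t ∧
      polar Q s₃ (comb p₁ s₁ p₂ s₂ p₃ s₃ a b c d r t) = r := by
  obtain ⟨p1, q1, p2, q2, p3, q3, ps1, ps2, ps3, a1, a2, a3, a4, b1, b2, b3, b4, c1, c2, c3, c4, -⟩
    := T
  refine ⟨?_, ?_, ?_, ?_, ?_, ?_⟩ <;>
    simp only [comb, polar_add_right, polar_smul_right, polar_self', p1, q1, p2, q2, p3, q3, ps1,
      ps2, ps3, polar_comm (⇑Q) s₁ p₁, polar_comm (⇑Q) s₂ p₂, polar_comm (⇑Q) s₃ p₃,
      polar_comm (⇑Q) p₂ p₁, polar_comm (⇑Q) s₂ p₁, polar_comm (⇑Q) p₂ s₁, polar_comm (⇑Q) s₂ s₁,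
      polar_comm (⇑Q) p₃ p₁, polar_comm (⇑Q) s₃ p₁, polar_comm (⇑Q) p₃ s₁, polar_comm (⇑Q) s₃ s₁,
      polar_comm (⇑Q) p₃ p₂, polar_comm (⇑Q) s₃ p₂, polar_comm (⇑Q) p₃ s₂, polar_comm (⇑Q) s₃ s₂,
      a1, a2, a3, a4, b1, b2, b3, b4, c1, c2, c3, c4, h2, smul_eq_mul, mul_one, one_mul,
      mul_zero, add_zero, zero_add]

lemma ThreePlanes.comb_eq_zero {a b c d r t : F}
    (h : comb p₁ s₁ p₂ s₂ p₃ s₃ a b c d r t = 0) :
    a = 0 ∧ b = 0 ∧ c = 0 ∧ d = 0 ∧ r = 0 ∧ t = 0 := by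
  obtain ⟨e1, e2, e3, e4, e5, e6⟩ := T.polar_comb h2 a b c d r t
  rw [h, polar_zero_right] at e1 e2 e3 e4 e5 e6
  exact ⟨e2.symm, e1.symm, e4.symm, e3.symm, e6.symm, e5.symm⟩

/-- The exchange of the first two planes. -/
lemma ThreePlanes.swap12 (a b c d r t : F) :
    (eich Q (p₁ + p₂) (s₁ + s₂) : V ≃ₗ[F] V) (comb p₁ s₁ p₂ s₂ p₃ s₃ a b c d r t) =
      comb p₁ s₁ p₂ s₂ p₃ s₃ c d a b r t := by
  obtain ⟨e1, e2, e3, e4, e5, e6⟩ := T.polar_comb h2 a b c d r t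
  rw [eich_swap h2 (by rw [QuadraticMap.map_add (⇑Q), T.p1, T.p2, T.o12a]; linear_combination h2)
    (by rw [QuadraticMap.map_add (⇑Q), T.q1, T.q2, T.o12d]; linear_combination h2)
    (by simp only [polar_add_left, polar_add_right, T.ps1, T.ps2, T.o12b,
          polar_comm (⇑Q) p₂ s₁, T.o12c]
        linear_combination h2)]
  rw [polar_add_left, polar_add_left, e1, e2, e3, e4, comb, comb]
  match_scalars
  all_goals first
    | ring1
    | linear_combination a * h2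
    | linear_combination b * h2
    | linear_combination c * h2
    | linear_combination d * h2

/-- The exchange of the last two planes. -/
lemma ThreePlanes.swap23 (a b c d r t : F) :
    (eich Q (p₂ + p₃) (s₂ + s₃) : V ≃ₗ[F] V) (comb p₁ s₁ p₂ s₂ p₃ s₃ a b c d r t) =
      comb p₁ s₁ p₂ s₂ p₃ s₃ a b r t c d := by
  obtain ⟨e1, e2, e3, e4, e5, e6⟩ := T.polar_comb h2 a b c d r t
  rw [eich_swap h2 (by rw [QuadraticMap.map_add (⇑Q), T.p2, T.p3, T.o23a]; linear_combination h2)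
    (by rw [QuadraticMap.map_add (⇑Q), T.q2, T.q3, T.o23d]; linear_combination h2)
    (by simp only [polar_add_left, polar_add_right, T.ps2, T.ps3, T.o23b,
          polar_comm (⇑Q) p₃ s₂, T.o23c]
        linear_combination h2)]
  rw [polar_add_left, polar_add_left, e3, e4, e5, e6, comb, comb]
  match_scalars
  all_goals first
    | ring1
    | linear_combination c * h2
    | linear_combination d * h2
    | linear_combination r * h2
    | linear_combination t * h2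

/-- The rotation of the middle plane. -/
lemma ThreePlanes.rot2 (a b c d r t : F) :
    ((refl Q s₂ * refl Q p₂ : orth Q) : V ≃ₗ[F] V) (comb p₁ s₁ p₂ s₂ p₃ s₃ a b c d r t) =
      comb p₁ s₁ p₂ s₂ p₃ s₃ a b (c + d) c r t := by
  obtain ⟨e1, e2, e3, e4, e5, e6⟩ := T.polar_comb h2 a b c d r t
  rw [orth_mul_apply, refl_one h2 T.p2, refl_one h2 T.q2, polar_add_right, polar_smul_right, e3,
    e4, polar_comm (⇑Q) s₂ p₂, T.ps2, comb, comb]
  match_scalars
  all_goals first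
    | ring1
    | linear_combination d * h2
    | linear_combination c * h2

/-- The exchange inside each plane. -/
lemma ThreePlanes.flip (a b c d r t : F) :
    (refl Q (p₁ + s₁) : V ≃ₗ[F] V) ((refl Q (p₂ + s₂) : V ≃ₗ[F] V)
        ((refl Q (p₃ + s₃) : V ≃ₗ[F] V) (comb p₁ s₁ p₂ s₂ p₃ s₃ a b c d r t))) =
      comb p₁ s₁ p₂ s₂ p₃ s₃ b a d c t r := by
  have n1 : Q (p₁ + s₁) = 1 := by rw [QuadraticMap.map_add (⇑Q), T.p1, T.q1, T.ps1]; linear_combination h2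
  have n2 : Q (p₂ + s₂) = 1 := by rw [QuadraticMap.map_add (⇑Q), T.p2, T.q2, T.ps2]; linear_combination h2
  have n3 : Q (p₃ + s₃) = 1 := by rw [QuadraticMap.map_add (⇑Q), T.p3, T.q3, T.ps3]; linear_combination h2
  have F3 : ∀ a b c d r t : F,
      (refl Q (p₃ + s₃) : V ≃ₗ[F] V) (comb p₁ s₁ p₂ s₂ p₃ s₃ a b c d r t) =
        comb p₁ s₁ p₂ s₂ p₃ s₃ a b c d t r := by
    intro a b c d r t
    obtain ⟨e1, e2, e3, e4, e5, e6⟩ := T.polar_comb h2 a b c d r t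
    rw [refl_one h2 n3, polar_add_left, e5, e6, comb, comb]
    match_scalars
    all_goals first
      | ring1
      | linear_combination r * h2
      | linear_combination t * h2
  have F2 : ∀ a b c d r t : F,
      (refl Q (p₂ + s₂) : V ≃ₗ[F] V) (comb p₁ s₁ p₂ s₂ p₃ s₃ a b c d r t) =
        comb p₁ s₁ p₂ s₂ p₃ s₃ a b d c r t := by
    intro a b c d r t
    obtain ⟨e1, e2, e3, e4, e5, e6⟩ := T.polar_comb h2 a b c d r t
    rw [refl_one h2 n2, polar_add_left, e3, e4, comb, comb]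
    match_scalars
    all_goals first
      | ring1
      | linear_combination c * h2
      | linear_combination d * h2
  have F1 : ∀ a b c d r t : F,
      (refl Q (p₁ + s₁) : V ≃ₗ[F] V) (comb p₁ s₁ p₂ s₂ p₃ s₃ a b c d r t) =
        comb p₁ s₁ p₂ s₂ p₃ s₃ b a c d r t := by
    intro a b c d r t
    obtain ⟨e1, e2, e3, e4, e5, e6⟩ := T.polar_comb h2 a b c d r t
    rw [refl_one h2 n1, polar_add_left, e1, e2, comb, comb]
    match_scalars
    all_goals first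
      | ring1
      | linear_combination a * h2
      | linear_combination b * h2
  rw [F3, F2, F1]

/-- The rotation by three planes, as a commutator inside the group of Eichler transformations. -/
lemma ThreePlanes.exists_rotation :
    ∃ x y g : eichGroup Q, x * y = g * (y * x) ∧ g * x = x * g ∧ g * y = y * g ∧ g * (g * g) = 1 ∧
      (∀ a b c d r t : F, (g.1 : V ≃ₗ[F] V) (comb p₁ s₁ p₂ s₂ p₃ s₃ a b c d r t) =
        comb p₁ s₁ p₂ s₂ p₃ s₃ (a + b) a (c + d) c (r + t) r) := by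
  set R : orth Q := refl Q s₂ * refl Q p₂ with hR
  let x : eichGroup Q := kE Q (p₁ + p₂) (s₁ + s₂) * kE Q (p₂ + p₃) (s₂ + s₃)
  let y : eichGroup Q := kE Q (p₂ + p₃) (s₂ + s₃) *
    ⟨R * eich Q (p₂ + p₃) (s₂ + s₃) * R⁻¹,
      eichGroup_normal.conj_mem _ (eich_mem_eichGroup _ _) R⟩
  have hX : ∀ a b c d r t : F, (x.1 : V ≃ₗ[F] V) (comb p₁ s₁ p₂ s₂ p₃ s₃ a b c d r t) =
      comb p₁ s₁ p₂ s₂ p₃ s₃ r t a b c d := by
    intro a b c d r t
    show (eich Q (p₁ + p₂) (s₁ + s₂) : V ≃ₗ[F] V) ((eich Q (p₂ + p₃) (s₂ + s₃) : V ≃ₗ[F] V) _) = _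
    rw [T.swap23 h2, T.swap12 h2]
  have hRi : ∀ a b c d r t : F, ((R⁻¹ : orth Q) : V ≃ₗ[F] V) (comb p₁ s₁ p₂ s₂ p₃ s₃ a b c d r t) =
      comb p₁ s₁ p₂ s₂ p₃ s₃ a b d (c + d) r t := by
    intro a b c d r t
    conv_lhs => rw [show comb p₁ s₁ p₂ s₂ p₃ s₃ a b c d r t =
      (R : V ≃ₗ[F] V) (comb p₁ s₁ p₂ s₂ p₃ s₃ a b d (c + d) r t) by
        rw [hR, T.rot2 h2]
        congr 1
        linear_combination (-d) * h2]
    exact orth_inv_apply_apply R _
  have hY : ∀ a b c d r t : F, (y.1 : V ≃ₗ[F] V) (comb p₁ s₁ p₂ s₂ p₃ s₃ a b c d r t) =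
      comb p₁ s₁ p₂ s₂ p₃ s₃ a b d (c + d) (r + t) r := by
    intro a b c d r t
    show (eich Q (p₂ + p₃) (s₂ + s₃) : V ≃ₗ[F] V) ((R : V ≃ₗ[F] V)
      ((eich Q (p₂ + p₃) (s₂ + s₃) : V ≃ₗ[F] V) (((R⁻¹ : orth Q) : V ≃ₗ[F] V) _))) = _
    rw [hRi, T.swap23 h2, hR, T.rot2 h2, T.swap23 h2]
  set g : eichGroup Q := x * y * (y * x)⁻¹ with hg
  have hgxy : x * y = g * (y * x) := by rw [hg]; group
  have hG : ∀ a b c d r t : F, (g.1 : V ≃ₗ[F] V) (comb p₁ s₁ p₂ s₂ p₃ s₃ a b c d r t) =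
      comb p₁ s₁ p₂ s₂ p₃ s₃ (a + b) a (c + d) c (r + t) r := by
    intro a b c d r t
    have h1 : (((y * x : eichGroup Q).1) : V ≃ₗ[F] V)
        (comb p₁ s₁ p₂ s₂ p₃ s₃ (c + d) c t (r + t) a b) =
          comb p₁ s₁ p₂ s₂ p₃ s₃ a b c d r t := by
      show (y.1 : V ≃ₗ[F] V) ((x.1 : V ≃ₗ[F] V) _) = _
      rw [hX, hY]
      congr 1 <;> first
        | ring1
        | linear_combination c * h2
        | linear_combination d * h2
        | linear_combination r * h2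
        | linear_combination t * h2
    have h3 : (((x * y : eichGroup Q).1) : V ≃ₗ[F] V)
        (comb p₁ s₁ p₂ s₂ p₃ s₃ (c + d) c t (r + t) a b) =
          comb p₁ s₁ p₂ s₂ p₃ s₃ (a + b) a (c + d) c (r + t) r := by
      show (x.1 : V ≃ₗ[F] V) ((y.1 : V ≃ₗ[F] V) _) = _
      rw [hY, hX]
      congr 1 <;> first
        | ring1
        | linear_combination c * h2
        | linear_combination d * h2
        | linear_combination r * h2
        | linear_combination t * h2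
    rw [hgxy] at h3
    rw [← h1]
    exact h3
  have hext : ∀ u v : eichGroup Q, (∀ a b c d r t : F,
      (u.1 : V ≃ₗ[F] V) (comb p₁ s₁ p₂ s₂ p₃ s₃ a b c d r t) =
        (v.1 : V ≃ₗ[F] V) (comb p₁ s₁ p₂ s₂ p₃ s₃ a b c d r t)) → u = v := fun u v huv =>
    Subtype.ext (orth_ext fun z => by
      obtain ⟨a, b, c, d, r, t, rfl⟩ := T.span z
      exact huv a b c d r t)
  refine ⟨x, y, g, hgxy, hext _ _ fun a b c d r t => ?_, hext _ _ fun a b c d r t => ?_,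
    hext _ _ fun a b c d r t => ?_, hG⟩
  · show (g.1 : V ≃ₗ[F] V) ((x.1 : V ≃ₗ[F] V) _) = (x.1 : V ≃ₗ[F] V) ((g.1 : V ≃ₗ[F] V) _)
    rw [hX, hG, hG, hX]
  · show (g.1 : V ≃ₗ[F] V) ((y.1 : V ≃ₗ[F] V) _) = (y.1 : V ≃ₗ[F] V) ((g.1 : V ≃ₗ[F] V) _)
    rw [hY, hG, hG, hY, comb, comb]
    match_scalars
    all_goals (rw [← sub_eq_zero]; ring_nf; try simp [h2])
  · simp only [Subgroup.coe_mul, orth_mul_apply, LinearEquiv.mul_apply, OneMemClass.coe_one, LinearEquiv.coe_one, id_eq]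
    rw [hG, hG, hG, comb, comb]
    match_scalars
    all_goals (rw [← sub_eq_zero]; ring_nf; try simp [h2])

end Cfsg.Agent.H39
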