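import Cfsg.Agent.H39.OmegaMinusDeg
import Cfsg.Agent.H39.ThreePlanes

/-!
# No representation of degree 32 in minus type of dimension eight over two elements

The fixed space of the radical would be five dimensional; an element of order three which is a
central commutator in the Levi group and is inverted outside forces at least six.
-/

namespace Cfsg.Agent.H39

open QuadraticMap hiding sq
open Cfsg.Agent.H5
open Finset Module
open scoped Classical commutatorElement

/-- A commutator acting as a primitive cube root on an eigenspace forces multiplicities three. -/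
lemma six_le_of_rotation {M : Type} [AddCommGroup M] [Module ℂ M] [FiniteDimensional ℂ M]
    {P A X Y Xi Yi : Module.End ℂ M} (hP : P * P = P) (hA : A * (A * A) = 1)
    (hXi : X * Xi = 1) (hYi : Y * Yi = 1)
    (hAP : A * P = P * A) (hXP : X * P = P * X) (hYP : Y * P = P * Y)
    (hAX : A * X = X * A) (hAY : A * Y = Y * A) (hXY : X * Y = A * (Y * X))
    (htr : LinearMap.trace ℂ M (A * P) = LinearMap.trace ℂ M (A * (A * P)))
    (hne : A * P ≠ P) : 6 ≤ finrank ℂ (LinearMap.range P) := by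
  obtain ⟨w, hw⟩ : ∃ w : ℂ, IsPrimitiveRoot w 3 :=
    ⟨_, Complex.isPrimitiveRoot_exp 3 (by norm_num)⟩
  have hw3 : w ^ 3 = 1 := hw.pow_eq_one
  have hw1 : w ≠ 1 := hw.ne_one (by norm_num)
  have hsum : w ^ 2 + w + 1 = 0 := by
    have : (w - 1) * (w ^ 2 + w + 1) = 0 := by linear_combination hw3
    exact (mul_eq_zero.1 this).resolve_left (sub_ne_zero.2 hw1)
  set B := A * P with hB
  set C := A * (A * P) with hC
  have hA3 : ∀ Z : Module.End ℂ M, A * (A * (A * Z)) = Z := fun Z => by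
    rw [← mul_assoc A A Z, ← mul_assoc A (A * A) Z, hA, one_mul]
  let E : ℂ → Module.End ℂ M := fun l => (3 : ℂ)⁻¹ • (P + l ^ 2 • B + l • C)
  have hPB : P * B = B := by rw [hB, ← mul_assoc, ← hAP, mul_assoc, hP]
  have hPC : P * C = C := by
    rw [hC, ← mul_assoc, ← hAP, mul_assoc, ← mul_assoc P A P, ← hAP, mul_assoc, hP]
  have hPE : ∀ l, P * E l = E l := fun l => by
    simp only [E, mul_smul_comm, mul_add, hP, hPB, hPC]
  have hAE : ∀ l, l ^ 3 = 1 → A * E l = l • E l := by
    intro l hl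
    have hAB : A * B = C := rfl
    have hAC : A * C = P := hA3 P
    simp only [E, mul_smul_comm, mul_add, ← hB, hAB, hAC]
    match_scalars
    all_goals first
      | ring1
      | linear_combination (-(1 / 3 : ℂ)) * hl
      | linear_combination ((1 / 3 : ℂ)) * hl
  have hidem : ∀ l, l ^ 3 = 1 → E l * E l = E l := by
    intro l hl
    have h1 : A * (P * E l) = l • E l := by rw [hPE, hAE l hl]
    have h2 : A * (A * (P * E l)) = (l * l) • E l := by
      rw [h1, mul_smul_comm, hAE l hl, smul_smul]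
    have hexp : E l * E l =
        (3 : ℂ)⁻¹ • (P * E l + l ^ 2 • (A * (P * E l)) + l • (A * (A * (P * E l)))) := by
      show ((3 : ℂ)⁻¹ • (P + l ^ 2 • B + l • C)) * E l = _
      simp only [hB, hC, smul_mul_assoc, add_mul, mul_assoc]
    rw [hexp, h2, h1, hPE]
    match_scalars
    all_goals first
      | linear_combination (2 / 9 : ℂ) * hl
      | linear_combination (2 / 9 : ℂ) * l * hl
      | linear_combination (2 / 9 : ℂ) * l ^ 2 * hl
  have hproj : ∀ l, l ^ 3 = 1 →
      LinearMap.trace ℂ M (E l) = finrank ℂ (LinearMap.range (E l)) := by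
    intro l hl
    refine LinearMap.IsProj.trace ⟨fun y => LinearMap.mem_range_self _ y, ?_⟩
    rintro _ ⟨y, rfl⟩
    simpa using LinearMap.congr_fun (hidem l hl) y
  have hw23 : (w ^ 2) ^ 3 = 1 := by linear_combination (w ^ 3 + 1) * hw3
  have h13 : (1 : ℂ) ^ 3 = 1 := one_pow _
  set a := finrank ℂ (LinearMap.range (E w)) with ha
  set b := finrank ℂ (LinearMap.range (E (w ^ 2))) with hb
  have hab : a = b := by
    apply Nat.cast_injective (R := ℂ)
    rw [ha, hb, ← hproj w hw3, ← hproj _ hw23]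
    simp only [E, map_smul, map_add, hB, hC] at htr ⊢
    rw [htr]
    simp only [smul_eq_mul]
    have hw4 : (w ^ 2) ^ 2 = w := by linear_combination w * hw3
    rw [hw4]
    ring
  have hcommE : ∀ Z : Module.End ℂ M, Z * P = P * Z → A * Z = Z * A → ∀ l, Z * E l = E l * Z := by
    intro Z hZP hAZ l
    have hAZ' : Commute Z A := hAZ.symm
    have h1 : Z * B = B * Z := Commute.mul_right hAZ' hZP
    have h2 : Z * C = C * Z := Commute.mul_right hAZ' h1
    simp only [E, mul_smul_comm, smul_mul_assoc, mul_add, add_mul, h1, h2, hZP]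
  have hdvd : 3 ∣ a := by
    set U := LinearMap.range (E w) with hU
    have hinv : ∀ Z : Module.End ℂ M, Z * P = P * Z → A * Z = Z * A → ∀ u ∈ U, Z u ∈ U := by
      intro Z hZP hAZ u hu
      obtain ⟨v, rfl⟩ := hu
      exact ⟨Z v, (LinearMap.congr_fun (hcommE Z hZP hAZ w) v).symm⟩
    set X' := X.restrict (hinv X hXP hAX) with hX'
    set Y' := Y.restrict (hinv Y hYP hAY) with hY'
    have hrel : X' * Y' = w • (Y' * X') := by
      refine LinearMap.ext fun u => Subtype.ext ?_
      obtain ⟨v, hv⟩ := u.2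
      show X (Y (u : M)) = w • Y (X (u : M))
      rw [← hv]
      have h1 : X * (Y * E w) = w • (Y * (X * E w)) := by
        rw [← mul_assoc, hXY, hcommE X hXP hAX, ← mul_assoc Y (E w), hcommE Y hYP hAY,
          mul_assoc A, mul_assoc Y X, hcommE X hXP hAX, ← mul_assoc Y, hcommE Y hYP hAY,
          mul_assoc (E w), ← mul_assoc A, hAE w hw3, smul_mul_assoc]
      simpa using LinearMap.congr_fun h1 v
    have hne0 : ∀ {Z Zi : Module.End ℂ M} (hZ : ∀ u ∈ U, Z u ∈ U), Z * Zi = 1 →
        LinearMap.det (Z.restrict hZ) ≠ 0 := by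
      intro Z Zi hZ hZi hdet
      have hinj : Function.Injective Z := by
        have : Function.Surjective Z := fun x => ⟨Zi x, LinearMap.congr_fun hZi x⟩
        exact LinearMap.injective_iff_surjective.2 this
      have hlt := LinearMap.bot_lt_ker_of_det_eq_zero hdet
      refine hlt.ne' ?_
      rw [LinearMap.ker_eq_bot]
      intro u v huv
      exact Subtype.ext (hinj (congrArg Subtype.val huv))
    have hdet := congrArg LinearMap.det hrel
    rw [LinearMap.det_smul, map_mul, map_mul, mul_comm (LinearMap.det X')] at hdet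
    have hd : LinearMap.det Y' * LinearMap.det X' ≠ 0 :=
      mul_ne_zero (hne0 _ hYi) (hne0 _ hXi)
    exact (hw.pow_eq_one_iff_dvd a).1 ((mul_eq_right₀ hd).1 hdet.symm)
  have hPsum : P = E 1 + E w + E (w ^ 2) := by
    simp only [E]
    match_scalars
    all_goals first
      | linear_combination (0 : ℂ)
      | ring1
      | linear_combination (-(1 / 3 : ℂ)) * hsum - (1 / 3) * w * hw3
      | linear_combination ((1 / 3 : ℂ)) * hsum + (1 / 3) * w * hw3
      | linear_combination (-(1 / 3 : ℂ)) * hsum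
      | linear_combination ((1 / 3 : ℂ)) * hsum
  have hrank : finrank ℂ (LinearMap.range P) = finrank ℂ (LinearMap.range (E 1)) + a + b := by
    apply Nat.cast_injective (R := ℂ)
    push_cast
    rw [ha, hb, ← hproj w hw3, ← hproj _ hw23, ← hproj 1 h13, ← map_add, ← map_add, ← hPsum]
    symm
    exact LinearMap.IsProj.trace ⟨fun y => LinearMap.mem_range_self _ y, by
      rintro _ ⟨y, rfl⟩
      simpa using LinearMap.congr_fun hP y⟩
  have hapos : a ≠ 0 := by
    intro h0
    apply hne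
    have e1 : E w = 0 := LinearMap.range_eq_bot.1 (Submodule.finrank_eq_zero.1 h0)
    have e2 : E (w ^ 2) = 0 :=
      LinearMap.range_eq_bot.1 (Submodule.finrank_eq_zero.1 (by rw [← hb, ← hab, h0]))
    have hP1 : P = E 1 := by rw [hPsum, e1, e2, add_zero, add_zero]
    show A * P = P
    have := hAE 1 h13
    rw [one_smul, ← hP1] at this
    exact this
  omega

variable {F V : Type*} [Field F] [Fintype F] [AddCommGroup V] [Module F V] [FiniteDimensional F V]
  [Fintype V] {Q : QuadraticForm F V}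

omit [AddCommGroup V] [Module F V] [FiniteDimensional F V] [Fintype V] in
lemma two_field (hq : Fintype.card F = 2) : (2 : F) = 0 ∧ ∀ x : F, x ≠ 0 → x = 1 := by
  have h0 : ((Fintype.card F : ℕ) : F) = 0 := Nat.cast_card_eq_zero F
  rw [hq, Nat.cast_ofNat] at h0
  refine ⟨h0, fun x hx => ?_⟩
  by_contra h1
  have : ({0, 1, x} : Finset F).card ≤ 2 := hq ▸ Finset.card_le_univ _
  rw [Finset.card_insert_of_notMem (by simp [Ne.symm hx]),
    Finset.card_insert_of_notMem (by simp [Ne.symm h1]), Finset.card_singleton] at this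
  omega

/-- Three anisotropic planes in minus type of dimension six over two elements. -/
lemma MinusForm.exists_threePlanes (h : MinusForm Q 2) (hq : Fintype.card F = 2) :
    ∃ p₁ s₁ p₂ s₂ p₃ s₃ : V, ThreePlanes Q p₁ s₁ p₂ s₂ p₃ s₃ := by
  obtain ⟨h2, h1⟩ := two_field hq
  obtain ⟨a, b, hab⟩ := h.exists_pair
  have hW := h.pperp hab
  obtain ⟨a', b', hab'⟩ := hW.exists_pair
  have hP := hW.pperp hab'
  have t := twoPairs_of_perp hab hab'
  haveI : Nontrivial (H5.pperp (Q.restrict (H5.pperp Q a b)) a' b') :=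
    Module.nontrivial_of_finrank_pos (R := F) (by rw [hP.dim]; omega)
  obtain ⟨c, hc⟩ := exists_ne (0 : H5.pperp (Q.restrict (H5.pperp Q a b)) a' b')
  obtain ⟨d, hd⟩ := exists_polar_eq_one hP.nondeg hc
  have hd0 : d ≠ 0 := fun hd0 => by rw [hd0] at hd; simp at hd
  set Qp := (Q.restrict (H5.pperp Q a b)).restrict
    (H5.pperp (Q.restrict (H5.pperp Q a b)) a' b') with hQp
  have hQc : Qp c = 1 := h1 _ fun h0 => hc (hP.eq_zero_of_iso h0)
  have hQd : Qp d = 1 := h1 _ fun h0 => hd0 (hP.eq_zero_of_iso h0)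
  have hcd : polar Qp c d = 1 := by
    first
      | exact hd
      | rw [polar_comm]; exact hd
  have hplane : ∀ x, ∃ r s : F, x = r • c + s • d := by
    intro x
    refine ⟨polar Qp d x, polar Qp c x, sub_eq_zero.1 ?_⟩
    by_contra hne
    set y := x - (polar Qp d x • c + polar Qp c x • d) with hy
    have hy1 : polar Qp c y = 0 := by
      simp [hy, polar_sub_right, polar_add_right, polar_smul_right, polar_self', hQc, hcd, h2]
    have hy2 : polar Qp d y = 0 := by
      simp [hy, polar_sub_right, polar_add_right, polar_smul_right, polar_self', hQd,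
        polar_comm (⇑Qp) d c, hcd, h2]
    have hli : LinearIndependent F ![c, d] := by
      rw [LinearIndependent.pair_iff]
      intro r s hrs
      have e1 := congrArg (polar Qp c) hrs
      have e2 := congrArg (polar Qp d) hrs
      simp [polar_add_right, polar_smul_right, polar_self', hQc, hQd, polar_comm (⇑Qp) d c, hcd,
        h2] at e1 e2
      exact ⟨e2, e1⟩
    apply hne
    refine hP.nondeg.1 y fun z => ?_
    have htop := hli.span_eq_top_of_card_eq_finrank (by rw [hP.dim, Fintype.card_fin])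
    have hz : z ∈ Submodule.span F (Set.range ![c, d]) := by rw [htop]; trivial
    obtain ⟨g, hg⟩ := (Submodule.mem_span_range_iff_exists_fun F).1 hz
    simp only [Fin.sum_univ_two, Matrix.cons_val_zero, Matrix.cons_val_one] at hg
    rw [polarBilin_apply_apply, ← hg]
    simp [polar_add_right, polar_smul_right, polar_comm (⇑Qp) y c, polar_comm (⇑Qp) y d, hy1, hy2]
  obtain ⟨u1, u2⟩ := mem_pperp.1 a'.2
  obtain ⟨v1, v2⟩ := mem_pperp.1 b'.2
  obtain ⟨c1, c2⟩ := mem_pperp.1 (c : H5.pperp Q a b).2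
  obtain ⟨d1, d2⟩ := mem_pperp.1 (d : H5.pperp Q a b).2
  have c3 : polar Q (a' : V) ((c : H5.pperp Q a b) : V) = 0 :=
    (polar_restrict _ _).symm.trans (mem_pperp.1 c.2).1
  have c4 : polar Q (b' : V) ((c : H5.pperp Q a b) : V) = 0 :=
    (polar_restrict _ _).symm.trans (mem_pperp.1 c.2).2
  have d3 : polar Q (a' : V) ((d : H5.pperp Q a b) : V) = 0 :=
    (polar_restrict _ _).symm.trans (mem_pperp.1 d.2).1
  have d4 : polar Q (b' : V) ((d : H5.pperp Q a b) : V) = 0 :=
    (polar_restrict _ _).symm.trans (mem_pperp.1 d.2).2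
  have hQc' : Q (((c : H5.pperp Q a b)) : V) = 1 := hQc
  have hQd' : Q (((d : H5.pperp Q a b)) : V) = 1 := hQd
  have hcd' : polar Q (((c : H5.pperp Q a b)) : V) (((d : H5.pperp Q a b)) : V) = 1 := by
    rw [← hcd, hQp, polar_restrict, polar_restrict]
  refine ⟨a + b, b + (a' : V) + (b' : V), (a' : V) + (b' : V), a + b + (a' : V),
    ((c : H5.pperp Q a b) : V), ((d : H5.pperp Q a b) : V),
    ⟨?_, ?_, ?_, ?_, hQc', hQd', ?_, ?_, hcd', ?_, ?_, ?_, ?_, ?_, ?_, ?_, ?_, ?_, ?_, ?_, ?_,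
      ?_⟩⟩
  case refine_19 =>
    intro v
    obtain ⟨r, s, hrs⟩ := hplane (perpProj hab' (perpProj hab v))
    have e1 := pair_decomp hab v
    have e2 := congrArg Subtype.val (pair_decomp hab' (perpProj hab v))
    rw [hrs] at e2
    simp only [Submodule.coe_add, Submodule.coe_smul] at e2
    rw [e2] at e1
    set A := polar Q b v
    set B := polar Q a v
    set A' := polar (Q.restrict (H5.pperp Q a b)) b' (perpProj hab v)
    set B' := polar (Q.restrict (H5.pperp Q a b)) a' (perpProj hab v)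
    refine ⟨A + A' + B', A + B, A + B + B', A' + B', r, s, ?_⟩
    rw [e1]
    match_scalars
    all_goals (rw [← sub_eq_zero]; ring_nf; try simp [h2])
  all_goals
    simp [QuadraticMap.map_add (⇑Q), polar_add_left, polar_add_right, polar_self', hab.left,
      hab.right, hab.pair, t.snd.left, t.snd.right, t.snd.pair, polar_comm (⇑Q) b a,
      polar_comm (⇑Q) (b' : V) (a' : V), polar_comm (⇑Q) (a' : V) a, polar_comm (⇑Q) (a' : V) b,
      polar_comm (⇑Q) (b' : V) a, polar_comm (⇑Q) (b' : V) b, u1, u2, v1, v2, c1, c2, c3, c4, d1,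
      d2, d3, d4, h2]
    all_goals linear_combination h2

/-- Products of two reflections in vectors of equal norm. -/
lemma refl_mul_refl_mem (hQ : (polarBilin Q).Nondegenerate) (hn : 4 ≤ finrank F V) {v w : V}
    (hv : Q v ≠ 0) (hw : Q w = Q v) : refl Q v * refl Q w ∈ eichGroup Q := by
  obtain ⟨e, he0, he⟩ := exists_singular hQ (by omega)
  obtain ⟨f, hp⟩ := exists_hypPair hQ he0 he
  obtain ⟨g, hg, hgv⟩ := exists_eichGroup_map_norm hQ hn hp hv
  obtain ⟨k, hk, hkw⟩ := exists_eichGroup_map_norm hQ hn hp (v := w) (by rwa [hw])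
  have hmv : ((k⁻¹ * g : orth Q) : V ≃ₗ[F] V) v = w := by
    rw [orth_mul_apply, hgv, ← hw, ← hkw, orth_inv_apply_apply]
  rw [← hmv, ← refl_conj]
  have h1 := eichGroup_normal.conj_mem (k⁻¹ * g) (mul_mem (inv_mem hk) hg) (refl Q v)
  rw [refl_inv] at h1
  have h2 := mul_mem h1 (inv_mem (mul_mem (inv_mem hk) hg))
  simpa [mul_assoc] using h2

/-- No representation of degree 32. -/
theorem minus_eight_exclude (hV : MinusForm Q 3) (hq : Fintype.card F = 2) (M : Type)
    [AddCommGroup M] [Module ℂ M] [FiniteDimensional ℂ M]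
    (ρ : Representation ℂ (eichGroup Q) M) (hne : ∃ g, ρ g ≠ 1) : finrank ℂ M ≠ 32 := by
  intro hd
  obtain ⟨h2, -⟩ := two_field hq
  obtain ⟨e, f, h⟩ := hV.exists_pair
  obtain ⟨ψ, hψ1⟩ := (AddChar.exists_apply_ne_zero (a := (1 : F))).2 one_ne_zero
  have hψ : ψ ≠ 1 := fun hh => hψ1 (by rw [hh, AddChar.one_apply])
  have hW := hV.pperp h
  have hB34 : minusB (Fintype.card F) 3 = 34 := by rw [hq]; rfl
  rcases minus_top (k := 0) hV (b' := minusB (Fintype.card F) 2 - 1) (by simp only [Nat.zero_add]; omega)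
    (fun hk => absurd hk (by omega)) ρ hne h hψ (minus_base hW) with hb | ⟨-, hone, hzero, hfin, -⟩
  · simp only [Nat.zero_add] at hb
    omega
  set D := radData hV.nondeg h ψ hψ with hD
  have hN : isoN (Q.restrict (H5.pperp Q e f)) = 28 := by
    have h1 := hW.count
    rw [hq] at h1
    norm_num at h1
    omega
  have hz : D.dim ρ 0 = 5 := by omega
  obtain ⟨a₁, b₁, h₁⟩ := hW.exists_pair
  have hW2 := hW.pperp h₁
  obtain ⟨a₂, b₂, h₂⟩ := hW2.exists_pair
  have hW3 := hW2.pperp h₂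
  obtain ⟨l, hl⟩ := level_exists_trace_ne hV.nondeg h hψ ρ hone hzero h₁ h₂ (by rw [hV.dim])
    (fun w hQw => exists_pair_perp hW3.nondeg w (by rw [hW3.dim]; omega)
      (fun hw hQ0 => absurd (hW3.eq_zero_of_iso hQ0) hw)
      (fun hQ0 => absurd hQw (by simpa [QuadraticMap.restrict_apply] using hQ0)))
  obtain ⟨p₁, s₁, p₂, s₂, p₃, s₃, T⟩ := hW.exists_threePlanes hq
  obtain ⟨x, y, g, hxy, hgx, hgy, hg3, hG⟩ := T.exists_rotation h2
  set G := leviK h g with hGdef
  have hGe : (G.1 : V ≃ₗ[F] V) e = e := orthExt_left h _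
  have hGf : (G.1 : V ≃ₗ[F] V) f = f := orthExt_right h _
  have hfix0 : ∀ v : H5.pperp Q e f, (G.1 : V ≃ₗ[F] V) (v : V) = (v : V) → v = 0 := by
    intro v hv
    rw [hGdef, leviK_coe] at hv
    have hv' := Subtype.ext hv
    obtain ⟨a, b, c, d, r, t, rfl⟩ := T.span v
    rw [show a • p₁ + b • s₁ + c • p₂ + d • s₂ + r • p₃ + t • s₃ =
      comb p₁ s₁ p₂ s₂ p₃ s₃ a b c d r t from rfl, hG, ← sub_eq_zero,
      show comb p₁ s₁ p₂ s₂ p₃ s₃ (a + b) a (c + d) c (r + t) r -
        comb p₁ s₁ p₂ s₂ p₃ s₃ a b c d r t =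
        comb p₁ s₁ p₂ s₂ p₃ s₃ b (a - b) d (c - d) t (r - t) by simp only [comb]; module] at hv'
    obtain ⟨e1, e2, e3, e4, e5, e6⟩ := T.comb_eq_zero h2 hv'
    rw [sub_eq_zero] at e2 e4 e6
    rw [e2, e1, e4, e3, e6, e5]
    simp
  set X := leviK h x
  set Y := leviK h y
  have hXY : X * Y = G * (Y * X) := by rw [hGdef, ← map_mul, ← map_mul, ← map_mul, hxy]
  have hGX : G * X = X * G := by rw [hGdef, ← map_mul, ← map_mul, hgx]
  have hGY : G * Y = Y * G := by rw [hGdef, ← map_mul, ← map_mul, hgy]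
  have hG3 : G * (G * G) = 1 := by rw [hGdef, ← map_mul, ← map_mul, hg3, map_one]
  have hcomm : ∀ k, ρ (leviK h k) * D.proj ρ 0 = D.proj ρ 0 * ρ (leviK h k) := fun k =>
    rad_comm_fix hV.nondeg h hψ ρ (g := leviK h k) (orthExt_left h _) (orthExt_right h _)
      (by rw [Submodule.coe_zero, map_zero])
  have hchar : ∀ H : eichGroup Q, (H.1 : V ≃ₗ[F] V) e = e → (H.1 : V ≃ₗ[F] V) f = f →
      (∀ v : H5.pperp Q e f, (H.1 : V ≃ₗ[F] V) (v : V) = (v : V) → v = 0) →
      ρ.character H = LinearMap.trace ℂ M (ρ H * D.proj ρ 0) := by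
    intro H he hf hfx
    show LinearMap.trace ℂ M (ρ H) = _
    conv_lhs => rw [← mul_one (ρ H), ← D.sum_proj ρ, Finset.mul_sum, map_sum]
    refine Finset.sum_eq_single 0 (fun v _ hv => ?_) (by simp)
    refine D.trace_mul_proj_eq_zero ρ (rad_comm_fix hV.nondeg h hψ ρ he hf
      (v' := ⟨_, scale_mem_pperp one_ne_zero (by simpa using he) (by simpa using hf) v.2⟩) rfl)
      fun hh => hv (hfx v (congrArg Subtype.val hh).symm)
  have c1 := hchar G hGe hGf hfix0
  have c2 := hchar (G * G)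
    (by show (G.1 : V ≃ₗ[F] V) ((G.1 : V ≃ₗ[F] V) e) = e; rw [hGe, hGe])
    (by show (G.1 : V ≃ₗ[F] V) ((G.1 : V ≃ₗ[F] V) f) = f; rw [hGf, hGf]) (fun v hv => hfix0 v (by
      have h3 : (((G * (G * G) : eichGroup Q).1 : orth Q) : V ≃ₗ[F] V) (v : V) = (v : V) := by
        rw [hG3]; rfl
      change (G.1 : V ≃ₗ[F] V) (((G * G : eichGroup Q).1 : V ≃ₗ[F] V) (v : V)) = _ at h3
      rwa [hv] at h3))
  -- the element inverting the rotation
  have n0 : Q (e + f) = 1 := by
    rw [QuadraticMap.map_add (⇑Q), h.left, h.right, h.pair]; simp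
  have n1 : Q ((p₁ + s₁ : H5.pperp Q e f) : V) = 1 := by
    show (Q.restrict (H5.pperp Q e f)) (p₁ + s₁) = 1
    rw [QuadraticMap.map_add (⇑(Q.restrict (H5.pperp Q e f))), T.p1, T.q1, T.ps1]
    linear_combination h2
  have n2 : Q ((p₂ + s₂ : H5.pperp Q e f) : V) = 1 := by
    show (Q.restrict (H5.pperp Q e f)) (p₂ + s₂) = 1
    rw [QuadraticMap.map_add (⇑(Q.restrict (H5.pperp Q e f))), T.p2, T.q2, T.ps2]
    linear_combination h2
  have n3 : Q ((p₃ + s₃ : H5.pperp Q e f) : V) = 1 := by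
    show (Q.restrict (H5.pperp Q e f)) (p₃ + s₃) = 1
    rw [QuadraticMap.map_add (⇑(Q.restrict (H5.pperp Q e f))), T.p3, T.q3, T.ps3]
    linear_combination h2
  let J : eichGroup Q :=
    ⟨refl Q (e + f) * refl Q ((p₁ + s₁ : H5.pperp Q e f) : V) *
      (refl Q ((p₂ + s₂ : H5.pperp Q e f) : V) * refl Q ((p₃ + s₃ : H5.pperp Q e f) : V)),
      mul_mem (refl_mul_refl_mem hV.nondeg (by rw [hV.dim]; omega) (by rw [n0]; exact one_ne_zero)
        (by rw [n1, n0])) (refl_mul_refl_mem hV.nondeg (by rw [hV.dim]; omega)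
        (by rw [n2]; exact one_ne_zero) (by rw [n3, n2]))⟩
  have hrefl : ∀ (v : H5.pperp Q e f) (α β : F) (w : H5.pperp Q e f), Q (v : V) = 1 →
      (refl Q (v : V) : V ≃ₗ[F] V) (α • e + β • f + (w : V)) =
        α • e + β • f +
          (((refl (Q.restrict (H5.pperp Q e f)) v : _ ≃ₗ[F] _) w : H5.pperp Q e f) : V) := by
    intro v α β w hv
    obtain ⟨v1, v2⟩ := mem_pperp.1 v.2
    rw [refl_apply, refl_apply]
    simp only [Submodule.coe_sub, Submodule.coe_smul, QuadraticMap.restrict_apply, polar_restrict,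
      polar_add_right, polar_smul_right, polar_comm (⇑Q) (v : V) e, polar_comm (⇑Q) (v : V) f, v1,
      v2, smul_eq_mul, mul_zero, zero_add]
    module
  have hJ : ∀ α β a b c d r t : F, (J.1 : V ≃ₗ[F] V)
      (α • e + β • f + ((comb p₁ s₁ p₂ s₂ p₃ s₃ a b c d r t : H5.pperp Q e f) : V)) =
      β • e + α • f + ((comb p₁ s₁ p₂ s₂ p₃ s₃ b a d c t r : H5.pperp Q e f) : V) := by
    intro α β a b c d r t
    show (refl Q (e + f) : V ≃ₗ[F] V) ((refl Q _ : V ≃ₗ[F] V) ((refl Q _ : V ≃ₗ[F] V)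
      ((refl Q _ : V ≃ₗ[F] V) _))) = _
    rw [hrefl _ _ _ _ n3, hrefl _ _ _ _ n2, hrefl _ _ _ _ n1, T.flip h2, refl_one h2 n0]
    obtain ⟨q1, q2⟩ := mem_pperp.1 (comb p₁ s₁ p₂ s₂ p₃ s₃ b a d c t r : H5.pperp Q e f).2
    simp only [polar_add_left, polar_add_right, polar_smul_right, polar_self', h.left, h.right,
      h.pair, polar_comm (⇑Q) f e, q1, q2, smul_eq_mul, mul_zero, mul_one, add_zero, zero_add]
    match_scalars
    all_goals (rw [← sub_eq_zero]; ring_nf; try simp [h2])
  have hGap : ∀ α β a b c d r t : F, (G.1 : V ≃ₗ[F] V)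
      (α • e + β • f + ((comb p₁ s₁ p₂ s₂ p₃ s₃ a b c d r t : H5.pperp Q e f) : V)) =
      α • e + β • f +
        ((comb p₁ s₁ p₂ s₂ p₃ s₃ (a + b) a (c + d) c (r + t) r : H5.pperp Q e f) : V) := by
    intro α β a b c d r t
    rw [map_add, map_add, map_smul, map_smul, hGe, hGf, hGdef, leviK_coe, hG]
  have hGJG : G * J * G = J := by
    refine Subtype.ext (orth_ext fun z => ?_)
    rw [pair_decomp h z]
    obtain ⟨a, b, c, d, r, t, hw⟩ := T.span (perpProj h z)
    rw [hw]
    show (G.1 : V ≃ₗ[F] V) ((J.1 : V ≃ₗ[F] V) ((G.1 : V ≃ₗ[F] V)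
      (_ + ((comb p₁ s₁ p₂ s₂ p₃ s₃ a b c d r t : H5.pperp Q e f) : V)))) = (J.1 : V ≃ₗ[F] V) _
    rw [hGap, hJ, hGap]
    refine Eq.trans ?_ (hJ _ _ a b c d r t).symm
    congr 3
    all_goals (rw [← sub_eq_zero]; ring_nf; try simp [h2])
  have hinv : J * G * J⁻¹ = G * G := by
    have h1 : G * G * (G * J * G) = G * G * J := by rw [hGJG]
    rw [show G * G * (G * J * G) = (G * (G * G)) * (J * G) by simp only [mul_assoc], hG3, one_mul]
      at h1
    rw [h1, mul_assoc, mul_inv_cancel, mul_one]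
  have htr : LinearMap.trace ℂ M (ρ G * D.proj ρ 0) =
      LinearMap.trace ℂ M (ρ G * (ρ G * D.proj ρ 0)) := by
    rw [← mul_assoc, ← map_mul, ← c1, ← c2, ← hinv, ρ.char_conj]
  -- the rotation moves the fixed space
  have hP : D.proj ρ 0 * D.proj ρ 0 = D.proj ρ 0 := by simp [D.proj_mul_proj]
  set Z := LinearMap.range (D.proj ρ 0) with hZ
  have hinvZ : ∀ k, ∀ v ∈ Z, (ρ.comp (leviK h)) k v ∈ Z := by
    rintro k _ ⟨v, rfl⟩
    exact ⟨ρ (leviK h k) v, (LinearMap.congr_fun (hcomm k) v).symm⟩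
  have hAne : ρ G * D.proj ρ 0 ≠ D.proj ρ 0 := by
    intro heq
    set σ := subRep (ρ.comp (leviK h)) Z hinvZ with hσ
    have hc := commutator_eq_eichGroup hW.nondeg (by rw [hW.dim]; omega)
      (Or.inr (by rw [hW.dim]; omega))
    set ι := (MulEquiv.subgroupCongr hc).toMonoidHom
    set N := MonoidHom.ker (σ.comp ι)
    have hmem : (⟨g.1, hc.symm ▸ g.2⟩ : commutator (orth (Q.restrict (H5.pperp Q e f)))) ∈ N := by
      refine LinearMap.ext fun v => Subtype.ext ?_
      obtain ⟨u, hu⟩ := v.2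
      show ρ (leviK h g) (v : M) = v
      rw [← hu]
      exact LinearMap.congr_fun heq u
    have hns : ¬ IsScalar g.1 := by
      rintro ⟨τ, hτ⟩
      have := hG 1 0 0 0 0 0
      rw [hτ] at this
      have h0 := congrArg (polar (Q.restrict (H5.pperp Q e f)) p₁) this
      rw [polar_smul_right, (T.polar_comb h2 1 0 0 0 0 0).1,
        (T.polar_comb h2 _ _ _ _ _ _).1, smul_zero] at h0
      exact zero_ne_one h0
    have htop := eq_top_of_normal hW.nondeg (by rw [hW.dim]; omega) N hmem hns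
    have hl1 : σ l = 1 := by
      have : (⟨l.1, hc.symm ▸ l.2⟩ : commutator (orth (Q.restrict (H5.pperp Q e f)))) ∈ N := by
        rw [htop]; trivial
      exact this
    apply hl
    have : ρ (leviK h l) * D.proj ρ 0 = D.proj ρ 0 := LinearMap.ext fun v =>
      congrArg Subtype.val (LinearMap.congr_fun hl1 ⟨D.proj ρ 0 v, LinearMap.mem_range_self _ v⟩)
    rw [this, D.trace_proj]
  have h6 := six_le_of_rotation (P := D.proj ρ 0) (A := ρ G) (X := ρ X) (Y := ρ Y) (Xi := ρ X⁻¹)
    (Yi := ρ Y⁻¹) hP (by rw [← map_mul, ← map_mul, hG3, map_one])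
    (by rw [← map_mul, mul_inv_cancel, map_one]) (by rw [← map_mul, mul_inv_cancel, map_one])
    (hcomm g) (hcomm x) (hcomm y) (by rw [← map_mul ρ, ← map_mul ρ, hGX])
    (by rw [← map_mul ρ, ← map_mul ρ, hGY]) (by rw [← map_mul ρ, ← map_mul ρ, ← map_mul ρ, hXY]) htr hAne
  have : finrank ℂ (LinearMap.range (D.proj ρ 0)) = 5 := hz
  omega

end Cfsg.Agent.H39
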