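import Mathlib

/-!
# Orbits of quadratic forms with non-zero polar in characteristic two

Such a form has at least `(q^n - 1) (q^n - q) / (2 (q + 1))` images under `GL n`.
-/

namespace Cfsg.Agent.H39

open Matrix Finset Module

variable {F : Type*} [Field F]

/-- The binary form `x² + xy + b y²`. -/
def planeQ (b : F) (p : F × F) : F := p.1 * p.1 + p.1 * p.2 + b * (p.2 * p.2)

/-- Its polar. -/
def planeB (p p' : F × F) : F := p.1 * p'.2 + p'.1 * p.2

lemma planeQ_add_smul [CharP F 2] (b : F) (p p' : F × F) (t : F) :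
    planeQ b (p' + t • p) = planeQ b p' + t * planeB p p' + t * t * planeQ b p := by
  simp only [planeQ, planeB, Prod.fst_add, Prod.snd_add, Prod.smul_fst, Prod.smul_snd, smul_eq_mul]
  linear_combination (b * t * p'.2 * p.2 + t * p'.1 * p.1) * (CharTwo.two_eq_zero : (2 : F) = 0)

lemma exists_smul_of_planeB_eq_zero [CharP F 2] {p d : F × F} (hp : p ≠ 0)
    (h : planeB p d = 0) : ∃ t : F, d = t • p := by
  rw [planeB, CharTwo.add_eq_zero] at h
  by_cases hx : p.1 = 0
  · have hy : p.2 ≠ 0 := fun hy => hp (Prod.ext hx hy)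
    rw [hx, zero_mul, eq_comm, mul_eq_zero] at h
    refine ⟨d.2 / p.2, Prod.ext ?_ ?_⟩
    · simp [hx, h.resolve_right hy]
    · simp [hy]
  · refine ⟨d.1 / p.1, Prod.ext ?_ ?_⟩
    · simp [hx]
    · simp only [Prod.smul_snd, smul_eq_mul]
      field_simp
      linear_combination h

variable [Fintype F] [DecidableEq F]

/-- A conic in the plane has at most `q + 1` points. -/
lemma card_conic_le [CharP F 2] {b a : F} (h : a ≠ 0 ∨ ∀ x : F, x * x + x + b ≠ 0) :
    (univ.filter fun p : F × F => planeQ b p = a).card ≤ Fintype.card F + 1 := by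
  have hsq : ∀ {x y : F}, x * x = y * y → x = y := fun {x y} h => by
    have : (x + y) * (x + y) = 0 := by
      linear_combination h + (x * y + y * y) * (CharTwo.two_eq_zero : (2 : F) = 0)
    exact CharTwo.add_eq_zero.1 (mul_self_eq_zero.1 this)
  rw [← Fintype.card_option, ← Finset.card_univ (α := Option F)]
  refine Finset.card_le_card_of_injOn
    (fun p => if p.1 = 0 then none else some (p.2 / p.1)) (fun p _ => mem_univ _) ?_
  intro p hp p' hp' he
  rw [mem_coe, mem_filter] at hp hp'
  replace hp := hp.2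
  replace hp' := hp'.2
  simp only [planeQ] at hp hp'
  by_cases hx : p.1 = 0
  · by_cases hx' : p'.1 = 0
    · refine Prod.ext (hx.trans hx'.symm) ?_
      simp only [hx, hx', mul_zero, zero_mul, add_zero, zero_add] at hp hp'
      rcases eq_or_ne b 0 with hb | hb
      · exfalso
        rcases h with h | h
        · exact h (by rw [← hp, hb, zero_mul])
        · exact h 0 (by simp [hb])
      · exact hsq (mul_left_cancel₀ hb (hp.trans hp'.symm))
    · simp [hx, hx'] at he
  · by_cases hx' : p'.1 = 0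
    · simp [hx, hx'] at he
    · simp only [hx, hx', if_false, Option.some.injEq] at he
      set r := p.2 / p.1 with hr
      have hp2 : p.2 = r * p.1 := by rw [hr, div_mul_cancel₀ _ hx]
      have hp2' : p'.2 = r * p'.1 := by rw [he, div_mul_cancel₀ _ hx']
      have e1 : (1 + r + b * (r * r)) * (p.1 * p.1) = a := by rw [← hp, hp2]; ring
      have e2 : (1 + r + b * (r * r)) * (p'.1 * p'.1) = a := by rw [← hp', hp2']; ring
      rcases eq_or_ne (1 + r + b * (r * r)) 0 with hk | hk
      · exfalso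
        rcases h with h | h
        · exact h (by rw [← e1, hk, zero_mul])
        · rcases eq_or_ne r 0 with hr0 | hr0
          · simp [hr0] at hk
          · apply h r⁻¹
            field_simp
            linear_combination hk
      · have h1 := hsq (mul_left_cancel₀ hk (e1.trans e2.symm))
        exact Prod.ext h1 (by rw [hp2, hp2', h1])

/-- At most `2 (q + 1)` pairs in the plane have given values and pairing. -/
lemma card_plane_pairs_le [CharP F 2] {b a c d : F} (h : a ≠ 0 ∨ ∀ x : F, x * x + x + b ≠ 0) :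
    (univ.filter fun pp : (F × F) × (F × F) =>
      planeQ b pp.1 = a ∧ planeQ b pp.2 = d ∧ planeB pp.1 pp.2 = c).card ≤
      2 * (Fintype.card F + 1) := by
  classical
  set P := univ.filter fun pp : (F × F) × (F × F) =>
    planeQ b pp.1 = a ∧ planeQ b pp.2 = d ∧ planeB pp.1 pp.2 = c with hP
  rcases eq_or_ne a 0 with ha | ha
  · have hb : ∀ x : F, x * x + x + b ≠ 0 := h.resolve_left (fun h => h ha)
    have hzero : ∀ p : F × F, planeQ b p = 0 → p = 0 := by
      intro p hp
      simp only [planeQ] at hp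
      rcases eq_or_ne p.2 0 with hy | hy
      · refine Prod.ext ?_ hy
        simpa [hy] using hp
      · exfalso
        apply hb (p.1 / p.2)
        field_simp
        linear_combination hp
    refine (Finset.card_le_card_of_injOn (t := univ.filter fun p : F × F => planeQ b p = d)
      Prod.snd (fun pp hpp => ?_) ?_).trans
        ((card_conic_le (Or.inr hb)).trans (Nat.le_mul_of_pos_left _ two_pos))
    · simp only [hP, mem_coe, mem_filter, mem_univ, true_and] at hpp ⊢
      exact hpp.2.1
    · intro pp hpp pp' hpp' he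
      simp only [hP, mem_coe, mem_filter, mem_univ, true_and, ha] at hpp hpp'
      exact Prod.ext ((hzero _ hpp.1).trans (hzero _ hpp'.1).symm) he
  · refine (Finset.card_le_mul_card_image_of_maps_to (f := Prod.fst)
      (t := univ.filter fun p : F × F => planeQ b p = a) (s := P) ?_ 2 ?_).trans
      (Nat.mul_le_mul_left 2 (card_conic_le (Or.inl ha)))
    · intro pp hpp
      simp only [hP, mem_filter, mem_univ, true_and] at hpp ⊢
      exact hpp.1
    · intro p hp
      simp only [mem_filter, mem_univ, true_and] at hp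
      have hp0 : p ≠ 0 := by
        rintro rfl
        simp [planeQ] at hp
        exact ha hp.symm
      by_contra hlt
      push Not at hlt
      obtain ⟨u, hu, v, hv, w, hw, huv, huw, hvw⟩ := Finset.two_lt_card.1 hlt
      simp only [hP, mem_filter, mem_univ, true_and] at hu hv hw
      have key : ∀ {u v : (F × F) × (F × F)},
          (planeQ b u.1 = a ∧ planeQ b u.2 = d ∧ planeB u.1 u.2 = c) ∧ u.1 = p →
          (planeQ b v.1 = a ∧ planeQ b v.2 = d ∧ planeB v.1 v.2 = c) ∧ v.1 = p → u ≠ v →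
          v.2 = u.2 + (c / a) • p := by
        rintro ⟨u1, u2⟩ ⟨v1, v2⟩ ⟨⟨-, hu2, huc⟩, rfl⟩ ⟨⟨-, hv2, hvc⟩, hv1⟩ hne
        simp only at hv1
        subst hv1
        simp only at hu2 hv2 huc hvc hp hp0 ⊢
        obtain ⟨t, ht⟩ := exists_smul_of_planeB_eq_zero hp0 (d := v2 + u2) (by
          simp only [planeB, Prod.fst_add, Prod.snd_add] at huc hvc ⊢
          linear_combination hvc + huc + c * (CharTwo.two_eq_zero : (2 : F) = 0))
        have hv' : v2 = u2 + t • v1 := by
          rw [← ht, add_comm v2, CharTwo.add_cancel_left]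
        rw [hv', planeQ_add_smul, hu2, huc, hp] at hv2
        have ht0 : t ≠ 0 := fun h0 => hne (by rw [hv', h0, zero_smul, add_zero])
        have hct : t * (c + t * a) = 0 := by linear_combination hv2
        have := CharTwo.add_eq_zero.1 ((mul_eq_zero.1 hct).resolve_left ht0)
        rw [hv', this, mul_div_cancel_right₀ _ ha]
      exact hvw (Prod.ext (hv.2.trans hw.2.symm) ((key hu hv huv).trans (key hu hw huw).symm))

variable {n : ℕ}

/-- The quadratic form of a matrix. -/
def quadOf (T : Matrix (Fin n) (Fin n) F) (x : Fin n → F) : F := x ⬝ᵥ (T *ᵥ x)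

/-- Its polar. -/
def polOf (T : Matrix (Fin n) (Fin n) F) (x y : Fin n → F) : F := x ⬝ᵥ ((T + Tᵀ) *ᵥ y)

omit [Fintype F] [DecidableEq F] in
lemma quadOf_add (T : Matrix (Fin n) (Fin n) F) (x y : Fin n → F) :
    quadOf T (x + y) = quadOf T x + quadOf T y + polOf T x y := by
  have : y ⬝ᵥ (T *ᵥ x) = x ⬝ᵥ (Tᵀ *ᵥ y) := by
    rw [Matrix.dotProduct_mulVec, ← Matrix.mulVec_transpose, dotProduct_comm]
  simp only [quadOf, polOf, Matrix.mulVec_add, Matrix.add_mulVec, dotProduct_add, add_dotProduct,
    this]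
  ring

omit [Fintype F] [DecidableEq F] in
lemma quadOf_smul (T : Matrix (Fin n) (Fin n) F) (c : F) (x : Fin n → F) :
    quadOf T (c • x) = c * c * quadOf T x := by
  simp [quadOf, Matrix.mulVec_smul, mul_assoc]

omit [Fintype F] [DecidableEq F] in
lemma polOf_comm (T : Matrix (Fin n) (Fin n) F) (x y : Fin n → F) :
    polOf T x y = polOf T y x := by
  have h1 := quadOf_add T x y
  rw [add_comm x y, quadOf_add] at h1
  linear_combination -h1

omit [Fintype F] [DecidableEq F] in
lemma polOf_self [CharP F 2] (T : Matrix (Fin n) (Fin n) F) (x : Fin n → F) :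
    polOf T x x = 0 := by
  have h1 := quadOf_add T x x
  rw [show x + x = 0 from funext fun i => CharTwo.add_self_eq_zero (x i)] at h1
  have : quadOf T (0 : Fin n → F) = 0 := by simp [quadOf]
  rw [this, CharTwo.add_self_eq_zero, zero_add] at h1
  exact h1.symm

omit [Fintype F] [DecidableEq F] in
lemma polOf_add_right (T : Matrix (Fin n) (Fin n) F) (x y z : Fin n → F) :
    polOf T x (y + z) = polOf T x y + polOf T x z := by
  simp [polOf, Matrix.mulVec_add, dotProduct_add]

omit [Fintype F] [DecidableEq F] in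
lemma polOf_smul_right (T : Matrix (Fin n) (Fin n) F) (c : F) (x y : Fin n → F) :
    polOf T x (c • y) = c * polOf T x y := by
  simp [polOf, Matrix.mulVec_smul]

omit [Fintype F] [DecidableEq F] in
lemma polOf_add_left (T : Matrix (Fin n) (Fin n) F) (x y z : Fin n → F) :
    polOf T (x + y) z = polOf T x z + polOf T y z := by simp [polOf, add_dotProduct]

omit [Fintype F] [DecidableEq F] in
lemma polOf_smul_left (T : Matrix (Fin n) (Fin n) F) (c : F) (x y : Fin n → F) :
    polOf T (c • x) y = c * polOf T x y := by simp [polOf, smul_dotProduct]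

/-- A pair normalising a form with non-zero polar. -/
lemma exists_good_pair [CharP F 2] {T : Matrix (Fin n) (Fin n) F} (hT : T + Tᵀ ≠ 0) :
    ∃ e f, quadOf T e = 1 ∧ polOf T e f = 1 ∧
      ((∀ x : F, x * x + x + quadOf T f ≠ 0) ∨
        ∀ w, polOf T e w = 0 → polOf T f w = 0 → quadOf T w = 0) := by
  have hroot : ∀ a : F, ∃ r, r * r = a := fun a => by
    obtain ⟨r, hr⟩ := FiniteField.isSquare_of_char_two (ringChar.eq F 2) a
    exact ⟨r, hr.symm⟩
  obtain ⟨e, f, hef⟩ : ∃ e f, polOf T e f ≠ 0 := by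
    by_contra hc
    push Not at hc
    apply hT
    ext i j
    simpa [polOf] using hc (Pi.single i 1) (Pi.single j 1)
  obtain ⟨e, f, he, hef⟩ : ∃ e f, quadOf T e ≠ 0 ∧ polOf T e f ≠ 0 := by
    by_cases h1 : quadOf T e = 0
    · by_cases h2 : quadOf T f = 0
      · refine ⟨e + f, f, ?_, ?_⟩
        · rw [quadOf_add, h1, h2, add_zero, zero_add]
          exact hef
        · rwa [polOf_add_left, polOf_self, add_zero]
      · exact ⟨f, e, h2, by rwa [polOf_comm]⟩
    · exact ⟨e, f, h1, hef⟩
  obtain ⟨r, hr⟩ := hroot (quadOf T e)⁻¹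
  have hr0 : r ≠ 0 := fun h => inv_ne_zero he (by rw [← hr, h, mul_zero])
  set e₁ := r • e with he₁
  set f₁ := (polOf T e₁ f)⁻¹ • f with hf₁
  have hef₁ : polOf T e₁ f ≠ 0 := by
    rw [he₁, polOf_smul_left]; exact mul_ne_zero hr0 hef
  have hQ : quadOf T e₁ = 1 := by rw [he₁, quadOf_smul, hr, inv_mul_cancel₀ he]
  have hB : polOf T e₁ f₁ = 1 := by rw [hf₁, polOf_smul_right, inv_mul_cancel₀ hef₁]
  by_cases hw : ∀ w, polOf T e₁ w = 0 → polOf T f₁ w = 0 → quadOf T w = 0
  · exact ⟨e₁, f₁, hQ, hB, Or.inr hw⟩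
  push Not at hw
  obtain ⟨w, hw1, hw2, hw3⟩ := hw
  obtain ⟨γ, hγ⟩ : ∃ γ : F, ∀ x, x * x + x ≠ γ := by
    by_contra hc
    push Not at hc
    have hinj := Finite.injective_iff_surjective.2 (show Function.Surjective
      (fun x : F => x * x + x) from hc)
    exact zero_ne_one (hinj (show (0 : F) * 0 + 0 = 1 * 1 + 1 by
      simp [CharTwo.add_self_eq_zero]))
  obtain ⟨s, hs⟩ := hroot ((γ + quadOf T f₁) / quadOf T w)
  refine ⟨e₁, f₁ + s • w, hQ, ?_, Or.inl fun x hx => hγ x ?_⟩
  · rw [polOf_add_right, hB, polOf_smul_right, hw1, mul_zero, add_zero]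
  · rw [quadOf_add, quadOf_smul T s w, hs, div_mul_cancel₀ _ hw3, polOf_smul_right, hw2, mul_zero,
      add_zero, add_comm γ, ← add_assoc (quadOf T f₁), CharTwo.add_self_eq_zero, zero_add] at hx
    exact CharTwo.add_eq_zero.1 hx

/-- Coordinates along a pair of vectors and their dual vectors. -/
def pairProj (e f y z : Fin n → F) : (Fin n → F) →ₗ[F] (Fin n → F) where
  toFun x := x + (z ⬝ᵥ x) • e + (y ⬝ᵥ x) • f
  map_add' a b := by simp only [dotProduct_add, add_smul]; abel
  map_smul' c a := by simp [smul_add, smul_smul]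

/-- The pair of coordinates. -/
def pairCoord (y z : Fin n → F) : (Fin n → F) →ₗ[F] F × F where
  toFun x := (z ⬝ᵥ x, y ⬝ᵥ x)
  map_add' a b := by simp [dotProduct_add]
  map_smul' c a := by simp

/-- `y, z` are dual to `e, f`. -/
structure DualPair (e f y z : Fin n → F) : Prop where
  ye : y ⬝ᵥ e = 0
  yf : y ⬝ᵥ f = 1
  ze : z ⬝ᵥ e = 1
  zf : z ⬝ᵥ f = 0

omit [Fintype F] [DecidableEq F] in
lemma DualPair.proj_mem [CharP F 2] {e f y z : Fin n → F} (h : DualPair e f y z) (x : Fin n → F) :
    pairProj e f y z x ∈ LinearMap.ker (pairCoord y z) := by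
  rw [LinearMap.mem_ker]
  show ((z ⬝ᵥ _, y ⬝ᵥ _) : F × F) = 0
  simp [pairProj, dotProduct_add, h.ye, h.yf, h.ze, h.zf, CharTwo.add_self_eq_zero]

omit [Fintype F] [DecidableEq F] in
lemma eq_of_coord_proj {e f y z : Fin n → F} {x x' : Fin n → F}
    (h1 : pairCoord y z x = pairCoord y z x') (h2 : pairProj e f y z x = pairProj e f y z x') :
    x = x' := by
  simp only [pairCoord, LinearMap.coe_mk, AddHom.coe_mk, Prod.mk.injEq] at h1
  simp only [pairProj, LinearMap.coe_mk, AddHom.coe_mk, h1.1, h1.2] at h2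
  exact add_right_cancel (add_right_cancel h2)

omit [Fintype F] [DecidableEq F] in
lemma DualPair.finrank_ker {e f y z : Fin n → F} (h : DualPair e f y z) :
    finrank F (LinearMap.ker (pairCoord y z)) = n - 2 := by
  have hs : Function.Surjective (pairCoord y z) := fun p => ⟨p.1 • e + p.2 • f, by
    simp [pairCoord, dotProduct_add, h.ye, h.yf, h.ze, h.zf]⟩
  have h1 := LinearMap.finrank_range_add_finrank_ker (pairCoord y z)
  rw [LinearMap.range_eq_top.2 hs, finrank_top, Module.finrank_prod, Module.finrank_self,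
    Module.finrank_fin_fun] at h1
  omega

/-- An invertible matrix matching two dual pairs. -/
lemma exists_matching [CharP F 2] {e f y z e₀ f₀ y₀ z₀ : Fin n → F} (h : DualPair e f y z)
    (h₀ : DualPair e₀ f₀ y₀ z₀) :
    ∃ A : Matrix (Fin n) (Fin n) F, IsUnit A ∧ A *ᵥ e = e₀ ∧ A *ᵥ f = f₀ ∧
      (∀ x, y₀ ⬝ᵥ (A *ᵥ x) = y ⬝ᵥ x) ∧ ∀ x, z₀ ⬝ᵥ (A *ᵥ x) = z ⬝ᵥ x := by
  let φ : LinearMap.ker (pairCoord y z) ≃ₗ[F] LinearMap.ker (pairCoord y₀ z₀) :=
    LinearEquiv.ofFinrankEq _ _ (by rw [h.finrank_ker, h₀.finrank_ker])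
  let π : (Fin n → F) →ₗ[F] LinearMap.ker (pairCoord y z) :=
    (pairProj e f y z).codRestrict _ h.proj_mem
  let L : (Fin n → F) →ₗ[F] (Fin n → F) :=
    { toFun := fun x => (z ⬝ᵥ x) • e₀ + (y ⬝ᵥ x) • f₀ + (φ (π x) : Fin n → F)
      map_add' := fun a b => by
        simp only [dotProduct_add, add_smul, map_add, Submodule.coe_add]; abel
      map_smul' := fun c a => by simp [smul_add, smul_smul] }
  have hker : ∀ w : LinearMap.ker (pairCoord y₀ z₀),
      y₀ ⬝ᵥ (w : Fin n → F) = 0 ∧ z₀ ⬝ᵥ (w : Fin n → F) = 0 := fun w => by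
    have h' : ((z₀ ⬝ᵥ (w : Fin n → F), y₀ ⬝ᵥ (w : Fin n → F)) : F × F) = 0 :=
      LinearMap.mem_ker.1 w.2
    simp only [Prod.mk_eq_zero] at h'
    exact ⟨h'.2, h'.1⟩
  have hy : ∀ x, y₀ ⬝ᵥ L x = y ⬝ᵥ x := fun x => by
    simp [L, dotProduct_add, h₀.ye, h₀.yf, (hker (φ (π x))).1]
  have hz : ∀ x, z₀ ⬝ᵥ L x = z ⬝ᵥ x := fun x => by
    simp [L, dotProduct_add, h₀.ze, h₀.zf, (hker (φ (π x))).2]
  have hinj : Function.Injective L := by
    intro a b hab
    have h1 : z ⬝ᵥ a = z ⬝ᵥ b := by rw [← hz, ← hz, hab]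
    have h2 : y ⬝ᵥ a = y ⬝ᵥ b := by rw [← hy, ← hy, hab]
    simp only [L, LinearMap.coe_mk, AddHom.coe_mk, h1, h2, add_right_inj] at hab
    have h3 := φ.injective (Subtype.ext hab)
    refine eq_of_coord_proj (e := e) (f := f) (y := y) (z := z) ?_ (congrArg Subtype.val h3)
    simp [pairCoord, h1, h2]
  refine ⟨LinearMap.toMatrix' L, ?_, ?_, ?_, fun x => ?_, fun x => ?_⟩
  · rw [← Matrix.mulVec_injective_iff_isUnit]
    intro a b hab
    simpa [LinearMap.toMatrix'_mulVec, hinj.eq_iff] using hab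
  · rw [LinearMap.toMatrix'_mulVec]
    have : π e = 0 := Subtype.ext (by
      simp [π, pairProj, h.ye, h.ze]
      exact funext fun i => CharTwo.add_self_eq_zero (e i))
    simp [L, this, h.ye, h.ze]
  · rw [LinearMap.toMatrix'_mulVec]
    have : π f = 0 := Subtype.ext (by
      simp [π, pairProj, h.yf, h.zf]
      exact funext fun i => CharTwo.add_self_eq_zero (f i))
    simp [L, this, h.yf, h.zf]
  · rw [LinearMap.toMatrix'_mulVec, hy]
  · rw [LinearMap.toMatrix'_mulVec, hz]

/-- The images of the quadratic form of `T`. -/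
noncomputable def quadOrbit (T : Matrix (Fin n) (Fin n) F) : Finset ((Fin n → F) → F) := by
  classical
  exact (univ.filter fun A : Matrix (Fin n) (Fin n) F => IsUnit A).image
    fun A x => quadOf T (A *ᵥ x)

lemma mem_quadOrbit {T : Matrix (Fin n) (Fin n) F} {Q : (Fin n → F) → F} :
    Q ∈ quadOrbit T ↔
      ∃ A : Matrix (Fin n) (Fin n) F, IsUnit A ∧ (fun x => quadOf T (A *ᵥ x)) = Q := by
  simp [quadOrbit]

lemma exists_dual_of_linearIndependent {s : Fin 2 → Fin n → F} (hs : LinearIndependent F s) :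
    ∃ y z, DualPair (s 0) (s 1) y z := by
  obtain ⟨π, hπ⟩ := LinearMap.exists_leftInverse_of_injective (Fintype.linearCombination F s)
    (LinearMap.ker_eq_bot.2 (linearIndependent_iff_injective_fintypeLinearCombination.1 hs))
  have hπs : ∀ j, π (s j) = Pi.single j 1 := fun j => by
    have := LinearMap.congr_fun hπ (Pi.single j 1)
    simpa [Fintype.linearCombination_apply_single] using this
  have hdot : ∀ (k : Fin 2) (x : Fin n → F),
      (fun i => π (Pi.single i 1) k) ⬝ᵥ x = π x k := fun k x => by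
    conv_rhs => rw [pi_eq_sum_univ x]
    simp only [map_sum, map_smul, Finset.sum_apply, Pi.smul_apply, smul_eq_mul, dotProduct]
    refine Finset.sum_congr rfl fun i _ => ?_
    rw [mul_comm, show (fun j => if i = j then (1 : F) else 0) = Pi.single i 1 from
      funext fun j => by simp [Pi.single_apply, eq_comm]]
  exact ⟨fun i => π (Pi.single i 1) 1, fun i => π (Pi.single i 1) 0,
    ⟨by simp [hdot, hπs], by simp [hdot, hπs], by simp [hdot, hπs], by simp [hdot, hπs]⟩⟩

/-- The main orbit bound. -/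
theorem card_quadOrbit_ge [CharP F 2] {T : Matrix (Fin n) (Fin n) F} (hT : T + Tᵀ ≠ 0) :
    (Fintype.card F ^ n - 1) * (Fintype.card F ^ n - Fintype.card F) ≤
      (quadOrbit T).card * (2 * (Fintype.card F + 1)) := by
  classical
  obtain ⟨e₀, f₀, hQe, hB, hcase⟩ := exists_good_pair hT
  set q := Fintype.card F with hq
  set b := quadOf T f₀ with hb
  set y₀ := (T + Tᵀ) *ᵥ e₀ with hy₀
  set z₀ := (T + Tᵀ) *ᵥ f₀ with hz₀
  have hy₀' : ∀ x, y₀ ⬝ᵥ x = polOf T e₀ x := fun x => by
    rw [polOf_comm, polOf, hy₀, dotProduct_comm]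
  have hz₀' : ∀ x, z₀ ⬝ᵥ x = polOf T f₀ x := fun x => by
    rw [polOf_comm, polOf, hz₀, dotProduct_comm]
  have hd₀ : DualPair e₀ f₀ y₀ z₀ :=
    ⟨by rw [hy₀', polOf_self], by rw [hy₀', hB], by rw [hz₀', polOf_comm, hB],
      by rw [hz₀', polOf_self]⟩
  have h2n : 2 ≤ n := by
    have hs : Function.Surjective (pairCoord y₀ z₀) := fun p => ⟨p.1 • e₀ + p.2 • f₀, by
      simp [pairCoord, dotProduct_add, hd₀.ye, hd₀.yf, hd₀.ze, hd₀.zf]⟩
    simpa using LinearMap.finrank_le_finrank_of_surjective hs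
  let r : ((Fin n → F) → F) → (Fin 2 → Fin n → F) → Prop := fun Q s =>
    Q (s 0) = 1 ∧ Q (s 1) = b ∧ Q (s 0 + s 1) = 1 + b + 1
  set O := quadOrbit T with hO
  have hsum := Finset.sum_card_bipartiteAbove_eq_sum_card_bipartiteBelow r (s := O)
    (t := (univ : Finset (Fin 2 → Fin n → F)))
  have hW : (univ.filter fun x : Fin n → F => pairCoord y₀ z₀ x = 0).card = q ^ (n - 2) := by
    have hc := Module.card_eq_pow_finrank (K := F) (V := LinearMap.ker (pairCoord y₀ z₀))
    rw [hd₀.finrank_ker, Fintype.card_subtype] at hc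
    rw [hq, ← hc]
    congr 1
    ext
    simp
  set W := univ.filter fun x : Fin n → F => pairCoord y₀ z₀ x = 0 with hWdef
  have hdec : ∀ x, quadOf T x =
      planeQ b (pairCoord y₀ z₀ x) + quadOf T (pairProj e₀ f₀ y₀ z₀ x) := by
    intro x
    set w := pairProj e₀ f₀ y₀ z₀ x with hw
    have hmem := LinearMap.mem_ker.1 (hd₀.proj_mem x)
    simp only [pairCoord, LinearMap.coe_mk, AddHom.coe_mk, Prod.mk_eq_zero, ← hw, hy₀', hz₀'] at hmem
    have hx : x = ((z₀ ⬝ᵥ x) • e₀ + (y₀ ⬝ᵥ x) • f₀) + w := by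
      simp only [hw, pairProj, LinearMap.coe_mk, AddHom.coe_mk]
      funext i
      simp only [Pi.add_apply, Pi.smul_apply, smul_eq_mul]
      linear_combination (-((z₀ ⬝ᵥ x) * e₀ i + (y₀ ⬝ᵥ x) * f₀ i)) *
        (CharTwo.two_eq_zero : (2 : F) = 0)
    conv_lhs => rw [hx]
    rw [quadOf_add, polOf_add_left, polOf_smul_left, polOf_smul_left, hmem.1, hmem.2, quadOf_add,
      quadOf_smul, quadOf_smul, polOf_smul_left, polOf_smul_right, hQe, hB, ← hb]
    simp [planeQ, pairCoord]
    ring
  have hup : ∀ Q ∈ O, (univ.bipartiteAbove r Q).card ≤ q ^ (2 * (n - 2)) * (2 * (q + 1)) := by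
    intro Q hQ
    obtain ⟨A, hA, rfl⟩ := mem_quadOrbit.1 hQ
    have hinj := Matrix.mulVec_injective_iff_isUnit.2 hA
    set N := univ.filter fun s : Fin 2 → Fin n → F =>
      quadOf T (s 0) = 1 ∧ quadOf T (s 1) = b ∧ polOf T (s 0) (s 1) = 1
    refine le_trans (Finset.card_le_card_of_injOn (t := N) (fun s i => A *ᵥ s i) (fun s hs => ?_)
      (fun s _ s' _ h => funext fun i => hinj (congrFun h i))) ?_
    · simp only [Finset.bipartiteAbove, mem_coe, mem_filter, mem_univ, true_and, r] at hs
      simp only [N, mem_coe, mem_filter, mem_univ, true_and]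
      refine ⟨hs.1, hs.2.1, ?_⟩
      have h := hs.2.2
      rw [Matrix.mulVec_add, quadOf_add, hs.1, hs.2.1] at h
      exact add_left_cancel h
    refine (Finset.card_le_mul_card_image_of_maps_to
      (f := fun s => (pairProj e₀ f₀ y₀ z₀ (s 0), pairProj e₀ f₀ y₀ z₀ (s 1)))
      (s := N) (t := W ×ˢ W) (fun s _ => ?_) (2 * (q + 1)) fun ww hww => ?_).trans ?_
    · simp only [mem_product, hWdef, mem_filter, mem_univ, true_and]
      exact ⟨LinearMap.mem_ker.1 (hd₀.proj_mem _), LinearMap.mem_ker.1 (hd₀.proj_mem _)⟩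
    · simp only [mem_product, hWdef, mem_filter, mem_univ, true_and] at hww
      refine le_trans (Finset.card_le_card_of_injOn
        (t := univ.filter fun pp : (F × F) × (F × F) => planeQ b pp.1 = 1 + quadOf T ww.1 ∧
          planeQ b pp.2 = b + quadOf T ww.2 ∧ planeB pp.1 pp.2 = 1 + polOf T ww.1 ww.2)
        (fun s => (pairCoord y₀ z₀ (s 0), pairCoord y₀ z₀ (s 1))) (fun s hs => ?_) ?_)
        (card_plane_pairs_le ?_)
      · simp only [N, mem_coe, mem_filter, mem_univ, true_and] at hs ⊢
        obtain ⟨⟨h1, h2, h3⟩, rfl⟩ := hs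
        have e1 := hdec (s 0)
        have e2 := hdec (s 1)
        have e3 := hdec (s 0 + s 1)
        rw [quadOf_add, map_add, map_add, quadOf_add T (pairProj e₀ f₀ y₀ z₀ (s 0))] at e3
        rw [h1] at e1
        rw [h2] at e2
        rw [h1, h2, h3] at e3
        have two0 : (2 : F) = 0 := CharTwo.two_eq_zero
        refine ⟨?_, ?_, ?_⟩
        · linear_combination -e1 - quadOf T (pairProj e₀ f₀ y₀ z₀ (s 0)) * two0
        · linear_combination -e2 - quadOf T (pairProj e₀ f₀ y₀ z₀ (s 1)) * two0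
        · have : planeQ b (pairCoord y₀ z₀ (s 0) + pairCoord y₀ z₀ (s 1)) =
              planeQ b (pairCoord y₀ z₀ (s 0)) + planeQ b (pairCoord y₀ z₀ (s 1)) +
                planeB (pairCoord y₀ z₀ (s 0)) (pairCoord y₀ z₀ (s 1)) := by
            have h := planeQ_add_smul b (pairCoord y₀ z₀ (s 1)) (pairCoord y₀ z₀ (s 0)) 1
            rw [one_smul] at h
            rw [h, planeB, planeB]
            ring
          linear_combination -e3 + e1 + e2 - this -
            polOf T (pairProj e₀ f₀ y₀ z₀ (s 0)) (pairProj e₀ f₀ y₀ z₀ (s 1)) * two0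
      · intro s hs s' hs' he
        simp only [mem_coe, mem_filter] at hs hs'
        simp only [Prod.mk.injEq] at he
        have hp := hs.2.trans hs'.2.symm
        simp only [Prod.mk.injEq] at hp
        funext i
        fin_cases i
        · exact eq_of_coord_proj he.1 hp.1
        · exact eq_of_coord_proj he.2 hp.2
      · rcases hcase with h | h
        · exact Or.inr h
        · left
          have h' := hww.1
          simp only [pairCoord, LinearMap.coe_mk, AddHom.coe_mk, Prod.mk_eq_zero, hy₀', hz₀'] at h'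
          rw [h _ h'.2 h'.1, add_zero]
          exact one_ne_zero
    · rw [Finset.card_product, hW, ← pow_add, two_mul (n - 2), Nat.mul_comm]
  have hlow : ∀ s ∈ univ.filter (fun s : Fin 2 → Fin n → F => LinearIndependent F s),
      q ^ (2 * (n - 2)) ≤ (O.bipartiteBelow r s).card := by
    intro s hs
    obtain ⟨y₁, z₁, h₁⟩ := exists_dual_of_linearIndependent (mem_filter.1 hs).2
    set e := s 0
    set f := s 1
    have hd' : DualPair z₁ y₁ f e :=
      ⟨by rw [dotProduct_comm, h₁.zf], by rw [dotProduct_comm, h₁.yf],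
        by rw [dotProduct_comm, h₁.ze], by rw [dotProduct_comm, h₁.ye]⟩
    set K := univ.filter fun x : Fin n → F => pairCoord f e x = 0 with hKdef
    have hK : K.card = q ^ (n - 2) := by
      have hc := Module.card_eq_pow_finrank (K := F) (V := LinearMap.ker (pairCoord f e))
      rw [hd'.finrank_ker, Fintype.card_subtype] at hc
      rw [hq, ← hc]
      congr 1
      ext
      simp [hKdef]
    let φ : ((Fin n → F) → F) → (Fin n → F) × (Fin n → F) := fun Q =>
      (fun i => Q (e + Pi.single i 1) - Q e - Q (Pi.single i 1),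
       fun i => Q (f + Pi.single i 1) - Q f - Q (Pi.single i 1))
    have := Finset.card_le_card_of_surjOn (s := O.bipartiteBelow r s)
      (t := (K.image fun k => y₁ + k) ×ˢ (K.image fun k => z₁ + k)) φ (fun yz hyz => by
        simp only [coe_product, coe_image, Set.mem_prod, Set.mem_image, hKdef, mem_coe, mem_filter,
          mem_univ, true_and, pairCoord, LinearMap.coe_mk, AddHom.coe_mk,
          Prod.mk_eq_zero] at hyz
        obtain ⟨⟨k, ⟨hk1, hk2⟩, hy⟩, ⟨k', ⟨hk1', hk2'⟩, hz⟩⟩ := hyz
        have h : DualPair e f yz.1 yz.2 := by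
          rw [dotProduct_comm] at hk1 hk2 hk1' hk2'
          exact ⟨by rw [← hy, add_dotProduct, h₁.ye, hk1, add_zero],
            by rw [← hy, add_dotProduct, h₁.yf, hk2, add_zero],
            by rw [← hz, add_dotProduct, h₁.ze, hk1', add_zero],
            by rw [← hz, add_dotProduct, h₁.zf, hk2', add_zero]⟩
        obtain ⟨A, hA, hAe, hAf, hAy, hAz⟩ := exists_matching h hd₀
        refine ⟨fun x => quadOf T (A *ᵥ x), ?_, Prod.ext (funext fun i => ?_) (funext fun i => ?_)⟩
        · simp only [Finset.bipartiteBelow, mem_coe, mem_filter, r]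
          refine ⟨mem_quadOrbit.2 ⟨A, hA, rfl⟩, ?_, ?_, ?_⟩
          · rw [hAe, hQe]
          · rw [hAf]
          · rw [Matrix.mulVec_add, quadOf_add, hAe, hAf, hQe, hB, ← hb]
        · simp only [φ]
          rw [Matrix.mulVec_add, quadOf_add, hAe, ← hy₀', hAy, dotProduct_single, mul_one]
          ring
        · simp only [φ]
          rw [Matrix.mulVec_add, quadOf_add, hAf, ← hz₀', hAz, dotProduct_single, mul_one]
          ring)
    rw [Finset.card_product, Finset.card_image_of_injective _ (add_right_injective y₁),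
      Finset.card_image_of_injective _ (add_right_injective z₁), hK, ← pow_add, ← two_mul] at this
    exact this
  have hI : (univ.filter fun s : Fin 2 → Fin n → F => LinearIndependent F s).card =
      (q ^ n - 1) * (q ^ n - q) := by
    rw [← Fintype.card_subtype, ← Nat.card_eq_fintype_card,
      card_linearIndependent (by simpa using h2n)]
    simp [Fin.prod_univ_two, hq]
  have hpos : 0 < q ^ (2 * (n - 2)) := Nat.pow_pos Fintype.card_pos
  refine Nat.le_of_mul_le_mul_right ?_ hpos
  calc (q ^ n - 1) * (q ^ n - q) * q ^ (2 * (n - 2))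
      ≤ ∑ s, (O.bipartiteBelow r s).card := by
        rw [← hI, ← smul_eq_mul, ← Finset.sum_const]
        exact (Finset.sum_le_sum hlow).trans (Finset.sum_le_sum_of_subset (Finset.filter_subset _ _))
    _ = ∑ Q ∈ O, (univ.bipartiteAbove r Q).card := hsum.symm
    _ ≤ O.card * (q ^ (2 * (n - 2)) * (2 * (q + 1))) :=
        (Finset.sum_le_sum hup).trans_eq (by rw [Finset.sum_const, smul_eq_mul])
    _ = O.card * (2 * (q + 1)) * q ^ (2 * (n - 2)) := by ring

end Cfsg.Agent.H39
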