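import Mathlib
import Cfsg.Agent.H3.RootElements
import Cfsg.Agent.H39.HermOrbit

/-!
# The stabiliser of a totally isotropic subspace in a special unitary group

A hyperbolic frame, the abelian unipotent elements attached to Hermitian matrices, Levi elements
and, for a vector of norm one orthogonal to the frame, the extra root elements.
-/

namespace Cfsg.Agent.H39

open Matrix Finset

variable {F : Type*} [Field F] {n m q : ℕ}

/-- A hyperbolic frame. -/
structure HypFrame (σ : F →+* F) (E G : Matrix (Fin n) (Fin m) F) : Prop where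
  EE : cT σ E * E = 0
  GG : cT σ G * G = 0
  GE : cT σ G * E = 1

/-- A vector of norm one orthogonal to a frame. -/
structure MidVec (σ : F →+* F) (E G : Matrix (Fin n) (Fin m) F) (Z : Matrix (Fin n) Unit F) :
    Prop where
  EZ : cT σ E * Z = 0
  GZ : cT σ G * Z = 0
  ZZ : cT σ Z * Z = 1

variable [Fintype F] (hF : Fintype.card F = q ^ 2)

omit [Fintype F] in
lemma cT_zero {σ : F →+* F} {α β : Type*} : cT σ (0 : Matrix α β F) = 0 :=
  Matrix.ext fun _ _ => map_zero σ

omit [Fintype F] in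
lemma cT_neg {σ : F →+* F} {α β : Type*} (M : Matrix α β F) : cT σ (-M) = -cT σ M :=
  Matrix.ext fun _ _ => map_neg σ _

include hF in
lemma hermForm_eq_dot (u v : Fin n → F) :
    Cfsg.hermForm n F q u v = (H3.conjQ hF ∘ v) ⬝ᵥ u := by
  simp [Cfsg.hermForm, dotProduct, mul_comm]

/-- An element of `SU` from a matrix. -/
def suOfMat (M : Matrix (Fin n) (Fin n) F) (h : cT (H3.conjQ hF) M * M = 1) (hd : M.det = 1) :
    Cfsg.SU n F q :=
  ⟨⟨M, hd⟩, H3.mem_SU_iff.2 fun u v => by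
    show Cfsg.hermForm n F q (M *ᵥ u) (M *ᵥ v) = _
    rw [hermForm_eq_dot hF, hermForm_eq_dot hF, ← cT_mulVec_dot, mulVec_mulVec, h, one_mulVec]⟩

@[simp] lemma suOfMat_coe (M : Matrix (Fin n) (Fin n) F) (h : cT (H3.conjQ hF) M * M = 1)
    (hd : M.det = 1) : ((suOfMat hF M h hd).1 : Matrix (Fin n) (Fin n) F) = M := rfl

/-- Hermitian matrices. -/
def hermMat (m : ℕ) : AddSubgroup (Matrix (Fin m) (Fin m) F) where
  carrier := {R | cT (H3.conjQ hF) R = R}
  add_mem' := fun {a b} (ha : _ = _) (hb : _ = _) => show _ = _ by rw [cT_add, ha, hb]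
  zero_mem' := show _ = _ from cT_zero
  neg_mem' := fun {a} (ha : _ = _) => show _ = _ by rw [cT_neg, ha]

variable {δ : F}

/-- The unipotent element attached to a Hermitian matrix. -/
def suU {E G : Matrix (Fin n) (Fin m) F} (hf : HypFrame (H3.conjQ hF) E G)
    (hδ : δ + H3.conjQ hF δ = 0) (R : hermMat hF m) : Cfsg.SU n F q :=
  suOfMat hF (1 + E * (δ • R.1) * cT (H3.conjQ hF) E)
    (by
      rw [cT_add, cT_one, cT_mul, cT_mul, cT_cT (H3.conjQ_conjQ hF), cT_smul,
        (show cT (H3.conjQ hF) R.1 = R.1 from R.2), Matrix.add_mul, one_mul, Matrix.mul_add, mul_one]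
      rw [show E * (H3.conjQ hF δ • R.1 * cT (H3.conjQ hF) E) *
          (E * (δ • R.1) * cT (H3.conjQ hF) E) = 0 by
        simp only [← Matrix.mul_assoc]
        rw [Matrix.mul_assoc _ (cT (H3.conjQ hF) E) E, hf.EE]
        simp]
      rw [add_zero, add_assoc, add_eq_left, ← Matrix.mul_assoc, ← Matrix.add_mul, ← Matrix.mul_add, ← add_smul,
        hδ]
      simp)
    (by rw [Matrix.mul_assoc, det_one_add_mul_comm, Matrix.mul_assoc, hf.EE]; simp)

lemma suU_coe {E G : Matrix (Fin n) (Fin m) F} (hf : HypFrame (H3.conjQ hF) E G)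
    (hδ : δ + H3.conjQ hF δ = 0) (R : hermMat hF m) :
    ((suU hF hf hδ R).1 : Matrix (Fin n) (Fin n) F) =
      1 + E * (δ • R.1) * cT (H3.conjQ hF) E := rfl

lemma suU_add {E G : Matrix (Fin n) (Fin m) F} (hf : HypFrame (H3.conjQ hF) E G)
    (hδ : δ + H3.conjQ hF δ = 0) (R S : hermMat hF m) :
    suU hF hf hδ (R + S) = suU hF hf hδ R * suU hF hf hδ S := by
  refine H3.SU_ext ?_
  rw [H3.SU_mul_val, suU_coe, suU_coe, suU_coe, AddSubgroup.coe_add, smul_add, Matrix.mul_add, Matrix.add_mul,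
    Matrix.add_mul, Matrix.mul_add, one_mul, one_mul, Matrix.mul_add, mul_one,
    show E * (δ • R.1) * cT (H3.conjQ hF) E * (E * (δ • S.1) * cT (H3.conjQ hF) E) = 0 by
      simp only [← Matrix.mul_assoc]
      rw [Matrix.mul_assoc _ (cT (H3.conjQ hF) E) E, hf.EE]
      simp]
  abel

lemma suU_zero {E G : Matrix (Fin n) (Fin m) F} (hf : HypFrame (H3.conjQ hF) E G)
    (hδ : δ + H3.conjQ hF δ = 0) : suU hF hf hδ (0 : hermMat hF m) = 1 := by
  refine H3.SU_ext ?_
  rw [suU_coe]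
  simp

/-- A Levi element exists for every suitable matrix. -/
lemma exists_suLevi {E G : Matrix (Fin n) (Fin m) F} (hf : HypFrame (H3.conjQ hF) E G)
    {A : Matrix (Fin m) (Fin m) F} (hA : IsUnit A)
    (hd : A.det = 1 ∨ ∃ Z, MidVec (H3.conjQ hF) E G Z) :
    ∃ g : Cfsg.SU n F q, (g.1 : Matrix (Fin n) (Fin n) F) * E = E * A := by
  set σ := H3.conjQ hF with hσdef
  have hσ : ∀ x, σ (σ x) = x := H3.conjQ_conjQ hF
  have hdA := (Matrix.isUnit_iff_isUnit_det A).1 hA
  have hdc : IsUnit (cT σ A).det := by rw [det_cT]; exact hdA.map σ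
  have EG : cT σ E * G = 1 := by
    have := congrArg (cT σ) hf.GE
    rwa [cT_mul, cT_cT hσ, cT_one] at this
  set A' := (cT σ A)⁻¹ with hA'
  have h1 : cT σ A * A' = 1 := mul_nonsing_inv _ hdc
  have h2 : cT σ A' * A = 1 := by
    have := congrArg (cT σ) h1
    rwa [cT_mul, cT_cT hσ, cT_one] at this
  set L := 1 + (E * (A - 1) * cT σ G + G * (A' - 1) * cT σ E) with hL
  have hLE : L * E = E * A := by
    rw [hL, Matrix.add_mul, Matrix.one_mul, Matrix.add_mul, Matrix.mul_assoc (E * (A - 1)), hf.GE,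
      Matrix.mul_assoc (G * (A' - 1)), hf.EE, Matrix.mul_zero, add_zero, Matrix.mul_one,
      Matrix.mul_sub, Matrix.mul_one]
    abel
  have hLG : L * G = G * A' := by
    rw [hL, Matrix.add_mul, Matrix.one_mul, Matrix.add_mul, Matrix.mul_assoc (E * (A - 1)), hf.GG,
      Matrix.mul_assoc (G * (A' - 1)), EG, Matrix.mul_zero, zero_add, Matrix.mul_one,
      Matrix.mul_sub, Matrix.mul_one]
    abel
  have hLpres : cT σ L * L = 1 := by
    conv_lhs => arg 1; rw [hL]
    rw [cT_add, cT_one, cT_add, cT_mul, cT_mul, cT_mul, cT_mul, cT_cT hσ, cT_cT hσ, cT_sub, cT_sub,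
      cT_one, Matrix.add_mul, one_mul, Matrix.add_mul]
    simp only [Matrix.mul_assoc]
    have hEL : cT σ E * L = cT σ E + (A' - 1) * cT σ E := by
      rw [hL, Matrix.mul_add, Matrix.mul_one, Matrix.mul_add]
      simp only [← Matrix.mul_assoc]
      rw [hf.EE, EG]
      simp
    have hGL : cT σ G * L = cT σ G + (A - 1) * cT σ G := by
      rw [hL, Matrix.mul_add, Matrix.mul_one, Matrix.mul_add]
      simp only [← Matrix.mul_assoc]
      rw [hf.GE, hf.GG]
      simp
    rw [hEL, hGL, hL]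
    simp only [Matrix.mul_add, Matrix.add_mul, Matrix.sub_mul, Matrix.mul_sub, Matrix.one_mul, ← Matrix.mul_assoc,
      Matrix.mul_one]
    simp only [add_sub_cancel, Matrix.sub_mul, Matrix.mul_sub, Matrix.mul_assoc, ← Matrix.mul_assoc (cT σ A') A,
      ← Matrix.mul_assoc (cT σ A) A', h1, h2, Matrix.one_mul]
    abel
  have hLdet : L.det = A.det * A'.det := by
    rw [hL, show E * (A - 1) * cT σ G + G * (A' - 1) * cT σ E =
      fromCols E G * fromRows ((A - 1) * cT σ G) ((A' - 1) * cT σ E) by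
        rw [fromCols_mul_fromRows]; simp only [Matrix.mul_assoc],
      det_one_add_mul_comm, fromRows_mul_fromCols]
    simp only [Matrix.mul_assoc, hf.EE, hf.GE, hf.GG, EG, Matrix.mul_zero, Matrix.mul_one]
    rw [← fromBlocks_one, fromBlocks_add]
    simp [det_fromBlocks_zero₁₂]
  have hA'det : A'.det = (σ A.det)⁻¹ := by
    rw [hA', det_nonsing_inv, det_cT, Ring.inverse_eq_inv']
  rcases hd with hd | ⟨Z, hZ⟩
  · exact ⟨suOfMat hF L hLpres (by rw [hLdet, hA'det, hd]; simp), hLE⟩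
  · have hd0 : A.det ≠ 0 := hdA.ne_zero
    set μ := σ A.det / A.det with hμ
    have hμ1 : σ μ * μ = 1 := by
      rw [hμ, map_div₀, hσ, div_mul_div_comm, mul_comm, div_self]
      exact mul_ne_zero ((hdA.map σ).ne_zero) hd0
    set N := 1 + Z * (μ - 1) • cT σ Z with hN
    have ZE : cT σ Z * E = 0 := by
      have := congrArg (cT σ) hZ.EZ
      rw [cT_mul, cT_cT hσ] at this
      rw [this, cT_zero]
    have hNpres : cT σ N * N = 1 := by
      rw [hN, cT_add, cT_one, cT_mul, cT_smul, cT_cT hσ, map_sub, map_one, Matrix.add_mul, one_mul,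
        Matrix.mul_add, mul_one]
      simp only [Matrix.smul_mul, Matrix.mul_smul, Matrix.mul_assoc, ← Matrix.mul_assoc (cT σ Z) Z,
        hZ.ZZ, Matrix.one_mul, smul_smul]
      rw [add_assoc, add_eq_left, ← add_smul, ← add_smul]
      rw [show μ - 1 + ((σ μ - 1) + (μ - 1) * (σ μ - 1)) = σ μ * μ - 1 by ring, hμ1, sub_self,
        zero_smul]
    have hNdet : N.det = μ := by
      rw [hN, det_one_add_mul_comm, Matrix.smul_mul, hZ.ZZ, det_unique]
      simp
    refine ⟨suOfMat hF (N * L) ?_ ?_, ?_⟩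
    · rw [cT_mul, Matrix.mul_assoc, ← Matrix.mul_assoc (cT σ N), hNpres, Matrix.one_mul, hLpres]
    · rw [det_mul, hNdet, hLdet, hA'det, hμ, ← mul_assoc, div_mul_cancel₀ _ hd0,
        mul_inv_cancel₀ (hdA.map σ).ne_zero]
    · rw [suOfMat_coe, Matrix.mul_assoc, hLE, hN, Matrix.add_mul, Matrix.one_mul, Matrix.mul_assoc,
        ← Matrix.mul_assoc ((μ - 1) • cT σ Z), Matrix.smul_mul, ZE]
      simp

lemma suU_mul_levi {E G : Matrix (Fin n) (Fin m) F} (hf : HypFrame (H3.conjQ hF) E G)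
    (hδ : δ + H3.conjQ hF δ = 0) {A : Matrix (Fin m) (Fin m) F} {g : Cfsg.SU n F q}
    (hg : (g.1 : Matrix (Fin n) (Fin n) F) * E = E * A) (R S : hermMat hF m)
    (h : A * R.1 * cT (H3.conjQ hF) A = S.1) :
    suU hF hf hδ S * g = g * suU hF hf hδ R := by
  have hgg : cT (H3.conjQ hF) (g.1 : Matrix (Fin n) (Fin n) F) *
      (g.1 : Matrix (Fin n) (Fin n) F) = 1 := by
    refine Matrix.ext fun i j => ?_
    have := H3.mem_SU_iff.1 g.2 (Pi.single j 1) (Pi.single i 1)
    rw [hermForm_eq_dot hF, hermForm_eq_dot hF, ← cT_mulVec_dot, mulVec_mulVec] at this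
    rw [show H3.conjQ hF ∘ (Pi.single i (1 : F) : Fin n → F) = Pi.single i 1 from
      funext fun k => by by_cases hk : k = i <;> simp [hk, zero_pow (show q ≠ 0 by
        have := H3.two_le_q hF; omega)]] at this
    simpa [Matrix.one_apply, Pi.single_apply, eq_comm] using this
  refine H3.SU_ext ?_
  rw [H3.SU_mul_val, H3.SU_mul_val, suU_coe, suU_coe, Matrix.add_mul, one_mul, Matrix.mul_add, mul_one]
  congr 1
  have h' : cT (H3.conjQ hF) A * (cT (H3.conjQ hF) E * (g.1 : Matrix (Fin n) (Fin n) F)) =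
      cT (H3.conjQ hF) E := by
    rw [← Matrix.mul_assoc, ← cT_mul, ← hg, cT_mul, Matrix.mul_assoc, hgg, Matrix.mul_one]
  rw [← h, ← Matrix.mul_assoc, ← Matrix.mul_assoc, hg]
  simp only [Matrix.smul_mul, Matrix.mul_smul, Matrix.mul_assoc, h']

/-- Frames exist. -/
lemma exists_hypFrame (hmn : 2 * m ≤ n) :
    ∃ E G : Matrix (Fin n) (Fin m) F, HypFrame (H3.conjQ hF) E G ∧
      (n = 2 * m + 1 → ∃ Z, MidVec (H3.conjQ hF) E G Z) := by
  set σ := H3.conjQ hF with hσdef
  have hσ : ∀ x, σ (σ x) = x := H3.conjQ_conjQ hF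
  obtain ⟨ε, ε', hne, hε, hε'⟩ := H3.exists_two_norm_neg_one hF
  have hN : σ ε * ε = -1 := by rw [← hε, pow_succ]; rfl
  have hN' : σ ε' * ε' = -1 := by rw [← hε', pow_succ]; rfl
  have hk : 1 + σ ε' * ε ≠ 0 := fun h => hne (by
    have hne0 : σ ε' ≠ 0 := fun h0 => by simp [h0] at hN'
    apply mul_left_cancel₀ hne0
    linear_combination h - hN')
  set c := σ (1 + σ ε' * ε)⁻¹ with hc
  let i₀ : Fin m → Fin n := fun i => ⟨2 * i.1, by omega⟩
  let i₁ : Fin m → Fin n := fun i => ⟨2 * i.1 + 1, by omega⟩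
  let col : F → F → Fin m → Fin n → F := fun a b i => Pi.single (i₀ i) a + Pi.single (i₁ i) b
  let P : F → F → Matrix (Fin n) (Fin m) F := fun a b => Matrix.of fun k i => col a b i k
  have hmul : ∀ a b a' b', cT σ (P a b) * P a' b' = (σ a * a' + σ b * b') • (1 : Matrix _ _ F) := by
    intro a b a' b'
    ext i j
    have hs : σ ∘ col a b i = Pi.single (i₀ i) (σ a) + Pi.single (i₁ i) (σ b) := by
      funext k
      simp only [col, Function.comp_apply, Pi.add_apply, map_add, Pi.single_apply]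
      split_ifs <;> simp
    change (σ ∘ col a b i) ⬝ᵥ col a' b' j = _
    rw [hs, add_dotProduct, single_dotProduct, single_dotProduct]
    by_cases hij : i = j
    · subst hij
      simp [col, i₀, i₁, Fin.ext_iff]
    · have : i.1 ≠ j.1 := fun h => hij (Fin.ext h)
      have e1 : 2 * i.1 + 1 ≠ 2 * j.1 := by omega
      have e2 : 2 * i.1 ≠ 2 * j.1 + 1 := by omega
      simp [col, i₀, i₁, Fin.ext_iff, Pi.single_apply, hij, this, e1, e2]
  refine ⟨P 1 ε, P c (c * ε'), ⟨?_, ?_, ?_⟩, fun hn => ?_⟩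
  · rw [hmul, map_one, one_mul, hN, add_neg_cancel, zero_smul]
  · rw [hmul, map_mul, show σ c * c + σ c * σ ε' * (c * ε') = σ c * c * (1 + σ ε' * ε') by ring,
      hN', add_neg_cancel, mul_zero, zero_smul]
  · rw [hmul, map_mul, show σ c * 1 + σ c * σ ε' * ε = σ c * (1 + σ ε' * ε) by ring, hc, hσ,
      inv_mul_cancel₀ hk, one_smul]
  · let last : Fin n := ⟨2 * m, by omega⟩
    have hPZ : ∀ a b, cT σ (P a b) * (Matrix.of fun k (_ : Unit) =>
        (Pi.single last (1 : F) : Fin n → F) k) = 0 := by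
      intro a b
      ext i u
      change (σ ∘ col a b i) ⬝ᵥ Pi.single last 1 = 0
      have := i.2
      have e1 : 2 * m ≠ 2 * i.1 := by omega
      have e2 : 2 * m ≠ 2 * i.1 + 1 := by omega
      simp [col, i₀, i₁, last, Fin.ext_iff, e1, e2]
    refine ⟨_, hPZ _ _, hPZ _ _, ?_⟩
    ext u v
    change (σ ∘ (Pi.single last (1 : F) : Fin n → F)) ⬝ᵥ Pi.single last 1 = _
    simp

/-- The root elements attached to the middle vector. -/
lemma exists_suY {E G : Matrix (Fin n) (Fin m) F} (hf : HypFrame (H3.conjQ hF) E G)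
    {Z : Matrix (Fin n) Unit F} (hZ : MidVec (H3.conjQ hF) E G Z)
    (hδ : δ + H3.conjQ hF δ = 0) (hδ0 : δ ≠ 0) (p : Matrix (Fin m) Unit F) :
    ∃ Y : F → Cfsg.SU n F q,
      (∀ s R, Y s * suU hF hf hδ R = suU hF hf hδ R * Y s) ∧
      ∀ s t, ∃ R : hermMat hF m, δ • R.1 =
        (H3.conjQ hF t * s - H3.conjQ hF s * t) • (p * cT (H3.conjQ hF) p) ∧
        Y s * Y t = suU hF hf hδ R * (Y t * Y s) := by
  set σ := H3.conjQ hF with hσdef
  have hσ : ∀ x, σ (σ x) = x := H3.conjQ_conjQ hF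
  set P := E * p with hP
  have PP : cT σ P * P = 0 := by
    rw [hP, cT_mul, Matrix.mul_assoc, ← Matrix.mul_assoc (cT σ E), hf.EE]
    simp
  have PZ : cT σ P * Z = 0 := by rw [hP, cT_mul, Matrix.mul_assoc, hZ.EZ]; simp
  have ZP : cT σ Z * P = 0 := by
    have := congrArg (cT σ) PZ
    rwa [cT_mul, cT_cT hσ, cT_zero] at this
  have EP : cT σ E * P = 0 := by rw [hP, ← Matrix.mul_assoc, hf.EE]; simp
  have PE : cT σ P * E = 0 := by
    have := congrArg (cT σ) EP
    rwa [cT_mul, cT_cT hσ, cT_zero] at this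
  have ZE : cT σ Z * E = 0 := by
    have := congrArg (cT σ) hZ.EZ
    rwa [cT_mul, cT_cT hσ, cT_zero] at this
  have haex : ∀ s : F, ∃ a, a + σ a + σ s * s = 0 := fun s => by
    obtain ⟨a, ha⟩ := H3.exists_trace_eq hF (a := -(σ s * s))
      (show σ (-(σ s * s)) = -(σ s * s) by rw [map_neg, map_mul, hσ, mul_comm])
    exact ⟨a, by rw [show a + σ a = a + a ^ q from rfl, ha, neg_add_cancel]⟩
  choose a ha using haex
  set X : F → Matrix (Fin n) (Fin n) F := fun s =>
    Z * (s • cT σ P) + P * (a s • cT σ P - σ s • cT σ Z) with hX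
  have hXX : ∀ s t, X s * X t = -(σ s * t) • (P * cT σ P) := by
    intro s t
    simp only [hX, Matrix.mul_add, Matrix.add_mul, Matrix.mul_sub, Matrix.sub_mul, Matrix.mul_smul, Matrix.smul_mul,
      Matrix.mul_assoc, ← Matrix.mul_assoc (cT σ P) P, ← Matrix.mul_assoc (cT σ P) Z,
      ← Matrix.mul_assoc (cT σ Z) P, ← Matrix.mul_assoc (cT σ Z) Z, PP, PZ, ZP, hZ.ZZ,
      Matrix.one_mul, Matrix.zero_mul, Matrix.mul_zero, smul_zero, smul_smul]
    module
  have hpres : ∀ s, cT σ (1 + X s) * (1 + X s) = 1 := by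
    intro s
    simp only [hX, cT_add, cT_sub, cT_one, cT_mul, cT_smul, cT_cT hσ, Matrix.mul_add, Matrix.add_mul, Matrix.mul_sub,
      Matrix.sub_mul, Matrix.mul_smul, Matrix.smul_mul, Matrix.mul_assoc, Matrix.one_mul, Matrix.mul_one,
      ← Matrix.mul_assoc (cT σ P) P, ← Matrix.mul_assoc (cT σ P) Z,
      ← Matrix.mul_assoc (cT σ Z) P, ← Matrix.mul_assoc (cT σ Z) Z, PP, PZ, ZP, hZ.ZZ,
      Matrix.zero_mul, Matrix.mul_zero, smul_zero, smul_smul, hσ]
    linear_combination (norm := module) congrArg (· • (P * cT σ P)) (ha s)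
  have hdet : ∀ s, (1 + X s).det = 1 := by
    intro s
    rw [show X s = fromCols Z P * fromRows (s • cT σ P) (a s • cT σ P - σ s • cT σ Z) by
        rw [fromCols_mul_fromRows],
      det_one_add_mul_comm, fromRows_mul_fromCols]
    simp only [Matrix.smul_mul, Matrix.sub_mul, PP, PZ, ZP, hZ.ZZ, smul_zero, zero_sub, sub_zero]
    rw [← fromBlocks_one, fromBlocks_add]
    simp [det_fromBlocks_zero₁₂]
  refine ⟨fun s => suOfMat hF (1 + X s) (hpres s) (hdet s), fun s R => H3.SU_ext ?_, fun s t => ?_⟩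
  · rw [H3.SU_mul_val, H3.SU_mul_val, suOfMat_coe, suU_coe]
    simp only [hX, Matrix.mul_add, Matrix.add_mul, Matrix.mul_sub, Matrix.sub_mul, Matrix.one_mul, Matrix.mul_one,
      Matrix.mul_smul, Matrix.smul_mul, Matrix.mul_assoc, ← hσdef,
      ← Matrix.mul_assoc (cT σ P) E, ← Matrix.mul_assoc (cT σ Z) E,
      ← Matrix.mul_assoc (cT σ E) P, ← Matrix.mul_assoc (cT σ E) Z, PE, ZE, EP, hZ.EZ,
      Matrix.zero_mul, Matrix.mul_zero, smul_zero]
    abel
  · set c := σ t * s - σ s * t with hc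
    have hcσ : σ (c / δ) = c / δ := by
      rw [map_div₀, hc, map_sub, map_mul, map_mul, hσ, hσ,
        show σ δ = -δ from eq_neg_of_add_eq_zero_right hδ]
      rw [div_neg, ← neg_div]
      ring
    refine ⟨⟨(c / δ) • (p * cT σ p), show cT σ _ = _ by
      rw [cT_smul, cT_mul, cT_cT hσ, hcσ]⟩, ?_, H3.SU_ext ?_⟩
    · rw [smul_smul, mul_div_cancel₀ _ hδ0]
    rw [H3.SU_mul_val, H3.SU_mul_val, H3.SU_mul_val, suOfMat_coe, suOfMat_coe, suU_coe, smul_smul,
      mul_div_cancel₀ _ hδ0,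
      show E * (c • (p * cT σ p)) * cT σ E = c • (P * cT σ P) by
        simp only [hP, cT_mul, Matrix.mul_smul, Matrix.smul_mul, Matrix.mul_assoc]]
    simp only [Matrix.add_mul, Matrix.mul_add, Matrix.one_mul, Matrix.mul_one, hXX, Matrix.smul_mul,
      Matrix.mul_smul]
    rw [show P * cT σ P * X s = 0 by
        simp only [hX, Matrix.mul_add, Matrix.mul_sub, Matrix.mul_smul, Matrix.mul_assoc,
          ← Matrix.mul_assoc (cT σ P) P, ← Matrix.mul_assoc (cT σ P) Z, PP, PZ, Matrix.zero_mul,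
          Matrix.mul_zero, smul_zero]
        simp,
      show P * cT σ P * X t = 0 by
        simp only [hX, Matrix.mul_add, Matrix.mul_sub, Matrix.mul_smul, Matrix.mul_assoc,
          ← Matrix.mul_assoc (cT σ P) P, ← Matrix.mul_assoc (cT σ P) Z, PP, PZ, Matrix.zero_mul,
          Matrix.mul_zero, smul_zero]
        simp,
      show P * cT σ P * (P * cT σ P) = 0 by
        simp only [Matrix.mul_assoc, ← Matrix.mul_assoc (cT σ P) P, PP, Matrix.zero_mul,
          Matrix.mul_zero]]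
    rw [hc]
    module

end Cfsg.Agent.H39
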