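import Mathlib
import Cfsg.Agent.H3.Simple
import Cfsg.Agent.H39.SUFrame
import Cfsg.Agent.H26.CharBasic

/-!
# Small representations of special unitary groups are trivial
-/

namespace Cfsg.Agent.H39

open Matrix Finset Module

variable {F : Type*} [Field F] [Fintype F] {n m q : ℕ} (hF : Fintype.card F = q ^ 2)
variable {V : Type*} [AddCommGroup V] [Module ℂ V] {δ : F}

/-- The character attached to a matrix. -/
noncomputable def hermChar (ψ : AddChar F ℂ) (δ : F) (T : Matrix (Fin m) (Fin m) F) :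
    AddChar (hermMat hF m) ℂ :=
  ψ.compAddMonoidHom (AddMonoidHom.mk' (fun R : hermMat hF m => δ * (T * R.1).trace)
    fun a b => by simp [Matrix.mul_add, mul_add])

@[simp] lemma hermChar_apply (ψ : AddChar F ℂ) (δ : F) (T : Matrix (Fin m) (Fin m) F)
    (R : hermMat hF m) : hermChar hF ψ δ T R = ψ (δ * (T * R.1).trace) := rfl

lemma hermChar_ne_one {ψ : AddChar F ℂ} (hδ : δ + H3.conjQ hF δ = 0) (hψ : ψ δ ≠ 1)
    {T : Matrix (Fin m) (Fin m) F} (hT : T ∈ hermMat hF m) (h0 : T ≠ 0) :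
    hermChar hF ψ δ T ≠ 1 := by
  obtain ⟨t, ht⟩ := H3.exists_trace_eq hF (a := (1 : F)) (one_pow q)
  obtain ⟨v, hv⟩ := exists_hermVal_ne_zero (H3.conjQ_conjQ hF)
    (show t + H3.conjQ hF t ≠ 0 by
      rw [show H3.conjQ hF t = t ^ q from rfl, ht]; exact one_ne_zero) hT h0
  set a := hermVal (H3.conjQ hF) T v with ha
  have hσa : H3.conjQ hF a = a := IsHermM.dot_swap (H3.conjQ_conjQ hF) hT v v
  set p := replicateCol Unit v with hp
  refine AddChar.ne_one_iff.2 ⟨⟨a⁻¹ • (p * cT (H3.conjQ hF) p), show cT _ _ = _ by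
    rw [cT_smul, cT_mul, cT_cT (H3.conjQ_conjQ hF), map_inv₀, hσa]⟩, ?_⟩
  have : (T * (p * cT (H3.conjQ hF) p)).trace = a := by
    rw [← Matrix.mul_assoc, Matrix.trace_mul_comm]
    simp [Matrix.trace, ha, hermVal, hp, Matrix.mul_apply, cT_apply, dotProduct, mulVec]
  simp only [hermChar_apply, Matrix.mul_smul, trace_smul, smul_eq_mul, this,
    inv_mul_cancel₀ hv, mul_one]
  exact hψ

variable {E G : Matrix (Fin n) (Fin m) F} (hf : HypFrame (H3.conjQ hF) E G)
  (hδ : δ + H3.conjQ hF δ = 0) (ψ : AddChar F ℂ) (ρ : Representation ℂ (Cfsg.SU n F q) V)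

/-- The eigenspace of the abelian unipotent subgroup for the character attached to `T`. -/
def suEigen (T : Matrix (Fin m) (Fin m) F) : Submodule ℂ V where
  carrier := {v | ∀ R : hermMat hF m, ρ (suU hF hf hδ R) v = hermChar hF ψ δ T R • v}
  add_mem' := fun ha hb R => by rw [map_add, ha R, hb R, smul_add]
  zero_mem' := fun R => by simp
  smul_mem' := fun c v hv R => by rw [map_smul, hv R, smul_comm]

lemma mem_suEigen {T : Matrix (Fin m) (Fin m) F} {v : V} :
    v ∈ suEigen hF hf hδ ψ ρ T ↔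
      ∀ R : hermMat hF m, ρ (suU hF hf hδ R) v = hermChar hF ψ δ T R • v := Iff.rfl

lemma su_exists_eigen_or_trivial (hψ : ψ δ ≠ 1) :
    (∀ R, ρ (suU hF hf hδ R) = 1) ∨
      ∃ T ∈ hermMat hF m, T ≠ 0 ∧ suEigen hF hf hδ ψ ρ T ≠ ⊥ := by
  classical
  haveI : Fintype (hermMat hF m) := Fintype.ofFinite _
  set K : hermMat hF m → Module.End ℂ V := fun T =>
    ∑ R, hermChar hF ψ δ T.1 (-R) • ρ (suU hF hf hδ R) with hK
  have hKmul : ∀ T R, ρ (suU hF hf hδ R) * K T = hermChar hF ψ δ T.1 R • K T := by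
    intro T R
    simp only [hK, Finset.mul_sum, Finset.smul_sum]
    refine Fintype.sum_equiv (Equiv.addLeft R) _ _ fun S => ?_
    rw [mul_smul_comm, ← map_mul, ← suU_add, smul_smul, Equiv.coe_addLeft,
      ← AddChar.map_add_eq_mul]
    congr 2
    simp [neg_add_rev, add_left_comm]
  by_cases hall : ∀ T ≠ 0, K T = 0
  · left
    have hsum : ∑ T, K T = (Fintype.card (hermMat hF m) : ℂ) • (1 : Module.End ℂ V) := by
      simp only [hK]
      rw [Finset.sum_comm]
      simp only [← Finset.sum_smul]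
      rw [Finset.sum_eq_single 0]
      · simp [suU_zero]
      · intro R _ hR
        have hne := hermChar_ne_one hF hδ hψ (-R).2
          (fun h => neg_ne_zero.2 hR (Subtype.ext h))
        rw [show ∑ T : hermMat hF m, hermChar hF ψ δ T.1 (-R) = 0 by
          rw [← AddChar.sum_eq_zero_of_ne_one hne]
          exact Finset.sum_congr rfl fun T _ => by
            simp only [hermChar_apply]
            rw [Matrix.trace_mul_comm], zero_smul]
      · simp
    rw [Finset.sum_eq_single 0 (fun T _ hT => hall T hT) (by simp)] at hsum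
    intro R
    have h := hKmul 0 R
    rw [hsum] at h
    simp only [hermChar_apply, ZeroMemClass.coe_zero, Matrix.zero_mul, trace_zero, mul_zero,
      AddChar.map_zero_eq_one, one_smul] at h
    rw [mul_smul_comm, mul_one] at h
    exact smul_right_injective (Module.End ℂ V)
      (Nat.cast_ne_zero.2 Fintype.card_ne_zero : (Fintype.card (hermMat hF m) : ℂ) ≠ 0) h
  · right
    push Not at hall
    obtain ⟨T, hT, hKT⟩ := hall
    obtain ⟨x, hx⟩ : ∃ x, K T x ≠ 0 := by
      by_contra hc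
      push Not at hc
      exact hKT (LinearMap.ext hc)
    refine ⟨T.1, T.2, fun h => hT (Subtype.ext h), fun hbot => hx ?_⟩
    have hmem : K T x ∈ suEigen hF hf hδ ψ ρ T.1 := fun R => by
      simpa using LinearMap.congr_fun (hKmul T R) x
    simpa [hbot] using hmem

/-- Levi conjugates of eigenvectors. -/
lemma suEigen_congr {A : Matrix (Fin m) (Fin m) F} (hA : IsUnit A)
    (hd : A.det = 1 ∨ ∃ Z, MidVec (H3.conjQ hF) E G Z) {T : Matrix (Fin m) (Fin m) F}
    (h : suEigen hF hf hδ ψ ρ T ≠ ⊥) :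
    suEigen hF hf hδ ψ ρ (cT (H3.conjQ hF) A * T * A) ≠ ⊥ := by
  obtain ⟨v, hv, hv0⟩ := (Submodule.ne_bot_iff _).1 h
  have hd' := (Matrix.isUnit_iff_isUnit_det A).1 hA
  obtain ⟨g, hg⟩ := exists_suLevi hF hf (Matrix.isUnit_nonsing_inv_iff.2 hA)
    (hd.imp_left fun hd => by rw [det_nonsing_inv, hd, Ring.inverse_one])
  refine (Submodule.ne_bot_iff _).2 ⟨ρ g v, fun S => ?_, fun h0 => hv0 ?_⟩
  · set σ := H3.conjQ hF
    let R : hermMat hF m := ⟨A * S.1 * cT σ A, show cT _ _ = _ by
      rw [cT_mul, cT_mul, cT_cT (H3.conjQ_conjQ hF), (show cT σ S.1 = S.1 from S.2),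
        Matrix.mul_assoc]⟩
    have hc := suU_mul_levi hF hf hδ hg R S (by
      show A⁻¹ * (A * S.1 * cT σ A) * cT σ A⁻¹ = S.1
      rw [← Matrix.mul_assoc, ← Matrix.mul_assoc, nonsing_inv_mul A hd', Matrix.one_mul,
        Matrix.mul_assoc, ← cT_mul, nonsing_inv_mul A hd', cT_one, Matrix.mul_one])
    rw [← Module.End.mul_apply, ← map_mul, hc, map_mul, Module.End.mul_apply, hv R, map_smul]
    congr 1
    simp only [hermChar_apply, R]
    rw [Matrix.mul_assoc (cT σ A) T A, Matrix.mul_assoc (cT σ A) (T * A),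
      Matrix.trace_mul_comm (cT σ A)]
    simp only [Matrix.mul_assoc]
  · have := congrArg (ρ g⁻¹) h0
    rwa [Representation.inv_self_apply, map_zero] at this

/-- Vectors from eigenspaces of distinct Hermitian matrices are independent. -/
lemma linearIndependent_suEigen {ι κ : Type*} [Fintype ι] [Fintype κ] (hψ : ψ δ ≠ 1)
    (T : ι → Matrix (Fin m) (Fin m) F) (hT : ∀ i, T i ∈ hermMat hF m) (hinj : Function.Injective T)
    (w : ι → κ → V) (hw : ∀ i k, w i k ∈ suEigen hF hf hδ ψ ρ (T i))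
    (hli : ∀ i, LinearIndependent ℂ (w i)) :
    LinearIndependent ℂ fun x : ι × κ => w x.1 x.2 := by
  classical
  haveI : Fintype (hermMat hF m) := Fintype.ofFinite _
  rw [Fintype.linearIndependent_iff]
  rintro g hg ⟨i, k⟩
  have h := congrArg
    ⇑(∑ R : hermMat hF m, hermChar hF ψ δ (T i) (-R) • ρ (suU hF hf hδ R) : Module.End ℂ V) hg
  rw [map_sum, map_zero, Fintype.sum_prod_type] at h
  simp only [map_smul, LinearMap.sum_apply, LinearMap.smul_apply,
    (mem_suEigen hF hf hδ ψ ρ).1 (hw _ _) _, smul_smul, ← Finset.sum_smul] at h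
  rw [Finset.sum_eq_single i] at h
  · have hone : ∀ R : hermMat hF m,
        hermChar hF ψ δ (T i) (-R) * hermChar hF ψ δ (T i) R = 1 := fun R => by
      rw [← AddChar.map_add_eq_mul, neg_add_cancel, AddChar.map_zero_eq_one]
    simp only [hone, Finset.sum_const, Finset.card_univ, nsmul_eq_mul, mul_one] at h
    have := Fintype.linearIndependent_iff.1 (hli i) _ h k
    simpa [Fintype.card_ne_zero] using this
  · intro j _ hji
    have hne := hermChar_ne_one hF hδ hψ ((hermMat hF m).sub_mem (hT j) (hT i))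
      (sub_ne_zero.2 fun e => hji (hinj e))
    have hz : ∑ R : hermMat hF m, hermChar hF ψ δ (T i) (-R) * hermChar hF ψ δ (T j) R = 0 := by
      rw [← AddChar.sum_eq_zero_of_ne_one hne]
      refine Finset.sum_congr rfl fun R _ => ?_
      simp only [hermChar_apply, ← AddChar.map_add_eq_mul]
      congr 1
      simp [Matrix.sub_mul]
      ring
    refine Finset.sum_eq_zero fun k' _ => ?_
    rw [hz, mul_zero, zero_smul]
  · simp

/-- With a middle vector every non-zero eigenspace has dimension at least `q`. -/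
lemma le_finrank_suEigen [FiniteDimensional ℂ V] {Z : Matrix (Fin n) Unit F}
    (hZ : MidVec (H3.conjQ hF) E G Z) (hψ : ψ δ ≠ 1) {T : Matrix (Fin m) (Fin m) F}
    (hT : T ∈ hermMat hF m) (h0 : T ≠ 0) (hW : suEigen hF hf hδ ψ ρ T ≠ ⊥) :
    q ≤ finrank ℂ (suEigen hF hf hδ ψ ρ T) := by
  classical
  set σ := H3.conjQ hF with hσdef
  have hσ : ∀ x, σ (σ x) = x := H3.conjQ_conjQ hF
  have hδ0 : δ ≠ 0 := by rintro rfl; exact hψ (AddChar.map_zero_eq_one ψ)
  obtain ⟨t₀, ht₀⟩ := H3.exists_trace_eq hF (a := (1 : F)) (one_pow q)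
  obtain ⟨v, hv⟩ := exists_hermVal_ne_zero hσ
    (show t₀ + σ t₀ ≠ 0 by rw [show σ t₀ = t₀ ^ q from rfl, ht₀]; exact one_ne_zero) hT h0
  set a := hermVal σ T v with ha
  have hσa : σ a = a := IsHermM.dot_swap hσ hT v v
  set p := replicateCol Unit v with hp
  have htr : (T * (p * cT σ p)).trace = a := by
    rw [← Matrix.mul_assoc, Matrix.trace_mul_comm]
    simp [Matrix.trace, ha, hermVal, hp, Matrix.mul_apply, cT_apply, dotProduct, mulVec]
  obtain ⟨Y, hYc, hYY⟩ := exists_suY hF hf hZ hδ hδ0 p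
  set W := suEigen hF hf hδ ψ ρ T with hWdef
  have hYW : ∀ s, ∀ w ∈ W, ρ (Y s) w ∈ W := by
    intro s w hw R
    rw [← Module.End.mul_apply, ← map_mul, ← hYc, map_mul, Module.End.mul_apply, hw R, map_smul]
  obtain ⟨w₀, hw₀, hw₀0⟩ := (Submodule.ne_bot_iff _).1 hW
  set φ : F → F → ℂ := fun t d => ψ ((σ t * d - σ d * t) * a) with hφ
  have hcomm : ∀ s t, ∀ w ∈ W, ρ (Y s) (ρ (Y t) w) = φ t s • ρ (Y t) (ρ (Y s) w) := by
    intro s t w hw
    obtain ⟨R, hR, hYR⟩ := hYY s t
    rw [← Module.End.mul_apply, ← map_mul, hYR, map_mul, map_mul, Module.End.mul_apply,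
      Module.End.mul_apply, hYW t _ (hYW s w hw) R]
    congr 1
    rw [hermChar_apply, hφ]
    have h2 := congrArg (fun M => (T * M).trace) hR
    simp only [Matrix.mul_smul, trace_smul, smul_eq_mul, ← hσdef] at h2
    rw [htr] at h2
    rw [h2]
  have hsum : ∀ d : F, ∑ t, φ t d = if d = 0 then (Fintype.card F : ℂ) else 0 := by
    intro d
    split_ifs with hd
    · simp [hφ, hd]
    · set χ : AddChar F ℂ := ψ.compAddMonoidHom (AddMonoidHom.mk'
        (fun t => (σ t * d - σ d * t) * a) fun x y => by rw [map_add]; ring) with hχ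
      refine AddChar.sum_eq_zero_of_ne_one (ψ := χ) (AddChar.ne_one_iff.2 ?_)
      have hz : δ / a + (δ / a) ^ q = 0 := by
        show δ / a + σ (δ / a) = 0
        rw [map_div₀, hσa, ← add_div, hδ, zero_div]
      obtain ⟨x, hx⟩ := H3.exists_sub_eq hF hz
      refine ⟨σ (-x / d), ?_⟩
      show ψ ((σ (σ (-x / d)) * d - σ d * σ (-x / d)) * a) ≠ 1
      rw [hσ, div_mul_cancel₀ _ hd, ← map_mul, mul_div_cancel₀ _ hd, map_neg]
      rw [show σ x = x ^ q from rfl, show (-x - -(x ^ q)) * a = (x ^ q - x) * a by ring, hx,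
        div_mul_cancel₀ _ hv]
      exact hψ
  let YW : F → Module.End ℂ W := fun s => (ρ (Y s)).restrict (hYW s)
  have hli : LinearIndependent ℂ YW := by
    rw [Fintype.linearIndependent_iff]
    intro c hc s₀
    have h1 : ∀ w ∈ W, ∑ s, c s • ρ (Y s) w = 0 := fun w hw => by
      have := congrArg Subtype.val (LinearMap.congr_fun hc ⟨w, hw⟩)
      simpa [YW] using this
    have h2 : ∀ t, ∑ s, (c s * φ t s) • ρ (Y s) w₀ = 0 := by
      intro t
      have h := h1 _ (hYW t _ hw₀)
      simp only [hcomm _ t w₀ hw₀, smul_smul] at h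
      have h' := congrArg (ρ (Y t)⁻¹) h
      simpa [map_sum, map_smul, Representation.inv_self_apply] using h'
    have h3 : ∑ t, φ t (-s₀) • ∑ s, (c s * φ t s) • ρ (Y s) w₀ = 0 := by simp [h2]
    simp only [Finset.smul_sum, smul_smul] at h3
    rw [Finset.sum_comm] at h3
    simp only [← Finset.sum_smul] at h3
    have h4 : ∀ s, ∑ t, φ t (-s₀) * (c s * φ t s) = c s * ∑ t, φ t (s - s₀) := by
      intro s
      rw [Finset.mul_sum]
      refine Finset.sum_congr rfl fun t _ => ?_
      simp only [hφ]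
      rw [show (σ t * (s - s₀) - σ (s - s₀) * t) * a = (σ t * -s₀ - σ (-s₀) * t) * a +
        (σ t * s - σ s * t) * a by rw [map_sub, map_neg]; ring, AddChar.map_add_eq_mul]
      ring
    simp only [h4, hsum, sub_eq_zero] at h3
    simp only [mul_ite, mul_zero, ite_smul, zero_smul, Finset.sum_ite_eq', Finset.mem_univ,
      if_true] at h3
    rcases smul_eq_zero.1 h3 with h | h
    · simpa [Fintype.card_ne_zero] using h
    · exfalso
      apply hw₀0
      have := congrArg (ρ (Y s₀)⁻¹) h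
      rwa [Representation.inv_self_apply, map_zero] at this
  have := hli.fintype_card_le_finrank
  rw [Module.finrank_linearMap, hF] at this
  nlinarith

include hF in
/-- A representation of `SU n` whose dimension is below the bound is trivial. -/
theorem su_rep_trivial_of_finrank_lt [FiniteDimensional ℂ V] (hn : 3 ≤ n)
    (h32 : ¬(n = 3 ∧ q = 2)) (ρ : Representation ℂ (Cfsg.SU n F q) V)
    (hV : (n = 2 * m ∧ finrank ℂ V * (q + 1) < q ^ n - 1) ∨
      (n = 2 * m + 1 ∧ finrank ℂ V * (q + 1) < q ^ n - q)) : ∀ g, ρ g = 1 := by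
  classical
  set σ := H3.conjQ hF with hσdef
  obtain ⟨δ, hδ0, hδ⟩ := H3.exists_trace_zero_ne_zero hF
  obtain ⟨ψ, hψ⟩ := (AddChar.exists_apply_ne_zero (a := δ)).2 hδ0
  have hδ' : δ + σ δ = 0 := hδ
  have hm : 0 < m := by rcases hV with h | h <;> omega
  obtain ⟨E, G, hf, hZex⟩ := exists_hypFrame (m := m) (n := n) hF
    (by rcases hV with h | h <;> omega)
  rcases su_exists_eigen_or_trivial hF hf hδ' ψ ρ hψ with h | ⟨T, hT, hT0, hE⟩
  · have hone : (1 : Matrix (Fin m) (Fin m) F) ∈ hermMat hF m := cT_one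
    set u := suU hF hf hδ' ⟨1, hone⟩ with hu
    have hker : u ∈ ρ.ker := MonoidHom.mem_ker.2 (h _)
    have hnc : u ∉ Subgroup.center (Cfsg.SU n F q) := by
      intro hc
      obtain ⟨l, hl⟩ := (H3.mem_center_SU_iff hF (by omega) u).1 hc
      have hmat : (u.1 : Matrix (Fin n) (Fin n) F) = l • 1 :=
        Matrix.ext_of_mulVec_single fun i => by rw [hl, smul_mulVec, one_mulVec]
      have h1 : cT σ G * ((u.1 : Matrix (Fin n) (Fin n) F) * G) =
          δ • (1 : Matrix (Fin m) (Fin m) F) := by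
        have EG : cT σ E * G = 1 := by
          have := congrArg (cT σ) hf.GE
          rwa [cT_mul, cT_cT (H3.conjQ_conjQ hF), cT_one] at this
        rw [hu, suU_coe, Matrix.add_mul, Matrix.one_mul, Matrix.mul_add, hf.GG, zero_add,
          Matrix.mul_assoc, Matrix.mul_assoc, ← Matrix.mul_assoc (cT σ G), hf.GE, Matrix.one_mul,
          EG, Matrix.mul_one]
      rw [hmat, Matrix.smul_mul, Matrix.one_mul, Matrix.mul_smul, hf.GG, smul_zero] at h1
      have := congrFun (congrFun h1 ⟨0, hm⟩) ⟨0, hm⟩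
      simp at this
      exact hδ0 this.symm
    have htop := (H3.normal_le_center_or_eq_top hF hn h32 ρ.ker).resolve_left
      fun hle => hnc (hle hker)
    intro g
    exact MonoidHom.mem_ker.1 (htop ▸ Subgroup.mem_top g)
  · exfalso
    set free := ∃ Z, MidVec σ E G Z with hfree
    have hfree' : free ∨ 2 ≤ m := by
      rcases hV with h | h
      · exact Or.inr (by omega)
      · exact Or.inl (hZex h.1)
    have hO := card_hermOrbit_ge hF hfree' hT hT0
    set O := hermOrbit σ free T with hOdef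
    have hmem : ∀ T' : O, (T'.1 ∈ hermMat hF m ∧ T'.1 ≠ 0) ∧
        suEigen hF hf hδ' ψ ρ T'.1 ≠ ⊥ := by
      rintro ⟨T', hT'⟩
      obtain ⟨A, hA, hd, rfl⟩ := mem_hermOrbit.1 hT'
      refine ⟨⟨show cT _ _ = _ from by
        rw [cT_mul, cT_mul, cT_cT (H3.conjQ_conjQ hF), (show cT σ T = T from hT)]
        exact (Matrix.mul_assoc _ _ _).symm, fun h0 => hT0 ?_⟩, suEigen_congr hF hf hδ' ψ ρ hA hd.symm hE⟩
      have hAc : IsUnit (cT σ A) := by
        rw [Matrix.isUnit_iff_isUnit_det, det_cT]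
        exact ((Matrix.isUnit_iff_isUnit_det A).1 hA).map σ
      exact hAc.mul_right_eq_zero.1 (hA.mul_left_eq_zero.1 h0)
    have key : ∀ k, (∀ T' : O, k ≤ finrank ℂ (suEigen hF hf hδ' ψ ρ T'.1)) →
        O.card * k ≤ finrank ℂ V := by
      intro k hk
      set w : O → Fin k → V := fun T' i =>
        ((Module.finBasis ℂ (suEigen hF hf hδ' ψ ρ T'.1)) (Fin.castLE (hk T') i) : V) with hw
      have hli := linearIndependent_suEigen hF hf hδ' ψ ρ hψ (fun T' : O => T'.1)
        (fun T' => (hmem T').1.1) Subtype.val_injective w (fun T' i => Submodule.coe_mem _)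
        (fun T' => ((Module.finBasis ℂ (suEigen hF hf hδ' ψ ρ T'.1)).linearIndependent.comp _
          (Fin.castLE_injective _)).map' _ (Submodule.ker_subtype _))
      simpa using hli.fintype_card_le_finrank
    rw [hF, ← pow_mul] at hO
    rcases hV with ⟨hn2, hV⟩ | ⟨hn2, hV⟩
    · have h1 := key 1 fun T' => by
        rw [Nat.one_le_iff_ne_zero]
        exact fun h0 => (hmem T').2 (Submodule.finrank_eq_zero.1 h0)
      rw [← hn2] at hO
      have h2 : (q + 1) * O.card ≤ finrank ℂ V * (q + 1) := by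
        rw [mul_comm (q + 1)]; exact Nat.mul_le_mul_right _ (by simpa using h1)
      omega
    · obtain ⟨Z, hZ⟩ := hZex hn2
      have h1 := key q fun T' =>
        le_finrank_suEigen hF hf hδ' ψ ρ hZ hψ (hmem T').1.1 (hmem T').1.2 (hmem T').2
      have h2 : q * ((q + 1) * O.card) ≤ finrank ℂ V * (q + 1) := by
        calc q * ((q + 1) * O.card) = O.card * q * (q + 1) := by ring
          _ ≤ _ := Nat.mul_le_mul_right _ h1
      have h3 := Nat.mul_le_mul_left q hO
      rw [Nat.mul_sub, mul_one] at h3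
      have h4 : q ^ n = q * q ^ (2 * m) := by rw [hn2, pow_succ, mul_comm]
      omega

end Cfsg.Agent.H39
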