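import Mathlib
import Cfsg.Agent.H2.Center
import Cfsg.Agent.H2.Simple
import Cfsg.Agent.H2.Perfect
import Cfsg.Agent.H39.SpLowerDeg
import Cfsg.Agent.H39.QuadOrbit

/-!
# Small representations of symplectic groups in characteristic two are trivial
-/

namespace Cfsg.Agent.H39

open Matrix Finset Module

variable {F : Type*} [Field F] {n : ℕ} [Fintype F] [DecidableEq F]
variable {V : Type*} [AddCommGroup V] [Module ℂ V]

/-- Eigenvectors for distinct characters of the radical are independent. -/
lemma linearIndependent_siegelEigen {ι : Type*} [Fintype ι] {ψ : AddChar F ℂ}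
    (ρ : Representation ℂ (Matrix.symplecticGroup (Fin n) F) V)
    (T : ι → Matrix (Fin n) (Fin n) F) (w : ι → V) (hw0 : ∀ i, w i ≠ 0)
    (hwE : ∀ i, SiegelEigen ρ ψ (T i) (w i))
    (hinj : ∀ i j, symChar ψ (T i) = symChar ψ (T j) → i = j) : LinearIndependent ℂ w := by
  classical
  haveI : Fintype (symMat n F) := Fintype.ofFinite _
  rw [Fintype.linearIndependent_iff]
  intro g hg i
  have h := congrArg
    ⇑(∑ S : symMat n F, symChar ψ (T i) (-S) • ρ (siegelU S) : Module.End ℂ V) hg
  rw [map_sum, map_zero] at h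
  simp only [map_smul, LinearMap.sum_apply, LinearMap.smul_apply, hwE _ _, smul_smul,
    ← Finset.sum_smul] at h
  rw [Finset.sum_eq_single i] at h
  · have hone : ∀ S : symMat n F, symChar ψ (T i) (-S) * symChar ψ (T i) S = 1 := fun S => by
      rw [← AddChar.map_add_eq_mul, neg_add_cancel, AddChar.map_zero_eq_one]
    simp only [hone] at h
    simp [hw0, Fintype.card_ne_zero] at h
    exact h
  · intro j _ hji
    have hne : symChar ψ (T j - T i) ≠ 1 := by
      intro h1
      apply hji
      refine hinj j i (DFunLike.ext _ _ fun S => ?_)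
      have h2 := DFunLike.congr_fun h1 S
      simp only [symChar_apply, sub_mul, trace_sub, AddChar.one_apply,
        AddChar.map_sub_eq_div] at h2 ⊢
      rwa [div_eq_one_iff_eq ((AddChar.val_isUnit ψ _).ne_zero)] at h2
    have hz : ∑ S : symMat n F, symChar ψ (T i) (-S) * symChar ψ (T j) S = 0 := by
      rw [← AddChar.sum_eq_zero_of_ne_one hne]
      refine Finset.sum_congr rfl fun S _ => ?_
      simp only [symChar_apply, ← AddChar.map_add_eq_mul]
      congr 1
      simp [sub_mul]
      ring
    rw [hz, mul_zero, zero_smul]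
  · simp

/-- An eigenvector whose matrix has non-zero polar forces a large dimension. -/
lemma card_quadOrbit_le_finrank [FiniteDimensional ℂ V] {ψ : AddChar F ℂ} (hψ : ψ ≠ 1)
    (ρ : Representation ℂ (Matrix.symplecticGroup (Fin n) F) V) {T : Matrix (Fin n) (Fin n) F}
    {v : V} (hv : v ≠ 0) (hE : SiegelEigen ρ ψ T v) :
    (quadOrbit T).card ≤ finrank ℂ V := by
  classical
  have hA : ∀ Q : quadOrbit T, ∃ A : Matrix (Fin n) (Fin n) F, IsUnit A ∧
      (fun x => quadOf T (A *ᵥ x)) = Q.1 := fun Q => mem_quadOrbit.1 Q.2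
  choose A hAu hAQ using hA
  set w : quadOrbit T → V := fun Q =>
    ρ (siegelM (A Q)⁻¹ (Matrix.isUnit_nonsing_inv_iff.2 (hAu Q))) v with hw
  have hli : LinearIndependent ℂ w := by
    refine linearIndependent_siegelEigen ρ (fun Q => (A Q)ᵀ * T * A Q) w (fun Q h0 => ?_)
      (fun Q => hE.congr (hAu Q) _ rfl) fun Q R h => ?_
    · apply hv
      have := congrArg (ρ (siegelM (A Q)⁻¹ (Matrix.isUnit_nonsing_inv_iff.2 (hAu Q)))⁻¹) h0
      rwa [hw, Representation.inv_self_apply, map_zero] at this
    · apply Subtype.ext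
      rw [← hAQ Q, ← hAQ R]
      funext x
      obtain ⟨c, hc⟩ := AddChar.ne_one_iff.1 hψ
      by_contra hne
      apply hc
      set d := quadOf T (A Q *ᵥ x) - quadOf T (A R *ᵥ x) with hd
      have hd0 : d ≠ 0 := sub_ne_zero.2 hne
      let S : symMat n F := ⟨(c / d) • vecMulVec x x,
        (show (_ • _ : Matrix (Fin n) (Fin n) F).IsSymm by simp [Matrix.IsSymm])⟩
      have h1 := DFunLike.congr_fun h S
      have htr : ∀ M : Matrix (Fin n) (Fin n) F,
          (M * S.1).trace = c / d * (x ⬝ᵥ (M *ᵥ x)) := fun M => by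
        simp [S, Matrix.mul_vecMulVec, trace_vecMulVec, dotProduct_comm]
      simp only [symChar_apply, htr] at h1
      have hq : ∀ R, x ⬝ᵥ (((A R)ᵀ * T * A R) *ᵥ x) = quadOf T (A R *ᵥ x) := fun R => by
        rw [quad_congr]; rfl
      rw [hq, hq] at h1
      have : c = c / d * quadOf T (A Q *ᵥ x) - c / d * quadOf T (A R *ᵥ x) := by
        rw [← mul_sub, ← hd, div_mul_cancel₀ c hd0]
      rw [this, AddChar.map_sub_eq_div, h1, div_self ((AddChar.val_isUnit ψ _).ne_zero)]
  simpa using hli.fintype_card_le_finrank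

/-- A symplectic representation of small dimension in characteristic two is trivial. -/
theorem sp_even_rep_trivial_of_finrank_lt [FiniteDimensional ℂ V] [CharP F 2] (hn : 2 ≤ n)
    (hex : n = 2 → 3 ≤ Fintype.card F)
    (ρ : Representation ℂ (Matrix.symplecticGroup (Fin n) F) V)
    (hV : finrank ℂ V * (2 * (Fintype.card F + 1)) <
      (Fintype.card F ^ n - 1) * (Fintype.card F ^ n - Fintype.card F)) : ∀ g, ρ g = 1 := by
  classical
  haveI : Fintype (symMat n F) := Fintype.ofFinite _
  obtain ⟨ψ, hψ⟩ := (AddChar.exists_apply_ne_zero (a := (1 : F))).2 one_ne_zero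
  have hψ1 : ψ ≠ 1 := AddChar.ne_one_iff.2 ⟨1, hψ⟩
  have hpol : ∀ (T : Matrix (Fin n) (Fin n) F) (v : V), v ≠ 0 → SiegelEigen ρ ψ T v →
      T + Tᵀ = 0 := by
    intro T v hv hE
    by_contra hT
    have h1 := card_quadOrbit_ge hT
    have h2 := card_quadOrbit_le_finrank hψ1 ρ hv hE
    have := Nat.mul_le_mul_right (2 * (Fintype.card F + 1)) h2
    omega
  set i₀ : Fin n := ⟨0, by omega⟩
  set i₁ : Fin n := ⟨1, by omega⟩
  have h01 : i₀ ≠ i₁ := by simp [i₀, i₁, Fin.ext_iff]
  let S₀ : symMat n F := ⟨Matrix.single i₀ i₁ 1 + Matrix.single i₁ i₀ 1,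
    (show (_ + _ : Matrix (Fin n) (Fin n) F).IsSymm by
      simp [Matrix.IsSymm, transpose_add, add_comm])⟩
  have hker : ρ (siegelU S₀) = 1 := by
    set K : Matrix (Fin n) (Fin n) F → Module.End ℂ V := fun T =>
      ∑ S, symChar ψ T (-S) • ρ (siegelU S) with hK
    have hKmul : ∀ T R, ρ (siegelU R) * K T = symChar ψ T R • K T := by
      intro T R
      simp only [hK, Finset.mul_sum, Finset.smul_sum]
      refine Fintype.sum_equiv (Equiv.addLeft R) _ _ fun S => ?_
      rw [mul_smul_comm, ← map_mul, ← siegelU_add, smul_smul, Equiv.coe_addLeft,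
        ← AddChar.map_add_eq_mul]
      congr 2
      simp [neg_add_rev, add_left_comm]
    have hfix : ∀ T, ρ (siegelU S₀) * K T = K T := by
      intro T
      rcases eq_or_ne (K T) 0 with h0 | h0
      · rw [h0, mul_zero]
      obtain ⟨x, hx⟩ : ∃ x, K T x ≠ 0 := by
        by_contra hc
        push Not at hc
        exact h0 (LinearMap.ext hc)
      have hT := hpol T (K T x) hx fun R => by
        simpa using LinearMap.congr_fun (hKmul T R) x
      rw [hKmul]
      have h' := congrFun (congrFun hT i₀) i₁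
      simp only [Matrix.add_apply, transpose_apply, Matrix.zero_apply] at h'
      have : (T * S₀.1).trace = T i₁ i₀ + T i₀ i₁ := by
        simp [S₀, mul_add, Matrix.trace_mul_single]
      rw [symChar_apply, this, add_comm, h', AddChar.map_zero_eq_one, one_smul]
    have hsum : ∑ T, K T =
        (Fintype.card (Matrix (Fin n) (Fin n) F) : ℂ) • (1 : Module.End ℂ V) := by
      simp only [hK]
      rw [Finset.sum_comm]
      simp only [← Finset.sum_smul]
      rw [Finset.sum_eq_single 0]
      · simp [siegelU_zero]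
      · intro S _ hS
        have hS1 : (-S : symMat n F).1 ≠ 0 := fun h => neg_ne_zero.2 hS (Subtype.ext h)
        set χ : AddChar (Matrix (Fin n) (Fin n) F) ℂ := ψ.compAddMonoidHom
          (AddMonoidHom.mk' (fun T : Matrix (Fin n) (Fin n) F => (T * (-S : symMat n F).1).trace)
            fun a b => by simp [add_mul, add_comm])
        have hne : χ ≠ 1 := by
          obtain ⟨i, j, hij⟩ : ∃ i j, (-S : symMat n F).1 i j ≠ 0 := by
            by_contra hc
            push Not at hc
            exact hS1 (Matrix.ext hc)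
          refine AddChar.ne_one_iff.2 ⟨Matrix.single j i (1 / (-S : symMat n F).1 i j), ?_⟩
          show ψ (Matrix.single j i (1 / (-S : symMat n F).1 i j) * (-S : symMat n F).1).trace ≠ 1
          rw [Matrix.trace_single_mul, one_div, smul_eq_mul, inv_mul_cancel₀ hij]
          exact hψ
        rw [show ∑ T, symChar ψ T (-S) = 0 from AddChar.sum_eq_zero_of_ne_one hne, zero_smul]
      · simp
    have h : ρ (siegelU S₀) * ∑ T, K T = ∑ T, K T := by simp only [Finset.mul_sum, hfix]
    rw [hsum, mul_smul_comm, mul_one] at h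
    exact (smul_right_injective (Module.End ℂ V)
      (Nat.cast_ne_zero.2 Fintype.card_ne_zero :
        (Fintype.card (Matrix (Fin n) (Fin n) F) : ℂ) ≠ 0) h)
  have hperf : commutator (Matrix.symplecticGroup (Fin n) F) = ⊤ := H2.commutator_sp_eq_top (by omega)
  haveI := H2.psp_isSimpleGroup_of (F := F) (m := n) (by omega) hperf
  have hcen : Subgroup.center (Matrix.symplecticGroup (Fin n) F) = ⊥ := by
    rw [Subgroup.eq_bot_iff_forall]
    intro g hg
    rcases (H2.mem_center_iff_eq (by omega) g).1 hg with h | h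
    · exact Subtype.ext h
    · exact Subtype.ext (h.trans (Matrix.ext fun i j => CharTwo.neg_eq _))
  have hmap : (ρ.ker.map (QuotientGroup.mk' (Subgroup.center _)) :
      Subgroup (Cfsg.PSp n F)).Normal :=
    Subgroup.Normal.map inferInstance _ (QuotientGroup.mk'_surjective _)
  have hne1 : siegelU S₀ ≠ 1 := by
    intro h
    have := congrFun (congrFun (congrArg Subtype.val h) (Sum.inl i₀)) (Sum.inr i₁)
    simp [siegelU, S₀, h01, h01.symm, Matrix.single] at this
  rcases hmap.eq_bot_or_eq_top with h | h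
  · exfalso
    have := (Subgroup.map_eq_bot_iff _).1 h (MonoidHom.mem_ker.2 hker)
    rw [QuotientGroup.ker_mk', hcen, Subgroup.mem_bot] at this
    exact hne1 this
  · intro g
    obtain ⟨k, hk, hkg⟩ := (h ▸ Subgroup.mem_top (QuotientGroup.mk' _ g) :
      QuotientGroup.mk' _ g ∈ ρ.ker.map _)
    have := QuotientGroup.eq.1 hkg
    rw [hcen, Subgroup.mem_bot, inv_mul_eq_one] at this
    exact this ▸ MonoidHom.mem_ker.1 hk

end Cfsg.Agent.H39
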