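import Mathlib
import Cfsg.Agent.H39.SpLowerDeg

/-!
# Siegel generators of the symplectic group

Identities between Siegel unipotent elements, Levi elements and the coordinate Weyl elements,
and the fact that unipotent and Weyl elements generate.
-/

set_option autoImplicit false

namespace Cfsg.Agent.H39

open Matrix Finset

variable {F : Type*} [Field F] {n : ℕ}

/-- The symmetric matrix with one diagonal entry. -/
def symDiag (i : Fin n) (s : F) : symMat n F :=
  ⟨Matrix.single i i s, (show (Matrix.single i i s).IsSymm by simp [Matrix.IsSymm])⟩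

/-- The symmetric matrix with two off-diagonal entries. -/
def symPair (i j : Fin n) (s : F) : symMat n F :=
  ⟨Matrix.single i j s + Matrix.single j i s,
    (show (Matrix.single i j s + Matrix.single j i s).IsSymm by
      simp [Matrix.IsSymm, add_comm])⟩

@[simp] lemma coe_symDiag (i : Fin n) (s : F) : (symDiag i s).1 = Matrix.single i i s := rfl

@[simp] lemma coe_symPair (i j : Fin n) (s : F) :
    (symPair i j s).1 = Matrix.single i j s + Matrix.single j i s := rfl

/-- Twice a symmetric matrix is a sum of pair matrices. -/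
lemma symMat_eq_sum_pair (h2 : (2 : F) ≠ 0) (S : symMat n F) :
    S = ∑ i, ∑ j, symPair i j (2⁻¹ * S.1 i j) := by
  apply Subtype.ext
  simp only [AddSubgroup.val_finsetSum, coe_symPair]
  have hS : S.1.IsSymm := S.2
  have key : ∀ (f : Fin n → Fin n → F),
      ∑ i, ∑ j, Matrix.single i j (f i j) = Matrix.of f :=
    fun f => (Matrix.matrix_eq_sum_single (Matrix.of f)).symm
  simp only [Finset.sum_add_distrib, key]
  conv_rhs => enter [2]; rw [Finset.sum_comm]
  simp only [key]
  ext i j
  simp only [Matrix.add_apply, Matrix.of_apply, hS.apply i j]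
  rw [← add_mul, ← two_mul, mul_inv_cancel₀ h2, one_mul]

/-- The Levi embedding of the general linear group. -/
noncomputable def mHom : (Matrix (Fin n) (Fin n) F)ˣ →* Matrix.symplecticGroup (Fin n) F where
  toFun A := siegelM A.1 A.isUnit
  map_one' := Subtype.ext (by simp [siegelM])
  map_mul' A B := Subtype.ext (by
    simp [siegelM, fromBlocks_multiply, Matrix.mul_inv_rev, Matrix.transpose_mul])

lemma mHom_mulVec (A : (Matrix (Fin n) (Fin n) F)ˣ) (a b : Fin n → F) :
    (mHom A : Matrix (Fin n ⊕ Fin n) (Fin n ⊕ Fin n) F) *ᵥ Sum.elim a b =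
      Sum.elim (A.1 *ᵥ a) ((A.1⁻¹)ᵀ *ᵥ b) := by
  simp [mHom, siegelM, Matrix.fromBlocks_mulVec]

lemma siegelU_mulVec (S : symMat n F) (a b : Fin n → F) :
    (siegelU S : Matrix (Fin n ⊕ Fin n) (Fin n ⊕ Fin n) F) *ᵥ Sum.elim a b =
      Sum.elim (a + S.1 *ᵥ b) b := by
  simp [siegelU, Matrix.fromBlocks_mulVec]

/-- The Weyl element of one coordinate. -/
def wEl (i : Fin n) : Matrix.symplecticGroup (Fin n) F :=
  ⟨fromBlocks (1 - Matrix.single i i 1) (Matrix.single i i 1) (-Matrix.single i i 1)
      (1 - Matrix.single i i 1), by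
    rw [SymplecticGroup.fromBlocks_mem_iff]
    simp [Matrix.mul_sub, Matrix.sub_mul]⟩

/-- The lower unipotent element of one coordinate. -/
def lEl (i : Fin n) (y : F) : Matrix.symplecticGroup (Fin n) F :=
  ⟨fromBlocks 1 0 (-Matrix.single i i y) 1, by
    rw [SymplecticGroup.fromBlocks_mem_iff]
    simp⟩

lemma wEl_mulVec (i : Fin n) (a b : Fin n → F) :
    ((wEl i : Matrix.symplecticGroup (Fin n) F) :
      Matrix (Fin n ⊕ Fin n) (Fin n ⊕ Fin n) F) *ᵥ Sum.elim a b =
      Sum.elim (Function.update a i (b i)) (Function.update b i (-a i)) := by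
  simp only [wEl, Matrix.fromBlocks_mulVec, Sum.elim_comp_inl, Sum.elim_comp_inr]
  congr 1 <;> funext j <;> by_cases hj : j = i <;>
    simp [Matrix.sub_mulVec, Matrix.neg_mulVec, hj, Matrix.single_mulVec, Pi.single_apply]

lemma lEl_mulVec (i : Fin n) (y : F) (a b : Fin n → F) :
    (lEl i y : Matrix (Fin n ⊕ Fin n) (Fin n ⊕ Fin n) F) *ᵥ Sum.elim a b =
      Sum.elim a (b - Pi.single i (y * a i)) := by
  simp only [lEl, Matrix.fromBlocks_mulVec, Sum.elim_comp_inl, Sum.elim_comp_inr]
  congr 1
  · simp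
  · funext j
    by_cases hj : j = i <;>
      simp [Matrix.neg_mulVec, hj, Matrix.single_mulVec, Pi.single_apply, sub_eq_add_neg, add_comm]

lemma sp_ext {g h : Matrix.symplecticGroup (Fin n) F}
    (hgh : ∀ a b, (g : Matrix (Fin n ⊕ Fin n) (Fin n ⊕ Fin n) F) *ᵥ Sum.elim a b =
      (h : Matrix (Fin n ⊕ Fin n) (Fin n ⊕ Fin n) F) *ᵥ Sum.elim a b) : g = h :=
  H2.ext_of_mulVec fun v => by
    have := hgh (v ∘ Sum.inl) (v ∘ Sum.inr)
    rwa [Sum.elim_comp_inl_inr] at this

lemma lEl_mul_wEl (i : Fin n) (y : F) :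
    lEl i y * wEl i = wEl i * siegelU (symDiag i y) := by
  refine sp_ext fun a b => ?_
  simp only [Submonoid.coe_mul, ← Matrix.mulVec_mulVec, wEl_mulVec, siegelU_mulVec, lEl_mulVec,
    coe_symDiag, Matrix.single_mulVec]
  congr 1 <;> funext j <;> by_cases hj : j = i <;> simp [hj, Pi.single_apply]
  ring

/-- A diagonal unit supported in one coordinate. -/
def diagUnit (i : Fin n) (a : Fˣ) : (Matrix (Fin n) (Fin n) F)ˣ where
  val := Matrix.diagonal (Function.update 1 i (a : F))
  inv := Matrix.diagonal (Function.update 1 i ((a⁻¹ : Fˣ) : F))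
  val_inv := by
    rw [Matrix.diagonal_mul_diagonal, ← Matrix.diagonal_one]
    congr 1
    funext j
    by_cases hj : j = i <;> simp [hj]
  inv_val := by
    rw [Matrix.diagonal_mul_diagonal, ← Matrix.diagonal_one]
    congr 1
    funext j
    by_cases hj : j = i <;> simp [hj]

lemma inv_diagUnit (i : Fin n) (a : Fˣ) :
    (diagUnit i a).1⁻¹ = Matrix.diagonal (Function.update 1 i ((a⁻¹ : Fˣ) : F)) :=
  Matrix.inv_eq_right_inv (diagUnit i a).val_inv

lemma diagUnit_mul_wEl (i : Fin n) (a : Fˣ) :
    mHom (diagUnit i a) * wEl i =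
      siegelU (symDiag i (a : F)) * lEl i ((a⁻¹ : Fˣ) : F) * siegelU (symDiag i (a : F)) := by
  refine sp_ext fun x y => ?_
  simp only [Submonoid.coe_mul, ← Matrix.mulVec_mulVec, wEl_mulVec, siegelU_mulVec, lEl_mulVec,
    coe_symDiag, Matrix.single_mulVec, mHom_mulVec, inv_diagUnit, Matrix.diagonal_transpose]
  congr 1 <;> funext j <;> by_cases hj : j = i <;>
    simp [hj, diagUnit, Matrix.mulVec_diagonal, Pi.single_apply] <;> field_simp <;> ring

/-- A transvection as a unit. -/
def trUnit {i j : Fin n} (h : i ≠ j) (c : F) : (Matrix (Fin n) (Fin n) F)ˣ where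
  val := Matrix.transvection i j c
  inv := Matrix.transvection i j (-c)
  val_inv := by rw [Matrix.transvection_mul_transvection_same (h := h)]; simp
  inv_val := by rw [Matrix.transvection_mul_transvection_same (h := h)]; simp

lemma inv_trUnit {i j : Fin n} (h : i ≠ j) (c : F) :
    (trUnit h c).1⁻¹ = Matrix.transvection i j (-c) :=
  Matrix.inv_eq_right_inv (trUnit h c).val_inv

lemma mHom_trUnit_mulVec {i j : Fin n} (h : i ≠ j) (c : F) (a b : Fin n → F) :
    (mHom (trUnit h c) : Matrix (Fin n ⊕ Fin n) (Fin n ⊕ Fin n) F) *ᵥ Sum.elim a b =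
      Sum.elim (a + Pi.single i (c * a j)) (b - Pi.single j (c * b i)) := by
  rw [mHom_mulVec, inv_trUnit]
  congr 1 <;> funext k
  · by_cases hk : k = i <;>
      simp [trUnit, Matrix.transvection, Matrix.add_mulVec, Matrix.single_mulVec, hk]
  · by_cases hk : k = j <;>
      simp [Matrix.transvection, Matrix.add_mulVec, Matrix.single_mulVec, hk, sub_eq_add_neg]

lemma wEl_mul_pair {i j : Fin n} (h : i ≠ j) (s : F) :
    wEl j * siegelU (symPair i j s) = mHom (trUnit h s) * wEl j := by
  refine sp_ext fun a b => ?_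
  simp only [Submonoid.coe_mul, ← Matrix.mulVec_mulVec, wEl_mulVec, siegelU_mulVec,
    coe_symPair, Matrix.add_mulVec, Matrix.single_mulVec, mHom_trUnit_mulVec]
  congr 1 <;> funext k <;> by_cases hk : k = j <;> by_cases hki : k = i <;>
    simp [hk, hki, h, h.symm, Pi.single_apply] at * <;> ring

lemma wEl_mul_trUnit {i j : Fin n} (h : i ≠ j) (s : F) :
    wEl j * mHom (trUnit h s) = siegelU (symPair i j (-s)) * wEl j := by
  refine sp_ext fun a b => ?_
  simp only [Submonoid.coe_mul, ← Matrix.mulVec_mulVec, wEl_mulVec, siegelU_mulVec,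
    coe_symPair, Matrix.add_mulVec, Matrix.single_mulVec, mHom_trUnit_mulVec]
  congr 1 <;> funext k <;> by_cases hk : k = j <;> by_cases hki : k = i <;>
    simp [hk, hki, h, h.symm, Pi.single_apply] at * <;> ring

lemma wEl_comm (i j : Fin n) : Commute (wEl (F := F) i) (wEl j) := by
  by_cases h : i = j
  · rw [h]
  refine sp_ext fun a b => ?_
  simp only [Submonoid.coe_mul, ← Matrix.mulVec_mulVec, wEl_mulVec]
  congr 1 <;> funext k <;> by_cases hk : k = i <;> by_cases hkj : k = j <;>
    simp [hk, hkj, h, Ne.symm h] at *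

lemma wEl_comm_siegelU (j : Fin n) (S : symMat n F) (hS : ∀ k, S.1 j k = 0) :
    Commute (wEl j) (siegelU S) := by
  have hs : ∀ k, S.1 k j = 0 := fun k => by rw [(show S.1.IsSymm from S.2).apply]; exact hS k
  refine sp_ext fun a b => ?_
  simp only [Submonoid.coe_mul, ← Matrix.mulVec_mulVec, wEl_mulVec, siegelU_mulVec]
  congr 1 <;> funext k <;> by_cases hk : k = j
  · simp [hk, Matrix.mulVec, dotProduct, hS]
  · simp only [Function.update_of_ne hk, Pi.add_apply, add_right_inj, Matrix.mulVec, dotProduct]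
    refine Finset.sum_congr rfl fun l _ => ?_
    by_cases hl : l = j <;> simp [hl, hs]
  · simp [hk, Matrix.mulVec, dotProduct, hS]
  · simp [hk]

lemma wEl_comm_mHom (j : Fin n) (A : (Matrix (Fin n) (Fin n) F)ˣ)
    (h : A.1 * Matrix.single j j 1 = Matrix.single j j 1)
    (h' : Matrix.single j j 1 * A.1 = Matrix.single j j 1) :
    Commute (wEl j) (mHom A) := by
  have hi : A.1⁻¹ * Matrix.single j j 1 = Matrix.single j j 1 := by
    conv_lhs => rw [← h]
    rw [← mul_assoc, Matrix.nonsing_inv_mul _ ((Matrix.isUnit_iff_isUnit_det _).1 A.isUnit),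
      one_mul]
  have hi' : Matrix.single j j 1 * A.1⁻¹ = Matrix.single j j 1 := by
    conv_lhs => rw [← h']
    rw [mul_assoc, Matrix.mul_nonsing_inv _ ((Matrix.isUnit_iff_isUnit_det _).1 A.isUnit),
      mul_one]
  have e1 := congrArg Matrix.transpose hi
  have e2 := congrArg Matrix.transpose hi'
  simp only [Matrix.transpose_mul, Matrix.transpose_single] at e1 e2
  apply Subtype.ext
  simp only [Submonoid.coe_mul, wEl, mHom, siegelM, MonoidHom.coe_mk, OneHom.coe_mk,
    fromBlocks_multiply, sub_mul, mul_sub, one_mul, mul_one, mul_zero, zero_mul, add_zero,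
    zero_add, neg_mul, mul_neg, neg_zero, sub_zero, h, h', e1, e2]

lemma wEl_sq (i : Fin n) : wEl (F := F) i * wEl i = mHom (diagUnit i (-1)) := by
  refine sp_ext fun a b => ?_
  simp only [Submonoid.coe_mul, ← Matrix.mulVec_mulVec, wEl_mulVec, mHom_mulVec, inv_diagUnit,
    Matrix.diagonal_transpose]
  congr 1 <;> funext k <;> by_cases hk : k = i <;>
    simp [hk, diagUnit, Matrix.mulVec_diagonal]

lemma wEl_pow_four (i : Fin n) : wEl (F := F) i ^ 4 = 1 := by
  rw [pow_succ, pow_succ, pow_succ, pow_one]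
  refine sp_ext fun a b => ?_
  simp only [Submonoid.coe_mul, Submonoid.coe_one, Matrix.one_mulVec, ← Matrix.mulVec_mulVec,
    wEl_mulVec]
  congr 1 <;> funext k <;> by_cases hk : k = i <;> simp [hk, Function.update_of_ne]

/-- The subgroup generated by unipotent Siegel elements and Weyl elements. -/
def siegelGroup (n : ℕ) (F : Type*) [Field F] : Subgroup (Matrix.symplecticGroup (Fin n) F) :=
  Subgroup.closure (Set.range siegelU ∪ Set.range wEl)

lemma siegelU_mem (S : symMat n F) : siegelU S ∈ siegelGroup n F :=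
  Subgroup.subset_closure (Or.inl ⟨S, rfl⟩)

lemma wEl_mem (i : Fin n) : wEl i ∈ siegelGroup n F :=
  Subgroup.subset_closure (Or.inr ⟨i, rfl⟩)

/-- A symmetric matrix with prescribed value at a non-zero vector. -/
lemma exists_symm_mulVec {b : Fin n → F} (hb : b ≠ 0) (y : Fin n → F) :
    ∃ S : symMat n F, S.1 *ᵥ b = y := by
  obtain ⟨i, hi⟩ := Function.ne_iff.1 hb
  simp only [Pi.zero_apply] at hi
  set ε : Fin n → F := Pi.single i (b i)⁻¹ with hε
  have h1 : ε ⬝ᵥ b = 1 := by simp [hε, hi]
  refine ⟨⟨vecMulVec y ε + vecMulVec ε y - (y ⬝ᵥ b) • vecMulVec ε ε,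
    (show Matrix.IsSymm _ by
      simp [Matrix.IsSymm, add_comm])⟩, ?_⟩
  simp [Matrix.add_mulVec, Matrix.sub_mulVec, Matrix.smul_mulVec, Matrix.vecMulVec_mulVec, h1]

/-- The generated subgroup moves each non-zero vector to a fixed one. -/
lemma exists_siegel_map (i₀ : Fin n) {v : Fin n ⊕ Fin n → F} (hv : v ≠ 0) :
    ∃ g ∈ siegelGroup n F, (g : Matrix (Fin n ⊕ Fin n) (Fin n ⊕ Fin n) F) *ᵥ
      Sum.elim (0 : Fin n → F) (Pi.single i₀ 1) = v := by
  classical
  set K := siegelGroup n F
  let R : (Fin n → F) → (Fin n → F) → Prop := fun a b => ∃ g ∈ K,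
    (g : Matrix (Fin n ⊕ Fin n) (Fin n ⊕ Fin n) F) *ᵥ
      Sum.elim (0 : Fin n → F) (Pi.single i₀ 1) = Sum.elim a b
  have hshift : ∀ a a' b, b ≠ 0 → R a b → R a' b := by
    rintro a a' b hb ⟨g, hg, he⟩
    obtain ⟨S, hS⟩ := exists_symm_mulVec hb (a' - a)
    refine ⟨siegelU S * g, K.mul_mem (siegelU_mem S) hg, ?_⟩
    rw [Submonoid.coe_mul, ← Matrix.mulVec_mulVec, he, siegelU_mulVec, hS, add_sub_cancel]
  have hw : ∀ a b i, R a b → R (Function.update a i (b i)) (Function.update b i (-a i)) := by
    rintro a b i ⟨g, hg, he⟩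
    exact ⟨wEl i * g, K.mul_mem (wEl_mem i) hg, by
      rw [Submonoid.coe_mul, ← Matrix.mulVec_mulVec, he, wEl_mulVec]⟩
  have h0 : R 0 (Pi.single i₀ 1) := ⟨1, K.one_mem, by rw [Submonoid.coe_one, Matrix.one_mulVec]⟩
  have hset : ∀ b i t, b ≠ 0 → (∀ a, R a b) → Function.update b i t ≠ 0 →
      ∀ a, R a (Function.update b i t) := by
    intro b i t hb hR hb' a
    refine hshift (Function.update (Pi.single i (-t)) i (b i)) a _ hb' ?_
    have := hw (Pi.single i (-t)) b i (hR _)
    rwa [Pi.single_eq_same, neg_neg] at this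
  have hall : ∀ b, b ≠ 0 → ∀ a, R a b := by
    intro b hb
    obtain ⟨k, hk⟩ := Function.ne_iff.1 hb
    simp only [Pi.zero_apply] at hk
    have hstart : ∀ a, R a (Pi.single i₀ 1) := fun a => hshift 0 a _ (by simp) h0
    have hmid : ∀ a, R a (Function.update (Pi.single i₀ 1 : Fin n → F) k (b k)) :=
      hset _ k _ (by simp) hstart (fun h => hk (by simpa using congrFun h k))
    suffices ∀ s : Finset (Fin n), ∀ a, R a (fun j => if j = k ∨ j ∈ s then b j else
        (Pi.single i₀ 1 : Fin n → F) j) by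
      intro a
      have := this univ a
      simpa using this
    intro s
    induction s using Finset.induction with
    | empty =>
      intro a
      convert hmid a using 2
      by_cases hj : ‹Fin n› = k <;> simp [hj]
    | @insert i s his ih =>
      intro a
      by_cases hik : i = k
      · convert ih a using 2
        subst hik
        simp
      · have hne : ∀ c : Fin n → F, c k = b k → c ≠ 0 := fun c hc h => hk (by
          rw [← hc, h]; rfl)
        have := hset _ i (b i) (hne _ (by simp)) ih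
          (hne _ (by simp [Ne.symm hik])) a
        convert this using 2
        rename_i j
        by_cases hj : j = i
        · simp [hj]
        · simp [hj]
  by_cases hb : v ∘ Sum.inr = 0
  · have ha : v ∘ Sum.inl ≠ 0 := fun ha => hv (funext fun j => by
      rcases j with j | j
      · exact congrFun ha j
      · exact congrFun hb j)
    obtain ⟨i, hi⟩ := Function.ne_iff.1 ha
    simp only [Pi.zero_apply, Function.comp_apply] at hi
    obtain ⟨g, hg, he⟩ := hw _ _ i (hall (Pi.single i (v (Sum.inl i))) (by simpa using hi)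
      (Function.update (v ∘ Sum.inl) i 0))
    refine ⟨g, hg, ?_⟩
    rw [he]
    funext j
    rcases j with j | j
    · by_cases hj : j = i <;> simp [hj]
    · have := congrFun hb j
      simp only [Function.comp_apply, Pi.zero_apply] at this
      by_cases hj : j = i <;> simp [hj, this]
      · rw [← hj, this]
  · obtain ⟨g, hg, he⟩ := hall _ hb (v ∘ Sum.inl)
    exact ⟨g, hg, by rw [he, Sum.elim_comp_inl_inr]⟩

/-- Siegel unipotent elements and Weyl elements generate the symplectic group. -/
theorem siegelGroup_eq_top [NeZero n] : siegelGroup n F = ⊤ := by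
  classical
  rw [eq_top_iff, ← H2.closure_transv_eq_top, Subgroup.closure_le]
  rintro _ ⟨v, c, rfl⟩
  rcases eq_or_ne v 0 with hv | hv
  · have : H2.transv v c = (1 : Matrix.symplecticGroup (Fin n) F) := by
      refine H2.ext_of_mulVec fun y => ?_
      simp [H2.coe_transv, H2.sympTransvection_mulVec, hv]
    rw [this]
    exact one_mem _
  obtain ⟨g, hg, he⟩ := exists_siegel_map 0 hv
  set e : Fin n ⊕ Fin n → F := Pi.single (.inl 0) 1 with hedef
  have hwe : ((wEl 0 : Matrix.symplecticGroup (Fin n) F) :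
      Matrix (Fin n ⊕ Fin n) (Fin n ⊕ Fin n) F) *ᵥ
      Sum.elim (0 : Fin n → F) (Pi.single 0 1) = e := by
    rw [wEl_mulVec]
    funext j
    rcases j with j | j <;> by_cases hj : j = 0 <;> simp [hedef, hj]
  have hmem : H2.transv e c ∈ siegelGroup n F := by
    have : H2.transv e c = siegelU (symDiag 0 c) := by
      refine sp_ext fun a b => ?_
      simp only [H2.coe_transv, H2.sympTransvection_mulVec, siegelU_mulVec]
      rw [H2.sympForm_swap, hedef, H2.sympForm_single_inl, neg_neg]
      funext j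
      rcases j with j | j <;> by_cases hj : j = 0 <;> simp [hj, Matrix.single_mulVec]
    rw [this]
    exact siegelU_mem _
  have hk : ((g * (wEl 0)⁻¹ : Matrix.symplecticGroup (Fin n) F) :
      Matrix (Fin n ⊕ Fin n) (Fin n ⊕ Fin n) F) *ᵥ e = v := by
    rw [← hwe, Matrix.mulVec_mulVec, ← Submonoid.coe_mul, inv_mul_cancel_right, he]
  have hgw : g * (wEl 0)⁻¹ ∈ siegelGroup n F :=
    Subgroup.mul_mem _ hg (Subgroup.inv_mem _ (wEl_mem 0))
  have := Subgroup.mul_mem _ (Subgroup.mul_mem _ hgw hmem) (Subgroup.inv_mem _ hgw)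
  rwa [H2.conj_transv, hk] at this

end Cfsg.Agent.H39
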