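import Mathlib
import Cfsg.Agent.H39.WeilRep
import Cfsg.Agent.H39.WeilGapEl

/-!
# The Weil representation on all functions

The normalised intertwiners, twisted by the standard element `J`, give a representation in which
the Siegel unipotent radical acts diagonally.
-/

set_option autoImplicit false

namespace Cfsg.Agent.H39

open Matrix Finset Module

variable {F : Type*} [Field F] [Fintype F] [DecidableEq F] {n : ℕ}

/-- Conjugation by the standard element. -/
def conjJ : Matrix.symplecticGroup (Fin n) F →* Matrix.symplecticGroup (Fin n) F :=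
  (MulAut.conj (SymplecticGroup.symJ (Fin n) F)).toMonoidHom

/-- The Weil representation on all functions. -/
noncomputable def weilFull (h2 : (2 : F) ≠ 0) {ψ : AddChar F ℂ} (hψ : ψ ≠ 1) :
    Representation ℂ (Matrix.symplecticGroup (Fin n) F) ((Fin n → F) → ℂ) where
  toFun g := weilOp h2 hψ (conjJ g)
  map_one' := by
    rw [map_one]
    exact (IsWeil.one ψ).unique h2 hψ (isWeil_weilOp h2 hψ 1)
  map_mul' g h := by
    rw [map_mul]
    exact ((isWeil_weilOp h2 hψ (conjJ g)).mul h2 hψ (isWeil_weilOp h2 hψ (conjJ h))).unique h2 hψ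
      (isWeil_weilOp h2 hψ _)

lemma weilFull_commute_negOp (h2 : (2 : F) ≠ 0) {ψ : AddChar F ℂ} (hψ : ψ ≠ 1)
    (g : Matrix.symplecticGroup (Fin n) F) : Commute (weilFull h2 hψ g) (negOp F n) :=
  (isWeil_weilOp h2 hψ (conjJ g)).1.commute_negOp h2 hψ (isWeil_weilOp h2 hψ (conjJ g)).2.1

lemma weilFull_eq_smul (h2 : (2 : F) ≠ 0) {ψ : AddChar F ℂ} (hψ : ψ ≠ 1)
    {g : Matrix.symplecticGroup (Fin n) F} {T : Module.End ℂ ((Fin n → F) → ℂ)}
    (hu : IsUnit T) (hT : IsInter ψ (conjJ g) T) : ∃ c : ℂ, weilFull h2 hψ g = c • T :=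
  hT.exists_eq_smul hψ hu (isWeil_weilOp h2 hψ (conjJ g)).1

lemma conjJ_mulVec (g : Matrix.symplecticGroup (Fin n) F) (a b : Fin n → F) :
    (conjJ g : Matrix (Fin n ⊕ Fin n) (Fin n ⊕ Fin n) F) *ᵥ Sum.elim a b =
      (SymplecticGroup.symJ (Fin n) F : Matrix (Fin n ⊕ Fin n) (Fin n ⊕ Fin n) F) *ᵥ
        ((g : Matrix (Fin n ⊕ Fin n) (Fin n ⊕ Fin n) F) *ᵥ Sum.elim b (-a)) := by
  have h : conjJ g * SymplecticGroup.symJ (Fin n) F = SymplecticGroup.symJ (Fin n) F * g := by
    simp [conjJ, MulAut.conj_apply]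
  have hJ : (SymplecticGroup.symJ (Fin n) F : Matrix (Fin n ⊕ Fin n) (Fin n ⊕ Fin n) F) *ᵥ
      Sum.elim b (-a) = Sum.elim a b := by
    simp [Matrix.J, Matrix.fromBlocks_mulVec, Matrix.neg_mulVec]
  rw [Matrix.mulVec_mulVec, ← Submonoid.coe_mul, ← h, Submonoid.coe_mul, ← Matrix.mulVec_mulVec,
    hJ]

lemma symJ_mulVec (a b : Fin n → F) :
    (SymplecticGroup.symJ (Fin n) F : Matrix (Fin n ⊕ Fin n) (Fin n ⊕ Fin n) F) *ᵥ Sum.elim a b =
      Sum.elim (-b) a := by
  simp [Matrix.J, Matrix.fromBlocks_mulVec, Matrix.neg_mulVec]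

lemma sum_elim_eq (v : Fin n ⊕ Fin n → F) : v = Sum.elim (v ∘ Sum.inl) (v ∘ Sum.inr) :=
  (Sum.elim_comp_inl_inr v).symm

/-- Multiplication by the phase of a quadratic form. -/
noncomputable def phOp (ψ : AddChar F ℂ) (S : symMat n F) :
    Module.End ℂ ((Fin n → F) → ℂ) where
  toFun f x := ψ (2⁻¹ * (x ⬝ᵥ (S.1 *ᵥ x))) * f x
  map_add' f g := by
    funext x
    simp [mul_add]
  map_smul' c f := by
    funext x
    simp [mul_left_comm]

/-- Precomposition with a linear substitution. -/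
noncomputable def permOp (A : (Matrix (Fin n) (Fin n) F)ˣ) :
    Module.End ℂ ((Fin n → F) → ℂ) where
  toFun f x := f (A.1ᵀ *ᵥ x)
  map_add' _ _ := rfl
  map_smul' _ _ := rfl

/-- Fourier transform in one coordinate. -/
noncomputable def fourOp (ψ : AddChar F ℂ) (i : Fin n) :
    Module.End ℂ ((Fin n → F) → ℂ) where
  toFun f x := ∑ t, ψ (t * x i) * f (Function.update x i t)
  map_add' f g := by
    funext x
    simp [mul_add, Finset.sum_add_distrib]
  map_smul' c f := by
    funext x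
    simp [mul_left_comm, Finset.mul_sum]

omit [DecidableEq F] in
lemma phOp_apply (ψ : AddChar F ℂ) (S : symMat n F) (f : (Fin n → F) → ℂ) (x : Fin n → F) :
    phOp ψ S f x = ψ (2⁻¹ * (x ⬝ᵥ (S.1 *ᵥ x))) * f x := rfl

omit [DecidableEq F] in
lemma permOp_apply (A : (Matrix (Fin n) (Fin n) F)ˣ) (f : (Fin n → F) → ℂ) (x : Fin n → F) :
    permOp A f x = f (A.1ᵀ *ᵥ x) := rfl

omit [DecidableEq F] in
lemma fourOp_apply (ψ : AddChar F ℂ) (i : Fin n) (f : (Fin n → F) → ℂ) (x : Fin n → F) :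
    fourOp ψ i f x = ∑ t, ψ (t * x i) * f (Function.update x i t) := rfl

omit [Fintype F] [DecidableEq F] in
lemma isUnit_phOp (ψ : AddChar F ℂ) (S : symMat n F) : IsUnit (phOp ψ S) := by
  have h : ∀ R : symMat n F, phOp ψ R * phOp ψ (-R) = 1 := fun R =>
    LinearMap.ext fun f => funext fun x => by
      simp only [Module.End.mul_apply, phOp_apply, Module.End.one_apply, NegMemClass.coe_neg,
        Matrix.neg_mulVec, dotProduct_neg, mul_neg]
      rw [← mul_assoc, ← AddChar.map_add_eq_mul, add_neg_cancel, AddChar.map_zero_eq_one, one_mul]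
  exact ⟨⟨_, phOp ψ (-S), h S, by simpa using h (-S)⟩, rfl⟩

omit [Fintype F] [DecidableEq F] in
lemma isUnit_permOp (A : (Matrix (Fin n) (Fin n) F)ˣ) : IsUnit (permOp A) := by
  refine ⟨⟨_, permOp A⁻¹, ?_, ?_⟩, rfl⟩ <;> refine LinearMap.ext fun f => funext fun x => ?_ <;>
    simp [permOp_apply, Matrix.mulVec_mulVec, ← Matrix.transpose_mul, Units.inv_mul, Units.mul_inv]

omit [DecidableEq F] in
lemma fourOp_sq {ψ : AddChar F ℂ} (hψ : ψ ≠ 1) (i : Fin n) (f : (Fin n → F) → ℂ)
    (x : Fin n → F) : fourOp ψ i (fourOp ψ i f) x =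
      (Fintype.card F : ℂ) * f (Function.update x i (-x i)) := by
  classical
  simp only [fourOp_apply, Function.update_self, Function.update_idem, Finset.mul_sum]
  rw [Finset.sum_comm]
  have hs : ∀ s, ∑ t : F, ψ (t * x i) * (ψ (s * t) * f (Function.update x i s)) =
      (if x i + s = 0 then (Fintype.card F : ℂ) else 0) * f (Function.update x i s) := by
    intro s
    have hps := AddChar.sum_mulShift (x i + s) (AddChar.IsPrimitive.of_ne_one hψ)
    simp only [Nat.cast_ite, Nat.cast_zero] at hps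
    rw [← hps, Finset.sum_mul]
    refine Finset.sum_congr rfl fun t _ => ?_
    rw [← mul_assoc, ← AddChar.map_add_eq_mul]
    ring_nf
  simp only [hs]
  rw [Finset.sum_eq_single (-x i)]
  · simp
  · intro s _ hs
    rw [if_neg (fun h => hs (eq_neg_of_add_eq_zero_right h)), zero_mul]
  · simp

omit [DecidableEq F] in
lemma fourOp_pow_four {ψ : AddChar F ℂ} (hψ : ψ ≠ 1) (i : Fin n) :
    fourOp ψ i * fourOp ψ i * fourOp ψ i * fourOp ψ i =
      ((Fintype.card F : ℂ) ^ 2) • (1 : Module.End ℂ ((Fin n → F) → ℂ)) := by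
  classical
  refine LinearMap.ext fun f => funext fun x => ?_
  simp only [Module.End.mul_apply, LinearMap.smul_apply, Module.End.one_apply, Pi.smul_apply,
    smul_eq_mul]
  rw [fourOp_sq hψ, fourOp_sq hψ]
  simp [pow_two, mul_assoc]

omit [DecidableEq F] in
lemma isUnit_fourOp {ψ : AddChar F ℂ} (hψ : ψ ≠ 1) (i : Fin n) :
    IsUnit (fourOp (n := n) ψ i) := by
  have hq : ((Fintype.card F : ℂ) ^ 2) ≠ 0 := pow_ne_zero _ (Nat.cast_ne_zero.2 Fintype.card_ne_zero)
  refine ⟨⟨_, ((Fintype.card F : ℂ) ^ 2)⁻¹ • (fourOp ψ i * fourOp ψ i * fourOp ψ i), ?_, ?_⟩, rfl⟩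
  · show fourOp ψ i * _ = 1
    rw [mul_smul_comm, ← mul_assoc, ← mul_assoc, fourOp_pow_four hψ, smul_smul,
      inv_mul_cancel₀ hq, one_smul]
  · show _ * fourOp ψ i = 1
    rw [smul_mul_assoc, fourOp_pow_four hψ, smul_smul, inv_mul_cancel₀ hq, one_smul]

lemma isInter_phOp (h2 : (2 : F) ≠ 0) (ψ : AddChar F ℂ) (S : symMat n F) :
    IsInter ψ (conjJ (siegelU S)) (phOp ψ S) := by
  intro v
  obtain ⟨a, b, rfl⟩ : ∃ a b, v = Sum.elim a b := ⟨_, _, sum_elim_eq v⟩
  refine LinearMap.ext fun f => funext fun x => ?_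
  simp only [Module.End.mul_apply, phOp_apply, wOp_apply, conjJ_mulVec, siegelU_mulVec,
    symJ_mulVec, neg_neg, Sum.elim_comp_inl, Sum.elim_comp_inr]
  rw [← mul_assoc, ← mul_assoc, ← AddChar.map_add_eq_mul, ← AddChar.map_add_eq_mul]
  congr 2
  have hS : S.1.IsSymm := S.2
  have hc : x ⬝ᵥ (S.1 *ᵥ a) = a ⬝ᵥ (S.1 *ᵥ x) := by
    rw [Matrix.dotProduct_mulVec, ← Matrix.mulVec_transpose, hS.eq, dotProduct_comm]
  simp only [Matrix.mulVec_neg, Matrix.mulVec_add, add_dotProduct, dotProduct_add, dotProduct_neg,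
    neg_dotProduct]
  rw [dotProduct_comm (S.1 *ᵥ a) x, hc]
  have := mul_inv_cancel₀ h2
  linear_combination (-(a ⬝ᵥ (S.1 *ᵥ x))) * this

lemma isInter_permOp (ψ : AddChar F ℂ) (A : (Matrix (Fin n) (Fin n) F)ˣ) :
    IsInter ψ (conjJ (mHom A)) (permOp A) := by
  intro v
  obtain ⟨a, b, rfl⟩ : ∃ a b, v = Sum.elim a b := ⟨_, _, sum_elim_eq v⟩
  refine LinearMap.ext fun f => funext fun x => ?_
  simp only [Module.End.mul_apply, permOp_apply, wOp_apply, conjJ_mulVec, mHom_mulVec,
    symJ_mulVec, Sum.elim_comp_inl, Sum.elim_comp_inr, Matrix.mulVec_neg, neg_neg]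
  have hd : IsUnit A.1.det := (Matrix.isUnit_iff_isUnit_det _).1 A.isUnit
  have e : A.1ᵀ *ᵥ ((A.1⁻¹)ᵀ *ᵥ a) = a := by
    rw [Matrix.mulVec_mulVec, ← Matrix.transpose_mul, Matrix.nonsing_inv_mul _ hd,
      Matrix.transpose_one, Matrix.one_mulVec]
  have e1 : b ⬝ᵥ (A.1ᵀ *ᵥ x) = (A.1 *ᵥ b) ⬝ᵥ x := by
    rw [Matrix.dotProduct_mulVec, Matrix.vecMul_transpose]
  have e2 : ((A.1⁻¹)ᵀ *ᵥ a) ⬝ᵥ (A.1 *ᵥ b) = a ⬝ᵥ b := by
    rw [dotProduct_comm, Matrix.dotProduct_mulVec, Matrix.vecMul_transpose, Matrix.mulVec_mulVec,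
      Matrix.nonsing_inv_mul _ hd, Matrix.one_mulVec, dotProduct_comm]
  rw [e1, e2, Matrix.mulVec_add, e]

lemma dot_update (b x : Fin n → F) (i : Fin n) (t : F) :
    b ⬝ᵥ Function.update x i t = b ⬝ᵥ x + b i * (t - x i) := by
  rw [show Function.update x i t = x + Pi.single i (t - x i) from funext fun j => by
    by_cases h : j = i <;> simp [h], dotProduct_add, dotProduct_single]

lemma update_dot (b x : Fin n → F) (i : Fin n) (t : F) :
    Function.update b i t ⬝ᵥ x = b ⬝ᵥ x + (t - b i) * x i := by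
  rw [dotProduct_comm, dot_update, dotProduct_comm]
  ring

lemma isInter_fourOp (h2 : (2 : F) ≠ 0) (ψ : AddChar F ℂ) (i : Fin n) :
    IsInter ψ (conjJ (wEl i)) (fourOp ψ i) := by
  intro v
  obtain ⟨a, b, rfl⟩ : ∃ a b, v = Sum.elim a b := ⟨_, _, sum_elim_eq v⟩
  refine LinearMap.ext fun f => funext fun x => ?_
  have e1 : -Function.update (-a) i (-b i) = Function.update a i (b i) := funext fun j => by
    by_cases h : j = i <;> simp [h]
  have e2 : Function.update b i ((-a) i) = Function.update b i (-a i) := rfl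
  simp only [Module.End.mul_apply, fourOp_apply, wOp_apply, conjJ_mulVec, wEl_mulVec,
    symJ_mulVec, Sum.elim_comp_inl, Sum.elim_comp_inr, e1, e2, Finset.mul_sum]
  refine Fintype.sum_equiv (Equiv.addRight (a i)) _ _ fun t => ?_
  rw [← mul_assoc, ← mul_assoc, ← AddChar.map_add_eq_mul, ← AddChar.map_add_eq_mul,
    Equiv.coe_addRight]
  congr 2
  · simp only [update_dot, dot_update, Pi.add_apply, Function.update_self]
    have := mul_inv_cancel₀ h2
    linear_combination (a i * b i) * this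
  · funext j
    by_cases h : j = i <;> simp [h]

/-- The basis function at a point. -/
noncomputable def δv (x : Fin n → F) : (Fin n → F) → ℂ := Pi.single x 1

/-- The symmetric matrix attached to a point. -/
def ptMat (x : Fin n → F) : Matrix (Fin n) (Fin n) F := (2⁻¹ : F) • vecMulVec x x

omit [Fintype F] [DecidableEq F] in
lemma trace_ptMat_mul (x : Fin n → F) (S : Matrix (Fin n) (Fin n) F) :
    (ptMat x * S).trace = 2⁻¹ * (x ⬝ᵥ (S *ᵥ x)) := by
  rw [ptMat, Matrix.smul_mul, trace_smul, smul_eq_mul, vecMulVec_mul, trace_vecMulVec,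
    Matrix.dotProduct_mulVec, dotProduct_comm]

lemma phOp_δv (ψ : AddChar F ℂ) (S : symMat n F) (x : Fin n → F) :
    phOp ψ S (δv x) = ψ (2⁻¹ * (x ⬝ᵥ (S.1 *ᵥ x))) • δv x := by
  funext y
  by_cases h : y = x <;> simp [phOp_apply, δv, h]

lemma permOp_δv (A : (Matrix (Fin n) (Fin n) F)ˣ) (x : Fin n → F) :
    permOp A (δv x) = δv ((A.1⁻¹)ᵀ *ᵥ x) := by
  have hd : IsUnit A.1.det := (Matrix.isUnit_iff_isUnit_det _).1 A.isUnit
  funext y
  simp only [permOp_apply, δv]
  by_cases h : y = (A.1⁻¹)ᵀ *ᵥ x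
  · rw [h, Matrix.mulVec_mulVec, ← Matrix.transpose_mul, Matrix.nonsing_inv_mul _ hd]
    simp
  · rw [Pi.single_eq_of_ne h, Pi.single_eq_of_ne]
    intro h'
    apply h
    rw [← h', Matrix.mulVec_mulVec, ← Matrix.transpose_mul, Matrix.mul_nonsing_inv _ hd]
    simp

lemma fourOp_δv (ψ : AddChar F ℂ) (i : Fin n) (x : Fin n → F) :
    fourOp ψ i (δv x) = ∑ s, ψ (s * x i) • δv (Function.update x i s) := by
  funext y
  simp only [fourOp_apply, δv, Finset.sum_apply, Pi.smul_apply, smul_eq_mul]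
  by_cases hy : ∀ j, j ≠ i → y j = x j
  · rw [Finset.sum_eq_single (x i), Finset.sum_eq_single (y i)]
    · have e1 : Function.update y i (x i) = x := funext fun j => by
        by_cases h : j = i <;> simp [h, hy]
      have e2 : Function.update x i (y i) = y := funext fun j => by
        by_cases h : j = i <;> simp [h, hy]
      simp [e1, e2, mul_comm]
    · intro s _ hs
      rw [Pi.single_eq_of_ne (fun h => hs (by simpa using (congrFun h i).symm)), mul_zero]
    · simp
    · intro t _ ht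
      rw [Pi.single_eq_of_ne (fun h => ht (by simpa using congrFun h i)), mul_zero]
    · simp
  · push Not at hy
    obtain ⟨j, hj, hne⟩ := hy
    rw [Finset.sum_eq_zero, Finset.sum_eq_zero]
    · intro s _
      rw [Pi.single_eq_of_ne (fun h => hne (by simpa [hj] using congrFun h j)), mul_zero]
    · intro t _
      rw [Pi.single_eq_of_ne (fun h => hne (by simpa [hj] using congrFun h j)), mul_zero]

variable (h2 : (2 : F) ≠ 0) {ψ : AddChar F ℂ} (hψ : ψ ≠ 1)

include h2 hψ

lemma exists_weil_siegelU (S : symMat n F) : ∃ c : ℂ, ∀ x,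
    weilFull h2 hψ (siegelU S) (δv x) = (c * ψ (2⁻¹ * (x ⬝ᵥ (S.1 *ᵥ x)))) • δv x := by
  obtain ⟨c, hc⟩ := weilFull_eq_smul h2 hψ (isUnit_phOp ψ S) (isInter_phOp h2 ψ S)
  exact ⟨c, fun x => by rw [hc, LinearMap.smul_apply, phOp_δv, smul_smul]⟩

/-- The scalar of a Levi element. -/
noncomputable def weilSign (A : (Matrix (Fin n) (Fin n) F)ˣ) : ℂ :=
  weilFull h2 hψ (mHom A) (δv 0) 0

/-- The scalar of a coordinate Weyl element. -/
noncomputable def weilGamma (i : Fin n) : ℂ := weilFull h2 hψ (wEl i) (δv 0) 0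

theorem weilFull_mHom (A : (Matrix (Fin n) (Fin n) F)ˣ) (x : Fin n → F) :
    weilFull h2 hψ (mHom A) (δv x) = weilSign h2 hψ A • δv ((A.1⁻¹)ᵀ *ᵥ x) := by
  obtain ⟨c, hc⟩ := weilFull_eq_smul h2 hψ (isUnit_permOp A) (isInter_permOp ψ A)
  have : weilSign h2 hψ A = c := by
    rw [weilSign, hc, LinearMap.smul_apply, permOp_δv, Matrix.mulVec_zero]
    simp [δv]
  rw [this, hc, LinearMap.smul_apply, permOp_δv]

theorem weilFull_wEl (i : Fin n) (x : Fin n → F) :
    weilFull h2 hψ (wEl i) (δv x) =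
      weilGamma h2 hψ i • ∑ s, ψ (s * x i) • δv (Function.update x i s) := by
  obtain ⟨c, hc⟩ := weilFull_eq_smul h2 hψ (isUnit_fourOp hψ i) (isInter_fourOp h2 ψ i)
  have : weilGamma h2 hψ i = c := by
    rw [weilGamma, hc, LinearMap.smul_apply, Pi.smul_apply, fourOp_apply,
      Finset.sum_eq_single 0]
    · simp [δv]
    · intro t _ ht
      rw [δv, Pi.single_eq_of_ne (fun h => ht (by simpa using congrFun h i)), mul_zero]
    · simp
  rw [this, hc, LinearMap.smul_apply, fourOp_δv]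

lemma weilSign_ne_zero (A : (Matrix (Fin n) (Fin n) F)ˣ) : weilSign h2 hψ A ≠ 0 := by
  intro h
  have h1 := weilFull_mHom h2 hψ A (0 : Fin n → F)
  rw [h, zero_smul] at h1
  have h3 := congrArg (weilFull h2 hψ (mHom A)⁻¹) h1
  rw [Representation.inv_self_apply, map_zero] at h3
  simpa [δv] using congrFun h3 0

lemma weilSign_mul (A B : (Matrix (Fin n) (Fin n) F)ˣ) :
    weilSign h2 hψ (A * B) = weilSign h2 hψ A * weilSign h2 hψ B := by
  have e := congrFun (show weilFull h2 hψ (mHom (A * B)) (δv 0) =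
      (weilSign h2 hψ A * weilSign h2 hψ B) • δv (0 : Fin n → F) by
    rw [map_mul, map_mul, Module.End.mul_apply, weilFull_mHom, map_smul, weilFull_mHom,
      Matrix.mulVec_zero, Matrix.mulVec_zero, smul_smul, mul_comm]) 0
  simpa [weilSign, δv] using e

/-- The Siegel unipotent elements act by pure phases. -/
theorem weilFull_siegelU (hn : 2 ≤ n) (S : symMat n F) (x : Fin n → F) :
    weilFull h2 hψ (siegelU S) (δv x) = ψ (2⁻¹ * (x ⬝ᵥ (S.1 *ᵥ x))) • δv x := by
  classical
  choose c hc using exists_weil_siegelU (n := n) h2 hψ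
  have h0 : ∀ R, weilFull h2 hψ (siegelU R) (δv 0) = c R • δv (0 : Fin n → F) := fun R => by
    simpa using hc R 0
  have hev : ∀ {a b : ℂ}, a • δv (0 : Fin n → F) = b • δv 0 → a = b := fun h => by
    simpa [δv] using congrFun h 0
  have hadd : ∀ R R', c (R + R') = c R * c R' := fun R R' => hev <| by
    rw [← h0, siegelU_add, map_mul, Module.End.mul_apply, h0 R', map_smul, h0 R, smul_smul,
      mul_comm]
  have hne : ∀ R, c R ≠ 0 := fun R h => by
    have h1 := h0 R
    rw [h, zero_smul] at h1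
    have h3 := congrArg (weilFull h2 hψ (siegelU R)⁻¹) h1
    rw [Representation.inv_self_apply, map_zero] at h3
    simpa [δv] using congrFun h3 0
  have hinv : ∀ (A : (Matrix (Fin n) (Fin n) F)ˣ) (R : symMat n F),
      c (symCongr A.1 R) = c R := fun A R => by
    have h := siegelU_mul_siegelM A.isUnit (symCongr A.1 R) R rfl
    have h' : siegelU (symCongr A.1 R) * mHom A = mHom A * siegelU R := h
    have e := congrArg (fun g => weilFull h2 hψ g (δv (0 : Fin n → F))) h'
    simp only [map_mul, Module.End.mul_apply, h0, weilFull_mHom, Matrix.mulVec_zero, map_smul,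
      smul_smul] at e
    exact mul_left_cancel₀ (weilSign_ne_zero h2 hψ A) ((hev e).trans (mul_comm _ _))
  have hcong : ∀ (i j : Fin n) (h : j ≠ i) (t s : F), symCongr (trUnit h t).1 (symDiag i s) =
      symDiag i s + symPair i j (t * s) + symDiag j (t * t * s) := by
    intro i j h t s
    apply Subtype.ext
    simp [symCongr, trUnit, Matrix.transvection, Matrix.add_mul, Matrix.mul_add, mul_assoc]
    simp [mul_comm t s, mul_left_comm, mul_assoc]
    abel
  have hdiag : ∀ (j : Fin n) (s : F), c (symDiag j (2 * s)) = 1 := by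
    intro j s
    haveI : Nontrivial (Fin n) := Fin.nontrivial_iff_two_le.2 hn
    obtain ⟨i, hi⟩ := exists_ne j
    have e1 := hinv (trUnit hi.symm 1) (symDiag i s)
    have e2 := hinv (trUnit hi.symm (-1)) (symDiag i s)
    rw [hcong, hadd, hadd, one_mul, one_mul, one_mul] at e1
    rw [hcong, hadd, hadd, neg_one_mul, neg_mul_neg, one_mul, one_mul] at e2
    have hp : c (symPair i j s) * c (symPair i j (-s)) = 1 := by
      rw [← hadd]
      have : symPair i j s + symPair i j (-s) = (0 : symMat n F) := Subtype.ext (by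
        simp only [AddSubgroup.coe_add, coe_symPair, ZeroMemClass.coe_zero, ← Matrix.single_neg]
        abel)
      rw [this]
      have h00 := hadd 0 0
      rw [add_zero] at h00
      exact mul_left_cancel₀ (hne 0) (by rw [← h00, mul_one])
    have hd2 : c (symDiag j (2 * s)) = c (symDiag j s) * c (symDiag j s) := by
      rw [← hadd]
      congr 1
      exact Subtype.ext (by simp [two_mul, Matrix.single_add])
    rw [hd2]
    have := congrArg₂ (· * ·) e1 e2
    apply mul_left_cancel₀ (mul_ne_zero (hne (symDiag i s)) (hne (symDiag i s)))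
    linear_combination this - c (symDiag i s) ^ 2 * c (symDiag j s) ^ 2 * hp
  have hd1 : ∀ (j : Fin n) (s : F), c (symDiag j s) = 1 := fun j s => by
    have := hdiag j (2⁻¹ * s)
    rwa [← mul_assoc, mul_inv_cancel₀ h2, one_mul] at this
  have hpair : ∀ (i j : Fin n) (s : F), c (symPair i j s) = 1 := fun i j s => by
    by_cases hij : i = j
    · subst hij
      rw [show symPair i i s = symDiag i (s + s) from Subtype.ext (by simp [Matrix.single_add])]
      exact hd1 _ _
    · have e1 := hinv (trUnit (Ne.symm hij) 1) (symDiag i s)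
      rw [hcong, hadd, hadd, one_mul, one_mul, one_mul, hd1, hd1, one_mul, mul_one] at e1
      exact e1
  have hsum : ∀ (ι : Finset (Fin n)) (f : Fin n → symMat n F), (∀ i, c (f i) = 1) →
      c (∑ i ∈ ι, f i) = 1 := by
    intro ι f hf
    induction ι using Finset.induction with
    | empty =>
      have h00 := hadd 0 0
      rw [add_zero] at h00
      rw [Finset.sum_empty]
      exact mul_left_cancel₀ (hne 0) (by rw [← h00, mul_one])
    | insert _ _ h ih => rw [Finset.sum_insert h, hadd, hf, ih, one_mul]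
  have hcS : c S = 1 := by
    rw [symMat_eq_sum_pair h2 S]
    exact hsum _ _ fun i => hsum _ _ fun j => hpair _ _ _
  rw [hc, hcS, one_mul]

lemma weilGamma_pow_four (i : Fin n) :
    weilGamma h2 hψ i ^ 4 * (Fintype.card F : ℂ) ^ 2 = 1 := by
  obtain ⟨c, hc⟩ := weilFull_eq_smul h2 hψ (isUnit_fourOp hψ i) (isInter_fourOp h2 ψ i)
  have hγ : weilGamma h2 hψ i = c := by
    have h1 := congrFun (weilFull_wEl h2 hψ i (0 : Fin n → F)) 0
    rw [hc, LinearMap.smul_apply, fourOp_δv, Pi.smul_apply, Pi.smul_apply] at h1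
    have h3 : (∑ s, ψ (s * (0 : Fin n → F) i) • δv (Function.update (0 : Fin n → F) i s))
        (0 : Fin n → F) = 1 := by
      rw [Finset.sum_apply, Finset.sum_eq_single 0]
      · simp [δv]
      · intro t _ ht
        rw [Pi.smul_apply, δv, Pi.single_eq_of_ne (fun h => ht (by simpa using (congrFun h i).symm)),
          smul_zero]
      · simp
    rw [h3, smul_eq_mul, mul_one, smul_eq_mul, mul_one] at h1
    exact h1.symm
  have h4 := congrArg (weilFull h2 hψ) (wEl_pow_four (F := F) i)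
  rw [map_pow, map_one, hc, pow_succ, pow_succ, pow_succ, pow_one] at h4
  simp only [smul_mul_assoc, mul_smul_comm, smul_smul, fourOp_pow_four hψ] at h4
  have h5 := congrFun (LinearMap.congr_fun h4 (δv (0 : Fin n → F))) 0
  simp [δv] at h5
  rw [hγ]
  linear_combination h5

end Cfsg.Agent.H39
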