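import Mathlib
import Cfsg.Agent.H39.WeilGapModel

/-!
# Representations with rank one Siegel spectrum

If every character of the Siegel radical occurring in a representation of `Sp_{2n}` comes from a
symmetric matrix of rank at most one, then on a rank-one eigenvector the Levi transvections and
coordinate Weyl elements act by the formulas of the Weil representation.
-/

set_option autoImplicit false

namespace Cfsg.Agent.H39

open Matrix Finset Module

variable {F : Type*} [Field F] [Fintype F] [DecidableEq F] {n : ℕ}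

/-- All Gram determinants of size two vanish. -/
def RankLeOne (T : Matrix (Fin n) (Fin n) F) : Prop :=
  ∀ v w : Fin n → F, v ⬝ᵥ (T *ᵥ v) * (w ⬝ᵥ (T *ᵥ w)) = (v ⬝ᵥ (T *ᵥ w)) ^ 2

variable {V : Type*} [AddCommGroup V] [Module ℂ V]

/-- Every occurring Siegel character has rank at most one. -/
def RankOneSpec (ρ : Representation ℂ (Matrix.symplecticGroup (Fin n) F) V)
    (ψ : AddChar F ℂ) : Prop :=
  ∀ T : symMat n F, ∀ v : V, v ≠ 0 → SiegelEigen ρ ψ T.1 v → RankLeOne T.1

omit [Fintype F] [DecidableEq F] in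
lemma RankLeOne.entry {T : Matrix (Fin n) (Fin n) F} (hT : RankLeOne T) (i j : Fin n) :
    T i i * T j j = T i j ^ 2 := by
  simpa using hT (Pi.single i 1) (Pi.single j 1)

omit [Fintype F] [DecidableEq F] in
lemma RankLeOne.entry_eq_zero {T : Matrix (Fin n) (Fin n) F} (hT : RankLeOne T) {i : Fin n}
    (h : T i i = 0) (j : Fin n) : T i j = 0 := by
  have := hT.entry i j
  rw [h, zero_mul] at this
  exact (sq_eq_zero_iff).1 this.symm

omit [Fintype F] [DecidableEq F] in
lemma rankLeOne_ptMat (x : Fin n → F) : RankLeOne (ptMat x) := by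
  intro v w
  simp only [ptMat, Matrix.smul_mulVec, Matrix.vecMulVec_mulVec, op_smul_eq_smul, dotProduct_smul,
    smul_eq_mul]
  rw [dotProduct_comm x v, dotProduct_comm w x]
  ring

omit [Fintype F] [DecidableEq F] in
lemma isSymm_ptMat (x : Fin n → F) : (ptMat x).IsSymm := by
  simp [ptMat, Matrix.IsSymm]

lemma eq_of_char_mul {ψ : AddChar F ℂ} (hψ : ψ ≠ 1) {a b : F}
    (h : ∀ s, ψ (s * a) = ψ (s * b)) : a = b := by
  by_contra hne
  obtain ⟨c, hc⟩ := AddChar.ne_one_iff.1 hψ
  apply hc
  have h1 := h (c / (a - b))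
  have e : c / (a - b) * a = c / (a - b) * b + c := by
    field_simp [sub_ne_zero.2 hne]
    ring
  rw [e, AddChar.map_add_eq_mul] at h1
  exact mul_left_cancel₀ (AddChar.val_isUnit ψ _).ne_zero (h1.trans (mul_one _).symm)

omit [Fintype F] [DecidableEq F] in
lemma symChar_symDiag (ψ : AddChar F ℂ) (T : Matrix (Fin n) (Fin n) F) (i : Fin n) (s : F) :
    symChar ψ T (symDiag i s) = ψ (s * T i i) := by
  simp [Matrix.trace_mul_single, mul_comm]

omit [Fintype F] [DecidableEq F] in
lemma symChar_symPair (ψ : AddChar F ℂ) {T : Matrix (Fin n) (Fin n) F} (hT : T.IsSymm)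
    (i j : Fin n) (s : F) : symChar ψ T (symPair i j s) = ψ (s * (2 * T i j)) := by
  simp [Matrix.mul_add, Matrix.trace_mul_single, hT.apply i j, two_mul, mul_comm s, add_mul]

lemma entry_diag_eq {ψ : AddChar F ℂ} (hψ : ψ ≠ 1) {T T' : Matrix (Fin n) (Fin n) F} {i : Fin n}
    (h : ∀ s, symChar ψ T (symDiag i s) = symChar ψ T' (symDiag i s)) : T i i = T' i i :=
  eq_of_char_mul hψ fun s => by rw [← symChar_symDiag, ← symChar_symDiag, h]

lemma entry_pair_eq (h2 : (2 : F) ≠ 0) {ψ : AddChar F ℂ} (hψ : ψ ≠ 1)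
    {T T' : Matrix (Fin n) (Fin n) F} (hT : T.IsSymm) (hT' : T'.IsSymm) {i j : Fin n}
    (h : ∀ s, symChar ψ T (symPair i j s) = symChar ψ T' (symPair i j s)) : T i j = T' i j :=
  mul_left_cancel₀ h2 (eq_of_char_mul hψ fun s => by
    rw [← symChar_symPair ψ hT, ← symChar_symPair ψ hT', h])

variable (h2 : (2 : F) ≠ 0) {ψ : AddChar F ℂ} (hψ : ψ ≠ 1)
  {ρ : Representation ℂ (Matrix.symplecticGroup (Fin n) F) V}

include h2 hψ

/-- An eigenvector of part of the radical is an eigenvector of every element on which all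
compatible rank-one characters agree. -/
theorem eigen_extend (hρ : RankOneSpec ρ ψ) {v : V} {T₁ : Matrix (Fin n) (Fin n) F}
    (L : symMat n F → Prop) (hv : ∀ R, L R → ρ (siegelU R) v = symChar ψ T₁ R • v)
    {S : symMat n F} (hS : ∀ T : symMat n F, RankLeOne T.1 →
      (∀ R, L R → symChar ψ T.1 R = symChar ψ T₁ R) → symChar ψ T.1 S = symChar ψ T₁ S) :
    ρ (siegelU S) v = symChar ψ T₁ S • v := by
  classical
  haveI : Fintype (symMat n F) := Fintype.ofFinite _
  set K : symMat n F → Module.End ℂ V := fun T =>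
    ∑ R, symChar ψ T.1 (-R) • ρ (siegelU R) with hK
  have hKmul : ∀ T R, ρ (siegelU R) * K T = symChar ψ T.1 R • K T := by
    intro T R
    simp only [hK, Finset.mul_sum, Finset.smul_sum]
    refine Fintype.sum_equiv (Equiv.addLeft R) _ _ fun Q => ?_
    rw [mul_smul_comm, ← map_mul, ← siegelU_add, smul_smul, Equiv.coe_addLeft,
      ← AddChar.map_add_eq_mul]
    congr 2
    simp [neg_add_rev, add_left_comm]
  have hKcomm : ∀ T R, Commute (ρ (siegelU R)) (K T) := by
    intro T R
    refine Commute.sum_right _ _ _ fun Q _ => Commute.smul_right ?_ _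
    show ρ (siegelU R) * ρ (siegelU Q) = ρ (siegelU Q) * ρ (siegelU R)
    rw [← map_mul, ← map_mul, ← siegelU_add, ← siegelU_add, add_comm]
  have hsum : ∑ T, K T = (Fintype.card (symMat n F) : ℂ) • (1 : Module.End ℂ V) := by
    simp only [hK]
    rw [Finset.sum_comm]
    simp only [← Finset.sum_smul]
    rw [Finset.sum_eq_single 0]
    · simp [siegelU_zero]
    · intro Q _ hQ
      have hne : symChar ψ (-Q : symMat n F).1 ≠ 1 := symChar_ne_one h2 hψ (neg_ne_zero.2 hQ)
      rw [show ∑ T : symMat n F, symChar ψ T.1 (-Q) = 0 by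
        rw [← AddChar.sum_eq_zero_of_ne_one hne]
        exact Finset.sum_congr rfl fun T _ => by
          simp only [symChar_apply]
          rw [Matrix.trace_mul_comm], zero_smul]
    · simp
  have hw : ∀ T, ρ (siegelU S) (K T v) = symChar ψ T₁ S • K T v := by
    intro T
    rcases eq_or_ne (K T v) 0 with h0 | h0
    · rw [h0, map_zero, smul_zero]
    have he : SiegelEigen ρ ψ T.1 (K T v) := fun R => by
      rw [← Module.End.mul_apply, hKmul, LinearMap.smul_apply]
    rw [he S, hS T (hρ T _ h0 he) fun R hR => ?_]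
    refine smul_left_injective ℂ h0 ?_
    show symChar ψ T.1 R • K T v = symChar ψ T₁ R • K T v
    rw [← he R, ← Module.End.mul_apply, (hKcomm T R).eq, Module.End.mul_apply, hv R hR, map_smul]
  have h := congrArg (fun f : Module.End ℂ V => ρ (siegelU S) (f v)) hsum
  simp only [LinearMap.sum_apply, map_sum, hw, ← Finset.smul_sum] at h
  rw [← LinearMap.sum_apply, hsum] at h
  simp only [LinearMap.smul_apply, Module.End.one_apply, map_smul] at h
  rw [smul_comm] at h
  exact (smul_right_injective V
    (Nat.cast_ne_zero.2 Fintype.card_ne_zero : (Fintype.card (symMat n F) : ℂ) ≠ 0) h).symm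

/-- Levi transvections fix vectors with trivial character on a diagonal root group. -/
theorem fix_trUnit (hρ : RankOneSpec ρ ψ) {i j : Fin n} (h : i ≠ j) (s : F) {v : V}
    (hv : ∀ t, ρ (siegelU (symDiag i t)) v = v) : ρ (mHom (trUnit h s)) v = v := by
  have hc : ∀ t, Commute (wEl (F := F) j) (siegelU (symDiag i t)) := fun t =>
    wEl_comm_siegelU j _ fun k => by simp [Matrix.single_apply, h]
  set v' := ρ (wEl j)⁻¹ v with hv'
  have hfix : ∀ t, ρ (siegelU (symDiag i t)) v' = v' := fun t => by
    rw [hv', ← Module.End.mul_apply, ← map_mul, ← ((hc t).inv_left).eq, map_mul,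
      Module.End.mul_apply, hv]
  have hp : ρ (siegelU (symPair i j s)) v' = symChar ψ (0 : Matrix (Fin n) (Fin n) F) (symPair i j s) • v' :=
    eigen_extend h2 hψ hρ (fun R => ∃ t, R = symDiag i t)
      (fun R ⟨t, ht⟩ => by rw [ht, hfix]; simp) fun T hT hL => by
        have h0 : T.1 i i = 0 := by
          simpa using entry_diag_eq hψ (T' := 0) fun t => hL _ ⟨t, rfl⟩
        rw [symChar_symPair ψ T.2, hT.entry_eq_zero h0 j]
        simp
  have hv2 : ρ (wEl j) v' = v := by rw [hv', Representation.self_inv_apply]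
  calc ρ (mHom (trUnit h s)) v = ρ (mHom (trUnit h s) * wEl j) v' := by
        rw [map_mul, Module.End.mul_apply, hv2]
    _ = ρ (wEl j * siegelU (symPair i j s)) v' := by rw [wEl_mul_pair h]
    _ = v := by
      rw [map_mul, Module.End.mul_apply, hp]
      simpa using hv2

omit h2 hψ in
/-- The quadratic Gauss sum divided by `q`. -/
noncomputable def gaussQ (ψ : AddChar F ℂ) (a : F) : ℂ :=
  (∑ s : F, ψ (2⁻¹ * a * (s * s))) / (Fintype.card F : ℂ)

/-- The torus and the Weyl element of a coordinate act on the line through a rank-one eigenvector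
as in the Weil representation. -/
theorem line_formula (hρ : RankOneSpec ρ ψ) {i k : Fin n} (hik : i ≠ k) {v : V}
    (hD : ∀ s, ρ (siegelU (symDiag i s)) v = ψ (2⁻¹ * s) • v)
    (hX : ∀ s, ρ (siegelU (symPair i k s)) v = v) (a : Fˣ) (t : F) :
    ρ (mHom (diagUnit k a) * wEl k) (ρ (mHom (trUnit hik (-t))) v) =
      gaussQ ψ ((a⁻¹ : Fˣ) : F) •
        ∑ r, ψ ((a : F) * t * r) • ρ (mHom (trUnit hik (-r))) v := by
  classical
  set Y : F → Module.End ℂ V := fun r => ρ (mHom (trUnit hik (-r))) with hY
  have hYadd : ∀ r r', Y r * Y r' = Y (r + r') := fun r r' => by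
    simp only [hY, ← map_mul]
    congr 2
    exact Units.ext (by
      simp only [Units.val_mul, trUnit, Matrix.transvection_mul_transvection_same (h := hik),
        ← neg_add])
  have hii : ptMat (Pi.single i (1 : F)) i i = 2⁻¹ := by simp [ptMat, Matrix.vecMulVec_apply]
  have hik0 : ptMat (Pi.single i (1 : F)) i k = 0 := by
    simp [ptMat, Matrix.vecMulVec_apply, hik.symm]
  have hkk0 : ptMat (Pi.single i (1 : F)) k k = 0 := by
    simp [ptMat, Matrix.vecMulVec_apply, hik.symm]
  -- the two eigen conditions give triviality of the third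
  have hK : ∀ w : V, (∀ s, ρ (siegelU (symDiag i s)) w = ψ (2⁻¹ * s) • w) →
      (∀ s, ρ (siegelU (symPair i k s)) w = w) →
      ∀ y, ρ (siegelU (symDiag k y)) w = w := by
    intro w hwD hwX y
    have := eigen_extend h2 hψ hρ (v := w) (T₁ := ptMat (Pi.single i 1)) (S := symDiag k y)
      (fun R => (∃ s, R = symDiag i s) ∨ ∃ s, R = symPair i k s)
      (by
        rintro R (⟨s, rfl⟩ | ⟨s, rfl⟩)
        · rw [hwD, symChar_symDiag, hii, mul_comm]
        · rw [hwX, symChar_symPair ψ (isSymm_ptMat _), hik0]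
          simp)
      fun T hT hL => by
        have e1 : T.1 i i = 2⁻¹ :=
          hii ▸ entry_diag_eq hψ fun s => hL _ (Or.inl ⟨s, rfl⟩)
        have e2 : T.1 i k = 0 :=
          hik0 ▸ entry_pair_eq h2 hψ T.2 (isSymm_ptMat _) fun s => hL _ (Or.inr ⟨s, rfl⟩)
        have e3 := hT.entry i k
        rw [e1, e2, zero_pow two_ne_zero] at e3
        rw [symChar_symDiag, symChar_symDiag, hkk0,
          (mul_eq_zero.1 e3).resolve_left (inv_ne_zero h2)]
    rw [this, symChar_symDiag, hkk0]
    simp
  -- moving radical elements across the transvections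
  have hmove : ∀ (S R : symMat n F) (r : F) (w : V), symCongr (trUnit hik (-r)).1 R = S →
      ρ (siegelU S) (Y r w) = Y r (ρ (siegelU R) w) := fun S R r w hSR => by
    have h := siegelU_mul_siegelM (trUnit hik (-r)).isUnit S R (congrArg Subtype.val hSR)
    simp only [hY, ← Module.End.mul_apply, ← map_mul]
    exact congrArg (fun g => ρ g w) h
  have hcD : ∀ (r s : F), symCongr (trUnit hik (-r)).1 (symDiag i s) = symDiag i s := fun r s => by
    apply Subtype.ext
    simp [symCongr, trUnit, Matrix.transvection, Matrix.add_mul, Matrix.mul_add, hik, hik.symm]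
  have hcX : ∀ (r s : F), symCongr (trUnit hik (-r)).1 (symPair i k s + symDiag i (2 * r * s)) =
      symPair i k s := fun r s => by
    apply Subtype.ext
    simp [symCongr, trUnit, Matrix.transvection, Matrix.add_mul, Matrix.mul_add, hik, hik.symm,
      mul_assoc]
    simp [two_mul, Matrix.single_add, ← Matrix.single_neg, mul_comm r s]
    abel
  have hcK : ∀ (r y : F), symCongr (trUnit hik (-r)).1
      (symDiag k y + symPair i k (r * y) + symDiag i (r * r * y)) = symDiag k y := fun r y => by
    apply Subtype.ext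
    simp [symCongr, trUnit, Matrix.transvection, Matrix.add_mul, Matrix.mul_add, hik, hik.symm,
      mul_assoc]
    simp [← Matrix.single_neg, mul_comm r y, mul_left_comm, mul_assoc]
    abel
  -- phases on the line
  have hline : ∀ w : V, (∀ s, ρ (siegelU (symDiag i s)) w = ψ (2⁻¹ * s) • w) →
      (∀ s, ρ (siegelU (symPair i k s)) w = w) → ∀ r,
      (∀ s, ρ (siegelU (symPair i k s)) (Y r w) = ψ (s * r) • Y r w) ∧
      (∀ y, ρ (siegelU (symDiag k y)) (Y r w) = ψ (2⁻¹ * y * (r * r)) • Y r w) := by
    intro w hwD hwX r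
    constructor
    · intro s
      rw [hmove _ _ r w (hcX r s), siegelU_add, map_mul, Module.End.mul_apply, hwD, map_smul,
        hwX, map_smul]
      congr 2
      rw [← mul_assoc, ← mul_assoc, inv_mul_cancel₀ h2, one_mul, mul_comm]
    · intro y
      rw [hmove _ _ r w (hcK r y), siegelU_add, siegelU_add, map_mul, map_mul,
        Module.End.mul_apply, Module.End.mul_apply, hwD, map_smul, map_smul, hwX,
        hK w hwD hwX, map_smul]
      congr 2
      ring
  have hvD : ∀ s r, ρ (siegelU (symDiag i s)) (Y r v) = ψ (2⁻¹ * s) • Y r v := fun s r => by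
    rw [hmove _ _ r v (hcD r s), hD, map_smul]
  -- the sum over the line and its pull back
  set Sg : V := ∑ r, Y r v with hSg
  set m' : V := ρ (wEl k)⁻¹ Sg with hm'
  have hwm' : ρ (wEl k) m' = Sg := by rw [hm', Representation.self_inv_apply]
  have hm'D : ∀ s, ρ (siegelU (symDiag i s)) m' = ψ (2⁻¹ * s) • m' := fun s => by
    have hc : Commute (wEl (F := F) k) (siegelU (symDiag i s)) :=
      wEl_comm_siegelU k _ fun l => by simp [Matrix.single_apply, hik]
    rw [hm', ← Module.End.mul_apply, ← map_mul, ← (hc.inv_left).eq, map_mul,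
      Module.End.mul_apply, ← map_smul]
    congr 1
    simp only [hSg, map_sum, hvD, Finset.smul_sum]
  have hm'X : ∀ s, ρ (siegelU (symPair i k s)) m' = m' := fun s => by
    apply (Function.LeftInverse.injective (g := ρ (wEl k)⁻¹)
      fun x => Representation.inv_self_apply ρ (wEl k) x)
    rw [← Module.End.mul_apply, ← map_mul, wEl_mul_pair hik, map_mul, Module.End.mul_apply, hwm',
      hSg, map_sum]
    refine Fintype.sum_equiv (Equiv.addLeft (-s)) _ _ fun r => ?_
    rw [Equiv.coe_addLeft, ← hYadd, Module.End.mul_apply]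
    simp only [hY, neg_neg]
  -- a basis change on the line
  have hwY : ∀ r : F, wEl k * mHom (trUnit hik (-r)) = siegelU (symPair i k r) * wEl k := fun r => by
    rw [wEl_mul_trUnit hik, neg_neg]
  have hXSg : ∀ s, ρ (siegelU (symPair i k s)) Sg = ρ (wEl k) (Y s m') := fun s => by
    rw [← hwm']
    simp only [hY, ← Module.End.mul_apply, ← map_mul, hwY]
  have hL : ∀ s y, ρ (lEl k y) (ρ (siegelU (symPair i k s)) Sg) =
      ψ (2⁻¹ * y * (s * s)) • ρ (siegelU (symPair i k s)) Sg := fun s y => by
    rw [hXSg, ← Module.End.mul_apply, ← map_mul, lEl_mul_wEl, map_mul, Module.End.mul_apply,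
      (hline m' hm'D hm'X s).2 y, map_smul]
  have hinv : ∀ r, ∑ s, ψ (-(s * r)) • ρ (siegelU (symPair i k s)) Sg =
      (Fintype.card F : ℂ) • Y r v := by
    intro r
    simp only [hSg, map_sum, (hline v hD hX _).1, Finset.smul_sum, smul_smul,
      ← AddChar.map_add_eq_mul]
    rw [Finset.sum_comm]
    simp only [← Finset.sum_smul]
    have hs : ∀ r', ∑ s : F, ψ (-(s * r) + s * r') =
        if r' - r = 0 then (Fintype.card F : ℂ) else 0 := fun r' => by
      have hps := AddChar.sum_mulShift (r' - r) (AddChar.IsPrimitive.of_ne_one hψ)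
      simp only [Nat.cast_ite, Nat.cast_zero] at hps
      rw [← hps]
      exact Finset.sum_congr rfl fun s _ => by ring_nf
    simp only [hs, sub_eq_zero, ite_smul, zero_smul, Finset.sum_ite_eq', Finset.mem_univ, if_true]
  have hq : (Fintype.card F : ℂ) ≠ 0 := Nat.cast_ne_zero.2 Fintype.card_ne_zero
  have hLY : ∀ r y, y ≠ 0 → ρ (lEl k y) (Y r v) =
      gaussQ ψ y • ∑ r', ψ (-((2 * y)⁻¹ * ((r' - r) * (r' - r)))) • Y r' v := by
    intro r y hy
    rw [show Y r v = (Fintype.card F : ℂ)⁻¹ •
        ∑ s, ψ (-(s * r)) • ρ (siegelU (symPair i k s)) Sg by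
      rw [hinv, smul_smul, inv_mul_cancel₀ hq, one_smul]]
    simp only [map_smul, map_sum, hL]
    simp only [hSg, map_sum, (hline v hD hX _).1, Finset.smul_sum, smul_smul]
    rw [Finset.sum_comm]
    simp only [← Finset.sum_smul]
    refine Finset.sum_congr rfl fun r' _ => ?_
    congr 1
    rw [gaussQ, Finset.sum_div, Finset.sum_mul]
    refine Fintype.sum_equiv (Equiv.addRight ((r' - r) / y)) _ _ fun s => ?_
    rw [Equiv.coe_addRight, div_eq_mul_inv _ (Fintype.card F : ℂ)]
    have e : -(s * r) + 2⁻¹ * y * (s * s) + s * r' =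
        2⁻¹ * y * ((s + (r' - r) / y) * (s + (r' - r) / y)) +
          -((2 * y)⁻¹ * ((r' - r) * (r' - r))) := by
      field_simp
      ring
    have e' := congrArg ψ e
    simp only [AddChar.map_add_eq_mul] at e'
    linear_combination (Fintype.card F : ℂ)⁻¹ * e'
  -- assemble
  rw [diagUnit_mul_wEl, map_mul, map_mul, Module.End.mul_apply, Module.End.mul_apply]
  show ρ _ (ρ _ (ρ _ (Y t v))) = gaussQ ψ _ • ∑ r, ψ _ • Y r v
  rw [(hline v hD hX t).2, map_smul, hLY t _ (a⁻¹).ne_zero, map_smul, map_smul, map_sum]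
  simp only [map_smul, (hline v hD hX _).2, Finset.smul_sum, smul_smul]
  refine Finset.sum_congr rfl fun r _ => ?_
  congr 1
  have e : 2⁻¹ * (a : F) * (t * t) + -((2 * ((a⁻¹ : Fˣ) : F))⁻¹ * ((r - t) * (r - t))) +
      2⁻¹ * (a : F) * (r * r) = (a : F) * t * r := by
    rw [Units.val_inv_eq_inv_val, mul_inv, inv_inv]
    field_simp
    ring
  have e' := congrArg ψ e
  simp only [AddChar.map_add_eq_mul] at e'
  linear_combination gaussQ ψ ((a⁻¹ : Fˣ) : F) * e'

end Cfsg.Agent.H39
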