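import Mathlib
import Cfsg.Agent.H39.WeilGapRank

/-!
# Congruence classes of symmetric matrices of rank at least two

Over a field of odd order `q` such a class has at least
`(q^n - 1) (q^n - q) / (2 (q + 1))` members.
-/

set_option autoImplicit false

namespace Cfsg.Agent.H39

open Matrix Finset

variable {F : Type*} [Field F] {n m : ℕ}

lemma RankLeOne.congr {T : Matrix (Fin n) (Fin n) F} (hT : RankLeOne T)
    (A : Matrix (Fin n) (Fin n) F) : RankLeOne (Aᵀ * T * A) := by
  have h : ∀ v w : Fin n → F,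
      v ⬝ᵥ ((Aᵀ * T * A) *ᵥ w) = (A *ᵥ v) ⬝ᵥ (T *ᵥ (A *ᵥ w)) := fun v w => by
    rw [← Matrix.mulVec_mulVec, ← Matrix.mulVec_mulVec, Matrix.dotProduct_mulVec,
      Matrix.vecMul_transpose]
  intro v w
  rw [h, h, h]
  exact hT _ _

lemma RankLeOne.of_le_one (hn : n ≤ 1) (T : Matrix (Fin n) (Fin n) F) : RankLeOne T := by
  intro v w
  rcases Nat.le_one_iff_eq_zero_or_eq_one.1 hn with rfl | rfl
  · simp
  · simp [Matrix.mulVec, dotProduct]
    ring

lemma dot_mulVec_symm {T : Matrix (Fin n) (Fin n) F} (hT : T.IsSymm) (v w : Fin n → F) :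
    v ⬝ᵥ (T *ᵥ w) = (T *ᵥ v) ⬝ᵥ w := by
  rw [Matrix.dotProduct_mulVec, ← Matrix.mulVec_transpose, hT.eq]

/-- A scalar followed by a block. -/
def blkMat (a : F) (S : Matrix (Fin m) (Fin m) F) : Matrix (Fin (m + 1)) (Fin (m + 1)) F :=
  Matrix.of fun i j => Fin.cases (Fin.cases a (fun _ => 0) j)
    (fun i' => Fin.cases 0 (fun j' => S i' j') j) i

@[simp] lemma blkMat_zero_zero (a : F) (S : Matrix (Fin m) (Fin m) F) :
    blkMat a S 0 0 = a := rfl

@[simp] lemma blkMat_zero_succ (a : F) (S : Matrix (Fin m) (Fin m) F) (j : Fin m) :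
    blkMat a S 0 j.succ = 0 := rfl

@[simp] lemma blkMat_succ_zero (a : F) (S : Matrix (Fin m) (Fin m) F) (i : Fin m) :
    blkMat a S i.succ 0 = 0 := rfl

@[simp] lemma blkMat_succ_succ (a : F) (S : Matrix (Fin m) (Fin m) F) (i j : Fin m) :
    blkMat a S i.succ j.succ = S i j := rfl

lemma blkMat_mul (a b : F) (S R : Matrix (Fin m) (Fin m) F) :
    blkMat a S * blkMat b R = blkMat (a * b) (S * R) := by
  ext i j
  refine Fin.cases ?_ (fun i' => ?_) i <;> refine Fin.cases ?_ (fun j' => ?_) j <;>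
    simp [Matrix.mul_apply, Fin.sum_univ_succ]

lemma blkMat_one : blkMat (1 : F) (1 : Matrix (Fin m) (Fin m) F) = 1 := by
  ext i j
  refine Fin.cases ?_ (fun i' => ?_) i <;> refine Fin.cases ?_ (fun j' => ?_) j <;>
    simp [Matrix.one_apply, (Fin.succ_ne_zero _).symm]

lemma blkMat_transpose (a : F) (S : Matrix (Fin m) (Fin m) F) :
    (blkMat a S)ᵀ = blkMat a Sᵀ := by
  ext i j
  refine Fin.cases ?_ (fun i' => ?_) i <;> refine Fin.cases ?_ (fun j' => ?_) j <;> simp

lemma dot_blkMat (a : F) (S : Matrix (Fin m) (Fin m) F) (v w : Fin (m + 1) → F) :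
    v ⬝ᵥ (blkMat a S *ᵥ w) = a * (v 0 * w 0) + Fin.tail v ⬝ᵥ (S *ᵥ Fin.tail w) := by
  simp [dotProduct, Matrix.mulVec, Fin.sum_univ_succ, Fin.tail]
  ring

lemma blkMat_mulVec_zero (a : F) (S : Matrix (Fin m) (Fin m) F) :
    blkMat a S *ᵥ Pi.single 0 1 = (Pi.single 0 a : Fin (m + 1) → F) := by
  funext i
  refine Fin.cases ?_ (fun i' => ?_) i <;> simp [Matrix.mulVec_single_one]

lemma congr_blkMat (a : F) (S B : Matrix (Fin m) (Fin m) F) :
    (blkMat 1 B)ᵀ * blkMat a S * blkMat 1 B = blkMat a (Bᵀ * S * B) := by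
  simp [blkMat_transpose, blkMat_mul]

lemma isUnit_blkMat {B : Matrix (Fin m) (Fin m) F} (hB : IsUnit B) :
    IsUnit (blkMat 1 B) := by
  obtain ⟨u, rfl⟩ := hB
  exact ⟨⟨blkMat 1 u, blkMat 1 (↑u⁻¹ : Matrix (Fin m) (Fin m) F),
    by rw [blkMat_mul, one_mul, Units.mul_inv, blkMat_one],
    by rw [blkMat_mul, one_mul, Units.inv_mul, blkMat_one]⟩, rfl⟩

variable [Fintype F] [DecidableEq F]

/-- A conic through a rational point has at most `q + 1` points. -/
lemma card_conic_le (h2 : (2 : F) ≠ 0) {c : F} (hc : c ≠ 0) :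
    (univ.filter fun p : F × F => p.1 * p.1 + c * (p.2 * p.2) = 1).card ≤ Fintype.card F + 1 := by
  classical
  have key : ∀ p : F × F, p.1 * p.1 + c * (p.2 * p.2) = 1 → p ≠ (1, 0) →
      p.1 - 1 ≠ 0 ∧ (p.1 - 1) * (1 + c * (p.2 / (p.1 - 1)) ^ 2) = -2 := by
    rintro ⟨X, Y⟩ hp hne
    simp only at hp ⊢
    have hX : X - 1 ≠ 0 := by
      intro h
      obtain rfl : X = 1 := sub_eq_zero.1 h
      have : Y = 0 := by simpa [hc] using hp
      exact hne (by rw [this])
    refine ⟨hX, ?_⟩
    field_simp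
    linear_combination hp
  have := Finset.card_le_card_of_injOn
    (fun p : F × F => if p = (1, 0) then none else some (p.2 / (p.1 - 1)))
    (s := univ.filter fun p : F × F => p.1 * p.1 + c * (p.2 * p.2) = 1)
    (t := (univ : Finset (Option F))) (fun p _ => Finset.mem_univ _) (by
      intro p hp p' hp' h
      simp only [coe_filter, mem_univ, true_and, Set.mem_setOf_eq] at hp hp'
      by_cases h1 : p = (1, 0) <;> by_cases h1' : p' = (1, 0) <;>
        simp [h1, h1'] at h ⊢
      obtain ⟨ha, hb⟩ := key p hp h1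
      obtain ⟨ha', hb'⟩ := key p' hp' h1'
      rw [← h] at hb'
      have h3 : 1 + c * (p.2 / (p.1 - 1)) ^ 2 ≠ 0 := by
        intro h0
        rw [h0, mul_zero] at hb
        exact h2 (neg_eq_zero.1 hb.symm)
      have hX : p.1 - 1 = p'.1 - 1 := mul_right_cancel₀ h3 (hb.trans hb'.symm)
      refine Prod.ext (sub_left_inj.1 hX) ?_
      rw [hX] at h
      exact (div_left_inj' ha').1 h)
  simpa using this

lemma card_hyperplane_le {ℓ : Fin n → F} (hℓ : ℓ ≠ 0) :
    (univ.filter fun z : Fin n → F => ℓ ⬝ᵥ z = 0).card * Fintype.card F ≤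
      Fintype.card F ^ n := by
  classical
  obtain ⟨i, hi⟩ := Function.ne_iff.1 hℓ
  simp only [Pi.zero_apply] at hi
  let y₁ : Fin n → F := Pi.single i (ℓ i)⁻¹
  have hy₁ : ℓ ⬝ᵥ y₁ = 1 := by simp [y₁, hi]
  have := Finset.card_le_card_of_injOn (fun p : (Fin n → F) × F => p.1 + p.2 • y₁)
    (s := (univ.filter fun z : Fin n → F => ℓ ⬝ᵥ z = 0) ×ˢ (univ : Finset F))
    (t := (univ : Finset (Fin n → F))) (fun p _ => Finset.mem_univ _) (by
      intro p hp p' hp' h
      simp only [coe_product, coe_filter, mem_univ, true_and, coe_univ, Set.mem_prod,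
        Set.mem_setOf_eq, Set.mem_univ, and_true] at hp hp'
      have h' := congrArg (ℓ ⬝ᵥ ·) h
      simp only [dotProduct_add, dotProduct_smul, hy₁, hp, hp', zero_add, smul_eq_mul,
        mul_one] at h'
      refine Prod.ext ?_ h'
      dsimp only at h
      rw [h'] at h
      exact add_right_cancel h)
  simpa [Finset.card_product] using this

lemma le_card_affine (a : F) {e : Fin n → F} (he : e ≠ 0) :
    Fintype.card F ^ n ≤ (univ.filter fun y : Fin n → F => e ⬝ᵥ y = a).card * Fintype.card F := by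
  classical
  obtain ⟨i, hi⟩ := Function.ne_iff.1 he
  simp only [Pi.zero_apply] at hi
  let y₁ : Fin n → F := Pi.single i (e i)⁻¹
  have hy₁ : e ⬝ᵥ y₁ = 1 := by simp [y₁, hi]
  have := Finset.card_le_card_of_injOn
    (fun y : Fin n → F => (y - (e ⬝ᵥ y - a) • y₁, e ⬝ᵥ y))
    (s := (univ : Finset (Fin n → F)))
    (t := (univ.filter fun y : Fin n → F => e ⬝ᵥ y = a) ×ˢ (univ : Finset F))
    (fun y _ => by simp [dotProduct_sub, dotProduct_smul, hy₁])
    (fun y _ y' _ h => by
      simp only [Prod.mk.injEq] at h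
      obtain ⟨h, h'⟩ := h
      rw [h'] at h
      exact sub_left_inj.1 h)
  simpa [Finset.card_product] using this

/-- Counting pairs of a matrix in the class and a vector of a given value. -/
lemma mul_card_congrOrbit_blk {a : F} (ha : a ≠ 0) (S : Matrix (Fin m) (Fin m) F) :
    (Fintype.card F ^ (m + 1) - 1) * (Fintype.card F ^ m * (congrOrbit S).card) ≤
      (congrOrbit (blkMat a S)).card *
        (univ.filter fun x : Fin (m + 1) → F => x ⬝ᵥ (blkMat a S *ᵥ x) = a).card := by
  classical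
  set T := blkMat a S with hT
  set O := congrOrbit T with hO
  set q := Fintype.card F with hq
  let r : Matrix (Fin (m + 1)) (Fin (m + 1)) F → (Fin (m + 1) → F) → Prop :=
    fun T' e => e ⬝ᵥ (T' *ᵥ e) = a
  have hsum := Finset.sum_card_bipartiteAbove_eq_sum_card_bipartiteBelow r (s := O)
    (t := (univ : Finset (Fin (m + 1) → F)))
  have hup : ∀ T' ∈ O, (univ.bipartiteAbove r T').card ≤
      (univ.filter fun x : Fin (m + 1) → F => x ⬝ᵥ (T *ᵥ x) = a).card := by
    intro T' hT'
    obtain ⟨A, hA, rfl⟩ := mem_congrOrbit.1 hT'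
    refine Finset.card_le_card_of_injOn (fun e => A *ᵥ e) (fun e he => ?_)
      (Matrix.mulVec_injective_iff_isUnit.2 hA).injOn
    simpa [Finset.bipartiteAbove, r, quad_congr] using he
  have hv : (Pi.single 0 1 : Fin (m + 1) → F) ⬝ᵥ (T *ᵥ Pi.single 0 1) = a := by
    simp [hT, blkMat_mulVec_zero]
  have hlow : ∀ e ∈ (univ : Finset (Fin (m + 1) → F)).erase 0,
      q ^ m * (congrOrbit S).card ≤ (O.bipartiteBelow r e).card := by
    intro e he
    have he0 : e ≠ 0 := (Finset.mem_erase.1 he).1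
    have hy : q ^ m ≤ (univ.filter fun y : Fin (m + 1) → F => e ⬝ᵥ y = a).card := by
      have := le_card_affine a he0
      rw [pow_succ] at this
      exact Nat.le_of_mul_le_mul_right this Fintype.card_pos
    refine le_trans (Nat.mul_le_mul_right _ hy) ?_
    rw [← Finset.card_product]
    have hex : ∀ y : Fin (m + 1) → F, ∃ A : Matrix (Fin (m + 1)) (Fin (m + 1)) F, IsUnit A ∧
        (e ⬝ᵥ y = a → A *ᵥ e = Pi.single 0 1 ∧ (Aᵀ * T * A) *ᵥ e = y) := fun y => by
      by_cases hy' : e ⬝ᵥ y = a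
      · obtain ⟨A, hA, h1, h2⟩ := exists_congr_mulVec hv ha he0 hy'
        exact ⟨A, hA, fun _ => ⟨h1, h2⟩⟩
      · exact ⟨1, isUnit_one, fun h => absurd h hy'⟩
    choose A hAu hA using hex
    have himg : ∀ y, e ⬝ᵥ y = a → ∀ S' : Matrix (Fin m) (Fin m) F,
        ((A y)ᵀ * blkMat a S' * A y) *ᵥ e = y := fun y hy' S' => by
      obtain ⟨h1, h2⟩ := hA y hy'
      rw [← Matrix.mulVec_mulVec, ← Matrix.mulVec_mulVec, h1] at h2 ⊢
      rw [hT, blkMat_mulVec_zero] at h2
      rwa [blkMat_mulVec_zero]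
    refine Finset.card_le_card_of_injOn (fun p => (A p.1)ᵀ * blkMat a p.2 * A p.1)
      (fun p hp => ?_) (fun p hp p' hp' h => ?_)
    · simp only [coe_product, Set.mem_prod, coe_filter, mem_univ, true_and, Set.mem_setOf_eq,
        mem_coe] at hp
      obtain ⟨B, hB, hBS⟩ := mem_congrOrbit.1 hp.2
      simp only [Finset.bipartiteBelow, Finset.coe_filter, Set.mem_setOf_eq]
      refine ⟨mem_congrOrbit.2 ⟨blkMat 1 B * A p.1, (isUnit_blkMat hB).mul (hAu _), ?_⟩, ?_⟩
      · rw [← hBS, ← congr_blkMat, Matrix.transpose_mul]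
        simp only [mul_assoc, hT]
      · show e ⬝ᵥ (_ *ᵥ e) = a
        rw [himg _ hp.1]
        exact hp.1
    · simp only [coe_product, Set.mem_prod, coe_filter, mem_univ, true_and, Set.mem_setOf_eq,
        mem_coe] at hp hp'
      dsimp only at h
      have hy : p.1 = p'.1 := by rw [← himg _ hp.1 p.2, h, himg _ hp'.1]
      rw [← hy] at h
      have hd := (Matrix.isUnit_iff_isUnit_det _).1 (hAu p.1)
      have h1 : blkMat a p.2 = blkMat a p'.2 :=
        ((Matrix.isUnit_transpose (A p.1)).2 (hAu p.1)).mul_left_cancel ((hAu p.1).mul_right_cancel h)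
      refine Prod.ext hy (Matrix.ext fun i j => ?_)
      simpa using congrFun (congrFun h1 i.succ) j.succ
  have h1 : ((univ : Finset (Fin (m + 1) → F)).erase 0).card • (q ^ m * (congrOrbit S).card) ≤
      ∑ e ∈ (univ : Finset (Fin (m + 1) → F)), (O.bipartiteBelow r e).card :=
    (Finset.card_nsmul_le_sum _ _ _ hlow).trans
      (Finset.sum_le_sum_of_subset (Finset.erase_subset 0 _))
  rw [smul_eq_mul, Finset.card_erase_of_mem (mem_univ _), Finset.card_univ,
    Fintype.card_pi_const, ← hsum] at h1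
  exact h1.trans ((Finset.sum_le_card_nsmul _ _ _ hup).trans_eq (smul_eq_mul _ _))

/-- A class of rank at least two is large. -/
theorem le_card_congrOrbit_of_rank (h2 : (2 : F) ≠ 0) : ∀ {n : ℕ}
    {T : Matrix (Fin n) (Fin n) F}, T.IsSymm → ¬ RankLeOne T →
    (Fintype.card F ^ n - 1) * (Fintype.card F ^ n - Fintype.card F) ≤
      2 * (Fintype.card F + 1) * (congrOrbit T).card := by
  classical
  intro n
  induction n with
  | zero => exact fun _ h => absurd (RankLeOne.of_le_one (by omega) _) h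
  | succ m ih =>
    intro T hT hR
    set q := Fintype.card F with hq
    have hT0 : T ≠ 0 := fun h => hR (fun v w => by simp [h])
    obtain ⟨v₀, hv₀⟩ := exists_quad_ne_zero h2 hT hT0
    obtain ⟨a, ha⟩ : ∃ a, a = v₀ ⬝ᵥ (T *ᵥ v₀) := ⟨_, rfl⟩
    rw [← ha] at hv₀
    obtain ⟨A, hA, -, hAy⟩ := exists_congr_mulVec ha.symm hv₀
      (e := (Pi.single 0 1 : Fin (m + 1) → F)) (y := Pi.single 0 a) (by simp) (by simp)
    set T' := Aᵀ * T * A with hT'
    have hTs : T'.IsSymm := by simp [hT', Matrix.IsSymm, hT.eq, mul_assoc]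
    set S : Matrix (Fin m) (Fin m) F := Matrix.of fun i j => T' i.succ j.succ with hS
    have hblk : T' = blkMat a S := by
      have hc : ∀ i, T' i 0 = (Pi.single 0 a : Fin (m + 1) → F) i := fun i => by
        simpa [Matrix.mulVec_single_one] using congrFun hAy i
      ext i j
      refine Fin.cases ?_ (fun j' => ?_) j
      · rw [hc]
        refine Fin.cases ?_ (fun i' => ?_) i <;> simp
      · refine Fin.cases ?_ (fun i' => ?_) i
        · rw [hTs.apply, hc]
          simp
        · simp [hS]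
    have hSs : S.IsSymm := by
      ext i j
      simp [hS, hTs.apply]
    have hO : (congrOrbit T').card ≤ (congrOrbit T).card := Finset.card_le_card fun M hM => by
      obtain ⟨B, hB, rfl⟩ := mem_congrOrbit.1 hM
      exact mem_congrOrbit.2 ⟨A * B, hA.mul hB, by simp [hT', Matrix.transpose_mul, mul_assoc]⟩
    have hR' : ¬ RankLeOne T' := fun h => hR (by
      have hd := (Matrix.isUnit_iff_isUnit_det _).1 hA
      have e : (A⁻¹)ᵀ * T' * A⁻¹ = T := by
        simp only [hT', mul_assoc, Matrix.mul_nonsing_inv _ hd, mul_one]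
        rw [← mul_assoc, ← Matrix.transpose_mul, Matrix.mul_nonsing_inv _ hd,
          Matrix.transpose_one, one_mul]
      exact e ▸ h.congr A⁻¹)
    have hcount := mul_card_congrOrbit_blk hv₀ S
    rw [← hblk] at hcount
    set N := (univ.filter fun x : Fin (m + 1) → F => x ⬝ᵥ (T' *ᵥ x) = a).card with hN
    have hq3 : 3 ≤ q := by
      by_contra hlt
      have := Fintype.one_lt_card (α := F)
      have h' : q = 2 := by omega
      have hev : Fintype.card F % 2 = 0 := by omega
      have := FiniteField.even_card_iff_char_two.2 hev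
      haveI := ringChar.of_eq this
      exact h2 (by exact_mod_cast CharTwo.two_eq_zero (R := F))
    have hpm : 0 < q ^ m := Nat.pow_pos (by omega)
    refine le_trans ?_ (Nat.mul_le_mul_left _ hO)
    by_cases hRS : RankLeOne S
    · -- rank two
      have hS0 : S ≠ 0 := fun h => hR' (by
        intro v w
        rw [hblk]
        simp only [dot_blkMat, h, Matrix.zero_mulVec, dotProduct_zero, add_zero]
        ring)
      obtain ⟨v₁, hv₁⟩ := exists_quad_ne_zero h2 hSs hS0
      set b := v₁ ⬝ᵥ (S *ᵥ v₁) with hb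
      set ℓ := S *ᵥ v₁ with hℓ
      have hℓ0 : ℓ ≠ 0 := fun h => hv₁ (by rw [hb, h, dotProduct_zero])
      have hQ : ∀ w, b * (w ⬝ᵥ (S *ᵥ w)) = (ℓ ⬝ᵥ w) ^ 2 := fun w => by
        rw [hb, hRS v₁ w, dot_mulVec_symm hSs v₁ w]
      have hN' : N * q ≤ (q + 1) * q ^ m := by
        let y₁ : Fin m → F := b⁻¹ • v₁
        have hy₁ : ℓ ⬝ᵥ y₁ = 1 := by
          show ℓ ⬝ᵥ (b⁻¹ • v₁) = 1
          rw [dotProduct_smul, dotProduct_comm, ← hb, smul_eq_mul, inv_mul_cancel₀ hv₁]
        have hab : (a * b)⁻¹ ≠ 0 := inv_ne_zero (mul_ne_zero hv₀ hv₁)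
        have := Finset.card_le_card_of_injOn
          (fun x : Fin (m + 1) → F =>
            ((x 0, ℓ ⬝ᵥ Fin.tail x), Fin.tail x - (ℓ ⬝ᵥ Fin.tail x) • y₁))
          (s := univ.filter fun x : Fin (m + 1) → F => x ⬝ᵥ (T' *ᵥ x) = a)
          (t := (univ.filter fun p : F × F => p.1 * p.1 + (a * b)⁻¹ * (p.2 * p.2) = 1) ×ˢ
            (univ.filter fun z : Fin m → F => ℓ ⬝ᵥ z = 0))
          (fun x hx => by
            simp only [coe_filter, mem_univ, true_and, Set.mem_setOf_eq, hblk, dot_blkMat] at hx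
            simp only [coe_product, Set.mem_prod, coe_filter, mem_univ, true_and,
              Set.mem_setOf_eq, dotProduct_sub, dotProduct_smul, hy₁, smul_eq_mul, mul_one,
              sub_self, and_true]
            field_simp
            linear_combination b * hx - hQ (Fin.tail x))
          (fun x _ x' _ h => by
            simp only [Prod.mk.injEq] at h
            obtain ⟨⟨h0, h1⟩, h2'⟩ := h
            rw [h1] at h2'
            have h3 : Fin.tail x = Fin.tail x' := sub_left_inj.1 h2'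
            rw [← Fin.cons_self_tail x, ← Fin.cons_self_tail x', h0, h3])
        rw [Finset.card_product] at this
        calc N * q ≤ _ * q := Nat.mul_le_mul_right q this
          _ = _ * (_ * q) := mul_assoc _ _ _
          _ ≤ (q + 1) * q ^ m := Nat.mul_le_mul (card_conic_le h2 hab) (card_hyperplane_le hℓ0)
      have h3 := le_two_mul_card_congrOrbit h2 hSs hS0
      refine Nat.le_of_mul_le_mul_right ?_ hpm
      calc (q ^ (m + 1) - 1) * (q ^ (m + 1) - q) * q ^ m
          = (q ^ (m + 1) - 1) * (q ^ m * ((q ^ m - 1) * q)) := by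
            rw [Nat.sub_mul (q ^ m) 1 q, ← pow_succ, one_mul]
            ring
        _ ≤ (q ^ (m + 1) - 1) * (q ^ m * (2 * (congrOrbit S).card * q)) := by gcongr
        _ = 2 * ((q ^ (m + 1) - 1) * (q ^ m * (congrOrbit S).card)) * q := by ring
        _ ≤ 2 * ((congrOrbit T').card * N) * q := by gcongr
        _ = 2 * (congrOrbit T').card * (N * q) := by ring
        _ ≤ 2 * (congrOrbit T').card * ((q + 1) * q ^ m) := by gcongr
        _ = 2 * (q + 1) * (congrOrbit T').card * q ^ m := by ring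
    · -- rank at least three
      have hm : 2 ≤ m := by
        by_contra hlt
        exact hRS (RankLeOne.of_le_one (by omega) _)
      have hN' : N ≤ 2 * q ^ m := by
        have hv : (Pi.single 0 1 : Fin (m + 1) → F) ⬝ᵥ (T' *ᵥ Pi.single 0 1) ≠ 0 := by
          rw [hblk]
          simpa [blkMat_mulVec_zero] using hv₀
        have := card_level_le hTs hv a
        rw [pow_succ, ← mul_assoc] at this
        exact Nat.le_of_mul_le_mul_right this (by omega)
      have h3 := ih hSs hRS
      have hsz : 2 * (q ^ (m + 1) - q) ≤ (q ^ m - 1) * (q ^ m - q) := by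
        have h9 : 3 * q ≤ q ^ m := le_trans (by nlinarith) (Nat.pow_le_pow_right (by omega) hm)
        calc 2 * (q ^ (m + 1) - q) = (q ^ m - 1) * (2 * q) := by
              rw [pow_succ, ← Nat.mul_comm q, Nat.sub_mul, one_mul]
              rw [Nat.mul_sub, show q * q ^ m = q ^ m * q from mul_comm _ _,
                show q ^ m * (2 * q) = 2 * (q ^ m * q) by ring]
          _ ≤ (q ^ m - 1) * (q ^ m - q) := Nat.mul_le_mul_left _ (by omega)
      refine Nat.le_of_mul_le_mul_right ?_ (Nat.mul_pos two_pos hpm)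
      calc (q ^ (m + 1) - 1) * (q ^ (m + 1) - q) * (2 * q ^ m)
          = (q ^ (m + 1) - 1) * (q ^ m * (2 * (q ^ (m + 1) - q))) := by ring
        _ ≤ (q ^ (m + 1) - 1) * (q ^ m * (2 * (q + 1) * (congrOrbit S).card)) :=
            Nat.mul_le_mul_left _ (Nat.mul_le_mul_left _ (hsz.trans h3))
        _ = 2 * (q + 1) * ((q ^ (m + 1) - 1) * (q ^ m * (congrOrbit S).card)) := by ring
        _ ≤ 2 * (q + 1) * ((congrOrbit T').card * N) := by gcongr
        _ ≤ 2 * (q + 1) * ((congrOrbit T').card * (2 * q ^ m)) := by gcongr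
        _ = 2 * (q + 1) * (congrOrbit T').card * (2 * q ^ m) := by ring

end Cfsg.Agent.H39
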