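import Mathlib
import Cfsg.Agent.H39.WeilGapRank

/-!
# The stabiliser of a rank-one character

The Weil representation has rank-one spectrum, and in any representation with rank-one spectrum
the stabiliser of a point acts on the attached eigenvector as in the Weil representation.
-/

set_option autoImplicit false

namespace Cfsg.Agent.H39

open Matrix Finset Module

variable {F : Type*} [Field F] [Fintype F] [DecidableEq F] {n : ℕ}

variable (h2 : (2 : F) ≠ 0) {ψ : AddChar F ℂ} (hψ : ψ ≠ 1)

include h2 hψ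

lemma symMat_eq_of_char {T T' : Matrix (Fin n) (Fin n) F} (hT : T.IsSymm) (hT' : T'.IsSymm)
    (h : ∀ S, symChar ψ T S = symChar ψ T' S) : T = T' :=
  Matrix.ext fun _ _ => entry_pair_eq h2 hψ hT hT' fun _ => h _

/-- The Siegel radical acts on functions by phases. -/
theorem weilFull_siegelU_eq (hn : 2 ≤ n) (S : symMat n F) :
    weilFull h2 hψ (siegelU S) = phOp ψ S := by
  refine (Pi.basisFun ℂ (Fin n → F)).ext fun x => ?_
  rw [Pi.basisFun_apply]
  show weilFull h2 hψ (siegelU S) (δv x) = phOp ψ S (δv x)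
  rw [weilFull_siegelU h2 hψ hn, phOp_δv]

lemma siegelEigen_δv (hn : 2 ≤ n) (x : Fin n → F) :
    SiegelEigen (weilFull h2 hψ) ψ (ptMat x) (δv x) := fun S => by
  rw [weilFull_siegelU h2 hψ hn, symChar_apply, trace_ptMat_mul]

/-- The Weil representation has rank-one spectrum. -/
theorem rankOneSpec_weilFull (hn : 2 ≤ n) :
    RankOneSpec (weilFull (n := n) h2 hψ) ψ := by
  intro T f hf he
  obtain ⟨x, hx⟩ := Function.ne_iff.1 hf
  simp only [Pi.zero_apply] at hx
  rw [symMat_eq_of_char h2 hψ T.2 (isSymm_ptMat x) fun S => ?_]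
  · exact rankLeOne_ptMat x
  have h := congrFun (he S) x
  rw [weilFull_siegelU_eq h2 hψ hn, phOp_apply, Pi.smul_apply, smul_eq_mul] at h
  rw [← mul_right_cancel₀ hx h, symChar_apply, trace_ptMat_mul]

omit [Fintype F] [DecidableEq F] h2 hψ in
lemma act_trUnit {a b : Fin n} (h : a ≠ b) (c : F) (x : Fin n → F) :
    ((trUnit h c).1⁻¹)ᵀ *ᵥ x = x - Pi.single b (c * x a) := by
  rw [inv_trUnit]
  funext j
  by_cases hj : j = b <;>
    simp [Matrix.transvection, Matrix.add_mulVec, Matrix.single_mulVec, hj, sub_eq_add_neg]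

/-- Transvections have scalar one. -/
theorem weilSign_trUnit (hn : 2 ≤ n) {a b : Fin n} (h : a ≠ b) (c : F) :
    weilSign h2 hψ (trUnit h c) = 1 := by
  have hfix : weilFull h2 hψ (mHom (trUnit h c)) (δv (Pi.single b 1)) = δv (Pi.single b 1) :=
    fix_trUnit h2 hψ (rankOneSpec_weilFull h2 hψ hn) h c fun t => by
      rw [siegelEigen_δv h2 hψ hn _ _, symChar_symDiag]
      simp [ptMat, Matrix.vecMulVec_apply, h]
  rw [weilFull_mHom, act_trUnit] at hfix
  simpa [δv, h] using congrFun hfix (Pi.single b 1)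

omit [Fintype F] [DecidableEq F] h2 hψ in
lemma diagUnit_one (i : Fin n) : diagUnit i (1 : Fˣ) = 1 :=
  Units.ext (by simp [diagUnit])

lemma line_weyl {V : Type*} [AddCommGroup V] [Module ℂ V]
    {ρ : Representation ℂ (Matrix.symplecticGroup (Fin n) F) V}
    (hρ : RankOneSpec ρ ψ) {i k : Fin n} (hik : i ≠ k) {v : V}
    (hD : ∀ s, ρ (siegelU (symDiag i s)) v = ψ (2⁻¹ * s) • v)
    (hX : ∀ s, ρ (siegelU (symPair i k s)) v = v) (t : F) :
    ρ (wEl k) (ρ (mHom (trUnit hik (-t))) v) =
      gaussQ ψ (1 : F) • ∑ r, ψ (t * r) • ρ (mHom (trUnit hik (-r))) v := by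
  have := line_formula h2 hψ hρ hik hD hX 1 t
  simpa [diagUnit_one] using this

/-- The Weyl scalar is a normalised Gauss sum. -/
theorem weilGamma_eq (hn : 2 ≤ n) (k : Fin n) :
    weilGamma h2 hψ k = gaussQ ψ (1 : F) := by
  haveI : Nontrivial (Fin n) := Fin.nontrivial_iff_two_le.2 hn
  obtain ⟨i, hik⟩ := exists_ne k
  have hline := line_weyl h2 hψ (rankOneSpec_weilFull h2 hψ hn) hik
    (v := δv (Pi.single i 1)) (fun s => by
      rw [siegelEigen_δv h2 hψ hn _ _, symChar_symDiag]
      simp [ptMat, Matrix.vecMulVec_apply, mul_comm])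
    (fun s => by
      rw [siegelEigen_δv h2 hψ hn _ _, symChar_symPair ψ (isSymm_ptMat _)]
      simp [ptMat, Matrix.vecMulVec_apply, hik.symm]) 0
  simp only [weilFull_mHom, weilSign_trUnit h2 hψ hn, one_smul, act_trUnit, weilFull_wEl] at hline
  have h := congrFun hline (Pi.single i 1)
  simp only [Pi.smul_apply, Finset.sum_apply, smul_eq_mul] at h
  simp only [neg_zero, zero_mul, Pi.single_zero, sub_zero, AddChar.map_zero_eq_one, one_mul,
    Pi.single_eq_same, mul_one, Pi.single_eq_of_ne hik.symm, mul_zero] at h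
  rw [Finset.sum_eq_single 0, Finset.sum_eq_single 0] at h
  · have e1 : Function.update (Pi.single i 1 : Fin n → F) k 0 = Pi.single i 1 :=
      Function.update_eq_self_iff.2 (by simp [hik.symm])
    simpa [δv, e1] using h
  · intro r _ hr
    rw [δv]
    exact Pi.single_eq_of_ne (fun e => hr (by
      simpa [hik.symm] using (congrFun e k).symm)) _
  · simp
  · intro r _ hr
    rw [δv]
    exact Pi.single_eq_of_ne (fun e => hr (by
      simpa [hik.symm] using (congrFun e k).symm)) _
  · simp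

lemma gamma_ne_zero (hn : 2 ≤ n) : gaussQ ψ (1 : F) ≠ 0 := by
  intro h
  have h4 := weilGamma_pow_four h2 hψ (⟨0, by omega⟩ : Fin n)
  rw [weilGamma_eq h2 hψ hn, h] at h4
  simp at h4

lemma gamma_pow_four (hn : 2 ≤ n) :
    gaussQ ψ (1 : F) ^ 4 * (Fintype.card F : ℂ) ^ 2 = 1 := by
  rw [← weilGamma_eq h2 hψ hn ⟨0, by omega⟩]
  exact weilGamma_pow_four h2 hψ _

lemma gamma_pow_four_ne_one (hn : 2 ≤ n) : gaussQ ψ (1 : F) ^ 4 ≠ 1 := by
  intro h
  have h4 := gamma_pow_four h2 hψ hn
  rw [h, one_mul] at h4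
  have h' : ((Fintype.card F ^ 2 : ℕ) : ℂ) = ((1 : ℕ) : ℂ) := by simpa using h4
  have := Nat.cast_injective h'
  have := Fintype.one_lt_card (α := F)
  nlinarith

/-- The scalar of a sign change in one coordinate. -/
theorem weilSign_neg (hn : 2 ≤ n) (i : Fin n) :
    weilSign h2 hψ (diagUnit i (-1)) = gaussQ ψ (1 : F) ^ 2 * (Fintype.card F : ℂ) := by
  have h : weilFull h2 hψ (wEl i) (weilFull h2 hψ (wEl i) (δv 0)) 0 =
      weilSign h2 hψ (diagUnit i (-1)) := by
    rw [← Module.End.mul_apply, ← map_mul, wEl_sq]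
    rfl
  rw [← h, weilFull_wEl, map_smul, map_sum]
  simp only [Pi.zero_apply, mul_zero, AddChar.map_zero_eq_one, one_smul, weilFull_wEl,
    Function.update_idem, Pi.smul_apply, Finset.sum_apply, smul_eq_mul]
  rw [weilGamma_eq h2 hψ hn]
  have h0 : ∀ s : F, ∑ r : F, ψ (r * Function.update (0 : Fin n → F) i s i) *
      δv (Function.update (0 : Fin n → F) i r) (0 : Fin n → F) = 1 := fun s => by
    rw [Finset.sum_eq_single 0]
    · simp [δv]
    · intro r _ hr
      rw [δv, Pi.single_eq_of_ne fun e => hr (by simpa using (congrFun e i).symm), mul_zero]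
    · simp
  simp only [h0, Finset.sum_const, Finset.card_univ, mul_one, nsmul_eq_mul]
  ring

variable {V : Type*} [AddCommGroup V] [Module ℂ V]
  {ρ : Representation ℂ (Matrix.symplecticGroup (Fin n) F) V}

/-- Torus elements multiply a rank-one eigenvector by a ratio of Gauss sums. -/
lemma fix_diagUnit_aux (hρ : RankOneSpec ρ ψ) {i k : Fin n} (hik : i ≠ k) (a : Fˣ)
    {v : V} (hv : SiegelEigen ρ ψ (ptMat (Pi.single i 1)) v) :
    (gaussQ ψ (1 : F) * (Fintype.card F : ℂ)) • ρ (mHom (diagUnit k a)) v =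
      (gaussQ ψ ((a⁻¹ : Fˣ) : F) * (Fintype.card F : ℂ)) • v := by
  classical
  have hD : ∀ s, ρ (siegelU (symDiag i s)) v = ψ (2⁻¹ * s) • v := fun s => by
    rw [hv, symChar_symDiag]
    simp [ptMat, Matrix.vecMulVec_apply, mul_comm]
  have hX : ∀ s, ρ (siegelU (symPair i k s)) v = v := fun s => by
    rw [hv, symChar_symPair ψ (isSymm_ptMat _)]
    simp [ptMat, Matrix.vecMulVec_apply, hik.symm]
  have h0 : ρ (mHom (trUnit hik (-0))) v = v := by
    rw [show trUnit hik (-(0 : F)) = 1 from Units.ext (by simp [trUnit])]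
    simp
  have hs : ∀ b : F, b ≠ 0 → ∑ t : F, ∑ r : F, ψ (b * t * r) • ρ (mHom (trUnit hik (-r))) v =
      (Fintype.card F : ℂ) • v := by
    intro b hb
    rw [Finset.sum_comm, Finset.sum_eq_single 0]
    · rw [neg_zero] at h0
      simp [← Finset.sum_smul, h0, Nat.cast_smul_eq_nsmul]
    · intro r _ hr
      rw [← Finset.sum_smul, show ∑ t : F, ψ (b * t * r) = 0 by
        have hps := AddChar.sum_mulShift (b * r) (AddChar.IsPrimitive.of_ne_one hψ)
        rw [if_neg (mul_ne_zero hb hr), Nat.cast_zero] at hps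
        rw [← hps]
        exact Finset.sum_congr rfl fun t _ => by ring_nf, zero_smul]
    · simp
  have hsum := congrArg (ρ (mHom (diagUnit k a)))
    (Finset.sum_congr (rfl : (univ : Finset F) = univ)
      fun t _ => line_weyl h2 hψ hρ hik hD hX t)
  simp only [map_sum, ← Finset.smul_sum, ← Module.End.mul_apply] at hsum
  simp only [← Module.End.mul_apply, ← map_mul] at hsum
  simp only [map_mul, Module.End.mul_apply] at hsum
  have hl : ∀ t, ρ (mHom (diagUnit k a)) (ρ (wEl k) (ρ (mHom (trUnit hik (-t))) v)) =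
      gaussQ ψ ((a⁻¹ : Fˣ) : F) • ∑ r, ψ ((a : F) * t * r) • ρ (mHom (trUnit hik (-r))) v :=
    fun t => by rw [← Module.End.mul_apply, ← map_mul, line_formula h2 hψ hρ hik hD hX]
  simp only [hl, ← Finset.smul_sum, hs _ a.ne_zero, map_smul] at hsum
  have h1 : ∑ t : F, ∑ r : F, ψ (t * r) • ρ (mHom (trUnit hik (-r))) v =
      (Fintype.card F : ℂ) • v := by simpa using hs 1 one_ne_zero
  rw [h1, map_smul, smul_smul, smul_smul] at hsum
  exact hsum.symm

/-- Torus elements act by the Weil scalar. -/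
lemma fix_diagUnit (hn : 2 ≤ n) (hρ : RankOneSpec ρ ψ) {i k : Fin n} (hik : i ≠ k) (a : Fˣ)
    {v : V} (hv : SiegelEigen ρ ψ (ptMat (Pi.single i 1)) v) :
    ρ (mHom (diagUnit k a)) v = weilSign h2 hψ (diagUnit k a) • v := by
  classical
  have hW := fix_diagUnit_aux h2 hψ (rankOneSpec_weilFull h2 hψ hn) hik a
    (siegelEigen_δv h2 hψ hn (Pi.single i 1))
  rw [weilFull_mHom, inv_diagUnit] at hW
  have hx : (Matrix.diagonal (Function.update 1 k ((a⁻¹ : Fˣ) : F)))ᵀ *ᵥ
      (Pi.single i 1 : Fin n → F) = Pi.single i 1 := by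
    funext j
    by_cases hj : j = k <;> simp [hj, Matrix.mulVec_diagonal, hik.symm]
  rw [hx] at hW
  have he := congrFun hW (Pi.single i 1)
  simp [δv, -Units.val_inv_eq_inv_val] at he
  have hV := fix_diagUnit_aux h2 hψ hρ hik a hv
  rw [← he, ← smul_smul (gaussQ ψ (1 : F) * (Fintype.card F : ℂ)) (weilSign h2 hψ (diagUnit k a)) v] at hV
  exact smul_right_injective V (mul_ne_zero (gamma_ne_zero h2 hψ hn)
    (Nat.cast_ne_zero.2 Fintype.card_ne_zero)) hV

/-- The stabiliser of a point acts on its eigenvector by the Weil scalar. -/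
theorem fix_stab (hn : 2 ≤ n) (hρ : RankOneSpec ρ ψ) (i₀ : Fin n) {v : V}
    (hv : SiegelEigen ρ ψ (ptMat (Pi.single i₀ 1)) v) (A : (Matrix (Fin n) (Fin n) F)ˣ)
    (hA : (A.1⁻¹)ᵀ *ᵥ (Pi.single i₀ 1 : Fin n → F) = Pi.single i₀ 1) :
    ρ (mHom A) v = weilSign h2 hψ A • v := by
  classical
  let P : Matrix (Fin n) (Fin n) F → Prop := fun M => ∃ U : (Matrix (Fin n) (Fin n) F)ˣ,
    U.1 = M ∧ ρ (mHom U) v = weilSign h2 hψ U • v
  have hmul : ∀ M N, P M → P N → P (M * N) := by
    rintro _ _ ⟨U, rfl, hU⟩ ⟨U', rfl, hU'⟩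
    refine ⟨U * U', rfl, ?_⟩
    rw [map_mul, map_mul, Module.End.mul_apply, hU', map_smul, hU, smul_smul,
      weilSign_mul h2 hψ, mul_comm]
  have hone : P 1 := ⟨1, rfl, by
    have h1 : weilSign h2 hψ (1 : (Matrix (Fin n) (Fin n) F)ˣ) = 1 := by simp [weilSign, δv]
    simp [h1]⟩
  have htr : ∀ (a b : Fin n) (h : a ≠ b) (c : F), a ≠ i₀ → P (Matrix.transvection a b c) :=
    fun a b h c ha => ⟨trUnit h c, rfl, by
      rw [fix_trUnit h2 hψ hρ h c (v := v) fun t => by
        rw [hv, symChar_symDiag]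
        simp [ptMat, Matrix.vecMulVec_apply, ha], weilSign_trUnit h2 hψ hn, one_smul]⟩
  have hdiag : ∀ (d : Fin n → F), (∀ j, d j ≠ 0) → ∀ s : Finset (Fin n), i₀ ∉ s →
      P (Matrix.diagonal fun j => if j ∈ s then d j else 1) := by
    intro d hd s
    induction s using Finset.induction with
    | empty =>
      intro _
      simpa using hone
    | @insert k s hk ih =>
      intro hi
      rw [Finset.mem_insert, not_or] at hi
      have := hmul _ _ ⟨diagUnit k (Units.mk0 _ (hd k)), rfl,
        fix_diagUnit h2 hψ hn hρ hi.1 _ hv⟩ (ih hi.2)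
      convert this using 1
      simp only [diagUnit, Matrix.diagonal_mul_diagonal]
      congr 1
      funext j
      by_cases hj : j = k <;> simp [hj, hk]
  -- the complementary block
  let e : {j // j = i₀} ⊕ {j // ¬j = i₀} ≃ Fin n := Equiv.sumCompl fun j => j = i₀
  let emb : Matrix {j // ¬j = i₀} {j // ¬j = i₀} F → Matrix (Fin n) (Fin n) F := fun M =>
    (Matrix.fromBlocks 1 0 0 M).submatrix e.symm e.symm
  have hemb : ∀ M, M.det ≠ 0 → P (emb M) := by
    intro M hM
    refine Matrix.diagonal_transvection_induction_of_det_ne_zero (fun N => P (emb N)) M hM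
      (fun D hD => ?_) (fun t => ?_) (fun N N' _ _ hN hN' => ?_)
    · show P (emb (Matrix.diagonal D))
      rw [Matrix.det_diagonal, Finset.prod_ne_zero_iff] at hD
      have := hdiag (fun j => if h : ¬j = i₀ then D ⟨j, h⟩ else 1)
        (fun j => by
          by_cases h : ¬j = i₀
          · simpa [h] using hD ⟨j, h⟩ (Finset.mem_univ _)
          · simp [h])
        (univ.erase i₀) (Finset.notMem_erase _ _)
      convert this using 1
      simp only [emb]
      rw [← Matrix.diagonal_one, Matrix.fromBlocks_diagonal, Matrix.submatrix_diagonal_equiv]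
      congr 1
      funext j
      obtain ⟨j, rfl⟩ := e.surjective j
      rcases j with ⟨j, hj⟩ | ⟨j, hj⟩ <;> simp [e, hj]
    · show P (emb t.toMatrix)
      have := htr t.i.1 t.j.1 (fun h => t.hij (Subtype.ext h)) t.c t.i.2
      convert this using 1
      have hb : Matrix.fromBlocks (1 : Matrix {j // j = i₀} {j // j = i₀} F) 0 0 t.toMatrix =
          1 + Matrix.single (Sum.inr t.i) (Sum.inr t.j) t.c := by
        ext (a | a) (b | b) <;>
          simp [Matrix.TransvectionStruct.toMatrix, Matrix.transvection, Matrix.one_apply,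
            Matrix.single_apply]
      simp only [emb, hb, Matrix.submatrix_add, Pi.add_apply, Matrix.submatrix_one_equiv,
        Matrix.transvection]
      congr 1
      ext a b
      obtain ⟨a, rfl⟩ := e.surjective a
      obtain ⟨b, rfl⟩ := e.surjective b
      rw [show t.i.1 = e (Sum.inr t.i) from rfl, show t.j.1 = e (Sum.inr t.j) from rfl]
      simp [Matrix.single_apply, e.injective.eq_iff]
    · show P (emb (N * N'))
      convert hmul _ _ hN hN' using 1
      simp [emb, Matrix.submatrix_mul_equiv, Matrix.fromBlocks_multiply]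
  have hcol : ∀ s : Finset (Fin n), i₀ ∉ s → ∀ u : Fin n → F,
      P (1 + vecMulVec (fun j => if j ∈ s then u j else 0) (Pi.single i₀ 1)) := by
    intro s
    induction s using Finset.induction with
    | empty =>
      intro _ u
      convert hone using 1
      ext a b
      simp [Matrix.vecMulVec_apply]
    | @insert k s hk ih =>
      intro hi u
      rw [Finset.mem_insert, not_or] at hi
      convert hmul _ _ (ih hi.2 u) (htr k i₀ (Ne.symm hi.1) (u k) (Ne.symm hi.1)) using 1
      have h0 : (Pi.single i₀ (1 : F) : Fin n → F) ᵥ* Matrix.single k i₀ (u k) = 0 := by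
        ext j
        simp [Matrix.vecMul, dotProduct, Pi.single_apply, Matrix.single_apply]
        refine Finset.sum_eq_zero fun l _ => ?_
        by_cases hl : k = l
        · subst hl
          simp [Ne.symm hi.1]
        · simp [hl]
      rw [Matrix.transvection, Matrix.mul_add, Matrix.mul_one, Matrix.add_mul, Matrix.one_mul,
        Matrix.vecMulVec_mul, h0]
      ext a b
      simp only [Matrix.add_apply, Matrix.vecMulVec_apply, Matrix.single_apply, Matrix.one_apply,
        Pi.single_apply, Pi.zero_apply, mul_zero, add_zero]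
      by_cases ha : a = k
      · subst ha
        by_cases hb : b = i₀
        · subst hb
          simp [hk, hi.1, Ne.symm hi.1]
        · simp [hb, Ne.symm hb]
      · by_cases hb : b = i₀
        · subst hb
          simp [ha, Ne.symm ha]
        · simp [hb, Ne.symm hb]
  -- split the matrix
  have hd : IsUnit A.1.det := (Matrix.isUnit_iff_isUnit_det _).1 A.isUnit
  have hrow : A.1 i₀ = (Pi.single i₀ 1 : Fin n → F) := by
    have := congrArg (A.1ᵀ *ᵥ ·) hA
    change A.1ᵀ *ᵥ ((A.1⁻¹)ᵀ *ᵥ Pi.single i₀ 1) = A.1ᵀ *ᵥ Pi.single i₀ 1 at this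
    rw [Matrix.mulVec_mulVec, ← Matrix.transpose_mul, Matrix.nonsing_inv_mul _ hd,
      Matrix.transpose_one, Matrix.one_mulVec, Matrix.mulVec_single_one] at this
    exact funext fun j => (congrFun this j).symm
  have hzero : (A.1.submatrix e e).toBlocks₁₂ = 0 := by
    ext ⟨a, ha⟩ ⟨b, hb⟩
    simp [Matrix.toBlocks₁₂, e, ha, hrow, hb]
  have hdet : (A.1.submatrix e e).toBlocks₂₂.det ≠ 0 := by
    intro h0
    have h1 := hd.ne_zero
    rw [← Matrix.det_submatrix_equiv_self e, ← Matrix.fromBlocks_toBlocks (A.1.submatrix e e),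
      hzero, Matrix.det_fromBlocks_zero₁₂, h0, mul_zero] at h1
    exact h1 rfl
  have hP := hmul _ _ (hcol (univ.erase i₀) (Finset.notMem_erase _ _) fun j => A.1 j i₀)
    (hemb _ hdet)
  obtain ⟨U, hU, hv'⟩ : P A.1 := by
    convert hP using 1
    rw [Matrix.add_mul, Matrix.one_mul, Matrix.vecMulVec_mul]
    ext a b
    obtain ⟨a, rfl⟩ := e.surjective a
    obtain ⟨b, rfl⟩ := e.surjective b
    rcases a with ⟨a, ha⟩ | ⟨a, ha⟩ <;> rcases b with ⟨b, hb⟩ | ⟨b, hb⟩ <;>
      simp [emb, e, Matrix.vecMulVec_apply, Matrix.toBlocks₂₂, ha, hb, hrow,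
        Matrix.one_apply, Subtype.ext_iff, Pi.single_apply] <;> aesop
  rw [show A = U from Units.ext hU.symm]
  exact hv'

end Cfsg.Agent.H39
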