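import Mathlib
import Cfsg.Agent.H39.WeilGapStab

/-!
# The intertwiner from the Weil representation

A rank-one eigenvector in a representation with rank-one spectrum determines an equivariant map
from the Weil representation.
-/

set_option autoImplicit false

namespace Cfsg.Agent.H39

open Matrix Finset Module

variable {F : Type*} [Field F] [Fintype F] [DecidableEq F] {n : ℕ}

/-- The action of a Levi element on points. -/
noncomputable def actPt (A : (Matrix (Fin n) (Fin n) F)ˣ) (x : Fin n → F) : Fin n → F :=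
  (A.1⁻¹)ᵀ *ᵥ x

omit [Fintype F] [DecidableEq F] in
lemma actPt_mul (A B : (Matrix (Fin n) (Fin n) F)ˣ) (x : Fin n → F) :
    actPt (A * B) x = actPt A (actPt B x) := by
  rw [actPt, actPt, actPt, Units.val_mul, Matrix.mul_inv_rev, Matrix.transpose_mul,
    Matrix.mulVec_mulVec]

omit [Fintype F] [DecidableEq F] in
lemma actPt_one (x : Fin n → F) : actPt (1 : (Matrix (Fin n) (Fin n) F)ˣ) x = x := by
  simp [actPt]

omit [Fintype F] [DecidableEq F] in
lemma actPt_ne_zero (A : (Matrix (Fin n) (Fin n) F)ˣ) {x : Fin n → F} (hx : x ≠ 0) :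
    actPt A x ≠ 0 := by
  intro h
  apply hx
  rw [← actPt_one x, ← inv_mul_cancel A, actPt_mul, h]
  exact Matrix.mulVec_zero _

/-- The unit whose action on points is a given invertible matrix. -/
noncomputable def unitOfAct (M : Matrix (Fin n) (Fin n) F) (hM : IsUnit M) :
    (Matrix (Fin n) (Fin n) F)ˣ :=
  ((Matrix.isUnit_iff_isUnit_det (M⁻¹)ᵀ).2 (by
    rw [Matrix.det_transpose]
    exact (Matrix.isUnit_iff_isUnit_det _).1 (Matrix.isUnit_nonsing_inv_iff.2 hM))).unit

omit [Fintype F] [DecidableEq F] in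
lemma actPt_unitOfAct (M : Matrix (Fin n) (Fin n) F) (hM : IsUnit M) (x : Fin n → F) :
    actPt (unitOfAct M hM) x = M *ᵥ x := by
  rw [actPt, unitOfAct, IsUnit.unit_spec, ← Matrix.transpose_nonsing_inv, Matrix.transpose_transpose,
    Matrix.nonsing_inv_nonsing_inv _ ((Matrix.isUnit_iff_isUnit_det _).1 hM)]

omit [Fintype F] [DecidableEq F] in
lemma exists_actPt (i₀ : Fin n) {x : Fin n → F} (hx : x ≠ 0) :
    ∃ A : (Matrix (Fin n) (Fin n) F)ˣ, actPt A (Pi.single i₀ 1) = x := by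
  have he : (Pi.single i₀ 1 : Fin n → F) ≠ 0 := by simp
  obtain ⟨φ, hφe, hφx⟩ := exists_dot_ne_zero_pair he hx
  set u : Fin n → F := x - Pi.single i₀ 1
  have h1 : ((φ ⬝ᵥ Pi.single i₀ 1)⁻¹ • φ) ⬝ᵥ Pi.single i₀ 1 = 1 := by
    rw [smul_dotProduct, smul_eq_mul, inv_mul_cancel₀ hφe]
  have hu : IsUnit (rankOneAdd ((φ ⬝ᵥ Pi.single i₀ 1)⁻¹ • φ) u) := isUnit_rankOneAdd _ _ (by
    rw [dotProduct_sub, h1, smul_dotProduct, smul_eq_mul, add_sub_cancel]
    exact mul_ne_zero (inv_ne_zero hφe) hφx)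
  exact ⟨unitOfAct _ hu, by
    rw [actPt_unitOfAct, rankOneAdd_mulVec, h1, one_smul, add_sub_cancel]⟩

variable (h2 : (2 : F) ≠ 0) {ψ : AddChar F ℂ} (hψ : ψ ≠ 1)
variable {V : Type*} [AddCommGroup V] [Module ℂ V]
  (ρ : Representation ℂ (Matrix.symplecticGroup (Fin n) F) V)

/-- The vector attached to a point. -/
noncomputable def pointVec (i₀ : Fin n) (m : V) (x : Fin n → F) : V :=
  if h : x = 0 then 0 else
    (weilSign h2 hψ (exists_actPt i₀ h).choose)⁻¹ •
      ρ (mHom (exists_actPt i₀ h).choose) m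

variable {ρ} {i₀ : Fin n} {m : V}

include h2 hψ

lemma rho_mHom_eq (hn : 2 ≤ n) (hρ : RankOneSpec ρ ψ)
    (hm : SiegelEigen ρ ψ (ptMat (Pi.single i₀ 1)) m) (A : (Matrix (Fin n) (Fin n) F)ˣ) :
    ρ (mHom A) m =
      weilSign h2 hψ A • pointVec h2 hψ ρ i₀ m (actPt A (Pi.single i₀ 1)) := by
  have he : (Pi.single i₀ 1 : Fin n → F) ≠ 0 := by simp
  rw [pointVec, dif_neg (actPt_ne_zero A he)]
  obtain ⟨B, hB, hBe⟩ : ∃ B, B = (exists_actPt i₀ (actPt_ne_zero A he)).choose ∧
      actPt B (Pi.single i₀ 1) = actPt A (Pi.single i₀ 1) :=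
    ⟨_, rfl, (exists_actPt i₀ (actPt_ne_zero A he)).choose_spec⟩
  rw [← hB]
  have hs : actPt (B⁻¹ * A) (Pi.single i₀ 1) = Pi.single i₀ 1 := by
    rw [actPt_mul, ← hBe, ← actPt_mul, inv_mul_cancel, actPt_one]
  have h := congrArg (ρ (mHom B)) (fix_stab h2 hψ hn hρ i₀ hm _ hs)
  rw [← Module.End.mul_apply, ← map_mul, ← map_mul, mul_inv_cancel_left, map_smul] at h
  rw [h, smul_smul]
  congr 1
  have h' := weilSign_mul h2 hψ B (B⁻¹ * A)
  rw [mul_inv_cancel_left] at h'
  rw [h', mul_assoc, mul_comm _ (weilSign h2 hψ B)⁻¹, ← mul_assoc,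
    mul_inv_cancel₀ (weilSign_ne_zero h2 hψ B), one_mul]

lemma rho_mHom_pointVec (hn : 2 ≤ n) (hρ : RankOneSpec ρ ψ)
    (hm : SiegelEigen ρ ψ (ptMat (Pi.single i₀ 1)) m) (A : (Matrix (Fin n) (Fin n) F)ˣ)
    (x : Fin n → F) :
    ρ (mHom A) (pointVec h2 hψ ρ i₀ m x) =
      weilSign h2 hψ A • pointVec h2 hψ ρ i₀ m (actPt A x) := by
  rcases eq_or_ne x 0 with rfl | hx
  · have : actPt A (0 : Fin n → F) = 0 := Matrix.mulVec_zero _
    simp [pointVec, this]
  obtain ⟨B, hB⟩ := exists_actPt i₀ hx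
  have h := rho_mHom_eq h2 hψ hn hρ hm (A * B)
  rw [map_mul, map_mul, Module.End.mul_apply, rho_mHom_eq h2 hψ hn hρ hm B, map_smul,
    weilSign_mul h2 hψ, mul_comm (weilSign h2 hψ A), mul_smul, actPt_mul, hB] at h
  exact smul_right_injective V (weilSign_ne_zero h2 hψ B) h

lemma pointVec_base (hn : 2 ≤ n) (hρ : RankOneSpec ρ ψ)
    (hm : SiegelEigen ρ ψ (ptMat (Pi.single i₀ 1)) m) :
    pointVec h2 hψ ρ i₀ m (Pi.single i₀ 1) = m := by
  have h := rho_mHom_eq h2 hψ hn hρ hm 1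
  have h1 : weilSign h2 hψ (1 : (Matrix (Fin n) (Fin n) F)ˣ) = 1 := by simp [weilSign, δv]
  simpa [h1, actPt_one] using h.symm

lemma rho_siegelU_pointVec (hn : 2 ≤ n) (hρ : RankOneSpec ρ ψ)
    (hm : SiegelEigen ρ ψ (ptMat (Pi.single i₀ 1)) m) (S : symMat n F) (x : Fin n → F) :
    ρ (siegelU S) (pointVec h2 hψ ρ i₀ m x) =
      ψ (2⁻¹ * (x ⬝ᵥ (S.1 *ᵥ x))) • pointVec h2 hψ ρ i₀ m x := by
  rcases eq_or_ne x 0 with rfl | hx
  · simp [pointVec]
  obtain ⟨A, hA⟩ := exists_actPt i₀ hx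
  have hd : IsUnit A.1.det := (Matrix.isUnit_iff_isUnit_det _).1 A.isUnit
  have hc : A.1 * (symCongr A.1⁻¹ S).1 * A.1ᵀ = S.1 := by
    simp only [symCongr, ← mul_assoc, Matrix.mul_nonsing_inv _ hd, one_mul]
    rw [mul_assoc, ← Matrix.transpose_mul, Matrix.mul_nonsing_inv _ hd, Matrix.transpose_one,
      mul_one]
  have hcomm : siegelU S * mHom A = mHom A * siegelU (symCongr A.1⁻¹ S) :=
    siegelU_mul_siegelM A.isUnit S _ hc
  have h := congrArg (fun g => ρ g m) hcomm
  simp only [map_mul, Module.End.mul_apply, hm _, map_smul, rho_mHom_eq h2 hψ hn hρ hm A, hA] at h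
  rw [smul_comm] at h
  refine smul_right_injective V (weilSign_ne_zero h2 hψ A) ?_
  show weilSign h2 hψ A • ρ (siegelU S) (pointVec h2 hψ ρ i₀ m x) = _
  rw [h, symChar_apply, trace_ptMat_mul]
  congr 3
  rw [← hA, actPt]
  simp only [symCongr]
  rw [← Matrix.mulVec_mulVec, ← Matrix.mulVec_mulVec,
    Matrix.dotProduct_mulVec (Pi.single i₀ 1) A.1⁻¹, ← Matrix.mulVec_transpose]

lemma pointVec_eigen (hn : 2 ≤ n) (hρ : RankOneSpec ρ ψ)
    (hm : SiegelEigen ρ ψ (ptMat (Pi.single i₀ 1)) m) (x : Fin n → F) :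
    SiegelEigen ρ ψ (ptMat x) (pointVec h2 hψ ρ i₀ m x) := fun S => by
  rw [rho_siegelU_pointVec h2 hψ hn hρ hm, symChar_apply, trace_ptMat_mul]

/-- The Weyl formula away from the axis. -/
lemma rho_wEl_pointVec_off (hn : 2 ≤ n) (hρ : RankOneSpec ρ ψ)
    (hm : SiegelEigen ρ ψ (ptMat (Pi.single i₀ 1)) m) {k : Fin n} {x : Fin n → F}
    {i : Fin n} (hik : i ≠ k) (hxi : x i ≠ 0) :
    ρ (wEl k) (pointVec h2 hψ ρ i₀ m x) = gaussQ ψ (1 : F) •
      ∑ s, ψ (s * x k) • pointVec h2 hψ ρ i₀ m (Function.update x k s) := by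
  have hbase := pointVec_eigen h2 hψ hn hρ hm (Pi.single i 1)
  have hY : ∀ t, ρ (mHom (trUnit hik (-t))) (pointVec h2 hψ ρ i₀ m (Pi.single i 1)) =
      pointVec h2 hψ ρ i₀ m (Function.update (Pi.single i 1) k t) := by
    intro t
    rw [rho_mHom_pointVec h2 hψ hn hρ hm, weilSign_trUnit h2 hψ hn, one_smul, actPt, act_trUnit]
    congr 1
    funext j
    by_cases hj : j = k <;> simp [hj, hik.symm]
  have hline := line_weyl h2 hψ hρ hik (v := pointVec h2 hψ ρ i₀ m (Pi.single i 1))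
    (fun s => by rw [hbase, symChar_symDiag]; simp [ptMat, Matrix.vecMulVec_apply, mul_comm])
    (fun s => by
      rw [hbase, symChar_symPair ψ (isSymm_ptMat _)]
      simp [ptMat, Matrix.vecMulVec_apply, hik.symm]) (x k)
  simp only [hY] at hline
  -- move the point
  set x₀ := Function.update x k 0 with hx₀
  set M := rankOneAdd (Pi.single i (1 : F)) (x₀ - Pi.single i 1) with hM
  have hMu : IsUnit M := isUnit_rankOneAdd _ _ (by simp [hx₀, hik, hxi])
  obtain ⟨A, hA⟩ : ∃ A, A = unitOfAct M hMu := ⟨_, rfl⟩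
  have hact : ∀ y : Fin n → F, actPt A y = y + y i • (x₀ - Pi.single i 1) := fun y => by
    rw [hA, actPt_unitOfAct, hM, rankOneAdd_mulVec]
    simp
  have hpts : ∀ s, actPt A (Function.update (Pi.single i 1) k s) = Function.update x k s :=
    fun s => by
      rw [hact]
      funext j
      by_cases hj : j = k <;> simp [hj, hx₀, hik, hik.symm]
  have hdM : IsUnit Mᵀ := (Matrix.isUnit_iff_isUnit_det _).2 (by
    rw [Matrix.det_transpose]; exact (Matrix.isUnit_iff_isUnit_det _).1 hMu)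
  have hcomm : Commute (wEl k) (mHom A) := by
    have hAB : A = hdM.unit⁻¹ := Units.ext (by
      rw [hA, unitOfAct, IsUnit.unit_spec, Matrix.coe_units_inv, IsUnit.unit_spec,
        Matrix.transpose_nonsing_inv])
    rw [hAB, map_inv]
    refine (wEl_comm_mHom k _ ?_ ?_).inv_right
    · ext a b
      simp [hM, rankOneAdd, Matrix.add_mul, Matrix.vecMulVec_mul, Matrix.vecMulVec_apply,
        Matrix.vecMul, dotProduct, Matrix.single_apply, hx₀, hik.symm, Pi.single_apply]
      intro _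
      refine Finset.sum_eq_zero fun l _ => ?_
      by_cases hl : k = l
      · subst hl
        simp [hik.symm]
      · simp [hl]
    · ext a b
      simp [hM, rankOneAdd, Matrix.mul_add, Matrix.mul_vecMulVec, Matrix.vecMulVec_apply,
        Matrix.single_mulVec, hik.symm, Pi.single_apply]
  have h := congrArg (ρ (mHom A)) hline
  rw [← Module.End.mul_apply, ← map_mul, ← hcomm.eq, map_mul, Module.End.mul_apply,
    rho_mHom_pointVec h2 hψ hn hρ hm, hpts, Function.update_eq_self, map_smul, map_smul,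
    map_sum] at h
  simp only [map_smul, rho_mHom_pointVec h2 hψ hn hρ hm, hpts] at h
  refine smul_right_injective V (weilSign_ne_zero h2 hψ A) ?_
  show weilSign h2 hψ A • ρ (wEl k) _ = _
  rw [h]
  show _ = weilSign h2 hψ A • gaussQ ψ (1 : F) • _
  rw [smul_comm (weilSign h2 hψ A) (gaussQ ψ (1 : F)), Finset.smul_sum (r := weilSign h2 hψ A)]
  simp only [smul_comm (weilSign h2 hψ A), mul_comm (x k)]

lemma eq_of_weyl_fixed (hn : 2 ≤ n) {k : Fin n} {c d e : V}
    (hc : ρ (wEl k) c = gaussQ ψ (1 : F) • (c + e))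
    (hd : ρ (wEl k) d = gaussQ ψ (1 : F) • (d + e)) : c = d := by
  have h1 : ρ (wEl k) (c - d) = gaussQ ψ (1 : F) • (c - d) := by
    rw [map_sub, hc, hd, ← smul_sub, add_sub_add_right_eq_sub]
  have h4 : ρ (wEl k ^ 4) (c - d) = (gaussQ ψ (1 : F) ^ 4) • (c - d) := by
    rw [map_pow]
    simp only [pow_succ, pow_zero, one_mul, Module.End.mul_apply, h1, map_smul, smul_smul, mul_assoc]
  rw [wEl_pow_four, map_one, Module.End.one_apply] at h4
  have h5 : (gaussQ ψ (1 : F) ^ 4 - 1) • (c - d) = 0 := by rw [sub_smul, ← h4, one_smul, sub_self]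
  exact sub_eq_zero.1 ((smul_eq_zero.1 h5).resolve_left
    (sub_ne_zero.2 (gamma_pow_four_ne_one h2 hψ hn)))

/-- The value at the origin. -/
lemma exists_origin (hn : 2 ≤ n) (hρ : RankOneSpec ρ ψ)
    (hm : SiegelEigen ρ ψ (ptMat (Pi.single i₀ 1)) m) : ∃ a : V,
    (∀ k, ρ (wEl k) a = gaussQ ψ (1 : F) •
      (a + ∑ s, pointVec h2 hψ ρ i₀ m (Pi.single k s))) ∧
    (∀ k t, t ≠ 0 → ρ (wEl k) (pointVec h2 hψ ρ i₀ m (Pi.single k t)) = gaussQ ψ (1 : F) •
      (a + ∑ s, ψ (s * t) • pointVec h2 hψ ρ i₀ m (Pi.single k s))) ∧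
    ∀ S, ρ (siegelU S) a = a := by
  classical
  haveI : Nontrivial (Fin n) := Fin.nontrivial_iff_two_le.2 hn
  set γ := gaussQ ψ (1 : F) with hγ
  have hγ0 : γ ≠ 0 := gamma_ne_zero h2 hψ hn
  set w : (Fin n → F) → V := pointVec h2 hψ ρ i₀ m with hw
  have hw0 : w 0 = 0 := by simp [hw, pointVec]
  let cand : Fin n → F → V := fun i t =>
    γ⁻¹ • ρ (wEl i) (w (Pi.single i t)) - ∑ s, ψ (s * t) • w (Pi.single i s)
  have hcand : ∀ i t, ρ (wEl i) (w (Pi.single i t)) =
      γ • (cand i t + ∑ s, ψ (s * t) • w (Pi.single i s)) := fun i t => by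
    simp only [cand, sub_add_cancel, smul_smul, mul_inv_cancel₀ hγ0, one_smul]
  -- the equation in another coordinate
  have hoff : ∀ i j t, i ≠ j → t ≠ 0 →
      ρ (wEl j) (cand i t) = γ • (cand i t + ∑ u, w (Pi.single j u)) := by
    intro i j t hij ht
    let Z : F → F → V := fun s u => w (Function.update (Pi.single i s) j u)
    have hZ0 : ∀ s, Z s 0 = w (Pi.single i s) := fun s => by
      show w _ = w _
      rw [Function.update_eq_self_iff.2 (by simp [hij.symm])]
    have hZ1 : ∀ u, Z 0 u = w (Pi.single j u) := fun u => by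
      show w _ = w _
      congr 1
      simp [Pi.single]
    have hj : ∀ s, s ≠ 0 → ρ (wEl j) (w (Pi.single i s)) = γ • ∑ u, Z s u := fun s hs => by
      rw [hw, rho_wEl_pointVec_off h2 hψ hn hρ hm hij (x := Pi.single i s) (by simpa using hs)]
      simp [Z, hij.symm, hγ, hw]
    have hi : ∀ u, u ≠ 0 → ρ (wEl i) (Z t u) = γ • ∑ s, ψ (s * t) • Z s u := fun u hu => by
      show ρ (wEl i) (w _) = _
      rw [hw, rho_wEl_pointVec_off h2 hψ hn hρ hm (Ne.symm hij)
        (x := Function.update (Pi.single i t) j u) (by simpa using hu)]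
      congr 1
      refine Finset.sum_congr rfl fun s _ => ?_
      simp only [Z, hw, ne_eq, hij, not_false_eq_true, Function.update_of_ne, Pi.single_eq_same]
      congr 2
      funext l
      by_cases hl : l = i <;> by_cases hlj : l = j <;> simp [hl, hlj, hij, Ne.symm hij] at *
    have hji : ρ (wEl j) (ρ (wEl i) (w (Pi.single i t))) =
        γ • ρ (wEl i) (∑ u, Z t u) := by
      rw [← Module.End.mul_apply, ← map_mul, (wEl_comm j i).eq, map_mul, Module.End.mul_apply,
        hj t ht, map_smul]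
    rw [hcand, map_smul, map_add, map_sum, map_sum] at hji
    rw [← Finset.add_sum_erase _ _ (Finset.mem_univ (0 : F)),
      ← Finset.add_sum_erase _ (fun u => ρ (wEl i) (Z t u)) (Finset.mem_univ (0 : F))] at hji
    rw [Pi.single_zero, hw0, smul_zero, map_zero, zero_add, hZ0, hcand] at hji
    have he1 : ∑ s ∈ (univ : Finset F).erase 0, ρ (wEl j) (ψ (s * t) • w (Pi.single i s)) =
        ∑ s ∈ (univ : Finset F).erase 0, γ • ∑ u, ψ (s * t) • Z s u :=
      Finset.sum_congr rfl fun s hs => by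
        rw [map_smul, hj s (Finset.ne_of_mem_erase hs), smul_comm, Finset.smul_sum (r := ψ (s * t))]
    have he2 : ∑ u ∈ (univ : Finset F).erase 0, ρ (wEl i) (Z t u) =
        ∑ u ∈ (univ : Finset F).erase 0, γ • ∑ s, ψ (s * t) • Z s u :=
      Finset.sum_congr rfl fun u hu => hi u (Finset.ne_of_mem_erase hu)
    rw [he1, he2, ← Finset.smul_sum, ← Finset.smul_sum,
      Finset.sum_erase_eq_sub (Finset.mem_univ _), Finset.sum_erase_eq_sub (Finset.mem_univ _),
      ← smul_add] at hji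
    simp only [zero_mul, AddChar.map_zero_eq_one, one_smul, hZ0, hZ1] at hji
    have h' := smul_right_injective V hγ0 hji
    rw [Finset.sum_comm (γ := F)] at h'
    rw [← sub_eq_zero] at h' ⊢
    rw [← h']
    module
  -- the common value
  obtain ⟨j₀, hj₀⟩ := exists_ne i₀
  set a := cand i₀ 1 with ha
  have ha' : ∀ k, i₀ ≠ k → ρ (wEl k) a = γ • (a + ∑ u, w (Pi.single k u)) :=
    fun k hk => hoff i₀ k 1 hk one_ne_zero
  have hconst : ∀ t, t ≠ 0 → cand i₀ t = a := fun t ht =>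
    eq_of_weyl_fixed h2 hψ hn (hoff i₀ j₀ t (Ne.symm hj₀) ht) (ha' j₀ (Ne.symm hj₀))
  have hsame : ρ (wEl i₀) a = γ • (a + ∑ u, w (Pi.single i₀ u)) := by
    have hq : ∀ c : F, ∑ s : F, ψ (s * c) = if c = 0 then (Fintype.card F : ℂ) else 0 := fun c => by
      rw [AddChar.sum_mulShift c (AddChar.IsPrimitive.of_ne_one hψ)]
      simp
    have h := hcand i₀ 1
    rw [← ha] at h
    have hh := congrArg (ρ (wEl i₀)) h
    rw [← Module.End.mul_apply, ← map_mul, wEl_sq, hw, rho_mHom_pointVec h2 hψ hn hρ hm,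
      weilSign_neg h2 hψ hn, ← hw, map_smul, map_add, map_sum] at hh
    have hneg : actPt (diagUnit i₀ (-1)) (Pi.single i₀ (1 : F)) = Pi.single i₀ (-1) := by
      rw [actPt, inv_diagUnit]
      funext l
      by_cases hl : l = i₀ <;> simp [hl, Matrix.mulVec_diagonal]
    have hsum : ∑ s, ρ (wEl i₀) (ψ (s * 1) • w (Pi.single i₀ s)) =
        γ • (∑ s, ψ (s * 1) • (a + ∑ r, ψ (r * s) • w (Pi.single i₀ r))
          - (a + ∑ r, w (Pi.single i₀ r))) := by
      rw [smul_sub, Finset.smul_sum, ← Finset.add_sum_erase _ _ (Finset.mem_univ (0 : F)),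
        ← Finset.add_sum_erase _ (fun s => γ • (ψ (s * 1) •
          (a + ∑ r, ψ (r * s) • w (Pi.single i₀ r)))) (Finset.mem_univ (0 : F))]
      rw [Finset.sum_congr rfl (fun s hs => by
        rw [map_smul, hcand, hconst s (Finset.ne_of_mem_erase hs), smul_comm] :
        ∀ s ∈ (univ : Finset F).erase 0, ρ (wEl i₀) (ψ (s * 1) • w (Pi.single i₀ s)) =
          γ • (ψ (s * 1) • (a + ∑ r, ψ (r * s) • w (Pi.single i₀ r))))]
      simp [hw0]
    rw [hsum, hneg] at hh
    simp only [smul_add, Finset.sum_add_distrib, ← Finset.sum_smul, hq, one_ne_zero, if_false,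
      zero_smul, zero_add, Finset.smul_sum, smul_smul] at hh
    rw [Finset.sum_comm (γ := F)] at hh
    simp only [← Finset.sum_smul, ← Finset.mul_sum, ← AddChar.map_add_eq_mul] at hh
    have hs : ∀ r : F, ∑ s : F, ψ (s * 1 + r * s) =
        if 1 + r = 0 then (Fintype.card F : ℂ) else 0 := fun r => by
      rw [← hq]
      exact Finset.sum_congr rfl fun s _ => by ring_nf
    simp only [hs, mul_ite, mul_zero, ite_smul, zero_smul] at hh
    rw [Finset.sum_eq_single (-1) (fun r _ hr => by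
      rw [if_neg fun e => hr (eq_neg_of_add_eq_zero_right e)]) (by simp),
      if_pos (add_neg_cancel 1)] at hh
    have h3 : γ • ρ (wEl i₀) a = γ • (γ • (a + ∑ u, w (Pi.single i₀ u))) := by
      simp only [smul_add, smul_sub, Finset.smul_sum, smul_smul] at hh ⊢
      rw [← sub_eq_zero] at hh ⊢
      rw [← neg_eq_zero] at hh
      rw [← hh]
      module
    exact smul_right_injective V hγ0 h3
  have hall : ∀ k, ρ (wEl k) a = γ • (a + ∑ u, w (Pi.single k u)) := fun k => by
    by_cases hk : i₀ = k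
    · exact hk ▸ hsame
    · exact ha' k hk
  refine ⟨a, hall, fun k t ht => ?_, fun S => ?_⟩
  · obtain ⟨j, hj⟩ := exists_ne k
    rw [hcand, eq_of_weyl_fixed h2 hψ hn (hoff k j t (Ne.symm hj) ht) (hall j)]
  have hdiag : ∀ i s, ρ (siegelU (symDiag i s)) a = a := by
    intro i s
    obtain ⟨j, hj⟩ := exists_ne i
    refine eq_of_weyl_fixed h2 hψ hn ?_ (hall j)
    have hc : Commute (wEl (F := F) j) (siegelU (symDiag i s)) :=
      wEl_comm_siegelU j _ fun l => by simp [Matrix.single_apply, Ne.symm hj]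
    rw [← Module.End.mul_apply, ← map_mul, hc.eq, map_mul, Module.End.mul_apply, hall, map_smul,
      map_add, map_sum]
    congr 2
    refine Finset.sum_congr rfl fun u _ => ?_
    rw [hw, rho_siegelU_pointVec h2 hψ hn hρ hm]
    simp [Matrix.single_mulVec, Ne.symm hj, hj]
  have h := eigen_extend h2 hψ hρ (v := a) (T₁ := 0) (S := S)
    (fun R => ∃ i s, R = symDiag i s) (fun R ⟨i, s, hR⟩ => by rw [hR, hdiag]; simp)
    fun T hT hL => by
      have h0 : ∀ i, T.1 i i = 0 := fun i => by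
        simpa using entry_diag_eq hψ (T' := 0) fun s => hL _ ⟨i, s, rfl⟩
      have : T.1 = 0 := Matrix.ext fun i j => hT.entry_eq_zero (h0 i) j
      rw [this]
  simpa using h

/-- A rank-one eigenvector gives an equivariant map from the Weil representation. -/
theorem exists_intertwiner (hn : 2 ≤ n) (hρ : RankOneSpec ρ ψ)
    (hm : SiegelEigen ρ ψ (ptMat (Pi.single i₀ 1)) m) :
    ∃ Φ : ((Fin n → F) → ℂ) →ₗ[ℂ] V,
      (∀ g, ρ g ∘ₗ Φ = Φ ∘ₗ weilFull h2 hψ g) ∧ Φ (δv (Pi.single i₀ 1)) = m := by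
  classical
  haveI : NeZero n := ⟨by omega⟩
  obtain ⟨a, ha1, ha2, ha3⟩ := exists_origin h2 hψ hn hρ hm
  set w : (Fin n → F) → V := pointVec h2 hψ ρ i₀ m with hw
  let W : (Fin n → F) → V := fun x => if x = 0 then a else w x
  let Φ := (Pi.basisFun ℂ (Fin n → F)).constr ℂ W
  have hΦ : ∀ x, Φ (δv x) = W x := fun x => by
    rw [δv, ← Pi.basisFun_apply ℂ]
    exact (Pi.basisFun ℂ (Fin n → F)).constr_basis ℂ W x
  have hsumW : ∀ (k : Fin n) (c : F → ℂ), c 0 = 1 → ∑ s, c s • W (Pi.single k s) =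
      a + ∑ s, c s • w (Pi.single k s) := by
    intro k c hc
    have hw0 : w 0 = 0 := by simp [hw, pointVec]
    rw [← Finset.add_sum_erase _ _ (Finset.mem_univ (0 : F)),
      ← Finset.add_sum_erase _ (fun s => c s • w (Pi.single k s)) (Finset.mem_univ (0 : F))]
    simp only [Pi.single_zero, hw0, hc, one_smul, zero_add, W, if_true]
    congr 1
    refine Finset.sum_congr rfl fun s hs => ?_
    rw [if_neg (by simpa using Finset.ne_of_mem_erase hs)]
  have hext : ∀ g, (∀ x, ρ g (W x) = Φ (weilFull h2 hψ g (δv x))) →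
      ρ g ∘ₗ Φ = Φ ∘ₗ weilFull h2 hψ g := fun g hg =>
    (Pi.basisFun ℂ (Fin n → F)).ext fun x => by
      rw [Pi.basisFun_apply, LinearMap.comp_apply, LinearMap.comp_apply]
      show ρ g (Φ (δv x)) = _
      rw [hΦ, hg]
      rfl
  let M : Subgroup (Matrix.symplecticGroup (Fin n) F) :=
    { carrier := {g | ρ g ∘ₗ Φ = Φ ∘ₗ weilFull h2 hψ g}
      one_mem' := by simp [Module.End.one_eq_id]
      mul_mem' := fun {g h} hg hh => by
        simp only [Set.mem_setOf_eq, map_mul, Module.End.mul_eq_comp] at hg hh ⊢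
        rw [LinearMap.comp_assoc, hh, ← LinearMap.comp_assoc, hg, LinearMap.comp_assoc]
      inv_mem' := fun {g} hg => by
        simp only [Set.mem_setOf_eq] at hg ⊢
        refine LinearMap.ext fun f => ?_
        have h := LinearMap.congr_fun hg (weilFull h2 hψ g⁻¹ f)
        simp only [LinearMap.comp_apply, Representation.self_inv_apply] at h ⊢
        rw [← h, Representation.inv_self_apply] }
  have hM : M = ⊤ := by
    rw [eq_top_iff, ← siegelGroup_eq_top, siegelGroup, Subgroup.closure_le]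
    rintro _ (⟨S, rfl⟩ | ⟨k, rfl⟩) <;> refine hext _ fun x => ?_
    · rw [weilFull_siegelU h2 hψ hn, map_smul, hΦ]
      by_cases hx : x = 0
      · simp [W, hx, ha3]
      · simp only [W, if_neg hx, hw, rho_siegelU_pointVec h2 hψ hn hρ hm]
    · rw [weilFull_wEl, weilGamma_eq h2 hψ hn, map_smul, map_sum]
      simp only [map_smul, hΦ]
      by_cases hax : ∀ i, i ≠ k → x i = 0
      · obtain ⟨t, rfl⟩ : ∃ t, x = Pi.single k t := ⟨x k, funext fun i => by
          by_cases hi : i = k <;> simp [hi, hax]⟩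
        have hu : ∀ s, Function.update (Pi.single k t : Fin n → F) k s = Pi.single k s :=
          fun s => by simp [Pi.single]
        simp only [hu, Pi.single_eq_same]
        rw [hsumW k (fun s => ψ (s * t)) (by simp)]
        by_cases ht : t = 0
        · subst ht
          simp [W, ha1, hw]
        · rw [show W (Pi.single k t) = w (Pi.single k t) from if_neg (by simpa using ht)]
          exact ha2 k t ht
      · push Not at hax
        obtain ⟨i, hi, hxi⟩ := hax
        have hne : ∀ y : Fin n → F, y i = x i → W y = w y := fun y hy => if_neg fun h0 => hxi (by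
          rw [← hy, h0]; rfl)
        rw [hne x rfl, hw, rho_wEl_pointVec_off h2 hψ hn hρ hm hi hxi]
        congr 1
        refine Finset.sum_congr rfl fun s _ => ?_
        rw [hne _ (Function.update_of_ne hi _ _)]
  refine ⟨Φ, fun g => (hM ▸ Subgroup.mem_top g : g ∈ M), ?_⟩
  rw [hΦ]
  exact (if_neg (by simp)).trans (pointVec_base h2 hψ hn hρ hm)

end Cfsg.Agent.H39
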