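import Mathlib
import Cfsg.Agent.H39.WeilGapMap
import Cfsg.Agent.H39.WeilGapCount
import Cfsg.Agent.H26.CharBasic

/-!
# Small irreducible representations of symplectic groups are Weil pieces

An irreducible representation of `Sp_{2n}`, `q` odd, of degree less than
`(q^n - 1) (q^n - q) / (2 (q + 1))` and not one is one of the four halves of Weil representations.
-/

set_option autoImplicit false

namespace Cfsg.Agent.H39

open Matrix Finset Module

variable {F : Type*} [Field F] [Fintype F] [DecidableEq F] {n : ℕ}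

omit [DecidableEq F] in
lemma mulShift_ne_one {ψ : AddChar F ℂ} (hψ : ψ ≠ 1) {c : F} (hc : c ≠ 0) :
    AddChar.mulShift ψ c ≠ 1 :=
  AddChar.IsPrimitive.of_ne_one hψ hc

omit [Fintype F] [DecidableEq F] in
lemma siegelEigen_mulShift {V : Type*} [AddCommGroup V] [Module ℂ V]
    (ρ : Representation ℂ (Matrix.symplecticGroup (Fin n) F) V) (ψ : AddChar F ℂ) (c : F)
    (T : Matrix (Fin n) (Fin n) F) (v : V) :
    SiegelEigen ρ (AddChar.mulShift ψ c) T v ↔ SiegelEigen ρ ψ (c • T) v := by
  simp [SiegelEigen, Matrix.trace_smul]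

omit [Fintype F] [DecidableEq F] in
lemma RankOneSpec.mulShift {V : Type*} [AddCommGroup V] [Module ℂ V]
    {ρ : Representation ℂ (Matrix.symplecticGroup (Fin n) F) V} {ψ : AddChar F ℂ}
    (hρ : RankOneSpec ρ ψ) {c : F} (hc : c ≠ 0) :
    RankOneSpec ρ (AddChar.mulShift ψ c) := by
  intro T v hv he u w
  have := hρ ⟨c • T.1, (show (c • T.1).IsSymm from Matrix.IsSymm.smul T.2 _)⟩ v hv
    ((siegelEigen_mulShift ρ ψ c T.1 v).1 he) u w
  simp only [Matrix.smul_mulVec, dotProduct_smul, smul_eq_mul] at this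
  apply mul_left_cancel₀ (mul_ne_zero hc hc)
  linear_combination this

/-- A representation on which the Siegel radical is trivial is trivial. -/
lemma rep_eq_one_of_radical (hn : 2 ≤ n) {V : Type*} [AddCommGroup V] [Module ℂ V]
    (ρ : Representation ℂ (Matrix.symplecticGroup (Fin n) F) V)
    (h : ∀ S, ρ (siegelU S) = 1) (g : Matrix.symplecticGroup (Fin n) F) : ρ g = 1 := by
  haveI : NeZero n := ⟨by omega⟩
  have htop : ρ.ker = ⊤ := by
    rw [eq_top_iff, ← siegelGroup_eq_top, siegelGroup, Subgroup.closure_le]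
    have hu : ∀ S : symMat n F, siegelU S ∈ ρ.ker := fun S => MonoidHom.mem_ker.2 (h S)
    rintro _ (⟨S, rfl⟩ | ⟨k, rfl⟩)
    · exact hu S
    · have hl : lEl k (1 : F) = wEl k * siegelU (symDiag k 1) * (wEl k)⁻¹ :=
        eq_mul_inv_of_mul_eq (lEl_mul_wEl k 1)
      have hw : wEl (F := F) k =
          siegelU (symDiag k 1) * lEl k 1 * siegelU (symDiag k 1) := by
        simpa [diagUnit_one] using diagUnit_mul_wEl k (1 : Fˣ)
      show wEl k ∈ ρ.ker
      rw [hw]
      refine mul_mem (mul_mem (hu _) ?_) (hu _)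
      rw [hl]
      exact (inferInstance : ρ.ker.Normal).conj_mem _ (hu _) _
  exact MonoidHom.mem_ker.1 (htop ▸ Subgroup.mem_top g)

variable (h2 : (2 : F) ≠ 0) {ψ : AddChar F ℂ} (hψ : ψ ≠ 1)

/-- The Weil representation on functions of a given parity. -/
noncomputable def weilPar {s : ℂ} (hs : s * s = 1) :
    Representation ℂ (Matrix.symplecticGroup (Fin n) F) (parSub F n s) where
  toFun g := parRes hs (weilFull h2 hψ g)
  map_one' := by rw [map_one, parRes_one]
  map_mul' g h := by
    rw [map_mul, parRes_mul hs (weilFull_commute_negOp h2 hψ g) (weilFull_commute_negOp h2 hψ h)]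

lemma coe_weilPar {s : ℂ} (hs : s * s = 1) (g : Matrix.symplecticGroup (Fin n) F)
    (f : parSub F n s) : (weilPar h2 hψ hs g f : (Fin n → F) → ℂ) = weilFull h2 hψ g f :=
  coe_parRes hs (weilFull_commute_negOp h2 hψ g) f

lemma δv_apply_neg (x y : Fin n → F) : δv x (-y) = δv (-x) y := by
  classical
  simp [δv, Pi.single_apply, neg_eq_iff_eq_neg]

/-- The parity combination of two basis functions. -/
noncomputable def parVec {s : ℂ} (hs : s * s = 1) (x : Fin n → F) : parSub F n s :=
  ⟨δv x + s • δv (-x), mem_parSub.2 (funext fun y => by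
    simp only [negOp_apply, Pi.add_apply, Pi.smul_apply, smul_eq_mul, δv_apply_neg, neg_neg]
    linear_combination (-δv (-x) y) * hs)⟩

lemma coe_parVec {s : ℂ} (hs : s * s = 1) (x : Fin n → F) :
    (parVec hs x : (Fin n → F) → ℂ) = δv x + s • δv (-x) := rfl

include h2 in
omit [Fintype F] [DecidableEq F] in
lemma neg_ne_self_of {x : Fin n → F} (hx : x ≠ 0) : x ≠ -x := fun h => hx (funext fun i => by
  have h1 := congrFun h i
  simp only [Pi.neg_apply] at h1
  have h3 : (2 : F) * x i = 0 := by linear_combination h1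
  simpa using (mul_eq_zero.1 h3).resolve_left h2)

include h2 in
lemma parVec_ne_zero {s : ℂ} (hs : s * s = 1) {x : Fin n → F} (hx : x ≠ 0) :
    parVec hs x ≠ 0 := fun h => by
  have := congrFun (congrArg Subtype.val h) x
  simp [coe_parVec, δv, neg_ne_self_of h2 hx] at this

include h2 hψ in
lemma ptMat_eq_iff (x : Fin n → F) (k : Fin n)
    (h : ∀ S, symChar ψ (ptMat x) S = symChar ψ (ptMat (Pi.single k 1)) S) :
    x = Pi.single k 1 ∨ x = -Pi.single k 1 := by
  have he := symMat_eq_of_char h2 hψ (isSymm_ptMat _) (isSymm_ptMat _) h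
  have hval : ∀ i j, x i * x j = (Pi.single k (1 : F) : Fin n → F) i * (Pi.single k (1 : F) : Fin n → F) j :=
    fun i j => by
      have := congrFun (congrFun he i) j
      simp only [ptMat, Matrix.smul_apply, Matrix.vecMulVec_apply, smul_eq_mul] at this
      exact mul_left_cancel₀ (inv_ne_zero h2) this
  have h0 : ∀ i, i ≠ k → x i = 0 := fun i hi => by simpa [hi] using hval i i
  rcases mul_self_eq_one_iff.1 (by simpa using hval k k : x k * x k = 1) with h1 | h1
  · left
    funext i
    by_cases hi : i = k <;> simp [hi, h1, h0]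
  · right
    funext i
    by_cases hi : i = k <;> simp [hi, h1, h0]

include h2 hψ in
/-- An eigenvector at a point in a parity piece is a multiple of the combination. -/
lemma eq_smul_parVec (hn : 2 ≤ n) {s : ℂ} (hs : s * s = 1) (k : Fin n) (f : parSub F n s)
    (hf : SiegelEigen (weilPar h2 hψ hs) ψ (ptMat (Pi.single k 1)) f) :
    f = (f.1 (Pi.single k 1)) • parVec hs (Pi.single k 1 : Fin n → F) := by
  have hne : (Pi.single k 1 : Fin n → F) ≠ -Pi.single k 1 := neg_ne_self_of h2 (by simp)
  have hp := congrFun (mem_parSub.1 f.2) (Pi.single k 1)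
  simp only [negOp_apply, Pi.smul_apply, smul_eq_mul] at hp
  refine Subtype.ext (funext fun x => ?_)
  simp only [Submodule.coe_smul, coe_parVec, Pi.smul_apply, Pi.add_apply, smul_eq_mul]
  by_cases h0 : f.1 x = 0
  · rw [h0]
    by_cases hx : x = Pi.single k 1
    · rw [← hx, h0, zero_mul]
    by_cases hx' : x = -Pi.single k 1
    · have : f.1 (Pi.single k 1) = 0 := by
        rw [hx'] at h0
        have := hp
        rw [h0] at this
        rcases mul_eq_zero.1 this.symm with h | h
        · exact absurd (h ▸ hs) (by simp)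
        · exact h
      rw [this, zero_mul]
    simp [δv, hx, hx']
  · have hxe : ∀ S, symChar ψ (ptMat x) S = symChar ψ (ptMat (Pi.single k 1)) S := fun S => by
      have h := congrFun (congrArg Subtype.val (hf S)) x
      rw [coe_weilPar, weilFull_siegelU_eq h2 hψ hn, phOp_apply] at h
      simp only [Submodule.coe_smul, Pi.smul_apply, smul_eq_mul] at h
      rw [← mul_right_cancel₀ h0 h, symChar_apply, trace_ptMat_mul]
    rcases ptMat_eq_iff h2 hψ x k hxe with rfl | rfl
    · simp [δv, hne]
    · rw [hp]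
      simp [δv, hne.symm]
      ring

include h2 hψ in
lemma siegelEigen_parVec (hn : 2 ≤ n) {s : ℂ} (hs : s * s = 1) (x : Fin n → F) :
    SiegelEigen (weilPar h2 hψ hs) ψ (ptMat x) (parVec hs x) := fun S => Subtype.ext (by
  rw [coe_weilPar, Submodule.coe_smul, coe_parVec, map_add, map_smul,
    weilFull_siegelU h2 hψ hn, weilFull_siegelU h2 hψ hn, symChar_apply, trace_ptMat_mul,
    Matrix.mulVec_neg, dotProduct_neg, neg_dotProduct, neg_neg, smul_add, smul_comm s])

include h2 hψ in
/-- An invariant subspace containing one combination is everything. -/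
lemma eq_top_of_parVec_mem (hn : 2 ≤ n) {s : ℂ} (hs : s * s = 1) (k : Fin n)
    (U : Submodule ℂ (parSub F n s)) (hU : ∀ g, ∀ f ∈ U, weilPar h2 hψ hs g f ∈ U)
    (hk : parVec hs (Pi.single k 1 : Fin n → F) ∈ U) : U = ⊤ := by
  classical
  have hpt : ∀ x, x ≠ 0 → parVec hs x ∈ U := by
    intro x hx
    obtain ⟨A, hA⟩ := exists_actPt k hx
    have h := hU (mHom A) _ hk
    have e : weilPar h2 hψ hs (mHom A) (parVec hs (Pi.single k 1 : Fin n → F)) =
        weilSign h2 hψ A • parVec hs x := Subtype.ext (by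
      rw [coe_weilPar, coe_parVec, map_add, map_smul, weilFull_mHom, weilFull_mHom,
        Submodule.coe_smul, coe_parVec, smul_add, smul_comm s, Matrix.mulVec_neg, ← hA, actPt])
    rw [e] at h
    exact (U.smul_mem_iff (weilSign_ne_zero h2 hψ A)).1 h
  rw [Submodule.eq_top_iff']
  intro f
  have hpar : ∀ x, f.1 (-x) = s * f.1 x := fun x => by
    simpa using congrFun (mem_parSub.1 f.2) x
  -- all values away from the origin
  have hrest : ∀ g : parSub F n s, g.1 0 = 0 → g ∈ U := by
    intro g hg
    have hgp : ∀ x, g.1 (-x) = s * g.1 x := fun x => by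
      simpa using congrFun (mem_parSub.1 g.2) x
    have e : g = ∑ x : Fin n → F, (2⁻¹ * g.1 x) • parVec hs x := by
      refine Subtype.ext (funext fun y => ?_)
      simp only [Submodule.coe_sum, Submodule.coe_smul, coe_parVec, Finset.sum_apply, Pi.smul_apply,
        Pi.add_apply, smul_eq_mul, mul_add, Finset.sum_add_distrib, δv, Pi.single_apply,
        mul_ite, mul_one, mul_zero, Finset.sum_ite_eq, Finset.mem_univ, if_true]
      rw [Finset.sum_eq_single (-y)]
      · rw [neg_neg, if_pos rfl, hgp]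
        linear_combination (-2⁻¹ * g.1 y) * hs
      · intro x _ hx
        rw [if_neg fun h => hx (by rw [h, neg_neg])]
      · simp
    rw [e]
    refine U.sum_mem fun x _ => ?_
    by_cases hx : x = 0
    · simp [hx, hg]
    · exact U.smul_mem _ (hpt x hx)
  by_cases hs1 : s = 1
  · -- the origin through a Weyl element
    set g := weilPar h2 hψ hs (wEl k) (parVec hs (Pi.single k 1 : Fin n → F)) with hg
    have hgU : g ∈ U := hU _ _ hk
    have hg0 : g.1 0 = 2 * gaussQ ψ (1 : F) := by
      have hsum : ∀ t : F, (∑ r : F, ψ (r * t) * δv (Function.update (Pi.single k t) k r)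
          (0 : Fin n → F)) = 1 := fun t => by
        rw [Finset.sum_eq_single 0]
        · simp [δv, Pi.single]
        · intro r _ hr
          rw [δv, Pi.single_eq_of_ne fun e => hr (by simpa using (congrFun e k).symm), mul_zero]
        · simp
      rw [hg, coe_weilPar, coe_parVec, map_add, map_smul, weilFull_wEl, weilFull_wEl,
        weilGamma_eq h2 hψ hn, hs1]
      simp only [one_smul, Pi.add_apply, Pi.smul_apply, Finset.sum_apply, smul_eq_mul,
        ← Pi.single_neg, Pi.single_eq_same, hsum]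
      ring
    have hne : g.1 0 ≠ 0 := by
      rw [hg0]
      exact mul_ne_zero two_ne_zero (gamma_ne_zero h2 hψ hn)
    have h' := hrest (f - (f.1 0 / g.1 0) • g) (by simp [div_mul_cancel₀ _ hne])
    simpa using U.add_mem h' (U.smul_mem (f.1 0 / g.1 0) hgU)
  · refine hrest f ?_
    have h := hpar 0
    rw [neg_zero] at h
    by_contra h0
    exact hs1 (mul_right_cancel₀ h0 (h.symm.trans (one_mul _).symm))

include h2 hψ in
/-- The parity pieces are irreducible. -/
theorem weilPar_irreducible (hn : 2 ≤ n) {s : ℂ} (hs : s * s = 1) :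
    (weilPar (n := n) h2 hψ hs).IsIrreducible := by
  classical
  set k : Fin n := ⟨0, by omega⟩
  have hk0 : parVec hs (Pi.single k 1 : Fin n → F) ≠ (0 : parSub F n s) := parVec_ne_zero h2 hs (by simp)
  refine (H26.isIrreducible_iff_forall _).2 ⟨⟨⟨_, 0, hk0⟩⟩, fun U hU => ?_⟩
  obtain ⟨U', hU'⟩ := H26.exists_compl_sub (weilPar h2 hψ hs)
    ⟨U, fun g {v} hv => hU g v hv⟩
  have hU'i : ∀ g, ∀ v ∈ U'.toSubmodule, weilPar h2 hψ hs g v ∈ U'.toSubmodule :=
    fun g v hv => U'.apply_mem_toSubmodule g hv
  set f := parVec hs (Pi.single k 1 : Fin n → F)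
  have hmem : f ∈ U ⊔ U'.toSubmodule := hU'.sup_eq_top ▸ Submodule.mem_top
  obtain ⟨a, ha, b, hb, hab⟩ := Submodule.mem_sup.1 hmem
  have hea : SiegelEigen (weilPar h2 hψ hs) ψ (ptMat (Pi.single k 1)) a := fun S => by
    have h := siegelEigen_parVec h2 hψ hn hs (Pi.single k 1) S
    rw [show parVec hs (Pi.single k 1 : Fin n → F) = f from rfl, ← hab, map_add, smul_add] at h
    have h1 : weilPar h2 hψ hs (siegelU S) a - symChar ψ (ptMat (Pi.single k 1)) S • a ∈
        U ⊓ U'.toSubmodule := by
      refine ⟨U.sub_mem (hU _ _ ha) (U.smul_mem _ ha), ?_⟩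
      have e : weilPar h2 hψ hs (siegelU S) a - symChar ψ (ptMat (Pi.single k 1)) S • a =
          symChar ψ (ptMat (Pi.single k 1)) S • b - weilPar h2 hψ hs (siegelU S) b := by
        rw [sub_eq_sub_iff_add_eq_add, h, add_comm]
      show _ ∈ U'.toSubmodule
      rw [e]
      exact U'.toSubmodule.sub_mem (U'.toSubmodule.smul_mem _ hb) (hU'i _ _ hb)
    rw [hU'.inf_eq_bot, Submodule.mem_bot, sub_eq_zero] at h1
    exact h1
  have ha' := eq_smul_parVec h2 hψ hn hs k a hea
  by_cases hc : a.1 (Pi.single k 1) = 0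
  · left
    rw [hc, zero_smul] at ha'
    rw [ha', zero_add] at hab
    have htop := eq_top_of_parVec_mem h2 hψ hn hs k _ hU'i (show f ∈ _ from hab ▸ hb)
    rw [← le_bot_iff, ← hU'.inf_eq_bot]
    show U ≤ U ⊓ U'.toSubmodule
    rw [htop, inf_top_eq]
  · right
    rw [ha'] at ha
    exact eq_top_of_parVec_mem h2 hψ hn hs k U hU ((U.smul_mem_iff hc).1 ha)

include h2 hψ in
/-- The degree of a parity piece. -/
theorem weilPar_char_one {s : ℂ} (hs : s * s = 1) :
    (weilPar (n := n) h2 hψ hs).character 1 = ((Fintype.card F : ℂ) ^ n + s) / 2 := by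
  rw [Representation.char_one, finrank_parSub h2 hs]

include h2 hψ in
/-- The pieces for inequivalent characters have different characters. -/
theorem weilPar_char_ne (hn : 2 ≤ n) {ν : F} (hν : ¬ IsSquare ν) (hν0 : ν ≠ 0) {s : ℂ}
    (hs : s * s = 1) :
    (weilPar (n := n) h2 hψ hs).character ≠
      (weilPar (n := n) h2 (mulShift_ne_one hψ hν0) hs).character := by
  classical
  haveI : Fintype (Matrix.symplecticGroup (Fin n) F) := Fintype.ofFinite _
  intro he
  set k : Fin n := ⟨0, by omega⟩
  set ρ := weilPar (n := n) h2 hψ hs with hρdef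
  set σ := weilPar (n := n) h2 (mulShift_ne_one hψ hν0) hs with hσdef
  haveI := weilPar_irreducible (n := n) h2 hψ hn hs
  have hd : finrank ℂ (Representation.IntertwiningMap ρ σ) =
      finrank ℂ (Representation.IntertwiningMap ρ ρ) := by
    have h1 := H26.classInner_char_eq_finrank ρ σ
    rw [← he, H26.classInner_char_eq_finrank ρ ρ] at h1
    exact_mod_cast h1.symm
  let idm : Representation.IntertwiningMap ρ ρ :=
    LinearMap.intertwiningMap_of_isIntertwiningMap ρ ρ LinearMap.id fun g v => rfl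
  have hidm : idm ≠ 0 := fun h => by
    have := congrArg (fun f : Representation.IntertwiningMap ρ ρ =>
      f.toLinearMap (parVec hs (Pi.single k 1 : Fin n → F))) h
    exact parVec_ne_zero h2 hs (by simp) (this : parVec hs (Pi.single k 1 : Fin n → F) = 0)
  set v₀ : parSub F n s := parVec hs (Pi.single k 1 : Fin n → F) with hv₀
  let L : Representation.IntertwiningMap ρ ρ →ₗ[ℂ] parSub F n s :=
    { toFun := fun f => f.toLinearMap v₀, map_add' := fun _ _ => rfl, map_smul' := fun _ _ => rfl }
  have hLinj : Function.Injective L := fun p p' h => Representation.IntertwiningMap.ext (by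
    have htop := eq_top_of_parVec_mem h2 hψ hn hs k
      (LinearMap.ker (p.toLinearMap - p'.toLinearMap)) (fun g v hv => by
        rw [LinearMap.mem_ker, LinearMap.sub_apply, sub_eq_zero] at hv ⊢
        show p (ρ g v) = p' (ρ g v)
        rw [Representation.IntertwiningMap.isIntertwining ρ ρ p,
          Representation.IntertwiningMap.isIntertwining ρ ρ p']
        show ρ g (p.toLinearMap v) = ρ g (p'.toLinearMap v)
        rw [hv]) (by
        rw [LinearMap.mem_ker, LinearMap.sub_apply, sub_eq_zero]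
        exact h)
    exact sub_eq_zero.1 (LinearMap.ker_eq_top.1 htop))
  have hLne : LinearMap.range L ≠ ⊥ := fun h => by
    have : L idm ∈ LinearMap.range L := ⟨idm, rfl⟩
    rw [h, Submodule.mem_bot] at this
    exact parVec_ne_zero h2 hs (by simp) (this : v₀ = 0)
  have hpos : 0 < finrank ℂ (Representation.IntertwiningMap ρ σ) := by
    rw [hd, (LinearEquiv.ofInjective L hLinj).finrank_eq]
    exact Submodule.one_le_finrank_iff.2 hLne
  haveI : Nontrivial (Representation.IntertwiningMap ρ σ) :=
    Module.nontrivial_of_finrank_pos hpos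
  obtain ⟨Ψ, hΨ⟩ := exists_ne (0 : Representation.IntertwiningMap ρ σ)
  have hker : LinearMap.ker Ψ.toLinearMap = ⊥ := by
    rcases ((H26.isIrreducible_iff_forall ρ).1 inferInstance).2 (LinearMap.ker Ψ.toLinearMap)
      (fun g v hv => by
        rw [LinearMap.mem_ker] at hv ⊢
        show Ψ (ρ g v) = 0
        rw [Ψ.isIntertwining]
        show σ g (Ψ.toLinearMap v) = 0
        rw [hv, map_zero]) with h | h
    · exact h
    · exact absurd (Representation.IntertwiningMap.ext (LinearMap.ker_eq_top.1 h)) hΨ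
  set f := Ψ (parVec hs (Pi.single k 1 : Fin n → F)) with hf
  have hf0 : f ≠ 0 := fun h => parVec_ne_zero h2 hs (x := (Pi.single k 1 : Fin n → F)) (by simp) (by
    have : parVec hs (Pi.single k 1 : Fin n → F) ∈ LinearMap.ker Ψ.toLinearMap := h
    rwa [hker, Submodule.mem_bot] at this)
  obtain ⟨x, hx⟩ := Function.ne_iff.1 (fun h : f.1 = 0 => hf0 (Subtype.ext h))
  simp only [Pi.zero_apply] at hx
  have hxe : ∀ S, symChar (AddChar.mulShift ψ ν) (ptMat x) S =
      symChar ψ (ptMat (Pi.single k 1)) S := fun S => by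
    have h := Representation.IntertwiningMap.isIntertwining ρ σ Ψ (siegelU S) (parVec hs (Pi.single k 1 : Fin n → F))
    have e : ρ (siegelU S) (parVec hs (Pi.single k 1 : Fin n → F)) =
        symChar ψ (ptMat (Pi.single k 1)) S • parVec hs (Pi.single k 1 : Fin n → F) :=
      siegelEigen_parVec h2 hψ hn hs (Pi.single k 1) S
    rw [e, map_smul] at h
    have h' := congrFun (congrArg Subtype.val h) x
    have e' : ((σ (siegelU S) f : parSub F n s) : (Fin n → F) → ℂ) =
        phOp (AddChar.mulShift ψ ν) S f.1 := by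
      show ((weilPar h2 (mulShift_ne_one hψ hν0) hs (siegelU S) f : parSub F n s) :
        (Fin n → F) → ℂ) = _
      rw [coe_weilPar, weilFull_siegelU_eq h2 (mulShift_ne_one hψ hν0) hn]
    rw [← hf, e', phOp_apply] at h'
    simp only [Submodule.coe_smul, Pi.smul_apply, smul_eq_mul] at h'
    rw [mul_right_cancel₀ hx h', symChar_apply, trace_ptMat_mul]
  have he' : (ν • ptMat x) = ptMat (Pi.single k 1) :=
    symMat_eq_of_char h2 hψ (Matrix.IsSymm.smul (isSymm_ptMat _) _) (isSymm_ptMat _) fun S => by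
      rw [← hxe S]
      simp [Matrix.trace_smul]
  have h1 : ν * (2⁻¹ * (x k * x k)) = 2⁻¹ := by
    simpa [ptMat, Matrix.vecMulVec_apply] using congrFun (congrFun he' k) k
  have h3 : ν * (x k * x k) = 1 := by
    apply mul_left_cancel₀ (inv_ne_zero h2)
    linear_combination h1
  exact hν ⟨(x k)⁻¹, by
    rw [← mul_inv]
    exact (inv_eq_of_mul_eq_one_left h3).symm⟩

omit h2 hψ in
/-- An irreducible representation of small degree and not one is a parity piece. -/
theorem exists_weilPar_of_small (h2 : (2 : F) ≠ 0) {ψ : AddChar F ℂ} (hψ : ψ ≠ 1) (hn : 2 ≤ n)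
    {ν : F} (hν : ¬ IsSquare ν) (hν0 : ν ≠ 0) {V : Type*} [AddCommGroup V] [Module ℂ V]
    [FiniteDimensional ℂ V] (ρ : Representation ℂ (Matrix.symplecticGroup (Fin n) F) V)
    [ρ.IsIrreducible] (hd : 2 ≤ finrank ℂ V)
    (hsmall : 2 * (Fintype.card F + 1) * finrank ℂ V <
      (Fintype.card F ^ n - 1) * (Fintype.card F ^ n - Fintype.card F)) :
    ∃ (s : ℂ) (hs : s * s = 1), (s = 1 ∨ s = -1) ∧
      (ρ.character = (weilPar (n := n) h2 hψ hs).character ∨
        ρ.character = (weilPar (n := n) h2 (mulShift_ne_one hψ hν0) hs).character) := by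
  classical
  haveI : NeZero n := ⟨by omega⟩
  obtain ⟨hnt, hinv⟩ := (H26.isIrreducible_iff_forall ρ).1 inferInstance
  have hR : RankOneSpec ρ ψ := by
    intro T v hv he
    by_contra hc
    have h1 := card_congrOrbit_le h2 hψ ρ hv he
    have h3 := le_card_congrOrbit_of_rank h2 T.2 hc
    have := Nat.mul_le_mul_left (2 * (Fintype.card F + 1)) h1
    omega
  rcases exists_eigen_or_trivial h2 hψ ρ with h | ⟨T, hT, v, hv, hE⟩
  · exfalso
    obtain ⟨e, he⟩ := exists_ne (0 : V)
    rcases hinv (ℂ ∙ e) (fun g w hw => by rwa [rep_eq_one_of_radical hn ρ h g]) with h' | h'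
    · exact he (Submodule.span_singleton_eq_bot.1 h')
    · have := congrArg (fun U : Submodule ℂ V => finrank ℂ U) h'
      simp only [finrank_span_singleton he, finrank_top] at this
      omega
  -- normalise the character
  have hRT : RankLeOne T.1 := hR T v hv hE
  obtain ⟨v₀, hv₀⟩ := exists_quad_ne_zero h2 T.2 (fun e => hT (Subtype.ext e))
  obtain ⟨a, ha⟩ : ∃ a, a = v₀ ⬝ᵥ (T.1 *ᵥ v₀) := ⟨_, rfl⟩
  rw [← ha] at hv₀
  obtain ⟨c, b, hc, hb, hcb⟩ : ∃ c b : F, (c = 1 ∨ c = ν) ∧ b ≠ 0 ∧ 2 * a = c * (b * b) := by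
    have h2a : 2 * a ≠ 0 := mul_ne_zero h2 hv₀
    by_cases hsq : IsSquare (2 * a)
    · obtain ⟨b, hb⟩ := hsq
      exact ⟨1, b, Or.inl rfl, fun h => h2a (by rw [hb, h, mul_zero]), by rw [one_mul, hb]⟩
    · have : IsSquare (2 * a * ν⁻¹) := by
        have h1 := (quadraticChar_neg_one_iff_not_isSquare).2 hsq
        have h3 : ¬ IsSquare ν⁻¹ := fun ⟨r, hr⟩ => hν ⟨r⁻¹, by rw [← mul_inv, ← hr, inv_inv]⟩
        have h4 := (quadraticChar_neg_one_iff_not_isSquare).2 h3
        exact (quadraticChar_one_iff_isSquare (mul_ne_zero h2a (inv_ne_zero hν0))).1 (by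
          rw [map_mul, h1, h4]
          norm_num)
      obtain ⟨b, hb⟩ := this
      refine ⟨ν, b, Or.inr rfl, fun h => h2a ?_, ?_⟩
      · rw [h, mul_zero, mul_eq_zero] at hb
        exact hb.resolve_right (inv_ne_zero hν0)
      · rw [← hb]
        field_simp
  have hc0 : c ≠ 0 := by rcases hc with rfl | rfl <;> simp [hν0]
  set k : Fin n := 0
  have hval : (b⁻¹ • v₀) ⬝ᵥ (T.1 *ᵥ (b⁻¹ • v₀)) = c * 2⁻¹ := by
    simp only [Matrix.mulVec_smul, dotProduct_smul, smul_dotProduct, smul_eq_mul, ← ha]
    field_simp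
    linear_combination hcb
  obtain ⟨A, hA, -, hAy⟩ := exists_congr_mulVec hval (mul_ne_zero hc0 (inv_ne_zero h2))
    (e := (Pi.single k 1 : Fin n → F)) (y := Pi.single k (c * 2⁻¹)) (by simp) (by simp)
  set T' := A.transpose * T.1 * A with hT'
  have hT's : T'.IsSymm := by
    simp [hT', Matrix.IsSymm, (show T.1.IsSymm from T.2).eq, mul_assoc]
  have hT'R : RankLeOne T' := hRT.congr A
  have hT'e : T' = c • ptMat (Pi.single k 1) := by
    have hcol : ∀ i, T' i k = (Pi.single k (c * 2⁻¹) : Fin n → F) i := fun i => by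
      simpa [Matrix.mulVec_single_one] using congrFun hAy i
    have hdiag : ∀ i, i ≠ k → T' i i = 0 := fun i hi => by
      have := hT'R.entry k i
      rw [hcol, Pi.single_eq_same, hT's.apply i k, hcol, Pi.single_eq_of_ne hi,
        zero_pow two_ne_zero] at this
      exact (mul_eq_zero.1 this).resolve_left (mul_ne_zero hc0 (inv_ne_zero h2))
    ext i j
    simp only [Matrix.smul_apply, ptMat, Matrix.vecMulVec_apply, smul_eq_mul]
    by_cases hi : i = k
    · subst hi
      rw [hT's.apply, hcol]
      by_cases hj : j = k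
      · subst hj
        simp
      · simp [hj]
    · rw [hT'R.entry_eq_zero (hdiag i hi) j]
      simp [hi]
  obtain ⟨m, hm0, hme⟩ : ∃ m, m ≠ 0 ∧ SiegelEigen ρ ψ T' m := by
    refine ⟨_, ?_, hE.congr hA _ rfl⟩
    intro h0
    apply hv
    have := congrArg (ρ (siegelM A⁻¹ (Matrix.isUnit_nonsing_inv_iff.2 hA))⁻¹) h0
    rwa [Representation.inv_self_apply, map_zero] at this
  rw [hT'e, ← siegelEigen_mulShift] at hme
  obtain ⟨Φ, hΦ, hΦm⟩ := exists_intertwiner h2 (mulShift_ne_one hψ hc0) hn (hR.mulShift hc0) hme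
  -- choose a parity
  obtain ⟨s, hs, hs', hΦs⟩ : ∃ (s : ℂ) (hs : s * s = 1), (s = 1 ∨ s = -1) ∧
      Φ (parVec hs (Pi.single k 1 : Fin n → F)).1 ≠ 0 := by
    by_contra hcon
    push Not at hcon
    have e1 := hcon 1 (by ring) (Or.inl rfl)
    have e2 := hcon (-1) (by ring) (Or.inr rfl)
    rw [coe_parVec, map_add, map_smul, hΦm] at e1 e2
    rw [one_smul] at e1
    rw [neg_one_smul] at e2
    apply hm0
    have h3 : (2 : ℂ) • m = 0 := by
      rw [two_smul]
      calc m + m = (m + Φ (δv (-Pi.single k 1))) + (m + -Φ (δv (-Pi.single k 1))) := by abel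
        _ = 0 := by rw [e1, e2, add_zero]
    exact (smul_eq_zero.1 h3).resolve_left two_ne_zero
  refine ⟨s, hs, hs', ?_⟩
  have key : ρ.character = (weilPar (n := n) h2 (mulShift_ne_one hψ hc0) hs).character := by
    set σ := weilPar (n := n) h2 (mulShift_ne_one hψ hc0) hs with hσdef
    set L : parSub F n s →ₗ[ℂ] V := Φ ∘ₗ (parSub F n s).subtype with hL
    have hLint : ∀ g f, L (σ g f) = ρ g (L f) := fun g f => by
      simp only [hL, LinearMap.comp_apply, Submodule.subtype_apply, hσdef, coe_weilPar]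
      exact (LinearMap.congr_fun (hΦ g) f.1).symm
    haveI := weilPar_irreducible (n := n) h2 (mulShift_ne_one hψ hc0) hn hs
    have hker : LinearMap.ker L = ⊥ := by
      rcases ((H26.isIrreducible_iff_forall σ).1 inferInstance).2 (LinearMap.ker L)
        (fun g f hf => by
          rw [LinearMap.mem_ker] at hf ⊢
          rw [hLint, hf, map_zero]) with h | h
      · exact h
      · exact absurd (LinearMap.congr_fun (LinearMap.ker_eq_top.1 h) (parVec hs (Pi.single k 1 : Fin n → F)))
          hΦs
    have hran : LinearMap.range L = ⊤ := by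
      rcases hinv (LinearMap.range L) (fun g w hw => by
        obtain ⟨f, rfl⟩ := hw
        exact ⟨σ g f, hLint g f⟩) with h | h
      · exfalso
        apply hΦs
        have : L (parVec hs (Pi.single k 1 : Fin n → F)) ∈ LinearMap.range L := ⟨_, rfl⟩
        rw [h, Submodule.mem_bot] at this
        exact this
      · exact h
    let e : parSub F n s ≃ₗ[ℂ] V :=
      LinearEquiv.ofBijective L ⟨LinearMap.ker_eq_bot.1 hker, LinearMap.range_eq_top.1 hran⟩
    exact (Representation.char_iso (ρ := σ) (σ := ρ)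
      (.mk e fun g => LinearMap.ext fun f => hLint g f)).symm
  rcases hc with rfl | rfl
  · left
    rw [key]
    congr 1
    simp [AddChar.mulShift_one]
  · exact Or.inr key

end Cfsg.Agent.H39
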